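import Mathlib
import Cfsg.Prelude.Def_Blocks
import Cfsg.Agent.Lib.Lead.BlockOsima
import Cfsg.Agent.Lib.Lead.BlockAux2
import Cfsg.Agent.Lib.Lead.BlockKer
import Cfsg.Agent.Lib.Lead.BrauerR2
import Cfsg.Agent.Lib.Helper8.CharClassProd

set_option autoImplicit false
open scoped BigOperators ComplexConjugate

namespace Cfsg.Agent.Lib.Helper7
open Cfsg.Agent.Lib.Lead

universe u

section abstract

variable {M : Ideal Cfsg.AlgInt}

theorem not_memLocalIdeal_one_h7 (hM : M.IsPrime) : ¬ Cfsg.MemLocalIdeal M (1 : ℂ) := by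
  intro h
  have h1 : ((1 : Cfsg.AlgInt) : ℂ) = 1 := rfl
  rw [← h1] at h
  have h2 := mem_of_memLocalIdeal_lead hM 1 h
  exact hM.ne_top ((Ideal.eq_top_iff_one M).mpr h2)

theorem memLocalRing_prod_h7 (hM : M.IsPrime) {ι : Type*} (s : Finset ι) (f : ι → ℂ)
    (h : ∀ i ∈ s, Cfsg.MemLocalRing M (f i)) : Cfsg.MemLocalRing M (∏ i ∈ s, f i) := by
  apply Finset.prod_induction f (fun z => Cfsg.MemLocalRing M z)
  · intro a b ha hb
    exact memLocalRing_mul_lead hM ha hb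
  · exact memLocalRing_one_lead hM.ne_top
  · exact h

/-- a matrix congruent to the identity modulo the local ideal is invertible -/
theorem det_ne_zero_of_near_one_h7 (hM : M.IsPrime) {ι : Type*} [Fintype ι] [DecidableEq ι]
    (Y : Matrix ι ι ℂ)
    (h : ∀ i j, Cfsg.MemLocalIdeal M (Y i j - (1 : Matrix ι ι ℂ) i j)) : Y.det ≠ 0 := by
  have hMtop := hM.ne_top
  have hring : ∀ i j, Cfsg.MemLocalRing M (Y i j) := by
    intro i j
    have h1 : Y i j = (Y i j - (1 : Matrix ι ι ℂ) i j) + (1 : Matrix ι ι ℂ) i j := by ring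
    rw [h1]
    apply memLocalRing_add_lead hM (memLocalRing_of_ideal_lead (h i j))
    rw [Matrix.one_apply]
    split_ifs
    · exact memLocalRing_one_lead hMtop
    · exact memLocalRing_zero_lead hMtop
  have hoff : ∀ i j, i ≠ j → Cfsg.MemLocalIdeal M (Y i j) := by
    intro i j hij
    have h1 := h i j
    rw [Matrix.one_apply_ne hij, sub_zero] at h1
    exact h1
  have hdiag : ∀ i, Cfsg.MemLocalIdeal M (Y i i - 1) := by
    intro i
    have h1 := h i i
    rw [Matrix.one_apply_eq] at h1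
    exact h1
  have hdet : Cfsg.MemLocalIdeal M (Y.det - 1) := by
    rw [Matrix.det_apply', ← Finset.add_sum_erase Finset.univ _ (Finset.mem_univ (1 : Equiv.Perm ι))]
    have e1 : ((Equiv.Perm.sign (1 : Equiv.Perm ι) : ℤ) : ℂ) * ∏ i, Y ((1 : Equiv.Perm ι) i) i
        = ∏ i, Y i i := by
      rw [Equiv.Perm.sign_one]
      simp
    rw [e1]
    have e2 : ∀ a b : ℂ, a + b - 1 = (a - 1) + b := by intro a b; ring
    rw [e2]
    apply memLocalIdeal_add_lead hM (memLocalIdeal_prod_sub_one_lead hM _ _ (fun i _ => hdiag i))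
    apply memLocalIdeal_sum_lead hM
    intro σ hσ
    have hσ1 : σ ≠ 1 := (Finset.mem_erase.1 hσ).1
    obtain ⟨i, hi⟩ : ∃ i, σ i ≠ i := by
      by_contra hcon
      push_neg at hcon
      exact hσ1 (Equiv.ext hcon)
    have hprod : Cfsg.MemLocalIdeal M (∏ j, Y (σ j) j) := by
      rw [← Finset.mul_prod_erase Finset.univ (fun j => Y (σ j) j) (Finset.mem_univ i), mul_comm]
      exact memLocalIdeal_mul_ring_lead hM (memLocalRing_prod_h7 hM _ _ (fun j _ => hring _ _))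
        (hoff _ _ hi)
    rcases Int.units_eq_one_or (Equiv.Perm.sign σ) with hs | hs
    · rw [hs]
      simpa using hprod
    · rw [hs]
      have := memLocalIdeal_neg_lead hprod
      simpa using this
  intro h0
  rw [h0, zero_sub] at hdet
  have := memLocalIdeal_neg_lead hdet
  rw [neg_neg] at this
  exact not_memLocalIdeal_one_h7 hM this

/-- **Twisted trace lemma.** An idempotent matrix with local coefficients, invariant under a
permutation `σ` of the index set that admits a twist `θ` congruent to `1` modulo the local ideal,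
has twisted trace zero. -/
theorem twisted_trace_zero_h7 (hM : M.IsPrime) {ι : Type*} [Fintype ι] [DecidableEq ι]
    (σ : Equiv.Perm ι) (θ : ι → ℂ) (μ : ℂ) (hμ1 : μ ≠ 1) (hμ0 : μ ≠ 0)
    (hθσ : ∀ i, θ (σ i) = μ * θ i) (hθ0 : ∀ i, θ i ≠ 0)
    (hθM : ∀ i j, Cfsg.MemLocalIdeal M (θ i / θ j - 1))
    (C : Matrix ι ι ℂ) (hCC : C * C = C) (hCR : ∀ i j, Cfsg.MemLocalRing M (C i j))
    (hCσ : ∀ i j, C (σ i) (σ j) = C i j) :
    ∑ i, C i (σ i) = 0 := by
  have hMtop := hM.ne_top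
  obtain ⟨C', hC'⟩ : ∃ C' : Matrix ι ι ℂ, ∀ i j, C' i j = θ i * C i j * (θ j)⁻¹ :=
    ⟨Matrix.of fun i j => θ i * C i j * (θ j)⁻¹, fun _ _ => rfl⟩
  have hC'C' : C' * C' = C' := by
    ext i j
    rw [Matrix.mul_apply, hC']
    have h1 := congrFun (congrFun hCC i) j
    rw [Matrix.mul_apply] at h1
    rw [← h1, Finset.mul_sum, Finset.sum_mul]
    apply Finset.sum_congr rfl
    intro k _
    rw [hC', hC']
    have := hθ0 k
    field_simp
  have hC'σ : ∀ i j, C' (σ i) (σ j) = C' i j := by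
    intro i j
    rw [hC', hC', hθσ, hθσ, hCσ]
    have := hθ0 j
    field_simp
  -- the difference lies in the ideal
  have hN : ∀ i j, Cfsg.MemLocalIdeal M ((C' - C) i j) := by
    intro i j
    have e : (C' - C) i j = C i j * (θ i / θ j - 1) := by
      rw [Matrix.sub_apply, hC']
      have := hθ0 j
      field_simp
    rw [e]
    exact memLocalIdeal_mul_ring_lead hM (hCR i j) (hθM i j)
  obtain ⟨X, hX⟩ : ∃ X : Matrix ι ι ℂ, X = C * C' + (1 - C) * (1 - C') := ⟨_, rfl⟩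
  have hXN : X = 1 + (C + C - 1) * (C' - C) := by
    rw [hX]
    have e1 : (C + C - 1) * (C' - C) = C * C' + C * C' - (C * C + C * C) - C' + C := by
      noncomm_ring
    rw [e1, hCC]
    noncomm_ring
  have hXdet : X.det ≠ 0 := by
    apply det_ne_zero_of_near_one_h7 hM
    intro i j
    rw [hXN, Matrix.add_apply, add_sub_cancel_left, Matrix.mul_apply]
    apply memLocalIdeal_sum_lead hM
    intro k _
    apply memLocalIdeal_mul_ring_lead hM _ (hN k j)
    rw [Matrix.sub_apply, Matrix.add_apply]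
    apply memLocalRing_sub_lead hM (memLocalRing_add_lead hM (hCR i k) (hCR i k))
    rw [Matrix.one_apply]
    split_ifs
    · exact memLocalRing_one_lead hMtop
    · exact memLocalRing_zero_lead hMtop
  have h5 : C * X = X * C' := by
    rw [hX]
    have e1 : C * (C * C' + (1 - C) * (1 - C')) = C * C * C' + (C - C * C) * (1 - C') := by
      noncomm_ring
    have e2 : (C * C' + (1 - C) * (1 - C')) * C' = C * (C' * C') + (1 - C) * (C' - C' * C') := by
      noncomm_ring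
    rw [e1, e2, hCC, hC'C', sub_self, sub_self, zero_mul, mul_zero]
  -- invariance of `X`
  have hinv_mul : ∀ A B : Matrix ι ι ℂ, (∀ i j, A (σ i) (σ j) = A i j) →
      (∀ i j, B (σ i) (σ j) = B i j) → ∀ i j, (A * B) (σ i) (σ j) = (A * B) i j := by
    intro A B hA hB i j
    rw [Matrix.mul_apply, Matrix.mul_apply, ← Equiv.sum_comp σ]
    apply Finset.sum_congr rfl
    intro k _
    rw [hA, hB]
  have hinv_one : ∀ i j, (1 : Matrix ι ι ℂ) (σ i) (σ j) = (1 : Matrix ι ι ℂ) i j := by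
    intro i j
    rw [Matrix.one_apply, Matrix.one_apply]
    exact if_congr σ.injective.eq_iff rfl rfl
  have hXσ : ∀ i j, X (σ i) (σ j) = X i j := by
    rw [hX]
    intro i j
    rw [Matrix.add_apply, Matrix.add_apply, hinv_mul C C' hCσ hC'σ,
      hinv_mul (1 - C) (1 - C') (fun a b => by rw [Matrix.sub_apply, Matrix.sub_apply, hinv_one, hCσ])
        (fun a b => by rw [Matrix.sub_apply, Matrix.sub_apply, hinv_one, hC'σ])]
  -- twisted trace commutes past invariant matrices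
  have htw : ∀ A B : Matrix ι ι ℂ, (∀ i j, A (σ i) (σ j) = A i j) →
      ∑ i, (A * B) i (σ i) = ∑ i, (B * A) i (σ i) := by
    intro A B hA
    have e1 : ∑ i, (B * A) i (σ i) = ∑ i, ∑ k, B i (σ k) * A k i := by
      apply Finset.sum_congr rfl
      intro i _
      rw [Matrix.mul_apply, ← Equiv.sum_comp σ]
      apply Finset.sum_congr rfl
      intro k _
      rw [hA]
    rw [e1, Finset.sum_comm]
    apply Finset.sum_congr rfl
    intro k _
    rw [Matrix.mul_apply]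
    apply Finset.sum_congr rfl
    intro i _
    rw [mul_comm]
  have hXu : IsUnit X.det := isUnit_iff_ne_zero.2 hXdet
  have h6 : C' = (X⁻¹ * C) * X := by
    rw [Matrix.mul_assoc, h5, ← Matrix.mul_assoc, Matrix.nonsing_inv_mul X hXu, Matrix.one_mul]
  have h7 : ∑ i, C' i (σ i) = ∑ i, C i (σ i) := by
    rw [h6, ← htw X (X⁻¹ * C) hXσ, ← Matrix.mul_assoc, Matrix.mul_nonsing_inv X hXu, Matrix.one_mul]
  have h8 : ∑ i, C' i (σ i) = μ⁻¹ * ∑ i, C i (σ i) := by
    rw [Finset.mul_sum]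
    apply Finset.sum_congr rfl
    intro i _
    rw [hC', hθσ]
    have := hθ0 i
    field_simp
  rw [h7] at h8
  have h9 : (μ - 1) * ∑ i, C i (σ i) = 0 := by
    have h10 : μ * ∑ i, C i (σ i) = ∑ i, C i (σ i) := by
      conv_lhs => rw [h8]
      field_simp
    rw [sub_mul, h10, one_mul, sub_self]
  rcases mul_eq_zero.1 h9 with h | h
  · exact absurd (sub_eq_zero.1 h) hμ1
  · exact h

end abstract

section group

variable {G : Type u} [Group G] [Fintype G] [DecidableEq G]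

/-- a root of unity of order `p` is congruent to `1` modulo the local ideal -/
theorem root_sub_one_mem_h7 (p : ℕ) [hp : Fact p.Prime] (M : Ideal Cfsg.AlgInt) (hM : M.IsPrime)
    (hpM : (p : Cfsg.AlgInt) ∈ M) (ν : ℂ) (hν : ν ^ p = 1) : Cfsg.MemLocalIdeal M (ν - 1) := by
  have hint : IsIntegral ℤ ν := by
    apply IsIntegral.of_pow hp.out.pos
    rw [hν]
    exact isIntegral_one
  obtain ⟨a, ha⟩ : ∃ a : Cfsg.AlgInt, (a : ℂ) = ν := ⟨⟨ν, hint⟩, rfl⟩
  obtain ⟨r, hr⟩ := sub_pow_prime_pow_lead p hp.out 1 a 1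
  rw [pow_one, one_pow] at hr
  have hap : a ^ p = 1 := by
    apply Subtype.ext
    push_cast
    rw [ha, hν]
  rw [hap, sub_self, zero_add] at hr
  have hmem : a - 1 ∈ M := by
    apply hM.mem_of_pow_mem p
    rw [hr]
    exact M.mul_mem_right r hpM
  have h1 := memLocalIdeal_of_mem_lead hM.ne_top (a - 1) hmem
  have h2 : ((a - 1 : Cfsg.AlgInt) : ℂ) = ν - 1 := by
    push_cast
    rw [ha]
  rw [h2] at h1
  exact h1

/-- existence of a twist for the permutation `z ↦ x z y` -/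
theorem exists_twist_h7 (p : ℕ) [hp : Fact p.Prime] (x y : G) (hx : ¬ p ∣ orderOf x)
    (hy : p ∣ orderOf y) (μ : ℂ) (hμp : μ ^ p = 1) :
    ∃ k : G → ℕ, ∀ z : G, μ ^ (k (x * z * y)) = μ * μ ^ (k z) := by
  classical
  obtain ⟨σ, hσ⟩ : ∃ σ : Equiv.Perm G, ∀ z, σ z = x * z * y :=
    ⟨(Equiv.mulLeft x).trans (Equiv.mulRight y), fun z => rfl⟩
  have hpow : ∀ (j : ℕ) (z : G), (σ ^ j) z = x ^ j * z * y ^ j := by
    intro j
    induction j with
    | zero => intro z; simp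
    | succ j ih =>
      intro z
      rw [pow_succ', Equiv.Perm.mul_apply, ih, hσ, pow_succ', pow_succ]
      group
  have hrep : ∀ z : G, ∃ i : ℕ,
      (σ ^ i) (Quotient.out (Quotient.mk (Equiv.Perm.SameCycle.setoid σ) z)) = z := by
    intro z
    have h1 : σ.SameCycle (Quotient.out (Quotient.mk (Equiv.Perm.SameCycle.setoid σ) z)) z :=
      Quotient.exact (Quotient.out_eq (Quotient.mk (Equiv.Perm.SameCycle.setoid σ) z))
    exact h1.exists_nat_pow_eq
  choose k hk using hrep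
  refine ⟨k, ?_⟩
  intro z
  have hq : Quotient.mk (Equiv.Perm.SameCycle.setoid σ) (x * z * y) =
      Quotient.mk (Equiv.Perm.SameCycle.setoid σ) z := by
    apply Quotient.sound
    show σ.SameCycle (x * z * y) z
    rw [← hσ z]
    exact ⟨-1, by simp⟩
  have h1 := hk (x * z * y)
  rw [hq] at h1
  have h2 := hk z
  obtain ⟨z₀, hz₀⟩ : ∃ z₀ : G, z₀ = Quotient.out (Quotient.mk (Equiv.Perm.SameCycle.setoid σ) z) :=
    ⟨_, rfl⟩
  rw [← hz₀] at h1 h2
  obtain ⟨a, ha⟩ : ∃ a : ℕ, a = k (x * z * y) := ⟨_, rfl⟩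
  obtain ⟨b, hb⟩ : ∃ b : ℕ, b = k z + 1 := ⟨_, rfl⟩
  have h3 : (σ ^ a) z₀ = (σ ^ b) z₀ := by
    rw [ha, hb, h1, pow_succ', Equiv.Perm.mul_apply, h2, hσ]
  rw [hpow, hpow] at h3
  have h4 : y ^ ((a : ℤ) - b) = z₀⁻¹ * x ^ (-(a : ℤ) + b) * z₀⁻¹⁻¹ := by
    rw [zpow_sub, zpow_add, zpow_neg, zpow_natCast, zpow_natCast, zpow_natCast, zpow_natCast]
    have h5 : y ^ a = z₀⁻¹ * (x ^ a)⁻¹ * (x ^ b * z₀ * y ^ b) := by
      rw [← h3]; group
    rw [h5]; group
  have h5 : (y ^ ((a : ℤ) - b)) ^ (orderOf x) = 1 := by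
    rw [h4, conj_pow, ← zpow_natCast, ← zpow_mul, mul_comm, zpow_mul, zpow_natCast,
      pow_orderOf_eq_one, one_zpow]
    group
  have h6 : y ^ (((a : ℤ) - b) * orderOf x) = 1 := by
    rw [zpow_mul, zpow_natCast]; exact h5
  have h7 : (orderOf y : ℤ) ∣ ((a : ℤ) - b) * orderOf x := orderOf_dvd_iff_zpow_eq_one.2 h6
  have h8 : (p : ℤ) ∣ ((a : ℤ) - b) * orderOf x := dvd_trans (Int.natCast_dvd_natCast.2 hy) h7
  have h9 : (p : ℤ) ∣ (a : ℤ) - b := by
    rcases (Nat.prime_iff_prime_int.1 hp.out).dvd_or_dvd h8 with h | h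
    · exact h
    · exact absurd (Int.natCast_dvd_natCast.1 h) hx
  have hmod : a ≡ b [MOD p] := by
    apply Int.natCast_modEq_iff.1
    exact ((Int.modEq_iff_dvd).2 h9).symm
  rw [← ha, ← pow_succ', ← hb]
  exact pow_eq_pow_of_modEq hmod hμp

/-- **Weak block orthogonality, coefficient form**: for a central idempotent with local
coefficients, `x` a `p`-regular and `y` a `p`-singular element. -/
theorem conv_idem_sum_zero_h7 (p : ℕ) [hp : Fact p.Prime] (M : Ideal Cfsg.AlgInt) (hM : M.IsPrime)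
    (hpM : (p : Cfsg.AlgInt) ∈ M) (e : G → ℂ) (hcl : ∀ g h : G, e (h * g * h⁻¹) = e g)
    (hidem : ∀ g : G, e g = ∑ x : G, e x * e (x⁻¹ * g)) (hR : ∀ g, Cfsg.MemLocalRing M (e g))
    (x y : G) (hx : ¬ p ∣ orderOf x) (hy : p ∣ orderOf y) :
    ∑ z : G, e (z * (x * z * y)⁻¹) = 0 := by
  classical
  have hprim := Complex.isPrimitiveRoot_exp p hp.out.ne_zero
  obtain ⟨μ, hμ⟩ : ∃ μ : ℂ, μ = Complex.exp (2 * Real.pi * Complex.I / p) := ⟨_, rfl⟩
  rw [← hμ] at hprim
  have hμp : μ ^ p = 1 := hprim.pow_eq_one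
  have hμ1 : μ ≠ 1 := hprim.ne_one hp.out.one_lt
  have hμ0 : μ ≠ 0 := hprim.ne_zero hp.out.ne_zero
  obtain ⟨k, hk⟩ := exists_twist_h7 p x y hx hy μ hμp
  obtain ⟨σ, hσ⟩ : ∃ σ : Equiv.Perm G, ∀ z, σ z = x * z * y :=
    ⟨(Equiv.mulLeft x).trans (Equiv.mulRight y), fun z => rfl⟩
  have hinvpow : ∀ n : ℕ, (μ ^ n)⁻¹ = μ ^ ((p - 1) * n) := by
    intro n
    apply inv_eq_of_mul_eq_one_right
    rw [← pow_add]
    have : n + (p - 1) * n = p * n := by
      have := hp.out.one_le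
      zify [this]
      ring
    rw [this, pow_mul, hμp, one_pow]
  have key := twisted_trace_zero_h7 hM σ (fun z => μ ^ (k z)) μ hμ1 hμ0
    (fun z => by rw [hσ]; exact hk z) (fun z => pow_ne_zero _ hμ0)
    (fun i j => by
      show Cfsg.MemLocalIdeal M (μ ^ (k i) / μ ^ (k j) - 1)
      rw [div_eq_mul_inv, hinvpow, ← pow_add]
      apply root_sub_one_mem_h7 p M hM hpM
      rw [← pow_mul, mul_comm, pow_mul, hμp, one_pow])
    (Matrix.of fun z w => e (z * w⁻¹))
    (by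
      ext z w
      rw [Matrix.mul_apply]
      show ∑ v : G, e (z * v⁻¹) * e (v * w⁻¹) = e (z * w⁻¹)
      rw [hidem (z * w⁻¹)]
      rw [← Equiv.sum_comp ((Equiv.inv G).trans (Equiv.mulLeft z))
        (fun x => e x * e (x⁻¹ * (z * w⁻¹)))]
      apply Finset.sum_congr rfl
      intro v _
      show e (z * v⁻¹) * e (v * w⁻¹) = e (z * v⁻¹) * e ((z * v⁻¹)⁻¹ * (z * w⁻¹))
      congr 2
      group)
    (fun z w => hR _)
    (fun z w => by
      show e (σ z * (σ w)⁻¹) = e (z * w⁻¹)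
      rw [hσ, hσ]
      have : x * z * y * (x * w * y)⁻¹ = x * (z * w⁻¹) * x⁻¹ := by group
      rw [this, hcl])
  have e2 : ∀ z ∈ (Finset.univ : Finset G), (Matrix.of fun z w => e (z * w⁻¹)) z (σ z) =
      e (z * (x * z * y)⁻¹) := by
    intro z _
    rw [hσ]
    rfl
  rw [Finset.sum_congr rfl e2] at key
  exact key

/-- **Weak block orthogonality**: `∑_{φ ∈ B} φ(x) φ(y) = 0` for `x` a `p`-regular and `y` a
`p`-singular element. -/
theorem wbo_h7 (p : ℕ) [hp : Fact p.Prime] (M : Ideal Cfsg.AlgInt) (hM : Cfsg.IsPModular p M)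
    (B : Set (Cfsg.IrrCharacter G)) (hB : Cfsg.IsPBlock M B) [Fintype (Cfsg.IrrCharacter G)]
    [DecidablePred (· ∈ B)] (x y : G) (hx : ¬ p ∣ orderOf x) (hy : p ∣ orderOf y) :
    ∑ φ : Cfsg.IrrCharacter G, (if φ ∈ B then (φ : G → ℂ) x * (φ : G → ℂ) y else 0) = 0 := by
  obtain ⟨hp', hMmax, hpM⟩ := hM
  have hMprime := hMmax.isPrime
  obtain ⟨χ₀, hB⟩ := hB
  have key := conv_idem_sum_zero_h7 p M hMprime hpM (Cfsg.blockCoeff B)
    (fun g h => blockCoeff_classFun_lead _ g h) (fun g => blockCoeff_conv_lead _ g)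
    (fun g => by rw [hB]; exact osima_lead p hp' M hMprime hpM χ₀ g) x y hx hy
  have hG0 : (Nat.card G : ℂ) ≠ 0 := by exact_mod_cast Nat.card_pos.ne'
  have e1 : ∀ z ∈ (Finset.univ : Finset G), Cfsg.blockCoeff B (z * (x * z * y)⁻¹) =
      (Nat.card G : ℂ)⁻¹ * ∑ φ : Cfsg.IrrCharacter G,
        if φ ∈ B then (φ : G → ℂ) 1 * conj ((φ : G → ℂ) (z * y⁻¹ * z⁻¹ * x⁻¹)) else 0 := by
    intro z _
    rw [blockCoeff_eq_sum_lead]
    have : z * (x * z * y)⁻¹ = z * y⁻¹ * z⁻¹ * x⁻¹ := by group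
    rw [this]
  rw [Finset.sum_congr rfl e1, ← Finset.mul_sum, Finset.sum_comm] at key
  have e2 : ∀ φ ∈ (Finset.univ : Finset (Cfsg.IrrCharacter G)),
      ∑ z : G, (if φ ∈ B then (φ : G → ℂ) 1 * conj ((φ : G → ℂ) (z * y⁻¹ * z⁻¹ * x⁻¹)) else 0) =
      (Nat.card G : ℂ) * (if φ ∈ B then (φ : G → ℂ) x * (φ : G → ℂ) y else 0) := by
    intro φ _
    by_cases hφ : φ ∈ B
    · simp only [if_pos hφ]
      rw [← Finset.mul_sum, ← map_sum, Cfsg.Agent.Lib.Helper8.sum_irr_conj_mul φ y⁻¹ x⁻¹]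
      obtain ⟨d, hd0, hd⟩ := irr_one φ.2
      have hd0' : (d : ℂ) ≠ 0 := by exact_mod_cast hd0
      have hinv : ∀ g : G, conj ((φ : G → ℂ) g⁻¹) = (φ : G → ℂ) g := by
        intro g
        obtain ⟨n, ρ, hρ, hρφ⟩ := φ.2
        rw [← hρφ, char_inv ρ g, Complex.conj_conj]
      rw [map_div₀, map_mul, map_mul, hinv, hinv, hd, Complex.conj_natCast, Complex.conj_natCast]
      field_simp
    · simp only [if_neg hφ]
      simp
  rw [Finset.sum_congr rfl e2, ← Finset.mul_sum, ← mul_assoc, inv_mul_cancel₀ hG0, one_mul] at key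
  exact key

end group


end Cfsg.Agent.Lib.Helper7
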