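import Mathlib
import Cfsg.Prelude.Def_Blocks
import Cfsg.Prelude.Def_BlockRank
import Cfsg.Agent.Lib.Helper7.WBO
import Cfsg.Agent.Lib.Lead.CharInd3
import Cfsg.Agent.Lib.Lead.CharRing
import Cfsg.Agent.Lib.Lead.CharIsom
import Cfsg.Agent.Lib.Lead.CharZeros
import Cfsg.Agent.Lib.Lead.CharCongr
import Cfsg.Agent.Lib.Lead.BlockAux

set_option autoImplicit false
open scoped BigOperators ComplexConjugate

namespace Cfsg.Agent.Lib.Helper7
open Cfsg.Agent.Lib.Lead

universe u

section more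

variable {G : Type u} [Group G] [Fintype G] [DecidableEq G]

/-- a character vanishing on all `p`-singular elements has degree divisible by the full power of
`p` -/
theorem vanish_dvd_h7 (p : ℕ) [hpf : Fact p.Prime] (ψ : Cfsg.IrrCharacter G)
    (hv : ∀ g : G, p ∣ orderOf g → (ψ : G → ℂ) g = 0) :
    p ^ (Nat.card G).factorization p ∣ Cfsg.charDegree (ψ : G → ℂ) := by
  classical
  have hp : p.Prime := hpf.out
  obtain ⟨P0⟩ : Nonempty (Sylow p G) := inferInstance
  have hcard0 : Nat.card P0 = p ^ (Nat.card G).factorization p := Sylow.card_eq_multiplicity P0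
  have hpg0 : IsPGroup p P0 := P0.isPGroup'
  obtain ⟨P, hP⟩ : ∃ P : Subgroup G, P = (P0 : Subgroup G) := ⟨_, rfl⟩
  have hcard : Nat.card P = p ^ (Nat.card G).factorization p := by rw [hP]; exact hcard0
  have hpg : IsPGroup p P := by rw [hP]; exact hpg0
  clear hP hcard0 hpg0 P0
  have h1 : ∑ x : P, (ψ : G → ℂ) (x : G) = (ψ : G → ℂ) 1 := by
    rw [Finset.sum_eq_single (1 : P)]
    · rfl
    · intro x _ hx
      apply hv
      obtain ⟨k, hk⟩ := hpg x
      have hord : orderOf x ∣ p ^ k := orderOf_dvd_of_pow_eq_one hk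
      obtain ⟨j, hj, hj2⟩ := (Nat.dvd_prime_pow hp).1 hord
      have hox : orderOf (x : G) = orderOf x := Subgroup.orderOf_coe x
      rw [hox, hj2]
      rcases Nat.eq_zero_or_pos j with h | h
      · exfalso
        apply hx
        rw [h, pow_zero, orderOf_eq_one_iff] at hj2
        exact hj2
      · exact dvd_pow_self p h.ne'
    · intro h; exact absurd (Finset.mem_univ _) h
  have hψ : Cfsg.IsCharacter G (ψ : G → ℂ) := isCharacter_of_isIrrCharacter ψ.2
  obtain ⟨m, hm⟩ := classInner_char_char_nat (isCharacter_restrict P hψ)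
    (isCharacter_one (G := P))
  have h2 : ∑ x : P, (ψ : G → ℂ) (x : G) = (Nat.card P : ℂ) * m := by
    rw [← hm]
    unfold Cfsg.classInner
    have hne : (Nat.card P : ℂ) ≠ 0 := by
      rw [hcard]; exact_mod_cast (pow_pos hp.pos _).ne'
    rw [← mul_assoc, mul_inv_cancel₀ hne, one_mul]
    apply Finset.sum_congr rfl
    intro x _
    simp
  obtain ⟨hψ1, hψ0⟩ := charDegree_irr ψ.2
  rw [h1, hψ1, hcard] at h2
  refine ⟨m, ?_⟩
  exact_mod_cast h2

/-- a character of defect zero is alone in its block -/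
theorem singleton_of_defect_zero_h7 (p : ℕ) [hpf : Fact p.Prime] (M : Ideal Cfsg.AlgInt)
    (hM : Cfsg.IsPModular p M) (χ ψ : Cfsg.IrrCharacter G)
    (hχ : p ^ (Nat.card G).factorization p ∣ Cfsg.charDegree (χ : G → ℂ))
    (hs : Cfsg.SameBlock M (χ : G → ℂ) (ψ : G → ℂ)) : ψ = χ := by
  classical
  by_contra hne
  obtain ⟨hp, hMmax, hpM⟩ := hM
  have hMprime := hMmax.isPrime
  have hMtop := hMprime.ne_top
  haveI : Fintype (ConjClasses G) := Fintype.ofFinite _
  obtain ⟨hχ1, hχ0⟩ := charDegree_irr χ.2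
  obtain ⟨hψ1, hψ0⟩ := charDegree_irr ψ.2
  have hχ0' : (Cfsg.charDegree (χ : G → ℂ) : ℂ) ≠ 0 := by exact_mod_cast hχ0
  have hψ0' : (Cfsg.charDegree (ψ : G → ℂ) : ℂ) ≠ 0 := by exact_mod_cast hψ0
  have hG0 : (Nat.card G : ℂ) ≠ 0 := by exact_mod_cast Nat.card_pos.ne'
  have h1 : ∑ g : G, (ψ : G → ℂ) g * conj ((χ : G → ℂ) g) = 0 := by
    have := classInner_irr' ψ χ
    rw [if_neg hne] at this
    unfold Cfsg.classInner at this
    rcases mul_eq_zero.1 this with h | h
    · exact absurd (inv_eq_zero.1 h) hG0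
    · exact h
  have h2 : ∑ g : G, (χ : G → ℂ) g * conj ((χ : G → ℂ) g) = (Nat.card G : ℂ) := by
    have := classInner_irr' χ χ
    rw [if_pos rfl] at this
    unfold Cfsg.classInner at this
    rw [inv_mul_eq_iff_eq_mul₀ hG0, mul_one] at this
    exact this
  have hclψ := isClassFunction_of_irr ψ.2
  have hclχ := isClassFunction_of_irr χ.2
  rw [sum_classFun_regroup_lead _ (fun g h => by rw [hclψ g h, hclχ g h])] at h1
  rw [sum_classFun_regroup_lead _ (fun g h => by rw [hclχ g h])] at h2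
  have h3 : ∑ c : ConjClasses G, Cfsg.centralChar (ψ : G → ℂ) (Quotient.out c) *
      conj ((χ : G → ℂ) (Quotient.out c)) = 0 := by
    have e : ∀ c ∈ (Finset.univ : Finset (ConjClasses G)),
        ((Subgroup.centralizer ({Quotient.out c} : Set G)).index : ℂ) *
          ((ψ : G → ℂ) (Quotient.out c) * conj ((χ : G → ℂ) (Quotient.out c))) =
        (ψ : G → ℂ) 1 * (Cfsg.centralChar (ψ : G → ℂ) (Quotient.out c) *
          conj ((χ : G → ℂ) (Quotient.out c))) := by
      intro c _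
      unfold Cfsg.centralChar
      rw [hψ1]
      field_simp
    rw [Finset.sum_congr rfl e, ← Finset.mul_sum, hψ1] at h1
    rcases mul_eq_zero.1 h1 with h | h
    · exact absurd h hψ0'
    · exact h
  have h4 : ∑ c : ConjClasses G, Cfsg.centralChar (χ : G → ℂ) (Quotient.out c) *
      conj ((χ : G → ℂ) (Quotient.out c)) = (Nat.card G : ℂ) / (Cfsg.charDegree (χ : G → ℂ) : ℂ) := by
    have e : ∀ c ∈ (Finset.univ : Finset (ConjClasses G)),
        ((Subgroup.centralizer ({Quotient.out c} : Set G)).index : ℂ) *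
          ((χ : G → ℂ) (Quotient.out c) * conj ((χ : G → ℂ) (Quotient.out c))) =
        (χ : G → ℂ) 1 * (Cfsg.centralChar (χ : G → ℂ) (Quotient.out c) *
          conj ((χ : G → ℂ) (Quotient.out c))) := by
      intro c _
      unfold Cfsg.centralChar
      rw [hχ1]
      field_simp
    rw [Finset.sum_congr rfl e, ← Finset.mul_sum, hχ1] at h2
    rw [eq_div_iff hχ0', mul_comm]
    exact h2
  have hint : ∀ g : G, Cfsg.MemLocalRing M (conj ((χ : G → ℂ) g)) := by
    intro g
    have e : conj ((χ : G → ℂ) g) = (χ : G → ℂ) g⁻¹ := by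
      obtain ⟨n, ρ, hρ, hρχ⟩ := χ.2
      rw [← hρχ, char_inv ρ g]
    rw [e]
    exact memLocalRing_isIntegral_lead hMtop
      (isIntegral_isCharacter (isCharacter_of_isIrrCharacter χ.2) g⁻¹)
  have h5 : Cfsg.MemLocalIdeal M ((Nat.card G : ℂ) / (Cfsg.charDegree (χ : G → ℂ) : ℂ)) := by
    rw [← h4, ← sub_zero (∑ c : ConjClasses G, Cfsg.centralChar (χ : G → ℂ) (Quotient.out c) *
      conj ((χ : G → ℂ) (Quotient.out c))), ← h3, ← Finset.sum_sub_distrib]
    apply memLocalIdeal_sum_lead hMprime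
    intro c _
    rw [← sub_mul, mul_comm]
    exact memLocalIdeal_mul_ring_lead hMprime (hint _) (hs (Quotient.out c))
  obtain ⟨a, ha⟩ : ∃ a : ℕ, a = (Nat.card G).factorization p := ⟨_, rfl⟩
  rw [← ha] at hχ
  obtain ⟨s, hs'⟩ := hχ
  have hs0 : s ≠ 0 := by
    rintro rfl
    rw [mul_zero] at hs'
    exact hχ0 hs'
  have hdvd : p ^ a ∣ Nat.card G := by rw [ha]; exact Nat.ordProj_dvd _ _
  obtain ⟨t, ht⟩ := hdvd
  have hpa0 : p ^ a ≠ 0 := (pow_pos hp.pos _).ne'
  have ht' : t = Nat.card G / p ^ a :=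
    (Nat.div_eq_of_eq_mul_right (Nat.pos_of_ne_zero hpa0) ht).symm
  have hcop : Nat.Coprime t p := by
    rw [ht', ha]
    exact (Nat.coprime_ordCompl hp Nat.card_pos.ne').symm
  have h6 : Cfsg.MemLocalIdeal M ((t : Cfsg.AlgInt) : ℂ) := by
    have h7 := memLocalIdeal_mul_ring_lead hMprime (memLocalRing_of_mem_lead hMtop (s : Cfsg.AlgInt)) h5
    have e : ((s : Cfsg.AlgInt) : ℂ) * ((Nat.card G : ℂ) / (Cfsg.charDegree (χ : G → ℂ) : ℂ)) =
        ((t : Cfsg.AlgInt) : ℂ) := by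
      have e1 : (Cfsg.charDegree (χ : G → ℂ) : ℂ) = (p : ℂ) ^ a * s := by
        rw [hs']; push_cast; ring
      have e2 : (Nat.card G : ℂ) = (p : ℂ) ^ a * t := by
        rw [ht]; push_cast; ring
      have hp0 : ((p : ℂ) ^ a) ≠ 0 := by exact_mod_cast hpa0
      have hs0' : (s : ℂ) ≠ 0 := by exact_mod_cast hs0
      have e3 : ((s : Cfsg.AlgInt) : ℂ) = (s : ℂ) := by push_cast; rfl
      have e4 : ((t : Cfsg.AlgInt) : ℂ) = (t : ℂ) := by push_cast; rfl
      rw [e1, e2, e3, e4]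
      field_simp
    rw [e] at h7
    exact h7
  exact natCast_not_mem_lead hMtop p t hcop hpM (mem_of_memLocalIdeal_lead hMprime _ h6)

/-- the `p`-regular part of a member of a block is a combination of the members of the block -/
theorem preg_expand_h7 (p : ℕ) [hp : Fact p.Prime] (M : Ideal Cfsg.AlgInt)
    (hM : Cfsg.IsPModular p M) (B : Set (Cfsg.IrrCharacter G)) (hB : Cfsg.IsPBlock M B)
    [Fintype (Cfsg.IrrCharacter G)] [DecidablePred (· ∈ B)] (ψ : Cfsg.IrrCharacter G)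
    (hψ : ψ ∈ B) (y : G) :
    ∑ φ : Cfsg.IrrCharacter G, (if φ ∈ B then
      Cfsg.classInner (Cfsg.pRegularPart p (ψ : G → ℂ)) (φ : G → ℂ) * (φ : G → ℂ) y else 0) =
      Cfsg.pRegularPart p (ψ : G → ℂ) y := by
  classical
  have hinv : ∀ (φ : Cfsg.IrrCharacter G) (g : G), conj ((φ : G → ℂ) g) = (φ : G → ℂ) g⁻¹ := by
    intro φ g
    obtain ⟨n, ρ, hρ, hρφ⟩ := φ.2
    rw [← hρφ, char_inv ρ g]
  have hK : ∀ x : G, (p ∣ orderOf x ↔ ¬ p ∣ orderOf y) →
      ∑ φ : Cfsg.IrrCharacter G,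
        (if φ ∈ B then conj ((φ : G → ℂ) x) * (φ : G → ℂ) y else 0) = 0 := by
    intro x hxy
    by_cases hy : p ∣ orderOf y
    · have hx : ¬ p ∣ orderOf x⁻¹ := by
        rw [orderOf_inv]; intro h; exact (hxy.1 h) hy
      have := wbo_h7 p M hM B hB x⁻¹ y hx hy
      have e : ∀ φ ∈ (Finset.univ : Finset (Cfsg.IrrCharacter G)),
          (if φ ∈ B then conj ((φ : G → ℂ) x) * (φ : G → ℂ) y else 0) =
          (if φ ∈ B then (φ : G → ℂ) x⁻¹ * (φ : G → ℂ) y else 0) := by
        intro φ _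
        rw [hinv]
      rw [Finset.sum_congr rfl e]
      exact this
    · have hx : p ∣ orderOf x⁻¹ := by
        rw [orderOf_inv]; exact hxy.2 hy
      have := wbo_h7 p M hM B hB y x⁻¹ hy hx
      have e : ∀ φ ∈ (Finset.univ : Finset (Cfsg.IrrCharacter G)),
          (if φ ∈ B then conj ((φ : G → ℂ) x) * (φ : G → ℂ) y else 0) =
          (if φ ∈ B then (φ : G → ℂ) y * (φ : G → ℂ) x⁻¹ else 0) := by
        intro φ _
        rw [hinv, mul_comm]
      rw [Finset.sum_congr rfl e]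
      exact this
  have hrearr : ∀ h : G → ℂ, ∑ φ : Cfsg.IrrCharacter G, (if φ ∈ B then
      Cfsg.classInner h (φ : G → ℂ) * (φ : G → ℂ) y else 0) =
      (Nat.card G : ℂ)⁻¹ * ∑ x : G, h x * ∑ φ : Cfsg.IrrCharacter G,
        (if φ ∈ B then conj ((φ : G → ℂ) x) * (φ : G → ℂ) y else 0) := by
    intro h
    unfold Cfsg.classInner
    rw [Finset.mul_sum]
    simp only [Finset.mul_sum]
    rw [Finset.sum_comm]
    apply Finset.sum_congr rfl
    intro φ _
    by_cases hφ : φ ∈ B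
    · simp only [if_pos hφ]
      rw [Finset.sum_mul]
      apply Finset.sum_congr rfl
      intro x _
      ring
    · simp only [if_neg hφ]
      simp
  have hf0 : ∀ x : G, p ∣ orderOf x → Cfsg.pRegularPart p (ψ : G → ℂ) x = 0 := by
    intro x hx
    show (if Cfsg.IsPRegular p x then (ψ : G → ℂ) x else 0) = 0
    rw [if_neg (fun h => h hx)]
  have hf1 : ∀ x : G, ¬ p ∣ orderOf x → Cfsg.pRegularPart p (ψ : G → ℂ) x = (ψ : G → ℂ) x := by
    intro x hx
    show (if Cfsg.IsPRegular p x then (ψ : G → ℂ) x else 0) = _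
    rw [if_pos (show Cfsg.IsPRegular p x from hx)]
  rw [hrearr]
  by_cases hy : p ∣ orderOf y
  · rw [hf0 y hy]
    apply mul_eq_zero_of_right
    apply Finset.sum_eq_zero
    intro x _
    by_cases hx : p ∣ orderOf x
    · rw [hf0 x hx, zero_mul]
    · rw [hK x ⟨fun h => absurd h hx, fun h => absurd hy h⟩, mul_zero]
  · have e : ∀ x ∈ (Finset.univ : Finset G), Cfsg.pRegularPart p (ψ : G → ℂ) x *
        ∑ φ : Cfsg.IrrCharacter G,
          (if φ ∈ B then conj ((φ : G → ℂ) x) * (φ : G → ℂ) y else 0) =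
        (ψ : G → ℂ) x * ∑ φ : Cfsg.IrrCharacter G,
          (if φ ∈ B then conj ((φ : G → ℂ) x) * (φ : G → ℂ) y else 0) := by
      intro x _
      by_cases hx : p ∣ orderOf x
      · rw [hK x ⟨fun _ => hy, fun _ => hx⟩, mul_zero, mul_zero]
      · rw [hf1 x hx]
    rw [Finset.sum_congr rfl e, ← hrearr, hf1 y hy]
    have e3 : ∀ φ ∈ (Finset.univ : Finset (Cfsg.IrrCharacter G)),
        (if φ ∈ B then Cfsg.classInner (ψ : G → ℂ) (φ : G → ℂ) * (φ : G → ℂ) y else 0) =
        if φ = ψ then (ψ : G → ℂ) y else 0 := by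
      intro φ _
      rw [classInner_irr' ψ φ]
      by_cases h : φ = ψ
      · rw [h, if_pos hψ, if_pos rfl, if_pos rfl, one_mul]
      · rw [if_neg h, if_neg (fun h' : ψ = φ => h h'.symm)]
        simp
    rw [Finset.sum_congr rfl e3, Finset.sum_ite_eq' Finset.univ ψ, if_pos (Finset.mem_univ _)]

end more

end Cfsg.Agent.Lib.Helper7
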