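import Mathlib
import Cfsg.Prelude.Def_Blocks
import Cfsg.Agent.Lib.Helper7.WBO2

set_option autoImplicit false
open scoped BigOperators ComplexConjugate

namespace Cfsg.Agent.Lib.Helper7
open Cfsg.Agent.Lib.Lead

universe u

section twoprimes

variable {G : Type u} [Group G] [Fintype G] [DecidableEq G]

/-- the block kernel `∑_{φ ∈ B} conj φ(x) φ(y)` vanishes when exactly one of `x`, `y` is
`p`-singular -/
theorem wbo_kernel_h7 (p : ℕ) [hp : Fact p.Prime] (M : Ideal Cfsg.AlgInt)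
    (hM : Cfsg.IsPModular p M) (B : Set (Cfsg.IrrCharacter G)) (hB : Cfsg.IsPBlock M B)
    [Fintype (Cfsg.IrrCharacter G)] [DecidablePred (· ∈ B)] (x y : G)
    (hxy : p ∣ orderOf x ↔ ¬ p ∣ orderOf y) :
    ∑ φ : Cfsg.IrrCharacter G,
      (if φ ∈ B then conj ((φ : G → ℂ) x) * (φ : G → ℂ) y else 0) = 0 := by
  classical
  have hinv : ∀ (φ : Cfsg.IrrCharacter G) (g : G), conj ((φ : G → ℂ) g) = (φ : G → ℂ) g⁻¹ := by
    intro φ g
    obtain ⟨n, ρ, hρ, hρφ⟩ := φ.2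
    rw [← hρφ, char_inv ρ g]
  by_cases hy : p ∣ orderOf y
  · have hx : ¬ p ∣ orderOf x⁻¹ := by
      rw [orderOf_inv]; intro h; exact (hxy.1 h) hy
    have := wbo_h7 p M hM B hB x⁻¹ y hx hy
    have e : ∀ φ ∈ (Finset.univ : Finset (Cfsg.IrrCharacter G)),
        (if φ ∈ B then conj ((φ : G → ℂ) x) * (φ : G → ℂ) y else 0) =
        (if φ ∈ B then (φ : G → ℂ) x⁻¹ * (φ : G → ℂ) y else 0) := by
      intro φ _
      rw [hinv]
    rw [Finset.sum_congr rfl e]
    exact this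
  · have hx : p ∣ orderOf x⁻¹ := by
      rw [orderOf_inv]; exact hxy.2 hy
    have := wbo_h7 p M hM B hB y x⁻¹ hy hx
    have e : ∀ φ ∈ (Finset.univ : Finset (Cfsg.IrrCharacter G)),
        (if φ ∈ B then conj ((φ : G → ℂ) x) * (φ : G → ℂ) y else 0) =
        (if φ ∈ B then (φ : G → ℂ) y * (φ : G → ℂ) x⁻¹ else 0) := by
      intro φ _
      rw [hinv, mul_comm]
    rw [Finset.sum_congr rfl e]
    exact this

/-- rearrangement of a block component -/
theorem rearr_h7 (B : Set (Cfsg.IrrCharacter G))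
    [Fintype (Cfsg.IrrCharacter G)] [DecidablePred (· ∈ B)] (h : G → ℂ) (y : G) :
    ∑ φ : Cfsg.IrrCharacter G, (if φ ∈ B then
      Cfsg.classInner h (φ : G → ℂ) * (φ : G → ℂ) y else 0) =
      (Nat.card G : ℂ)⁻¹ * ∑ x : G, h x * ∑ φ : Cfsg.IrrCharacter G,
        (if φ ∈ B then conj ((φ : G → ℂ) x) * (φ : G → ℂ) y else 0) := by
  unfold Cfsg.classInner
  rw [Finset.mul_sum]
  simp only [Finset.mul_sum]
  rw [Finset.sum_comm]
  apply Finset.sum_congr rfl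
  intro φ _
  by_cases hφ : φ ∈ B
  · simp only [if_pos hφ]
    rw [Finset.sum_mul]
    apply Finset.sum_congr rfl
    intro x _
    ring
  · simp only [if_neg hφ]
    simp

/-- If `G` has no element of order `pq`, `x` is `p`-singular and `y` is `q`-singular, then
`∑_{ψ ∈ B_p ∩ B_q} ψ(x) ψ(y) = 0`. -/
theorem two_prime_vanish_h7 (p q : ℕ) [hp : Fact p.Prime] [hq : Fact q.Prime] (hpq : p ≠ q)
    (Mp Mq : Ideal Cfsg.AlgInt) (hMp : Cfsg.IsPModular p Mp) (hMq : Cfsg.IsPModular q Mq)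
    (hno : ∀ g : G, orderOf g ≠ p * q)
    (Bp Bq : Set (Cfsg.IrrCharacter G)) (hBp : Cfsg.IsPBlock Mp Bp) (hBq : Cfsg.IsPBlock Mq Bq)
    [Fintype (Cfsg.IrrCharacter G)] [DecidablePred (· ∈ Bp)] [DecidablePred (· ∈ Bq)]
    (x y : G) (hx : p ∣ orderOf x) (hy : q ∣ orderOf y) :
    ∑ ψ : Cfsg.IrrCharacter G,
      (if ψ ∈ Bq then (if ψ ∈ Bp then (ψ : G → ℂ) x * (ψ : G → ℂ) y else 0) else 0) = 0 := by
  classical
  have hG0 : (Nat.card G : ℂ) ≠ 0 := by exact_mod_cast Nat.card_pos.ne'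
  obtain ⟨F, hF⟩ : ∃ F : G → ℂ, F = fun g => ∑ χ : Cfsg.IrrCharacter G,
      if χ ∈ Bp then (χ : G → ℂ) x * (χ : G → ℂ) g else 0 := ⟨_, rfl⟩
  have hsing : ∀ g : G, q ∣ orderOf g → ¬ p ∣ orderOf g := by
    intro g hgq hgp
    have hcop : Nat.Coprime p q := (Nat.coprime_primes hp.out hq.out).2 hpq
    have hdvd : p * q ∣ orderOf g := hcop.mul_dvd_of_dvd_of_dvd hgp hgq
    have hpos : orderOf g ≠ 0 := (orderOf_pos g).ne'
    exact hno _ (orderOf_pow_orderOf_div hpos hdvd)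
  have hFa : ∀ g : G, q ∣ orderOf g → F g = 0 := by
    intro g hg
    rw [hF]
    have h1 := wbo_h7 p Mp hMp Bp hBp g x (hsing g hg) hx
    show ∑ χ : Cfsg.IrrCharacter G,
      (if χ ∈ Bp then (χ : G → ℂ) x * (χ : G → ℂ) g else 0) = 0
    refine Eq.trans (Finset.sum_congr rfl ?_) h1
    intro χ _
    by_cases hχ : χ ∈ Bp
    · rw [if_pos hχ, if_pos hχ, mul_comm]
    · rw [if_neg hχ, if_neg hχ]
  have hFb : ∀ ψ : Cfsg.IrrCharacter G, Cfsg.classInner F (ψ : G → ℂ) =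
      if ψ ∈ Bp then (ψ : G → ℂ) x else 0 := by
    intro ψ
    have e1 : Cfsg.classInner F (ψ : G → ℂ) = ∑ χ : Cfsg.IrrCharacter G,
        (if χ ∈ Bp then (χ : G → ℂ) x else 0) * Cfsg.classInner (χ : G → ℂ) (ψ : G → ℂ) := by
      unfold Cfsg.classInner
      rw [hF]
      simp only [Finset.sum_mul, Finset.mul_sum]
      rw [Finset.sum_comm]
      apply Finset.sum_congr rfl
      intro χ _
      apply Finset.sum_congr rfl
      intro g _
      by_cases hχ : χ ∈ Bp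
      · simp only [if_pos hχ]; ring
      · simp only [if_neg hχ]; ring
    rw [e1]
    have e2 : ∀ χ ∈ (Finset.univ : Finset (Cfsg.IrrCharacter G)),
        (if χ ∈ Bp then (χ : G → ℂ) x else 0) * Cfsg.classInner (χ : G → ℂ) (ψ : G → ℂ) =
        if χ = ψ then (if ψ ∈ Bp then (ψ : G → ℂ) x else 0) else 0 := by
      intro χ _
      rw [classInner_irr' χ ψ]
      by_cases h : χ = ψ
      · rw [if_pos h, if_pos h, mul_one, h]
      · rw [if_neg h, if_neg h, mul_zero]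
    rw [Finset.sum_congr rfl e2, Finset.sum_ite_eq' Finset.univ ψ, if_pos (Finset.mem_univ _)]
  have hc := rearr_h7 Bq F y
  have hzero : (Nat.card G : ℂ)⁻¹ * ∑ g : G, F g * ∑ φ : Cfsg.IrrCharacter G,
      (if φ ∈ Bq then conj ((φ : G → ℂ) g) * (φ : G → ℂ) y else 0) = 0 := by
    apply mul_eq_zero_of_right
    apply Finset.sum_eq_zero
    intro g _
    by_cases hg : q ∣ orderOf g
    · rw [hFa g hg, zero_mul]
    · rw [wbo_kernel_h7 q Mq hMq Bq hBq g y ⟨fun h => absurd h hg, fun h => absurd hy h⟩, mul_zero]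
  rw [hzero] at hc
  refine Eq.trans (Finset.sum_congr rfl ?_) hc
  intro ψ _
  by_cases hψ : ψ ∈ Bq
  · rw [if_pos hψ, if_pos hψ, hFb]
    by_cases hψ' : ψ ∈ Bp
    · rw [if_pos hψ', if_pos hψ']
    · rw [if_neg hψ', if_neg hψ', zero_mul]
  · rw [if_neg hψ, if_neg hψ]

end twoprimes

end Cfsg.Agent.Lib.Helper7
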