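import Mathlib
import Cfsg.Prelude.Def_Blocks
import Cfsg.Prelude.Def_BlockRank
import Cfsg.Agent.Lib.Helper7.WBO3
import Cfsg.Agent.Lib.Lead.CharInt
import Cfsg.Agent.Lib.Lead.BrauerInd
import Cfsg.Agent.Lib.Lead.CharArtin
import Cfsg.Agent.S4425

set_option autoImplicit false
open scoped BigOperators ComplexConjugate

namespace Cfsg.Agent.Lib.Helper7
open Cfsg.Agent.Lib.Lead

universe u

section heights

variable {G : Type u} [Group G] [Fintype G] [DecidableEq G]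

/-- the truncation of a function to the `p`-regular elements -/
noncomputable def tw7 (p : ℕ) (θ : G → ℂ) : G → ℂ := fun x => if p ∣ orderOf x then 0 else θ x

theorem tw7_apply (p : ℕ) (θ : G → ℂ) (x : G) :
    tw7 p θ x = if p ∣ orderOf x then 0 else θ x := rfl

theorem tw7_conj (p : ℕ) (θ : Cfsg.IrrCharacter G) (g h : G) :
    tw7 p (θ : G → ℂ) (h * g * h⁻¹) = tw7 p (θ : G → ℂ) g := by
  rw [tw7_apply, tw7_apply]
  have h1 : orderOf (h * g * h⁻¹) = orderOf g := MulEquiv.orderOf_eq (MulAut.conj h) g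
  rw [h1, isClassFunction_of_irr θ.2 g h]

theorem tw7_ring (p : ℕ) (M : Ideal Cfsg.AlgInt) (hMtop : M ≠ ⊤) (θ : Cfsg.IrrCharacter G)
    (x : G) : Cfsg.MemLocalRing M (tw7 p (θ : G → ℂ) x) := by
  rw [tw7_apply]
  split_ifs
  · exact memLocalRing_zero_lead hMtop
  · exact memLocalRing_isIntegral_lead hMtop
      (isIntegral_isCharacter (isCharacter_of_isIrrCharacter θ.2) x)

theorem tw7_pre (p : ℕ) (θ : G → ℂ) : tw7 p θ = Cfsg.pRegularPart p θ := by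
  funext y
  unfold Cfsg.pRegularPart Cfsg.IsPRegular
  rw [tw7_apply]
  by_cases hy : p ∣ orderOf y
  · simp [hy]
  · simp [hy]

/-- the class sum attached to the truncated character -/
noncomputable def ss7 [Fintype (ConjClasses G)] (p : ℕ) (θ φ : G → ℂ) : ℂ :=
  ∑ c : ConjClasses G, tw7 p θ (Quotient.out c)⁻¹ * Cfsg.centralChar φ (Quotient.out c)

theorem ss7_eq [Fintype (ConjClasses G)] (p : ℕ) (θ φ : Cfsg.IrrCharacter G) :
    (Nat.card G : ℂ) * Cfsg.classInner (tw7 p (θ : G → ℂ)) (φ : G → ℂ) =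
      (Cfsg.charDegree (φ : G → ℂ) : ℂ) * ss7 p (θ : G → ℂ) (φ : G → ℂ) := by
  have hG0 : (Nat.card G : ℂ) ≠ 0 := by exact_mod_cast Nat.card_pos.ne'
  obtain ⟨hφ1, hφ0⟩ := charDegree_irr φ.2
  have hφ0' : (Cfsg.charDegree (φ : G → ℂ) : ℂ) ≠ 0 := by exact_mod_cast hφ0
  have hclφ := isClassFunction_of_irr φ.2
  have hinv : ∀ g : G, conj ((φ : G → ℂ) g) = (φ : G → ℂ) g⁻¹ := by
    intro g
    obtain ⟨n, ρ, hρ, hρφ⟩ := φ.2
    rw [← hρφ, char_inv ρ g]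
  unfold Cfsg.classInner
  rw [← mul_assoc, mul_inv_cancel₀ hG0, one_mul]
  have e1 : ∑ g : G, tw7 p (θ : G → ℂ) g * conj ((φ : G → ℂ) g) =
      ∑ g : G, tw7 p (θ : G → ℂ) g⁻¹ * (φ : G → ℂ) g := by
    rw [← Equiv.sum_comp (Equiv.inv G) (fun g => tw7 p (θ : G → ℂ) g⁻¹ * (φ : G → ℂ) g)]
    apply Finset.sum_congr rfl
    intro g _
    show tw7 p (θ : G → ℂ) g * conj ((φ : G → ℂ) g) =
      tw7 p (θ : G → ℂ) g⁻¹⁻¹ * (φ : G → ℂ) g⁻¹
    rw [inv_inv, hinv]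
  rw [e1, sum_classFun_regroup_lead (fun g => tw7 p (θ : G → ℂ) g⁻¹ * (φ : G → ℂ) g)
    (fun g h => by
      show tw7 p (θ : G → ℂ) (h * g * h⁻¹)⁻¹ * (φ : G → ℂ) (h * g * h⁻¹) =
        tw7 p (θ : G → ℂ) g⁻¹ * (φ : G → ℂ) g
      have e2 : (h * g * h⁻¹)⁻¹ = h * g⁻¹ * h⁻¹ := by group
      rw [e2, tw7_conj, hclφ g h]), ss7, Finset.mul_sum]
  apply Finset.sum_congr rfl
  intro c _
  unfold Cfsg.centralChar
  rw [hφ1]
  field_simp

theorem ss7_ring [Fintype (ConjClasses G)] (p : ℕ) (M : Ideal Cfsg.AlgInt) (hMprime : M.IsPrime)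
    (θ φ : Cfsg.IrrCharacter G) : Cfsg.MemLocalRing M (ss7 p (θ : G → ℂ) (φ : G → ℂ)) := by
  unfold ss7
  apply memLocalRing_sum_lead hMprime
  intro c _
  exact memLocalRing_mul_lead hMprime (tw7_ring p M hMprime.ne_top θ _)
    (memLocalRing_isIntegral_lead hMprime.ne_top (isIntegral_centralChar_lead φ _))

theorem ss7_diff [Fintype (ConjClasses G)] (p : ℕ) (M : Ideal Cfsg.AlgInt) (hMprime : M.IsPrime)
    (θ φ φ' : Cfsg.IrrCharacter G) (h : Cfsg.SameBlock M (φ : G → ℂ) (φ' : G → ℂ)) :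
    Cfsg.MemLocalIdeal M (ss7 p (θ : G → ℂ) (φ : G → ℂ) - ss7 p (θ : G → ℂ) (φ' : G → ℂ)) := by
  unfold ss7
  rw [← Finset.sum_sub_distrib]
  apply memLocalIdeal_sum_lead hMprime
  intro c _
  rw [← mul_sub]
  exact memLocalIdeal_mul_ring_lead hMprime (tw7_ring p M hMprime.ne_top θ _)
    (h (Quotient.out c))

theorem ss7_mem_iff [Fintype (ConjClasses G)] (p : ℕ) (M : Ideal Cfsg.AlgInt)
    (hMprime : M.IsPrime)
    (θ φ φ' : Cfsg.IrrCharacter G) (h : Cfsg.SameBlock M (φ : G → ℂ) (φ' : G → ℂ)) :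
    Cfsg.MemLocalIdeal M (ss7 p (θ : G → ℂ) (φ : G → ℂ)) ↔
      Cfsg.MemLocalIdeal M (ss7 p (θ : G → ℂ) (φ' : G → ℂ)) := by
  constructor
  · intro h1
    have h2 := memLocalIdeal_sub_lead hMprime h1 (ss7_diff p M hMprime θ φ φ' h)
    rw [sub_sub_cancel] at h2
    exact h2
  · intro h1
    have h2 := memLocalIdeal_add_lead hMprime (ss7_diff p M hMprime θ φ φ' h) h1
    rw [sub_add_cancel] at h2
    exact h2

theorem charDegree_dvd_card_h7 (θ : Cfsg.IrrCharacter G) :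
    Cfsg.charDegree (θ : G → ℂ) ∣ Nat.card G := by
  obtain ⟨hθ1, hθ0⟩ := charDegree_irr θ.2
  obtain ⟨r, ρ, hρirr, hρχ⟩ := θ.2
  haveI := hρirr
  have hr : Module.finrank ℂ (Fin r → ℂ) = r := Module.finrank_fin_fun ℂ
  have hDr : Cfsg.charDegree (θ : G → ℂ) = r := by
    have h1 : (θ : G → ℂ) 1 = r := by rw [← hρχ, Representation.char_one, hr]
    rw [hθ1] at h1
    exact_mod_cast h1
  rw [hDr]
  have h1 := degree_dvd_card ρ
  rw [hr] at h1; exact h1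

theorem val_le_h7 (p : ℕ) [hp : Fact p.Prime] (θ : Cfsg.IrrCharacter G) :
    (Cfsg.charDegree (θ : G → ℂ)).factorization p ≤ (Nat.card G).factorization p := by
  obtain ⟨hθ1, hθ0⟩ := charDegree_irr θ.2
  exact (Nat.factorization_le_iff_dvd hθ0 Nat.card_pos.ne').mpr (charDegree_dvd_card_h7 θ) p

theorem tw7_int (p : ℕ) [hp : Fact p.Prime] (θ φ : Cfsg.IrrCharacter G) :
    ∃ n : ℤ, ((p ^ ((Nat.card G).factorization p -
      (Cfsg.charDegree (θ : G → ℂ)).factorization p) : ℕ) : ℂ) *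
      Cfsg.classInner (tw7 p (θ : G → ℂ)) (φ : G → ℂ) = n := by
  have hgen0 := (Cfsg.Agent.S4425.result p θ).1
  obtain ⟨χ₁, χ₂, h1, h2, h3⟩ := hgen0
  obtain ⟨n₁, hn₁⟩ := classInner_char_char_nat h1 (isCharacter_of_isIrrCharacter φ.2)
  obtain ⟨n₂, hn₂⟩ := classInner_char_char_nat h2 (isCharacter_of_isIrrCharacter φ.2)
  refine ⟨(n₁ : ℤ) - n₂, ?_⟩
  have e0 : (((n₁ : ℤ) - n₂ : ℤ) : ℂ) = Cfsg.classInner χ₁ (φ : G → ℂ) -
      Cfsg.classInner χ₂ (φ : G → ℂ) := by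
    rw [hn₁, hn₂]; push_cast; ring
  have e : Cfsg.classInner χ₁ (φ : G → ℂ) - Cfsg.classInner χ₂ (φ : G → ℂ) =
      Cfsg.classInner (χ₁ - χ₂) (φ : G → ℂ) := by
    unfold Cfsg.classInner
    rw [← mul_sub, ← Finset.sum_sub_distrib]
    congr 1
    apply Finset.sum_congr rfl
    intro g _
    rw [Pi.sub_apply, sub_mul]
  rw [e0, e, ← h3]
  unfold Cfsg.classInner
  rw [mul_left_comm, Finset.mul_sum]
  congr 1
  apply Finset.sum_congr rfl
  intro g _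
  show _ * (tw7 p (θ : G → ℂ) g * conj ((φ : G → ℂ) g)) = (if p ∣ orderOf g then (0 : ℂ)
    else _ * (θ : G → ℂ) g) * conj ((φ : G → ℂ) g)
  rw [tw7_apply]
  by_cases hg : p ∣ orderOf g
  · rw [if_pos hg, if_pos hg]; ring
  · rw [if_neg hg, if_neg hg]; ring

theorem tw7_symm (p : ℕ) (θ φ : Cfsg.IrrCharacter G) :
    Cfsg.classInner (tw7 p (θ : G → ℂ)) (φ : G → ℂ) =
      conj (Cfsg.classInner (tw7 p (φ : G → ℂ)) (θ : G → ℂ)) := by
  unfold Cfsg.classInner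
  rw [map_mul, map_inv₀, Complex.conj_natCast, map_sum]
  congr 1
  apply Finset.sum_congr rfl
  intro g _
  rw [map_mul, Complex.conj_conj, tw7_apply, tw7_apply]
  by_cases hg : p ∣ orderOf g
  · rw [if_pos hg, if_pos hg, map_zero, zero_mul, zero_mul]
  · rw [if_neg hg, if_neg hg, mul_comm]

theorem tw7_self (p : ℕ) [hp : Fact p.Prime] (θ : Cfsg.IrrCharacter G) :
    ∃ r : ℝ, Cfsg.classInner (tw7 p (θ : G → ℂ)) (θ : G → ℂ) = (r : ℂ) ∧ 0 < r ∧ r ≤ 1 ∧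
      (r = 1 → p ^ (Nat.card G).factorization p ∣ Cfsg.charDegree (θ : G → ℂ)) := by
  have hp' : p.Prime := hp.out
  obtain ⟨hθ1, hθ0⟩ := charDegree_irr θ.2
  have hGpos : (0 : ℝ) < (Nat.card G : ℝ) := by exact_mod_cast Nat.card_pos
  have hall : ∑ x : G, Complex.normSq ((θ : G → ℂ) x) = (Nat.card G : ℝ) := by
    have h1 := classInner_irr' θ θ
    rw [if_pos rfl] at h1
    unfold Cfsg.classInner at h1
    have h2 : (((Nat.card G : ℝ)⁻¹ * ∑ x : G, Complex.normSq ((θ : G → ℂ) x) : ℝ) : ℂ) =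
        ((1 : ℝ) : ℂ) := by
      push_cast
      rw [← h1]
      congr 1
      apply Finset.sum_congr rfl
      intro x _
      rw [Complex.mul_conj]
    have h3 : (Nat.card G : ℝ)⁻¹ * ∑ x : G, Complex.normSq ((θ : G → ℂ) x) = 1 := by
      exact_mod_cast h2
    have h4 := congrArg (fun z : ℝ => (Nat.card G : ℝ) * z) h3
    beta_reduce at h4
    rw [← mul_assoc, mul_inv_cancel₀ hGpos.ne', one_mul, mul_one] at h4
    exact h4
  refine ⟨(Nat.card G : ℝ)⁻¹ * ∑ x : G,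
    (if p ∣ orderOf x then 0 else Complex.normSq ((θ : G → ℂ) x)), ?_, ?_, ?_, ?_⟩
  · unfold Cfsg.classInner
    push_cast
    congr 1
    apply Finset.sum_congr rfl
    intro x _
    rw [tw7_apply]
    by_cases hx : p ∣ orderOf x
    · simp [hx]
    · simp [hx, Complex.mul_conj]
  · apply mul_pos (inv_pos.2 hGpos)
    apply Finset.sum_pos'
    · intro x _
      split_ifs
      · exact le_refl _
      · exact Complex.normSq_nonneg _
    · refine ⟨1, Finset.mem_univ _, ?_⟩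
      rw [if_neg (by rw [orderOf_one, Nat.dvd_one]; exact hp'.one_lt.ne')]
      apply Complex.normSq_pos.2
      rw [hθ1]
      exact_mod_cast hθ0
  · rw [inv_mul_le_iff₀ hGpos, mul_one, ← hall]
    apply Finset.sum_le_sum
    intro x _
    split_ifs
    · exact Complex.normSq_nonneg _
    · exact le_refl _
  · intro hr1
    apply vanish_dvd_h7 p θ
    intro g hg
    by_contra hne
    have hlt : ∑ x : G, (if p ∣ orderOf x then 0 else Complex.normSq ((θ : G → ℂ) x)) <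
        ∑ x : G, Complex.normSq ((θ : G → ℂ) x) := by
      apply Finset.sum_lt_sum
      · intro x _
        split_ifs
        · exact Complex.normSq_nonneg _
        · exact le_refl _
      · refine ⟨g, Finset.mem_univ _, ?_⟩
        rw [if_pos hg]
        exact Complex.normSq_pos.2 hne
    rw [hall] at hlt
    have h5 := congrArg (fun z : ℝ => (Nat.card G : ℝ) * z) hr1
    beta_reduce at h5
    rw [← mul_assoc, mul_inv_cancel₀ hGpos.ne', one_mul, mul_one] at h5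
    linarith

theorem nn7_exists (p : ℕ) [hp : Fact p.Prime] (θ φ : Cfsg.IrrCharacter G) :
    ∃ N : ℤ, (N : ℂ) = ((p ^ (Nat.card G).factorization p : ℕ) : ℂ) *
        Cfsg.classInner (tw7 p (θ : G → ℂ)) (φ : G → ℂ) ∧
      ((p : ℤ) ^ (Cfsg.charDegree (θ : G → ℂ)).factorization p ∣ N) := by
  obtain ⟨n, hn⟩ := tw7_int p θ φ
  have hb := val_le_h7 p θ
  refine ⟨(p : ℤ) ^ (Cfsg.charDegree (θ : G → ℂ)).factorization p * n, ?_, Dvd.intro _ rfl⟩
  rw [Int.cast_mul, ← hn]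
  have e : (Nat.card G).factorization p = (Cfsg.charDegree (θ : G → ℂ)).factorization p +
      ((Nat.card G).factorization p - (Cfsg.charDegree (θ : G → ℂ)).factorization p) := by omega
  conv_rhs => rw [e]
  push_cast
  rw [pow_add]
  ring

/-- the integer `p^a [θ̃, φ]` -/
noncomputable def nn7 (p : ℕ) [hp : Fact p.Prime] (θ φ : Cfsg.IrrCharacter G) : ℤ :=
  Classical.choose (nn7_exists p θ φ)

theorem nn7_spec (p : ℕ) [hp : Fact p.Prime] (θ φ : Cfsg.IrrCharacter G) :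
    (nn7 p θ φ : ℂ) = ((p ^ (Nat.card G).factorization p : ℕ) : ℂ) *
        Cfsg.classInner (tw7 p (θ : G → ℂ)) (φ : G → ℂ) :=
  (Classical.choose_spec (nn7_exists p θ φ)).1

theorem nn7_dvd (p : ℕ) [hp : Fact p.Prime] (θ φ : Cfsg.IrrCharacter G) :
    (p : ℤ) ^ (Cfsg.charDegree (θ : G → ℂ)).factorization p ∣ nn7 p θ φ :=
  (Classical.choose_spec (nn7_exists p θ φ)).2

theorem nn7_symm (p : ℕ) [hp : Fact p.Prime] (θ φ : Cfsg.IrrCharacter G) :
    nn7 p θ φ = nn7 p φ θ := by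
  have h1 := nn7_spec p θ φ
  have h2 := nn7_spec p φ θ
  rw [tw7_symm p θ φ] at h1
  have h3 : (nn7 p θ φ : ℂ) = conj ((nn7 p φ θ : ℤ) : ℂ) := by
    rw [h1, h2, map_mul, Complex.conj_natCast]
  rw [map_intCast] at h3
  exact_mod_cast h3

theorem nn7_self (p : ℕ) [hp : Fact p.Prime] (θ : Cfsg.IrrCharacter G) :
    0 < nn7 p θ θ ∧ nn7 p θ θ ≤ (p : ℤ) ^ (Nat.card G).factorization p ∧
    (nn7 p θ θ = (p : ℤ) ^ (Nat.card G).factorization p →
      p ^ (Nat.card G).factorization p ∣ Cfsg.charDegree (θ : G → ℂ)) := by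
  obtain ⟨r, hr, hr0, hr1, hr2⟩ := tw7_self p θ
  have h1 := nn7_spec p θ θ
  rw [hr] at h1
  have h2 : ((nn7 p θ θ : ℤ) : ℝ) = ((p : ℝ) ^ (Nat.card G).factorization p) * r := by
    exact_mod_cast h1
  have hpos : (0 : ℝ) < (p : ℝ) ^ (Nat.card G).factorization p :=
    pow_pos (by exact_mod_cast hp.out.pos) _
  refine ⟨?_, ?_, ?_⟩
  · have : (0 : ℝ) < ((nn7 p θ θ : ℤ) : ℝ) := by rw [h2]; exact mul_pos hpos hr0
    exact_mod_cast this
  · have : ((nn7 p θ θ : ℤ) : ℝ) ≤ (p : ℝ) ^ (Nat.card G).factorization p := by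
      rw [h2]
      calc (p : ℝ) ^ (Nat.card G).factorization p * r
          ≤ (p : ℝ) ^ (Nat.card G).factorization p * 1 := mul_le_mul_of_nonneg_left hr1 hpos.le
        _ = _ := mul_one _
    exact_mod_cast this
  · intro heq
    apply hr2
    have h3 : ((nn7 p θ θ : ℤ) : ℝ) = (p : ℝ) ^ (Nat.card G).factorization p := by
      exact_mod_cast congrArg (Int.cast : ℤ → ℝ) heq
    rw [h2] at h3
    exact mul_left_cancel₀ hpos.ne' (h3.trans (mul_one _).symm)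

theorem sum_split_h7 [Fintype (Cfsg.IrrCharacter G)] (B : Set (Cfsg.IrrCharacter G))
    [DecidablePred (· ∈ B)] (θ : Cfsg.IrrCharacter G) (hθ : θ ∈ B)
    (f : Cfsg.IrrCharacter G → ℤ) :
    ∑ φ : Cfsg.IrrCharacter G, (if φ ∈ B then f φ else 0) =
      f θ + ∑ φ : Cfsg.IrrCharacter G, (if φ ∈ B ∧ φ ≠ θ then f φ else 0) := by
  have e1 : f θ + ∑ φ ∈ Finset.univ.erase θ, (if φ ∈ B then f φ else 0) =
      ∑ φ : Cfsg.IrrCharacter G, (if φ ∈ B then f φ else 0) := by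
    have := Finset.add_sum_erase Finset.univ
      (fun φ : Cfsg.IrrCharacter G => if φ ∈ B then f φ else 0) (Finset.mem_univ θ)
    simp only [if_pos hθ] at this
    exact this
  have e2 : ∑ φ ∈ Finset.univ.erase θ, (if φ ∈ B ∧ φ ≠ θ then f φ else 0) =
      ∑ φ : Cfsg.IrrCharacter G, (if φ ∈ B ∧ φ ≠ θ then f φ else 0) := by
    apply Finset.sum_erase
    rw [if_neg (fun h => h.2 rfl)]
  rw [← e1, ← e2]
  congr 1
  apply Finset.sum_congr rfl
  intro φ hφ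
  have hne : φ ≠ θ := Finset.ne_of_mem_erase hφ
  by_cases hφB : φ ∈ B
  · rw [if_pos hφB, if_pos ⟨hφB, hne⟩]
  · rw [if_neg hφB, if_neg (fun h => hφB h.1)]

theorem nn7_sum (p : ℕ) [hp : Fact p.Prime] (M : Ideal Cfsg.AlgInt)
    (hM : Cfsg.IsPModular p M) (B : Set (Cfsg.IrrCharacter G)) (hB : Cfsg.IsPBlock M B)
    [Fintype (Cfsg.IrrCharacter G)] [DecidablePred (· ∈ B)] (θ : Cfsg.IrrCharacter G)
    (hθ : θ ∈ B) :
    ∑ φ : Cfsg.IrrCharacter G, (if φ ∈ B then nn7 p θ φ ^ 2 else 0) =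
      (p : ℤ) ^ (Nat.card G).factorization p * nn7 p θ θ := by
  have hp0 : (p : ℂ) ≠ 0 := by exact_mod_cast hp.out.ne_zero
  obtain ⟨c, hc⟩ : ∃ c : Cfsg.IrrCharacter G → ℂ, c = fun φ : Cfsg.IrrCharacter G =>
      Cfsg.classInner (tw7 p (θ : G → ℂ)) (φ : G → ℂ) := ⟨_, rfl⟩
  have hcdef : ∀ φ : Cfsg.IrrCharacter G, c φ = (Nat.card G : ℂ)⁻¹ *
      ∑ g : G, tw7 p (θ : G → ℂ) g * conj ((φ : G → ℂ) g) := by
    intro φ; rw [hc]; rfl
  have hN : ∀ φ : Cfsg.IrrCharacter G, (nn7 p θ φ : ℂ) =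
      (p : ℂ) ^ (Nat.card G).factorization p * c φ := by
    intro φ
    rw [nn7_spec p θ φ, hc, Nat.cast_pow]
  have hconj : ∀ φ : Cfsg.IrrCharacter G, conj (c φ) = c φ := by
    intro φ
    have h1 : conj ((p : ℂ) ^ (Nat.card G).factorization p * c φ) =
        (p : ℂ) ^ (Nat.card G).factorization p * c φ := by
      rw [← hN φ, map_intCast]
    rw [map_mul, map_pow, Complex.conj_natCast] at h1
    exact mul_left_cancel₀ (pow_ne_zero _ hp0) h1
  have hexp := fun y => preg_expand_h7 p M hM B hB θ hθ y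
  have e1 : ∀ g : G, tw7 p (θ : G → ℂ) g * conj ((θ : G → ℂ) g) =
      ∑ φ : Cfsg.IrrCharacter G, (if φ ∈ B then
        c φ * (tw7 p (θ : G → ℂ) g * conj ((φ : G → ℂ) g)) else 0) := by
    intro g
    have e2 : tw7 p (θ : G → ℂ) g * conj ((θ : G → ℂ) g) =
        tw7 p (θ : G → ℂ) g * conj (Cfsg.pRegularPart p (θ : G → ℂ) g) := by
      rw [← tw7_pre, tw7_apply]
      by_cases hg : p ∣ orderOf g
      · rw [if_pos hg, zero_mul, zero_mul]
      · rw [if_neg hg]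
    rw [e2, ← hexp g, map_sum, Finset.mul_sum]
    apply Finset.sum_congr rfl
    intro φ _
    by_cases hφ : φ ∈ B
    · rw [if_pos hφ, if_pos hφ, map_mul, ← tw7_pre]
      have h5 : conj (Cfsg.classInner (tw7 p (θ : G → ℂ)) (φ : G → ℂ)) = c φ := by
        rw [← hconj φ, hc]
      rw [h5]; ring
    · rw [if_neg hφ, if_neg hφ, map_zero, mul_zero]
  have hkey : c θ = ∑ φ : Cfsg.IrrCharacter G, (if φ ∈ B then c φ * c φ else 0) := by
    rw [hcdef θ, Finset.sum_congr rfl (fun g _ => e1 g), Finset.sum_comm, Finset.mul_sum]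
    apply Finset.sum_congr rfl
    intro φ _
    by_cases hφ : φ ∈ B
    · simp only [if_pos hφ]
      rw [← Finset.mul_sum, mul_left_comm, ← hcdef φ]
    · simp only [if_neg hφ]
      rw [Finset.sum_const_zero, mul_zero]
  apply Int.cast_injective (α := ℂ)
  rw [Int.cast_sum, Int.cast_mul, Int.cast_pow, Int.cast_natCast, hN θ, hkey, Finset.mul_sum,
    Finset.mul_sum]
  apply Finset.sum_congr rfl
  intro φ _
  by_cases hφ : φ ∈ B
  · rw [if_pos hφ, if_pos hφ, Int.cast_pow, hN φ]; ring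
  · rw [if_neg hφ, if_neg hφ, Int.cast_zero, mul_zero, mul_zero]

theorem nn7_count (p : ℕ) [hp : Fact p.Prime] (M : Ideal Cfsg.AlgInt)
    (hM : Cfsg.IsPModular p M) (B : Set (Cfsg.IrrCharacter G)) (hB : Cfsg.IsPBlock M B)
    [Fintype (Cfsg.IrrCharacter G)] [DecidablePred (· ∈ B)] (θ : Cfsg.IrrCharacter G)
    (hθ : θ ∈ B) (w : Cfsg.IrrCharacter G → ℤ)
    (hw : ∀ φ ∈ B, φ ≠ θ → w φ ≤ nn7 p θ φ ^ 2) :
    4 * ∑ φ : Cfsg.IrrCharacter G, (if φ ∈ B ∧ φ ≠ θ then w φ else 0) ≤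
      ((p : ℤ) ^ (Nat.card G).factorization p) ^ 2 := by
  have hsum := nn7_sum p M hM B hB θ hθ
  have hsplit := sum_split_h7 B θ hθ (fun φ => nn7 p θ φ ^ 2)
  have hle : ∑ φ : Cfsg.IrrCharacter G, (if φ ∈ B ∧ φ ≠ θ then w φ else 0) ≤
      ∑ φ : Cfsg.IrrCharacter G, (if φ ∈ B ∧ φ ≠ θ then nn7 p θ φ ^ 2 else 0) := by
    apply Finset.sum_le_sum
    intro φ _
    by_cases h : φ ∈ B ∧ φ ≠ θ
    · rw [if_pos h, if_pos h]; exact hw φ h.1 h.2
    · rw [if_neg h, if_neg h]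
  rw [hsum] at hsplit
  nlinarith [sq_nonneg ((p : ℤ) ^ (Nat.card G).factorization p - 2 * nn7 p θ θ)]

theorem algInt_intCast_h7 (z : ℤ) : (((z : Cfsg.AlgInt)) : ℂ) = (z : ℂ) := by
  push_cast; rfl

theorem algInt_natCast_h7 (z : ℕ) : (((z : Cfsg.AlgInt)) : ℂ) = (z : ℂ) := by
  push_cast; rfl

theorem int_mem_dvd_h7 (p : ℕ) [hp : Fact p.Prime] (M : Ideal Cfsg.AlgInt)
    (hM : Cfsg.IsPModular p M) (z : ℤ) (hz : Cfsg.MemLocalIdeal M (z : ℂ)) : (p : ℤ) ∣ z := by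
  have hMprime : M.IsPrime := hM.2.1.isPrime
  have hMtop : M ≠ ⊤ := hMprime.ne_top
  have hpM : (p : Cfsg.AlgInt) ∈ M := hM.2.2
  by_contra hnd
  have hcop : Nat.Coprime z.natAbs p := by
    apply Nat.Coprime.symm
    rw [hp.out.coprime_iff_not_dvd]
    intro h
    exact hnd (Int.natCast_dvd.2 h)
  have h1 := natCast_not_mem_lead hMtop p z.natAbs hcop hpM
  apply h1
  have h2 : ((z : Cfsg.AlgInt)) ∈ M := mem_of_memLocalIdeal_lead hMprime (z : Cfsg.AlgInt) (by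
    rw [algInt_intCast_h7]; exact hz)
  rcases Int.natAbs_eq z with h | h
  · have e : ((z.natAbs : ℕ) : Cfsg.AlgInt) = (z : Cfsg.AlgInt) := by
      conv_rhs => rw [h]
      rw [Int.cast_natCast]
    rw [e]; exact h2
  · have e : ((z.natAbs : ℕ) : Cfsg.AlgInt) = -(z : Cfsg.AlgInt) := by
      conv_rhs => rw [h]
      rw [Int.cast_neg, Int.cast_natCast, neg_neg]
    rw [e]; exact M.neg_mem h2

theorem memLocalRing_int_h7 (M : Ideal Cfsg.AlgInt) (hMtop : M ≠ ⊤) (z : ℤ) :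
    Cfsg.MemLocalRing M (z : ℂ) := by
  rw [← algInt_intCast_h7]; exact memLocalRing_of_mem_lead hMtop _

theorem memLocalIdeal_p_h7 (p : ℕ) (M : Ideal Cfsg.AlgInt) (hM : Cfsg.IsPModular p M) :
    Cfsg.MemLocalIdeal M (p : ℂ) := by
  rw [← algInt_natCast_h7]
  exact memLocalIdeal_of_mem_lead hM.2.1.isPrime.ne_top _ hM.2.2

theorem pow_dvd_of_ring_h7 (p : ℕ) [hp : Fact p.Prime] (M : Ideal Cfsg.AlgInt)
    (hM : Cfsg.IsPModular p M) : ∀ (c : ℕ) (N : ℤ) (x : ℂ), Cfsg.MemLocalRing M x →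
    (p : ℂ) ^ c * x = N → (p : ℤ) ^ c ∣ N := by
  have hMprime : M.IsPrime := hM.2.1.isPrime
  have hMtop : M ≠ ⊤ := hMprime.ne_top
  have hp0 : (p : ℂ) ≠ 0 := by exact_mod_cast hp.out.ne_zero
  intro c
  induction c with
  | zero => intro N x _ _; simp
  | succ c ih =>
    intro N x hx h
    have h1 : Cfsg.MemLocalIdeal M (N : ℂ) := by
      have e : (N : ℂ) = ((p : ℂ) ^ c * x) * (p : ℂ) := by rw [← h]; ring
      rw [e]
      have hpR : Cfsg.MemLocalRing M ((p : ℂ) ^ c) := by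
        have := memLocalRing_int_h7 M hMtop ((p : ℤ) ^ c)
        rw [Int.cast_pow, Int.cast_natCast] at this
        exact this
      exact memLocalIdeal_mul_ring_lead hMprime (memLocalRing_mul_lead hMprime hpR hx)
        (memLocalIdeal_p_h7 p M hM)
    obtain ⟨N', rfl⟩ := int_mem_dvd_h7 p M hM N h1
    have h2 : (p : ℂ) ^ c * x = N' := by
      apply mul_left_cancel₀ hp0
      rw [← mul_assoc, ← pow_succ', h, Int.cast_mul, Int.cast_natCast]
    obtain ⟨q, hq⟩ := ih N' x hx h2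
    exact ⟨q, by rw [hq]; ring⟩

theorem key_val_h7 (p : ℕ) [hp : Fact p.Prime] (M : Ideal Cfsg.AlgInt)
    (hM : Cfsg.IsPModular p M) (x : ℂ) (hx : Cfsg.MemLocalRing M x) (D : ℕ) (hD : D ≠ 0)
    (t : ℕ) (ht : Nat.Coprime t p) (N : ℤ) (h : (D : ℂ) * x = (t : ℂ) * (N : ℂ)) :
    (p : ℤ) ^ (D.factorization p) ∣ N ∧
      (Cfsg.MemLocalIdeal M x ↔ (p : ℤ) ^ (D.factorization p + 1) ∣ N) := by
  have hp' := hp.out
  have hMprime : M.IsPrime := hM.2.1.isPrime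
  have hMtop : M ≠ ⊤ := hMprime.ne_top
  have hpM : (p : Cfsg.AlgInt) ∈ M := hM.2.2
  obtain ⟨c, hc⟩ : ∃ c : ℕ, c = D.factorization p := ⟨_, rfl⟩
  rw [← hc]
  obtain ⟨s, hs⟩ : ∃ s : ℕ, s = D / p ^ c := ⟨_, rfl⟩
  have hDs : D = p ^ c * s := by
    rw [hs, hc]; exact (Nat.ordProj_mul_ordCompl_eq_self _ p).symm
  have hscop : Nat.Coprime s p := by
    rw [hs, hc]; exact (Nat.coprime_ordCompl hp' hD).symm
  have hsM : (s : Cfsg.AlgInt) ∉ M := natCast_not_mem_lead hMtop p s hscop hpM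
  have hsR : Cfsg.MemLocalRing M ((s : Cfsg.AlgInt) : ℂ) := memLocalRing_of_mem_lead hMtop _
  have es : ((s : Cfsg.AlgInt) : ℂ) = (s : ℂ) := algInt_natCast_h7 s
  have hs0 : (s : ℂ) ≠ 0 := by
    intro h0
    have : s = 0 := by exact_mod_cast h0
    rw [this, mul_zero] at hDs
    exact hD hDs
  have hp0 : (p : ℂ) ≠ 0 := by exact_mod_cast hp'.ne_zero
  have hpz0 : (p : ℤ) ≠ 0 := by exact_mod_cast hp'.ne_zero
  have h1 : (p : ℂ) ^ c * ((s : ℂ) * x) = ((t * N : ℤ) : ℂ) := by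
    have hDc : (D : ℂ) = (p : ℂ) ^ c * (s : ℂ) := by rw [hDs]; push_cast; ring
    rw [hDc] at h
    push_cast
    linear_combination h
  have hsx : Cfsg.MemLocalRing M ((s : ℂ) * x) := by
    rw [← es]; exact memLocalRing_mul_lead hMprime hsR hx
  have h2 := pow_dvd_of_ring_h7 p M hM c (t * N) _ hsx h1
  have htcop1 : IsCoprime (p : ℤ) (t : ℤ) := Nat.isCoprime_iff_coprime.2 ht.symm
  have hpcN : (p : ℤ) ^ c ∣ N := (htcop1.pow_left).dvd_of_dvd_mul_left h2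
  refine ⟨hpcN, ?_⟩
  obtain ⟨N', hN'⟩ := hpcN
  have h3 : (s : ℂ) * x = ((t * N' : ℤ) : ℂ) := by
    apply mul_left_cancel₀ (pow_ne_zero c hp0)
    rw [h1, hN']; push_cast; ring
  constructor
  · intro hxI
    have h4 : Cfsg.MemLocalIdeal M (((t * N' : ℤ)) : ℂ) := by
      rw [← h3, ← es]; exact memLocalIdeal_mul_ring_lead hMprime hsR hxI
    have h5 := int_mem_dvd_h7 p M hM _ h4
    have h6 : (p : ℤ) ∣ N' := htcop1.dvd_of_dvd_mul_left h5
    obtain ⟨q, hq⟩ := h6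
    exact ⟨q, by rw [hN', hq]; ring⟩
  · rintro ⟨q, hq⟩
    have h6 : N' = p * q := by
      have h7 : (p : ℤ) ^ c * N' = (p : ℤ) ^ c * (p * q) := by rw [← hN', hq]; ring
      exact mul_left_cancel₀ (pow_ne_zero c hpz0) h7
    have h7 : (s : ℂ) * x = ((t * q : ℤ) : ℂ) * (p : ℂ) := by
      rw [h3, h6]; push_cast; ring
    have h8 : Cfsg.MemLocalIdeal M ((s : ℂ) * x) := by
      rw [h7]
      exact memLocalIdeal_mul_ring_lead hMprime (memLocalRing_int_h7 M hMtop _)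
        (memLocalIdeal_p_h7 p M hM)
    have h9 := memLocalIdeal_mul_ring_lead hMprime (memLocalRing_inv_lead hsM) h8
    have e6 : (((s : Cfsg.AlgInt) : ℂ))⁻¹ * ((s : ℂ) * x) = x := by
      rw [es]; field_simp
    rw [e6] at h9
    exact h9

theorem ss7_val [Fintype (ConjClasses G)] (p : ℕ) [hp : Fact p.Prime] (M : Ideal Cfsg.AlgInt)
    (hM : Cfsg.IsPModular p M) (θ φ : Cfsg.IrrCharacter G) :
    (p : ℤ) ^ ((Cfsg.charDegree (φ : G → ℂ)).factorization p) ∣ nn7 p θ φ ∧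
    (Cfsg.MemLocalIdeal M (ss7 p (θ : G → ℂ) (φ : G → ℂ)) ↔
      (p : ℤ) ^ ((Cfsg.charDegree (φ : G → ℂ)).factorization p + 1) ∣ nn7 p θ φ) := by
  have hp' := hp.out
  have hMprime : M.IsPrime := hM.2.1.isPrime
  obtain ⟨hφ1, hφ0⟩ := charDegree_irr φ.2
  have hdvdG : p ^ (Nat.card G).factorization p ∣ Nat.card G := Nat.ordProj_dvd _ _
  obtain ⟨t, ht⟩ := hdvdG
  have hpa0 : p ^ (Nat.card G).factorization p ≠ 0 := (pow_pos hp'.pos _).ne'
  have ht' : t = Nat.card G / p ^ (Nat.card G).factorization p :=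
    (Nat.div_eq_of_eq_mul_right (Nat.pos_of_ne_zero hpa0) ht).symm
  have htcop : Nat.Coprime t p := by
    rw [ht']
    exact (Nat.coprime_ordCompl hp' Nat.card_pos.ne').symm
  apply key_val_h7 p M hM _ (ss7_ring p M hMprime θ φ) _ hφ0 t htcop
  rw [← ss7_eq p θ φ, nn7_spec p θ φ]
  have e : (Nat.card G : ℂ) = ((p ^ (Nat.card G).factorization p : ℕ) : ℂ) * (t : ℂ) := by
    conv_lhs => rw [ht]
    rw [Nat.cast_mul]
  rw [e]; ring

theorem sameBlock_of_mem_h7 (M : Ideal Cfsg.AlgInt) (hMprime : M.IsPrime)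
    (B : Set (Cfsg.IrrCharacter G)) (hB : Cfsg.IsPBlock M B) (θ φ : Cfsg.IrrCharacter G)
    (hθ : θ ∈ B) (hφ : φ ∈ B) : Cfsg.SameBlock M (θ : G → ℂ) (φ : G → ℂ) := by
  obtain ⟨χ₀, hB'⟩ := hB
  rw [hB'] at hθ hφ
  exact sameBlock_trans_lead hMprime (sameBlock_symm_lead hθ) hφ

theorem exists_min_h7 (p : ℕ) (M : Ideal Cfsg.AlgInt) (hMprime : M.IsPrime)
    (B : Set (Cfsg.IrrCharacter G)) (hB : Cfsg.IsPBlock M B) :
    ∃ χ ∈ B, (Cfsg.charDegree (χ : G → ℂ)).factorization p =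
      sInf ((fun ψ : Cfsg.IrrCharacter G => (Cfsg.charDegree (ψ : G → ℂ)).factorization p) '' B) ∧
      ∀ φ ∈ B, (Cfsg.charDegree (χ : G → ℂ)).factorization p ≤
        (Cfsg.charDegree (φ : G → ℂ)).factorization p := by
  have hBne : B.Nonempty := by
    obtain ⟨χ₀, hB'⟩ := hB
    exact ⟨χ₀, by rw [hB']; exact sameBlock_refl_lead hMprime.ne_top _⟩
  obtain ⟨χ, hχ, h⟩ := Nat.sInf_mem (hBne.image
    (fun ψ : Cfsg.IrrCharacter G => (Cfsg.charDegree (ψ : G → ℂ)).factorization p))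
  refine ⟨χ, hχ, h, ?_⟩
  intro φ hφ
  have h1 : (fun ψ : Cfsg.IrrCharacter G => (Cfsg.charDegree (ψ : G → ℂ)).factorization p) χ =
      sInf ((fun ψ : Cfsg.IrrCharacter G =>
        (Cfsg.charDegree (ψ : G → ℂ)).factorization p) '' B) := h
  show (fun ψ : Cfsg.IrrCharacter G => (Cfsg.charDegree (ψ : G → ℂ)).factorization p) χ ≤ _
  rw [h1]
  exact Nat.sInf_le ⟨φ, hφ, rfl⟩

theorem val_of_dvd_h7 (p : ℕ) [hp : Fact p.Prime] (N : ℤ) (v : ℕ) (h1 : (p : ℤ) ^ v ∣ N)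
    (h2 : ¬ (p : ℤ) ^ (v + 1) ∣ N) : N ≠ 0 ∧ padicValInt p N = v := by
  have hN0 : N ≠ 0 := by rintro rfl; exact h2 (dvd_zero _)
  refine ⟨hN0, ?_⟩
  rw [padicValInt_dvd_iff] at h1 h2
  push_neg at h2
  rcases h1 with h | h
  · exact absurd h hN0
  · omega

/-- a character of minimal `p`-part of degree in its block has a unit class sum -/
theorem ss7_unit_of_min [Fintype (ConjClasses G)] (p : ℕ) [hp : Fact p.Prime]
    (M : Ideal Cfsg.AlgInt)
    (hM : Cfsg.IsPModular p M) (B : Set (Cfsg.IrrCharacter G)) (hB : Cfsg.IsPBlock M B)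
    [Fintype (Cfsg.IrrCharacter G)] [DecidablePred (· ∈ B)] (θ : Cfsg.IrrCharacter G)
    (hθ : θ ∈ B)
    (hmin : ∀ φ ∈ B, (Cfsg.charDegree (θ : G → ℂ)).factorization p ≤
        (Cfsg.charDegree (φ : G → ℂ)).factorization p) :
    ¬ Cfsg.MemLocalIdeal M (ss7 p (θ : G → ℂ) (θ : G → ℂ)) := by
  have hMprime : M.IsPrime := hM.2.1.isPrime
  have hp0 : (p : ℂ) ≠ 0 := by exact_mod_cast hp.out.ne_zero
  intro hmem
  have hall : ∀ φ ∈ B, (p : ℤ) ^ ((Cfsg.charDegree (θ : G → ℂ)).factorization p + 1) ∣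
      nn7 p θ φ := by
    intro φ hφ
    have h1 : Cfsg.MemLocalIdeal M (ss7 p (θ : G → ℂ) (φ : G → ℂ)) :=
      (ss7_mem_iff p M hMprime θ θ φ (sameBlock_of_mem_h7 M hMprime B hB θ φ hθ hφ)).1 hmem
    have h3 := ((ss7_val p M hM θ φ).2).1 h1
    exact dvd_trans (pow_dvd_pow _ (by have := hmin φ hφ; omega)) h3
  apply (Cfsg.Agent.S4425.result p θ).2
  choose! q hq using hall
  have hQ0 : ((p ^ ((Cfsg.charDegree (θ : G → ℂ)).factorization p + 1) : ℕ) : ℂ) ≠ 0 := by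
    rw [Nat.cast_pow]; exact pow_ne_zero _ hp0
  have hfun : (fun x : G => if p ∣ orderOf x then (0 : ℂ) else
      ((p ^ (Nat.card G).factorization p : ℕ) : ℂ) /
        ((p ^ ((Cfsg.charDegree (θ : G → ℂ)).factorization p + 1) : ℕ) : ℂ) *
        (θ : G → ℂ) x) =
      ∑ φ : Cfsg.IrrCharacter G, (if φ ∈ B then ((q φ : ℤ) : ℂ) • (φ : G → ℂ) else 0) := by
    funext x
    rw [Finset.sum_apply]
    have hexp := preg_expand_h7 p M hM B hB θ hθ x
    have e1 : (if p ∣ orderOf x then (0 : ℂ) else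
        ((p ^ (Nat.card G).factorization p : ℕ) : ℂ) /
        ((p ^ ((Cfsg.charDegree (θ : G → ℂ)).factorization p + 1) : ℕ) : ℂ) *
        (θ : G → ℂ) x) = ((p ^ (Nat.card G).factorization p : ℕ) : ℂ) /
        ((p ^ ((Cfsg.charDegree (θ : G → ℂ)).factorization p + 1) : ℕ) : ℂ) *
        Cfsg.pRegularPart p (θ : G → ℂ) x := by
      rw [← tw7_pre, tw7_apply]
      by_cases hx : p ∣ orderOf x
      · rw [if_pos hx, if_pos hx, mul_zero]
      · rw [if_neg hx, if_neg hx]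
    rw [e1, ← hexp, Finset.mul_sum]
    apply Finset.sum_congr rfl
    intro φ _
    by_cases hφ : φ ∈ B
    · rw [if_pos hφ, if_pos hφ, Pi.smul_apply, smul_eq_mul, ← tw7_pre]
      have h5 := nn7_spec p θ φ
      rw [hq φ hφ] at h5
      have h5' : ((p ^ ((Cfsg.charDegree (θ : G → ℂ)).factorization p + 1) : ℕ) : ℂ) *
          ((q φ : ℤ) : ℂ) = ((p ^ (Nat.card G).factorization p : ℕ) : ℂ) *
          Cfsg.classInner (tw7 p (θ : G → ℂ)) (φ : G → ℂ) := by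
        rw [← h5]; push_cast; ring
      rw [div_mul_eq_mul_div, div_eq_iff hQ0]
      linear_combination (-((φ : G → ℂ) x)) * h5'
    · rw [if_neg hφ, if_neg hφ, mul_zero, Pi.zero_apply]
  rw [hfun]
  apply isGenChar_sum
  intro φ _
  split_ifs
  · exact isGenChar_zsmul_lead _ (isGenChar_of_char (isCharacter_of_isIrrCharacter φ.2))
  · exact isGenChar_zero

/-- for a base character of minimal degree valuation, all the integers are nonzero with the
expected valuation -/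
theorem nn7_of_min [Fintype (ConjClasses G)] (p : ℕ) [hp : Fact p.Prime]
    (M : Ideal Cfsg.AlgInt)
    (hM : Cfsg.IsPModular p M) (B : Set (Cfsg.IrrCharacter G)) (hB : Cfsg.IsPBlock M B)
    [Fintype (Cfsg.IrrCharacter G)] [DecidablePred (· ∈ B)] (θ : Cfsg.IrrCharacter G)
    (hθ : θ ∈ B)
    (hmin : ∀ φ ∈ B, (Cfsg.charDegree (θ : G → ℂ)).factorization p ≤
        (Cfsg.charDegree (φ : G → ℂ)).factorization p)
    (φ : Cfsg.IrrCharacter G) (hφ : φ ∈ B) :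
    nn7 p θ φ ≠ 0 ∧ padicValInt p (nn7 p θ φ) =
      (Cfsg.charDegree (φ : G → ℂ)).factorization p := by
  have hMprime : M.IsPrime := hM.2.1.isPrime
  have h1 := ss7_unit_of_min p M hM B hB θ hθ hmin
  have h2 : ¬ Cfsg.MemLocalIdeal M (ss7 p (θ : G → ℂ) (φ : G → ℂ)) := fun h =>
    h1 ((ss7_mem_iff p M hMprime θ θ φ (sameBlock_of_mem_h7 M hMprime B hB θ φ hθ hφ)).2 h)
  obtain ⟨h3, h4⟩ := ss7_val p M hM θ φ
  exact val_of_dvd_h7 p _ _ h3 (fun h => h2 (h4.2 h))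

/-- for a base character of non-minimal degree valuation, all the integers are divisible by
one more power of `p` -/
theorem nn7_of_not_min [Fintype (ConjClasses G)] (p : ℕ) [hp : Fact p.Prime]
    (M : Ideal Cfsg.AlgInt)
    (hM : Cfsg.IsPModular p M) (B : Set (Cfsg.IrrCharacter G)) (hB : Cfsg.IsPBlock M B)
    [Fintype (Cfsg.IrrCharacter G)] [DecidablePred (· ∈ B)] (θ χ₀ : Cfsg.IrrCharacter G)
    (hθ : θ ∈ B) (hχ₀ : χ₀ ∈ B)
    (hmin : ∀ φ ∈ B, (Cfsg.charDegree (χ₀ : G → ℂ)).factorization p ≤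
        (Cfsg.charDegree (φ : G → ℂ)).factorization p)
    (hne : (Cfsg.charDegree (θ : G → ℂ)).factorization p ≠
      (Cfsg.charDegree (χ₀ : G → ℂ)).factorization p)
    (φ : Cfsg.IrrCharacter G) (hφ : φ ∈ B) :
    (p : ℤ) ^ ((Cfsg.charDegree (φ : G → ℂ)).factorization p + 1) ∣ nn7 p θ φ := by
  have hMprime : M.IsPrime := hM.2.1.isPrime
  have hmem : Cfsg.MemLocalIdeal M (ss7 p (θ : G → ℂ) (θ : G → ℂ)) := by
    by_contra hnot
    apply hne
    have h2 : ¬ Cfsg.MemLocalIdeal M (ss7 p (θ : G → ℂ) (χ₀ : G → ℂ)) := fun h =>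
      hnot ((ss7_mem_iff p M hMprime θ θ χ₀
        (sameBlock_of_mem_h7 M hMprime B hB θ χ₀ hθ hχ₀)).2 h)
    obtain ⟨h3, h4⟩ := ss7_val p M hM θ χ₀
    have h5 := (val_of_dvd_h7 p _ _ h3 (fun h => h2 (h4.2 h))).2
    have h6 := (nn7_of_min p M hM B hB χ₀ hχ₀ hmin θ hθ).2
    rw [nn7_symm p χ₀ θ, h5] at h6
    exact h6.symm
  have h1 : Cfsg.MemLocalIdeal M (ss7 p (θ : G → ℂ) (φ : G → ℂ)) :=
    (ss7_mem_iff p M hMprime θ θ φ (sameBlock_of_mem_h7 M hMprime B hB θ φ hθ hφ)).1 hmem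
  exact ((ss7_val p M hM θ φ).2).1 h1

theorem sq_ge_of_dvd_h7 (N : ℤ) (hN : N ≠ 0) (P : ℤ) (h : P ∣ N) : P ^ 2 ≤ N ^ 2 := by
  obtain ⟨q, rfl⟩ := h
  have hq : q ≠ 0 := by rintro rfl; exact hN (mul_zero _)
  have h1 : 1 ≤ q ^ 2 := by
    have h2 : q ^ 2 ≠ 0 := pow_ne_zero 2 hq
    have h3 := sq_nonneg q
    omega
  nlinarith [mul_nonneg (sq_nonneg P) (sub_nonneg.2 h1)]

theorem card_block_h7 [Fintype (Cfsg.IrrCharacter G)] (B : Set (Cfsg.IrrCharacter G))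
    [DecidablePred (· ∈ B)] :
    Nat.card B = (Finset.univ.filter (· ∈ B)).card := by
  rw [← Fintype.card_coe, ← Nat.card_eq_fintype_card]
  exact Nat.card_congr (Equiv.subtypeEquivRight (fun x => by simp))

end heights

end Cfsg.Agent.Lib.Helper7
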