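import Mathlib
import Cfsg.Prelude.Def_Blocks
import Cfsg.Prelude.Def_BlockRank
import Cfsg.Agent.Lib.Helper7.Heights
import Cfsg.Agent.Lib.Lead.BlockMinMax
import Cfsg.Agent.Lib.Lead.BlockDefect
import Cfsg.Agent.Lib.Lead.BlockAux2
import Cfsg.Agent.Lib.Lead.BlockOsima2

set_option autoImplicit false
open scoped BigOperators ComplexConjugate

namespace Cfsg.Agent.Lib.Helper7
open Cfsg.Agent.Lib.Lead

universe u

section defectord

variable {G : Type u} [Group G] [Fintype G] [DecidableEq G]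

/-- if the central character is not in the ideal at `g`, the `p`-part of the class size of `g`
divides the degree: valuation form. -/
theorem idx_val_le_h7 (p : ℕ) [hp : Fact p.Prime] (M : Ideal Cfsg.AlgInt)
    (hM : Cfsg.IsPModular p M) (χ₀ : Cfsg.IrrCharacter G) (g : G)
    (hω : ¬ Cfsg.MemLocalIdeal M (Cfsg.centralChar (χ₀ : G → ℂ) g)) :
    ((Subgroup.centralizer ({g} : Set G)).index).factorization p ≤
      (Cfsg.charDegree (χ₀ : G → ℂ)).factorization p := by
  have hp' : p.Prime := hp.out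
  have hMprime : M.IsPrime := hM.2.1.isPrime
  have hMtop : M ≠ ⊤ := hMprime.ne_top
  have hpM : (p : Cfsg.AlgInt) ∈ M := hM.2.2
  obtain ⟨m, hm⟩ : ∃ m : ℕ, m = (Cfsg.charDegree (χ₀ : G → ℂ)).factorization p := ⟨_, rfl⟩
  obtain ⟨hχ₀1, hχ₀0⟩ := charDegree_irr χ₀.2
  have hp0 : (p : ℂ) ≠ 0 := by exact_mod_cast hp'.ne_zero
  obtain ⟨idx, hidx⟩ : ∃ idx : ℕ, idx = (Subgroup.centralizer ({g} : Set G)).index := ⟨_, rfl⟩
  have hidx0 : idx ≠ 0 := by rw [hidx]; exact Subgroup.index_ne_zero_of_finite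
  rw [← hidx, ← hm]
  by_contra hcon
  push_neg at hcon
  apply hω
  have h1 : p ^ (m + 1) ∣ idx := (hp'.pow_dvd_iff_le_factorization hidx0).2 hcon
  obtain ⟨j, hj⟩ := h1
  obtain ⟨s, hs⟩ : ∃ s : ℕ, s = Cfsg.charDegree (χ₀ : G → ℂ) / p ^ m := ⟨_, rfl⟩
  have hDs : Cfsg.charDegree (χ₀ : G → ℂ) = p ^ m * s := by
    rw [hs, hm]; exact (Nat.ordProj_mul_ordCompl_eq_self _ p).symm
  have hscop : Nat.Coprime s p := by
    rw [hs, hm]; exact (Nat.coprime_ordCompl hp' hχ₀0).symm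
  have hsM : (s : Cfsg.AlgInt) ∉ M := natCast_not_mem_lead hMtop p s hscop hpM
  have hs0 : (s : ℂ) ≠ 0 := by
    intro h0
    have : s = 0 := by exact_mod_cast h0
    rw [this, mul_zero] at hDs
    exact hχ₀0 hDs
  have e : Cfsg.centralChar (χ₀ : G → ℂ) g = ((s : Cfsg.AlgInt) : ℂ)⁻¹ *
      (((j : ℂ) * (χ₀ : G → ℂ) g) * (p : ℂ)) := by
    unfold Cfsg.centralChar
    rw [← hidx, hχ₀1, hDs, hj, algInt_natCast_h7]
    push_cast
    first | (field_simp; ring) | field_simp
  rw [e]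
  apply memLocalIdeal_mul_ring_lead hMprime (memLocalRing_inv_lead hsM)
  apply memLocalIdeal_mul_ring_lead hMprime _ (memLocalIdeal_p_h7 p M hM)
  have hjR := memLocalRing_int_h7 M hMtop (j : ℤ)
  rw [Int.cast_natCast] at hjR
  exact memLocalRing_mul_lead hMprime hjR (memLocalRing_isIntegral_lead hMtop
    (isIntegral_isCharacter (isCharacter_of_isIrrCharacter χ₀.2) g))

theorem card_val_split_h7 (p : ℕ) [hp : Fact p.Prime] (g : G) :
    (Nat.card G).factorization p = ((Subgroup.centralizer ({g} : Set G)).index).factorization p +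
      (Nat.card (Subgroup.centralizer ({g} : Set G))).factorization p := by
  have h2 := Subgroup.index_mul_card (Subgroup.centralizer ({g} : Set G))
  have hC0 : Nat.card (Subgroup.centralizer ({g} : Set G)) ≠ 0 := Nat.card_pos.ne'
  rw [← h2, Nat.factorization_mul Subgroup.index_ne_zero_of_finite hC0]; rfl

/-- (P1) a class on which a central character of the block is a unit has defect at least the
defect of the block -/
theorem defect_le_of_unit_h7 (p : ℕ) [hp : Fact p.Prime] (M : Ideal Cfsg.AlgInt)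
    (hM : Cfsg.IsPModular p M) (B : Set (Cfsg.IrrCharacter G)) (hB : Cfsg.IsPBlock M B)
    (φ : Cfsg.IrrCharacter G) (hφ : φ ∈ B) (g : G)
    (hg : ¬ Cfsg.MemLocalIdeal M (Cfsg.centralChar (φ : G → ℂ) g)) :
    Cfsg.blockDefect p B ≤ (Nat.card (Subgroup.centralizer ({g} : Set G))).factorization p := by
  have hMprime : M.IsPrime := hM.2.1.isPrime
  obtain ⟨χ₀, hχ₀B, hχ₀inf, hmin⟩ := exists_min_h7 p M hMprime B hB
  have hω : ¬ Cfsg.MemLocalIdeal M (Cfsg.centralChar (χ₀ : G → ℂ) g) := by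
    intro h
    apply hg
    have h1 := memLocalIdeal_add_lead hMprime
      (sameBlock_of_mem_h7 M hMprime B hB φ χ₀ hφ hχ₀B g) h
    rw [sub_add_cancel] at h1
    exact h1
  have h1 := idx_val_le_h7 p M hM χ₀ g hω
  have h2 := card_val_split_h7 p g
  unfold Cfsg.blockDefect
  rw [← hχ₀inf]
  omega

/-- (P4) the block idempotent vanishes at `p`-singular elements -/
theorem blockCoeff_singular_h7 [Fintype (Cfsg.IrrCharacter G)] (p : ℕ) [hp : Fact p.Prime]
    (M : Ideal Cfsg.AlgInt) (hM : Cfsg.IsPModular p M) (B : Set (Cfsg.IrrCharacter G))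
    (hB : Cfsg.IsPBlock M B) [DecidablePred (· ∈ B)] (y : G) (hy : p ∣ orderOf y) :
    Cfsg.blockCoeff B y = 0 := by
  rw [blockCoeff_eq_sum_lead B y]
  have h1 := wbo_h7 p M hM B hB 1 y⁻¹
    (by rw [orderOf_one, Nat.dvd_one]; exact hp.out.one_lt.ne') (by rw [orderOf_inv]; exact hy)
  have h2 : ∑ φ : Cfsg.IrrCharacter G,
      (if φ ∈ B then (φ : G → ℂ) 1 * conj ((φ : G → ℂ) y) else 0) = 0 := by
    refine Eq.trans ?_ h1
    apply Finset.sum_congr rfl
    intro φ _
    by_cases hφ : φ ∈ B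
    · rw [if_pos hφ, if_pos hφ]
      obtain ⟨n, ρ, hρ, hρφ⟩ := φ.2
      rw [← hρφ, char_inv ρ y]
    · rw [if_neg hφ, if_neg hφ]
  rw [h2, mul_zero]

/-- (P2) min-max in terms of orders -/
theorem minmax_orders_h7 (p : ℕ) [hp : Fact p.Prime] (M : Ideal Cfsg.AlgInt)
    (hM : Cfsg.IsPModular p M) (χ₀ : Cfsg.IrrCharacter G) (k z : G)
    (hk : ¬ Cfsg.MemLocalIdeal M (Cfsg.centralChar (χ₀ : G → ℂ) k))
    (hz : ¬ Cfsg.MemLocalIdeal M (Cfsg.blockCoeff (Cfsg.blockOf M (χ₀ : G → ℂ)) z)) :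
    (Nat.card (Subgroup.centralizer ({z} : Set G))).factorization p ≤
      (Nat.card (Subgroup.centralizer ({k} : Set G))).factorization p := by
  have hp' := hp.out
  have hMprime : M.IsPrime := hM.2.1.isPrime
  obtain ⟨Q⟩ : Nonempty (Sylow p (Subgroup.centralizer ({z} : Set G))) := inferInstance
  have hP : IsPGroup p ((Q : Subgroup (Subgroup.centralizer ({z} : Set G))).map
      (Subgroup.centralizer ({z} : Set G)).subtype) := Q.isPGroup'.map _
  obtain ⟨x, hxk, hx⟩ := minmax_key_lead p hp' M hMprime hM.2.2 χ₀ k z hk hz _ hP (by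
    rintro d ⟨d', hd', rfl⟩
    have h1 := d'.2
    rw [Subgroup.mem_centralizer_iff] at h1
    exact (h1 z rfl).symm)
  have hle : (Q : Subgroup (Subgroup.centralizer ({z} : Set G))).map
      (Subgroup.centralizer ({z} : Set G)).subtype ≤ Subgroup.centralizer ({x} : Set G) := by
    intro d hd
    rw [Subgroup.mem_centralizer_iff]
    intro h hh
    rw [Set.mem_singleton_iff] at hh
    subst hh
    have h1 := hx d hd
    calc h * d = (d * h * d⁻¹) * d := by rw [h1]
      _ = d * h := by group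
  have hcardP : Nat.card ((Q : Subgroup (Subgroup.centralizer ({z} : Set G))).map
      (Subgroup.centralizer ({z} : Set G)).subtype) =
      p ^ (Nat.card (Subgroup.centralizer ({z} : Set G))).factorization p := by
    rw [Subgroup.card_map_of_injective (Subgroup.subtype_injective _)]
    exact Sylow.card_eq_multiplicity Q
  have hdvd : p ^ (Nat.card (Subgroup.centralizer ({z} : Set G))).factorization p ∣
      Nat.card (Subgroup.centralizer ({x} : Set G)) := by
    rw [← hcardP]; exact Subgroup.card_dvd_of_le hle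
  obtain ⟨c, hc⟩ := isConj_iff.1 hxk
  have hidx := centralizer_index_conj_lead x c
  rw [hc] at hidx
  have h1 := Subgroup.index_mul_card (Subgroup.centralizer ({x} : Set G))
  have h2 := Subgroup.index_mul_card (Subgroup.centralizer ({k} : Set G))
  have hcard : Nat.card (Subgroup.centralizer ({x} : Set G)) =
      Nat.card (Subgroup.centralizer ({k} : Set G)) := by
    have h3 : (Subgroup.centralizer ({x} : Set G)).index *
        Nat.card (Subgroup.centralizer ({x} : Set G)) =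
        (Subgroup.centralizer ({x} : Set G)).index *
        Nat.card (Subgroup.centralizer ({k} : Set G)) := by rw [h1, ← hidx, h2]
    exact Nat.eq_of_mul_eq_mul_left (Nat.pos_of_ne_zero Subgroup.index_ne_zero_of_finite) h3
  rw [hcard] at hdvd
  exact (hp'.pow_dvd_iff_le_factorization Nat.card_pos.ne').1 hdvd

theorem centralizer_inv_h7 (x : G) :
    Subgroup.centralizer ({x⁻¹} : Set G) = Subgroup.centralizer ({x} : Set G) := by
  ext d
  rw [Subgroup.mem_centralizer_iff, Subgroup.mem_centralizer_iff]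
  constructor
  · intro h y hy
    rw [Set.mem_singleton_iff] at hy
    subst hy
    have h1 : Commute y⁻¹ d := h y⁻¹ rfl
    exact (Commute.inv_left_iff.1 h1)
  · intro h y hy
    rw [Set.mem_singleton_iff] at hy
    subst hy
    have h1 : Commute x d := h x rfl
    exact (Commute.inv_left_iff.2 h1)

/-- there is a `p`-regular class of defect exactly the block defect on which the central
character is a unit -/
theorem exists_exact_class_h7 [Fintype (ConjClasses G)] [Fintype (Cfsg.IrrCharacter G)]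
    (p : ℕ) [hp : Fact p.Prime] (M : Ideal Cfsg.AlgInt)
    (hM : Cfsg.IsPModular p M) (B : Set (Cfsg.IrrCharacter G)) (hB : Cfsg.IsPBlock M B)
    [DecidablePred (· ∈ B)] (χ₀ : Cfsg.IrrCharacter G) (hχ₀B : χ₀ ∈ B)
    (hmin : ∀ φ ∈ B, (Cfsg.charDegree (χ₀ : G → ℂ)).factorization p ≤
        (Cfsg.charDegree (φ : G → ℂ)).factorization p) :
    ∃ x : G, ¬ p ∣ orderOf x ∧ ¬ Cfsg.MemLocalIdeal M (Cfsg.centralChar (χ₀ : G → ℂ) x) ∧
      (Nat.card (Subgroup.centralizer ({x} : Set G))).factorization p = Cfsg.blockDefect p B := by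
  have hp' : p.Prime := hp.out
  have hMprime : M.IsPrime := hM.2.1.isPrime
  have hMtop : M ≠ ⊤ := hMprime.ne_top
  have hpM : (p : Cfsg.AlgInt) ∈ M := hM.2.2
  have hunit := ss7_unit_of_min p M hM B hB χ₀ hχ₀B hmin
  have hex : ∃ c : ConjClasses G, ¬ Cfsg.MemLocalIdeal M
      (tw7 p (χ₀ : G → ℂ) (Quotient.out c)⁻¹ *
        Cfsg.centralChar (χ₀ : G → ℂ) (Quotient.out c)) := by
    by_contra hcon
    push_neg at hcon
    apply hunit
    unfold ss7
    exact memLocalIdeal_sum_lead hMprime _ _ (fun c _ => hcon c)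
  obtain ⟨c, hc⟩ := hex
  obtain ⟨x, hxdef⟩ : ∃ x : G, x = Quotient.out c := ⟨_, rfl⟩
  rw [← hxdef] at hc
  have hωR : Cfsg.MemLocalRing M (Cfsg.centralChar (χ₀ : G → ℂ) x) :=
    memLocalRing_isIntegral_lead hMtop (isIntegral_centralChar_lead χ₀ x)
  have htw : ¬ Cfsg.MemLocalIdeal M (tw7 p (χ₀ : G → ℂ) x⁻¹) := by
    intro h
    apply hc
    have h1 := memLocalIdeal_mul_ring_lead hMprime hωR h
    rw [mul_comm] at h1
    exact h1
  have hω : ¬ Cfsg.MemLocalIdeal M (Cfsg.centralChar (χ₀ : G → ℂ) x) := by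
    intro h
    exact hc (memLocalIdeal_mul_ring_lead hMprime (tw7_ring p M hMtop χ₀ _) h)
  have hreg : ¬ p ∣ orderOf x := by
    intro h
    apply htw
    rw [tw7_apply, if_pos (by rw [orderOf_inv]; exact h)]
    exact memLocalIdeal_zero_lead hMtop
  have hχx : ¬ Cfsg.MemLocalIdeal M ((χ₀ : G → ℂ) x⁻¹) := by
    rw [tw7_apply, if_neg (by rw [orderOf_inv]; exact hreg)] at htw
    exact htw
  refine ⟨x, hreg, hω, ?_⟩
  obtain ⟨χ₁, hχ₁B, hχ₁inf, -⟩ := exists_min_h7 p M hMprime B hB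
  have hinf : (Cfsg.charDegree (χ₀ : G → ℂ)).factorization p =
      sInf ((fun ψ : Cfsg.IrrCharacter G => (Cfsg.charDegree (ψ : G → ℂ)).factorization p) '' B) := by
    apply le_antisymm
    · rw [← hχ₁inf]; exact hmin χ₁ hχ₁B
    · exact Nat.sInf_le ⟨χ₀, hχ₀B, rfl⟩
  have h1 := idx_val_le_h7 p M hM χ₀ x hω
  have h2 := card_val_split_h7 p x
  have hma := val_le_h7 p χ₀
  -- the reverse inequality
  have h3 : (Cfsg.charDegree (χ₀ : G → ℂ)).factorization p ≤
      ((Subgroup.centralizer ({x} : Set G)).index).factorization p := by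
    obtain ⟨m, hm⟩ : ∃ m : ℕ, m = (Cfsg.charDegree (χ₀ : G → ℂ)).factorization p := ⟨_, rfl⟩
    obtain ⟨hχ₀1, hχ₀0⟩ := charDegree_irr χ₀.2
    have hp0 : (p : ℂ) ≠ 0 := by exact_mod_cast hp'.ne_zero
    obtain ⟨idx, hidx⟩ : ∃ idx : ℕ, idx = (Subgroup.centralizer ({x} : Set G)).index := ⟨_, rfl⟩
    have hidx0 : idx ≠ 0 := by rw [hidx]; exact Subgroup.index_ne_zero_of_finite
    rw [← hidx, ← hm]
    by_contra hcon
    push_neg at hcon
    apply hχx
    obtain ⟨v, hv⟩ : ∃ v : ℕ, v = idx.factorization p := ⟨_, rfl⟩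
    rw [← hv] at hcon
    obtain ⟨j, hj⟩ : ∃ j : ℕ, j = idx / p ^ v := ⟨_, rfl⟩
    have hidxj : idx = p ^ v * j := by
      rw [hj, hv]; exact (Nat.ordProj_mul_ordCompl_eq_self _ p).symm
    have hjcop : Nat.Coprime j p := by
      rw [hj, hv]; exact (Nat.coprime_ordCompl hp' hidx0).symm
    have hjM : (j : Cfsg.AlgInt) ∉ M := natCast_not_mem_lead hMtop p j hjcop hpM
    have hj0 : (j : ℂ) ≠ 0 := by
      intro h0
      have : j = 0 := by exact_mod_cast h0
      rw [this, mul_zero] at hidxj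
      exact hidx0 hidxj
    obtain ⟨s, hs⟩ : ∃ s : ℕ, s = Cfsg.charDegree (χ₀ : G → ℂ) / p ^ m := ⟨_, rfl⟩
    have hDs : Cfsg.charDegree (χ₀ : G → ℂ) = p ^ m * s := by
      rw [hs, hm]; exact (Nat.ordProj_mul_ordCompl_eq_self _ p).symm
    have hs0 : (s : ℂ) ≠ 0 := by
      intro h0
      have : s = 0 := by exact_mod_cast h0
      rw [this, mul_zero] at hDs
      exact hχ₀0 hDs
    obtain ⟨r, hr⟩ : ∃ r : ℕ, m = v + 1 + r := ⟨m - v - 1, by omega⟩
    obtain ⟨W, hW⟩ : ∃ W : ℂ, W = Cfsg.centralChar (χ₀ : G → ℂ) x⁻¹ := ⟨_, rfl⟩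
    have hWR : Cfsg.MemLocalRing M W := by
      rw [hW]
      exact memLocalRing_isIntegral_lead hMtop (isIntegral_centralChar_lead χ₀ x⁻¹)
    have hWeq : W = (idx : ℂ) * (χ₀ : G → ℂ) x⁻¹ / (χ₀ : G → ℂ) 1 := by
      rw [hW]
      unfold Cfsg.centralChar
      rw [centralizer_inv_h7, ← hidx]
    have e : (χ₀ : G → ℂ) x⁻¹ = ((j : Cfsg.AlgInt) : ℂ)⁻¹ *
        ((W * (s : ℂ) * (p : ℂ) ^ r) * (p : ℂ)) := by
      rw [hWeq, hχ₀1, hDs, hidxj, hr, algInt_natCast_h7]
      push_cast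
      first | (field_simp; ring) | field_simp
    rw [e]
    apply memLocalIdeal_mul_ring_lead hMprime (memLocalRing_inv_lead hjM)
    apply memLocalIdeal_mul_ring_lead hMprime _ (memLocalIdeal_p_h7 p M hM)
    have hsR := memLocalRing_int_h7 M hMtop (s : ℤ)
    rw [Int.cast_natCast] at hsR
    have hpR := memLocalRing_int_h7 M hMtop ((p : ℤ) ^ r)
    rw [Int.cast_pow, Int.cast_natCast] at hpR
    exact memLocalRing_mul_lead hMprime (memLocalRing_mul_lead hMprime hWR hsR) hpR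
  unfold Cfsg.blockDefect
  rw [← hinf]
  omega

theorem blockOf_eq_h7 (M : Ideal Cfsg.AlgInt) (hMprime : M.IsPrime)
    (B : Set (Cfsg.IrrCharacter G)) (hB : Cfsg.IsPBlock M B) (χ : Cfsg.IrrCharacter G)
    (hχ : χ ∈ B) : B = Cfsg.blockOf M (χ : G → ℂ) := by
  ext ψ
  constructor
  · intro hψ
    exact sameBlock_of_mem_h7 M hMprime B hB χ ψ hχ hψ
  · intro hψ
    obtain ⟨χ₀, hB'⟩ := hB
    rw [hB'] at hχ ⊢
    exact sameBlock_trans_lead hMprime hχ hψ

/-- (P3) the centralizer of a defect class has `p`-part `p ^ blockDefect` -/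
theorem defectClass_ord_h7 [Fintype (ConjClasses G)] [Fintype (Cfsg.IrrCharacter G)]
    (p : ℕ) [hp : Fact p.Prime] (M : Ideal Cfsg.AlgInt)
    (hM : Cfsg.IsPModular p M) (B : Set (Cfsg.IrrCharacter G)) (hB : Cfsg.IsPBlock M B)
    [DecidablePred (· ∈ B)] (g₀ : G) (hg₀ : Cfsg.IsDefectClass M B g₀) :
    (Nat.card (Subgroup.centralizer ({g₀} : Set G))).factorization p = Cfsg.blockDefect p B := by
  have hMprime : M.IsPrime := hM.2.1.isPrime
  obtain ⟨χ₀, hχ₀B, hχ₀inf, hmin⟩ := exists_min_h7 p M hMprime B hB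
  apply le_antisymm
  · obtain ⟨x, -, hxω, hxd⟩ := exists_exact_class_h7 p M hM B hB χ₀ hχ₀B hmin
    have hB' := blockOf_eq_h7 M hMprime B hB χ₀ hχ₀B
    have hz : ¬ Cfsg.MemLocalIdeal M (Cfsg.blockCoeff (Cfsg.blockOf M (χ₀ : G → ℂ)) g₀) := by
      rw [← hB']; exact hg₀.2.1
    have h1 := minmax_orders_h7 p M hM χ₀ x g₀ hxω hz
    rw [hxd] at h1; exact h1
  · exact defect_le_of_unit_h7 p M hM B hB χ₀ hχ₀B g₀ (hg₀.2.2 χ₀ hχ₀B)

/-- the class-sum form of the action of the block idempotent -/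
theorem blockCoeff_class_sum_h7 [Fintype (ConjClasses G)] (B : Set (Cfsg.IrrCharacter G))
    [DecidablePred (· ∈ B)] (η : Cfsg.IrrCharacter G) :
    ∑ c : ConjClasses G, Cfsg.blockCoeff B (Quotient.out c) *
      Cfsg.centralChar (η : G → ℂ) (Quotient.out c) = if η ∈ B then 1 else 0 := by
  obtain ⟨hη1, hη0⟩ := charDegree_irr η.2
  have hη0' : (η : G → ℂ) 1 ≠ 0 := by rw [hη1]; exact_mod_cast hη0
  have h1 := blockCoeff_sum_lead B η
  rw [sum_classFun_regroup_lead (fun g => Cfsg.blockCoeff B g * (η : G → ℂ) g) (fun g h => by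
    show Cfsg.blockCoeff B (h * g * h⁻¹) * (η : G → ℂ) (h * g * h⁻¹) =
      Cfsg.blockCoeff B g * (η : G → ℂ) g
    rw [blockCoeff_classFun_lead, isClassFunction_of_irr η.2 g h])] at h1
  have h2 : (η : G → ℂ) 1 * ∑ c : ConjClasses G, Cfsg.blockCoeff B (Quotient.out c) *
      Cfsg.centralChar (η : G → ℂ) (Quotient.out c) = if η ∈ B then (η : G → ℂ) 1 else 0 := by
    rw [← h1, Finset.mul_sum]
    apply Finset.sum_congr rfl
    intro c _
    unfold Cfsg.centralChar
    field_simp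
  by_cases hη : η ∈ B
  · rw [if_pos hη] at h2 ⊢
    exact mul_left_cancel₀ hη0' (h2.trans (mul_one _).symm)
  · rw [if_neg hη] at h2 ⊢
    exact (mul_eq_zero.1 h2).resolve_left hη0'

/-- (L) a class on which `a_B * ω_ψ` is a unit is `p`-regular with defect between the defects of
the block of `ψ` and of `B` -/
theorem term_unit_h7 [Fintype (ConjClasses G)] [Fintype (Cfsg.IrrCharacter G)]
    (p : ℕ) [hp : Fact p.Prime] (M : Ideal Cfsg.AlgInt)
    (hM : Cfsg.IsPModular p M) (χ ψ : Cfsg.IrrCharacter G) (x : G)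
    (h : ¬ Cfsg.MemLocalIdeal M (Cfsg.blockCoeff (Cfsg.blockOf M (χ : G → ℂ)) x *
      Cfsg.centralChar (ψ : G → ℂ) x)) :
    ¬ p ∣ orderOf x ∧
    (Nat.card (Subgroup.centralizer ({x} : Set G))).factorization p ≤
      Cfsg.blockDefect p (Cfsg.blockOf M (χ : G → ℂ)) ∧
    Cfsg.blockDefect p (Cfsg.blockOf M (ψ : G → ℂ)) ≤
      (Nat.card (Subgroup.centralizer ({x} : Set G))).factorization p := by
  classical
  have hp' : p.Prime := hp.out
  have hMprime : M.IsPrime := hM.2.1.isPrime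
  have hMtop : M ≠ ⊤ := hMprime.ne_top
  have hpM : (p : Cfsg.AlgInt) ∈ M := hM.2.2
  have hAR := osima_lead p hp' M hMprime hpM χ x
  have hωR : Cfsg.MemLocalRing M (Cfsg.centralChar (ψ : G → ℂ) x) :=
    memLocalRing_isIntegral_lead hMtop (isIntegral_centralChar_lead ψ x)
  have hA : ¬ Cfsg.MemLocalIdeal M (Cfsg.blockCoeff (Cfsg.blockOf M (χ : G → ℂ)) x) := by
    intro h1
    apply h
    have h2 := memLocalIdeal_mul_ring_lead hMprime hωR h1
    rw [mul_comm] at h2
    exact h2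
  have hω : ¬ Cfsg.MemLocalIdeal M (Cfsg.centralChar (ψ : G → ℂ) x) := fun h1 =>
    h (memLocalIdeal_mul_ring_lead hMprime hAR h1)
  have hBχ : Cfsg.IsPBlock M (Cfsg.blockOf M (χ : G → ℂ)) := ⟨χ, rfl⟩
  have hBψ : Cfsg.IsPBlock M (Cfsg.blockOf M (ψ : G → ℂ)) := ⟨ψ, rfl⟩
  refine ⟨?_, ?_, ?_⟩
  · intro hsing
    apply hA
    rw [blockCoeff_singular_h7 p M hM _ hBχ x hsing]
    exact memLocalIdeal_zero_lead hMtop
  · obtain ⟨g₀, hg₀⟩ := exists_defectClass_lead p hp' M hMprime hpM χ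
    have h1 := minmax_orders_h7 p M hM χ g₀ x
      (hg₀.2.2 χ (sameBlock_refl_lead hMtop _)) hA
    rw [defectClass_ord_h7 p M hM _ hBχ g₀ hg₀] at h1
    exact h1
  · exact defect_le_of_unit_h7 p M hM _ hBψ ψ (sameBlock_refl_lead hMtop _) x hω

end defectord

end Cfsg.Agent.Lib.Helper7
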