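import Mathlib
import Cfsg.Prelude.Def_Blocks
import Cfsg.Agent.Lib.Lead.BlockAux
import Cfsg.Agent.Lib.Lead.BrauerR2
import Cfsg.Agent.Lib.Lead.CharInt
import Cfsg.Agent.Lib.Lead.CharBasic
import Cfsg.Agent.Lib.Lead.CharBurnside

set_option autoImplicit false
open scoped BigOperators

namespace Cfsg.Agent.Lib.Helper7
open Cfsg.Agent.Lib.Lead

section conv

variable {G : Type*} [Group G] [Fintype G] [DecidableEq G]

/-- The element `∑ a(x) f(x)` attached to integer coefficients `a` and a monoid hom `f`. -/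
def opZ {S : Type*} [Ring S] (f : G →* S) (a : G → ℤ) : S := ∑ x : G, (a x : S) * f x

/-- Convolution of integer valued functions on a group. -/
def convZ (a b : G → ℤ) : G → ℤ := fun h => ∑ x : G, a x * b (x⁻¹ * h)

/-- Convolution powers. -/
def powZ (a : G → ℤ) : ℕ → G → ℤ
  | 0 => fun h => if h = 1 then 1 else 0
  | (N + 1) => convZ a (powZ a N)

theorem opZ_mul {S : Type*} [Ring S] (f : G →* S) (a b : G → ℤ) :
    opZ f a * opZ f b = opZ f (convZ a b) := by
  unfold opZ convZ
  rw [Finset.sum_mul]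
  have h1 : ∀ x : G, (a x : S) * f x * ∑ y : G, (b y : S) * f y =
      ∑ h : G, ((a x * b (x⁻¹ * h) : ℤ) : S) * f h := by
    intro x
    rw [Finset.mul_sum, ← Equiv.sum_comp (Equiv.mulLeft x⁻¹)]
    apply Finset.sum_congr rfl
    intro h _
    show (a x : S) * f x * ((b (x⁻¹ * h) : S) * f (x⁻¹ * h)) = ((a x * b (x⁻¹ * h) : ℤ) : S) * f h
    have e : f x * f (x⁻¹ * h) = f h := by rw [← map_mul, mul_inv_cancel_left]
    rw [Int.cast_mul, mul_assoc, ← mul_assoc (f x), ← Int.cast_comm, mul_assoc, e, mul_assoc]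
  rw [Finset.sum_congr rfl (fun x _ => h1 x), Finset.sum_comm]
  apply Finset.sum_congr rfl
  intro h _
  rw [Int.cast_sum, Finset.sum_mul]

theorem opZ_pow {S : Type*} [Ring S] (f : G →* S) (a : G → ℤ) (N : ℕ) :
    opZ f a ^ N = opZ f (powZ a N) := by
  induction N with
  | zero =>
    rw [pow_zero]
    unfold opZ
    show (1 : S) = ∑ x : G, (((if x = 1 then 1 else 0 : ℤ)) : S) * f x
    rw [Finset.sum_eq_single (1 : G)]
    · simp
    · intro x _ hx
      rw [if_neg hx]; simp
    · intro h; exact absurd (Finset.mem_univ _) h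
  | succ N ih =>
    rw [pow_succ', ih, opZ_mul]
    rfl

theorem opZ_comm {S : Type*} [Ring S] (f : G →* S) (a : G → ℤ)
    (hcl : ∀ x h : G, a (h * x * h⁻¹) = a x) (h : G) :
    opZ f a * f h = f h * opZ f a := by
  unfold opZ
  rw [Finset.sum_mul, Finset.mul_sum, ← Equiv.sum_comp (MulAut.conj h).toEquiv]
  apply Finset.sum_congr rfl
  intro y _
  show (a (h * y * h⁻¹) : S) * f (h * y * h⁻¹) * f h = f h * ((a y : S) * f y)
  have e : f (h * y * h⁻¹) * f h = f h * f y := by
    rw [← map_mul, ← map_mul]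
    congr 1
    group
  rw [hcl y h, mul_assoc, e, ← mul_assoc (f h), ← Int.cast_comm, mul_assoc]

/-- The left regular representation on functions with values in `ZMod p`. -/
def lamZ (p : ℕ) : G →* Module.End (ZMod p) (G → ZMod p) where
  toFun g := LinearMap.funLeft (ZMod p) (ZMod p) (fun h => g⁻¹ * h)
  map_one' := by
    apply LinearMap.ext
    intro v
    funext h
    show v ((1 : G)⁻¹ * h) = v h
    rw [inv_one, one_mul]
  map_mul' := by
    intro g₁ g₂
    apply LinearMap.ext
    intro v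
    funext h
    show v ((g₁ * g₂)⁻¹ * h) = v (g₂⁻¹ * (g₁⁻¹ * h))
    rw [mul_inv_rev, mul_assoc]

theorem lamZ_apply (p : ℕ) (g : G) (v : G → ZMod p) (h : G) : lamZ p g v h = v (g⁻¹ * h) := rfl

theorem opZ_lamZ_apply (p : ℕ) (c : G → ℤ) (v : G → ZMod p) (h : G) :
    opZ (lamZ p) c v h = ∑ x : G, (c x : ZMod p) * v (x⁻¹ * h) := by
  unfold opZ
  rw [LinearMap.sum_apply, Finset.sum_apply]
  apply Finset.sum_congr rfl
  intro x _
  rw [Module.End.mul_apply, Module.End.intCast_apply]
  show (c x • lamZ p x v) h = _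
  rw [Pi.smul_apply, lamZ_apply, zsmul_eq_mul]

theorem dvd_of_opZ_lamZ_eq_zero (p : ℕ) (c : G → ℤ) (h0 : opZ (lamZ p) c = 0) (h : G) :
    (p : ℤ) ∣ c h := by
  have h1 := opZ_lamZ_apply p c (Pi.single 1 1) h
  rw [h0] at h1
  rw [Finset.sum_eq_single h] at h1
  · rw [inv_mul_cancel, Pi.single_eq_same, mul_one] at h1
    exact (ZMod.intCast_zmod_eq_zero_iff_dvd (c h) p).1 h1.symm
  · intro x _ hx
    have : x⁻¹ * h ≠ 1 := by
      intro hh
      apply hx
      have := inv_mul_eq_one.1 hh
      exact this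
    rw [Pi.single_eq_of_ne this, mul_zero]
  · intro hh; exact absurd (Finset.mem_univ _) hh

end conv

section nilp

variable {G : Type*} [Group G] [Fintype G] [DecidableEq G]

open Classical in
/-- A sum over a set permuted without fixed points by a `p`-group, of a function constant on
orbits with values in a group of exponent `p`, vanishes. -/
theorem orbit_sum_zero (p : ℕ) [Fact p.Prime] {L : Type*} [AddCommGroup L]
    (hpL : ∀ v : L, p • v = 0) (Q : Subgroup G) (hQ : IsPGroup p Q) (F : G → L) (K : Finset G)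
    (hK : ∀ u ∈ Q, ∀ y ∈ K, u * y * u⁻¹ ∈ K)
    (hF : ∀ u ∈ Q, ∀ y ∈ K, F (u * y * u⁻¹) = F y)
    (hfix : ∀ y ∈ K, ∃ u ∈ Q, u * y * u⁻¹ ≠ y) : ∑ y ∈ K, F y = 0 := by
  have h1 : ∑ y ∈ K, F y = ∑ v ∈ K.image F, (K.filter (fun y => F y = v)).card • v :=
    Finset.sum_comp (fun v : L => v) F
  rw [h1]
  apply Finset.sum_eq_zero
  intro v _
  have hdvd : p ∣ (K.filter (fun y => F y = v)).card := by
    letI : MulAction Q {y : G // y ∈ K ∧ F y = v} :=
      { smul := fun d y => ⟨(d : G) * y.1 * (d : G)⁻¹, hK d.1 d.2 y.1 y.2.1, by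
          rw [hF d.1 d.2 y.1 y.2.1]; exact y.2.2⟩
        one_smul := fun y => Subtype.ext (by
          show ((1 : Q) : G) * y.1 * ((1 : Q) : G)⁻¹ = y.1
          rw [Subgroup.coe_one, one_mul, inv_one, mul_one])
        mul_smul := fun d₁ d₂ y => Subtype.ext (by
          show ((d₁ * d₂ : Q) : G) * y.1 * ((d₁ * d₂ : Q) : G)⁻¹ =
            (d₁ : G) * ((d₂ : G) * y.1 * (d₂ : G)⁻¹) * (d₁ : G)⁻¹
          rw [Subgroup.coe_mul, mul_inv_rev]
          group) }
    have hmod := hQ.card_modEq_card_fixedPoints {y : G // y ∈ K ∧ F y = v}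
    have hempty : IsEmpty (MulAction.fixedPoints Q {y : G // y ∈ K ∧ F y = v}) := by
      constructor
      rintro ⟨y, hy⟩
      obtain ⟨d, hd, hne⟩ := hfix y.1 y.2.1
      apply hne
      have h3 := MulAction.mem_fixedPoints.mp hy ⟨d, hd⟩
      exact congrArg Subtype.val h3
    haveI := hempty
    have h0 : Nat.card (MulAction.fixedPoints Q {y : G // y ∈ K ∧ F y = v}) = 0 :=
      Nat.card_of_isEmpty
    rw [h0] at hmod
    have h2 : Nat.card {y : G // y ∈ K ∧ F y = v} = (K.filter (fun y => F y = v)).card := by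
      rw [Nat.card_eq_fintype_card, Fintype.card_subtype]
      congr 1
      ext y
      simp
    rw [← h2]
    exact (Nat.modEq_zero_iff_dvd).mp hmod
  obtain ⟨m, hm⟩ := hdvd
  rw [hm, mul_comm, mul_smul, hpL, smul_zero]

/-- The action of a subgroup on a submodule of the regular module stable under it. -/
def subAct {p : ℕ} (Q : Subgroup G) (E : Submodule (ZMod p) (G → ZMod p))
    (hE : ∀ u ∈ Q, ∀ w ∈ E, lamZ p u w ∈ E) : MulAction Q E where
  smul u w := ⟨lamZ p (u : G) w.1, hE u.1 u.2 w.1 w.2⟩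
  one_smul w := Subtype.ext (by
    show lamZ p ((1 : Q) : G) w.1 = w.1
    rw [Subgroup.coe_one, map_one]; rfl)
  mul_smul u₁ u₂ w := Subtype.ext (by
    show lamZ p ((u₁ * u₂ : Q) : G) w.1 = lamZ p (u₁ : G) (lamZ p (u₂ : G) w.1)
    rw [Subgroup.coe_mul, map_mul]; rfl)

/-- A central element of the integral group ring that kills the fixed vectors of a normal
`p`-subgroup acts nilpotently on the regular module over `ZMod p`. -/
theorem nilp_reg (p : ℕ) [Fact p.Prime] (Q : Subgroup G) (hQ : IsPGroup p Q) (a : G → ℤ)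
    (hcl : ∀ x h : G, a (h * x * h⁻¹) = a x)
    (hkill : ∀ w : G → ZMod p, (∀ u ∈ Q, lamZ p u w = w) → opZ (lamZ p) a w = 0) :
    ∃ N : ℕ, opZ (lamZ p) a ^ N = 0 := by
  classical
  have hp : p.Prime := Fact.out
  haveI : NeZero p := ⟨hp.ne_zero⟩
  obtain ⟨T, hT⟩ : ∃ T : Module.End (ZMod p) (G → ZMod p), T = opZ (lamZ p) a := ⟨_, rfl⟩
  rw [← hT]
  haveI : Finite (Module.End (ZMod p) (G → ZMod p)) :=
    Finite.of_injective (fun f : Module.End (ZMod p) (G → ZMod p) =>
      (f : (G → ZMod p) → (G → ZMod p))) DFunLike.coe_injective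
  obtain ⟨i₀, j₀, hij₀, hpow₀⟩ := Finite.exists_ne_map_eq_of_infinite (fun n : ℕ => T ^ n)
  obtain ⟨i, j, hlt, hpow⟩ : ∃ i j : ℕ, i < j ∧ T ^ i = T ^ j := by
    rcases lt_or_gt_of_ne hij₀ with h | h
    · exact ⟨i₀, j₀, h, hpow₀⟩
    · exact ⟨j₀, i₀, h, hpow₀.symm⟩
  refine ⟨i, ?_⟩
  by_contra hne
  have hcomm : ∀ h : G, Commute T (lamZ p h) := by
    intro h
    rw [hT]
    exact opZ_comm (lamZ p) a hcl h
  have hcommi : ∀ (h : G) (v : G → ZMod p), lamZ p h ((T ^ i) v) = (T ^ i) (lamZ p h v) := by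
    intro h v
    have h1 : T ^ i * lamZ p h = lamZ p h * T ^ i := ((hcomm h).pow_left i)
    have h2 := congrArg (fun f : Module.End (ZMod p) (G → ZMod p) => f v) h1
    exact h2.symm
  obtain ⟨E, hEdef⟩ : ∃ E : Submodule (ZMod p) (G → ZMod p), E = LinearMap.range (T ^ i) :=
    ⟨_, rfl⟩
  have hEmem : ∀ w : G → ZMod p, w ∈ E ↔ ∃ v, (T ^ i) v = w := by
    intro w; rw [hEdef]; exact LinearMap.mem_range
  have hEst : ∀ u ∈ Q, ∀ w ∈ E, lamZ p u w ∈ E := by
    intro u _ w hw
    obtain ⟨v, rfl⟩ := (hEmem w).1 hw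
    rw [hEmem]
    exact ⟨lamZ p u v, (hcommi u v).symm⟩
  letI : MulAction Q E := subAct Q E hEst
  have hmod := hQ.card_modEq_card_fixedPoints E
  -- p divides the order of E
  have hpE : p ∣ Nat.card E := by
    have hex : ∃ v : G → ZMod p, (T ^ i) v ≠ 0 := by
      by_contra hcon
      apply hne
      apply LinearMap.ext
      intro v
      by_contra hv
      exact hcon ⟨v, hv⟩
    obtain ⟨v, hv⟩ := hex
    have hw0 : (⟨(T ^ i) v, (hEmem _).2 ⟨v, rfl⟩⟩ : E) ≠ 0 := by
      intro h
      apply hv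
      exact congrArg Subtype.val h
    have hord : addOrderOf (⟨(T ^ i) v, (hEmem _).2 ⟨v, rfl⟩⟩ : E) = p := by
      apply addOrderOf_eq_prime _ hw0
      apply Subtype.ext
      show p • (T ^ i) v = 0
      funext h
      rw [Pi.smul_apply, nsmul_eq_mul, ZMod.natCast_self, zero_mul]; rfl
    have hdv := addOrderOf_dvd_natCard (⟨(T ^ i) v, (hEmem _).2 ⟨v, rfl⟩⟩ : E)
    exact (dvd_of_eq hord.symm).trans hdv
  have hpF : p ∣ Nat.card (MulAction.fixedPoints Q E) :=
    (Nat.modEq_zero_iff_dvd).1 ((hmod.symm).trans ((Nat.modEq_zero_iff_dvd).2 hpE))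
  have h0fix : (0 : E) ∈ MulAction.fixedPoints Q E := by
    rw [MulAction.mem_fixedPoints]
    intro u
    apply Subtype.ext
    show lamZ p (u : G) (0 : G → ZMod p) = 0
    exact map_zero _
  have hcardF : 1 < Nat.card (MulAction.fixedPoints Q E) := by
    have hpos : 0 < Nat.card (MulAction.fixedPoints Q E) := by
      haveI : Nonempty (MulAction.fixedPoints Q E) := ⟨⟨0, h0fix⟩⟩
      exact Nat.card_pos
    have := Nat.le_of_dvd hpos hpF
    exact lt_of_lt_of_le hp.one_lt this
  haveI := (Finite.one_lt_card_iff_nontrivial).1 hcardF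
  obtain ⟨w, hw⟩ := exists_ne (⟨0, h0fix⟩ : MulAction.fixedPoints Q E)
  have hw0 : (w.1 : G → ZMod p) ≠ 0 := by
    intro h
    apply hw
    apply Subtype.ext
    apply Subtype.ext
    exact h
  have hwfix : ∀ u ∈ Q, lamZ p u (w.1 : G → ZMod p) = (w.1 : G → ZMod p) := by
    intro u hu
    have h3 := MulAction.mem_fixedPoints.mp w.2 ⟨u, hu⟩
    exact congrArg Subtype.val h3
  have hTw : T (w.1 : G → ZMod p) = 0 := by
    rw [hT]
    exact hkill _ hwfix
  obtain ⟨v, hv⟩ := (hEmem _).1 w.1.2
  apply hw0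
  obtain ⟨d, hd⟩ : ∃ d : ℕ, j = d + 1 + i := ⟨j - i - 1, by omega⟩
  have h5 : (T ^ j) v = 0 := by
    rw [hd, pow_add, pow_succ, Module.End.mul_apply, Module.End.mul_apply, hv, hTw, map_zero]
  rw [← hv, hpow]
  exact h5

end nilp

section main

variable {G : Type*} [Group G] [Fintype G] [DecidableEq G]

/-- If the convolution power `a^{*N}` is divisible by `p`, the scalar by which the central element
`∑ a(x) x` acts in an irreducible representation lies in the local ideal. -/
theorem central_val_mem (p : ℕ) (M : Ideal Cfsg.AlgInt) (hMprime : M.IsPrime)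
    (hpM : (p : Cfsg.AlgInt) ∈ M) {n : ℕ} (ρ : Representation ℂ G (Fin n → ℂ)) [ρ.IsIrreducible]
    (a : G → ℤ) (hcl : ∀ x h : G, a (h * x * h⁻¹) = a x) (N : ℕ)
    (hN : ∀ h : G, (p : ℤ) ∣ powZ a N h) :
    Cfsg.MemLocalIdeal M ((∑ x : G, (a x : ℂ) * ρ.character x) / (n : ℂ)) := by
  haveI := nontrivial_of_irr ρ
  have hMtop := hMprime.ne_top
  obtain ⟨T, hT⟩ : ∃ T : Module.End ℂ (Fin n → ℂ), T = opZ ρ a := ⟨_, rfl⟩
  have hcommT : ∀ g, T ∘ₗ ρ g = ρ g ∘ₗ T := by
    intro g; rw [hT]; exact opZ_comm ρ a hcl g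
  have hsc := schur_scalar ρ T hcommT
  have hcast : ∀ (z : ℤ) (f : Module.End ℂ (Fin n → ℂ)),
      (z : Module.End ℂ (Fin n → ℂ)) * f = (z : ℂ) • f := by
    intro z f
    rw [← zsmul_eq_mul]
    exact (Int.cast_smul_eq_zsmul ℂ z f).symm
  have htr : LinearMap.trace ℂ (Fin n → ℂ) T = ∑ x : G, (a x : ℂ) * ρ.character x := by
    rw [hT]; unfold opZ
    rw [map_sum]
    apply Finset.sum_congr rfl
    intro x _
    rw [hcast, map_smul, smul_eq_mul]; rfl
  rw [Module.finrank_fin_fun] at hsc
  obtain ⟨ω, hω⟩ : ∃ ω : ℂ, ω = (∑ x : G, (a x : ℂ) * ρ.character x) / (n : ℂ) := ⟨_, rfl⟩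
  rw [htr, ← hω] at hsc
  rw [← hω]
  have hspanT : ∀ c : G → ℤ, opZ ρ c ∈ Submodule.span (integralClosure ℤ ℂ) (Set.range ρ) := by
    intro c; unfold opZ
    apply Submodule.sum_mem
    intro x _
    have e : ((c x : Module.End ℂ (Fin n → ℂ)) * ρ x) =
        (⟨(c x : ℂ), isIntegral_intCast_complex (c x)⟩ : integralClosure ℤ ℂ) • ρ x := by
      rw [hcast]; rfl
    rw [e]
    exact Submodule.smul_mem _ _ (Submodule.subset_span ⟨x, rfl⟩)
  have hωint : IsIntegral ℤ ω := by
    apply isIntegral_scalar_of_mem_span ρ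
    rw [← hsc, hT]; exact hspanT a
  have hpowT : T ^ N = opZ ρ (powZ a N) := by rw [hT]; exact opZ_pow ρ a N
  choose c' hc' using hN
  by_cases hp0 : (p : ℂ) = 0
  · -- degenerate: p = 0 as a complex number means p = 0; then M contains 0 only trivially
    have hp0' : p = 0 := by exact_mod_cast hp0
    -- powZ a N h = 0 for all h, so T^N = 0 and ω^N = 0
    have h1 : T ^ N = 0 := by
      rw [hpowT]; unfold opZ
      apply Finset.sum_eq_zero
      intro x _
      rw [hc' x, hp0']; simp
    have h2 : T ^ N = (ω ^ N) • (1 : Module.End ℂ (Fin n → ℂ)) := by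
      rw [hsc]
      show (ω • (1 : Module.End ℂ (Fin n → ℂ))) ^ N = _
      rw [smul_pow, one_pow]
    rw [h1] at h2
    have h3 : ω ^ N = 0 := by
      by_contra hne
      have h4 := congrArg (fun f : Module.End ℂ (Fin n → ℂ) => (ω ^ N)⁻¹ • f) h2
      simp only [smul_zero, smul_smul, inv_mul_cancel₀ hne, one_smul] at h4
      obtain ⟨v, hv⟩ := exists_ne (0 : Fin n → ℂ)
      have h5 := congrArg (fun f : Module.End ℂ (Fin n → ℂ) => f v) h4
      simp at h5
      exact hv h5.symm
    have h4 : ω = 0 := by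
      by_contra hne; exact pow_ne_zero N hne h3
    rw [h4]
    exact memLocalIdeal_of_mem_lead hMtop 0 M.zero_mem
  have hb : IsIntegral ℤ (ω ^ N / (p : ℂ)) := by
    apply isIntegral_scalar_of_mem_span ρ
    have h1 : opZ ρ (powZ a N) = (p : ℂ) • opZ ρ c' := by
      unfold opZ
      rw [Finset.smul_sum]
      apply Finset.sum_congr rfl
      intro x _
      rw [hc' x, hcast, hcast, smul_smul]
      push_cast
      rfl
    have h2 : T ^ N = (ω ^ N) • (1 : Module.End ℂ (Fin n → ℂ)) := by
      rw [hsc]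
      show (ω • (1 : Module.End ℂ (Fin n → ℂ))) ^ N = _
      rw [smul_pow, one_pow]
    have e : (ω ^ N / (p : ℂ)) • (LinearMap.id : (Fin n → ℂ) →ₗ[ℂ] (Fin n → ℂ)) = opZ ρ c' := by
      have h3 : (ω ^ N) • (1 : Module.End ℂ (Fin n → ℂ)) = (p : ℂ) • opZ ρ c' := by
        rw [← h2, hpowT, h1]
      have h4 := congrArg (fun f : Module.End ℂ (Fin n → ℂ) => (p : ℂ)⁻¹ • f) h3
      simp only [smul_smul, inv_mul_cancel₀ hp0, one_smul] at h4
      rw [← h4, div_eq_inv_mul]
      rfl
    rw [e]; exact hspanT c'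
  have hmem : (⟨ω, hωint⟩ : Cfsg.AlgInt) ^ N ∈ M := by
    have e : (⟨ω, hωint⟩ : Cfsg.AlgInt) ^ N = (p : Cfsg.AlgInt) * ⟨ω ^ N / p, hb⟩ := by
      apply Subtype.ext
      show ω ^ N = (p : ℂ) * (ω ^ N / p)
      field_simp
    rw [e]; exact M.mul_mem_right _ hpM
  have h5 := hMprime.mem_of_pow_mem N hmem
  exact memLocalIdeal_of_mem_lead hMtop _ h5

end main

section main2

variable {G : Type*} [Group G] [Fintype G] [DecidableEq G]

/-- If a normal `p`-subgroup `Q` contains its centralizer, every irreducible character lies in the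
principal `p`-block. -/
theorem principal_of_constrained (p : ℕ) [Fact p.Prime] (M : Ideal Cfsg.AlgInt)
    (hM : Cfsg.IsPModular p M) (Q : Subgroup G) [hQn : Q.Normal] (hQ : IsPGroup p Q)
    (hC : Subgroup.centralizer (Q : Set G) ≤ Q) (χ : Cfsg.IrrCharacter G) :
    Cfsg.SameBlock M (fun _ : G => (1 : ℂ)) (χ : G → ℂ) := by
  classical
  obtain ⟨hp, hMmax, hpM⟩ := hM
  have hMprime : M.IsPrime := hMmax.isPrime
  have hMtop : M ≠ ⊤ := hMprime.ne_top
  obtain ⟨n, ρ, hρ, hρχ⟩ := χ.2
  haveI := hρ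
  obtain ⟨n₁, ρ₁, hρ₁, hρ₁χ⟩ := isIrrCharacter_one G
  haveI := hρ₁
  have hn : (χ : G → ℂ) 1 = n := by
    rw [← hρχ, Representation.char_one, Module.finrank_fin_fun]
  have hn₁ : (n₁ : ℂ) = 1 := by
    have h := congrFun hρ₁χ 1
    rw [Representation.char_one, Module.finrank_fin_fun] at h
    exact h
  have hn0 : (n : ℂ) ≠ 0 := by
    have h := (finrank_pos_of_irr ρ).ne'
    rw [Module.finrank_fin_fun] at h
    exact_mod_cast h
  have hclχ : ∀ x h : G, ρ.character (h * x * h⁻¹) = ρ.character x :=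
    fun x h => Representation.char_conj ρ x h
  intro g
  obtain ⟨K, hK⟩ : ∃ K : Finset G, K = Finset.univ.filter (fun x => IsConj x g) := ⟨_, rfl⟩
  have hKmem : ∀ x, x ∈ K ↔ IsConj x g := by intro x; rw [hK]; simp
  have hKcard : K.card = (Subgroup.centralizer ({g} : Set G)).index := by
    rw [hK, ← card_class_eq_index, Nat.card_eq_fintype_card, Fintype.card_subtype]
  have hKconj : ∀ x h : G, (h * x * h⁻¹ ∈ K ↔ x ∈ K) := by
    intro x h
    rw [hKmem, hKmem]
    have hc0 : IsConj x (h * x * h⁻¹) := isConj_iff.2 ⟨h, rfl⟩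
    constructor
    · intro hc; exact hc0.trans hc
    · intro hc; exact hc0.symm.trans hc
  have hχK : ∀ x ∈ K, ρ.character x = ρ.character g := by
    intro x hx
    obtain ⟨c, hc⟩ := isConj_iff.1 ((hKmem x).1 hx)
    rw [← hc, hclχ]
  have hCn : (Subgroup.centralizer (Q : Set G)).Normal := Subgroup.normal_centralizer
  unfold Cfsg.centralChar
  rw [hn, ← hKcard]
  by_cases hg : g ∈ Subgroup.centralizer (Q : Set G)
  · -- the class lies in `Z(Q)`
    obtain ⟨a, ha⟩ : ∃ a : G → ℤ, a = fun x =>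
        (if x ∈ K then (1 : ℤ) else 0) - (if x = 1 then (K.card : ℤ) else 0) := ⟨_, rfl⟩
    have hcl : ∀ x h : G, a (h * x * h⁻¹) = a x := by
      intro x h
      rw [ha]
      show (if h * x * h⁻¹ ∈ K then (1 : ℤ) else 0) - (if h * x * h⁻¹ = 1 then (K.card : ℤ) else 0)
        = (if x ∈ K then (1 : ℤ) else 0) - (if x = 1 then (K.card : ℤ) else 0)
      have e1 : (h * x * h⁻¹ ∈ K) = (x ∈ K) := propext (hKconj x h)
      have e2 : (h * x * h⁻¹ = 1) = (x = 1) := by
        apply propext
        constructor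
        · intro hh
          have : x = h⁻¹ * (h * x * h⁻¹) * h := by group
          rw [this, hh]; group
        · intro hh; rw [hh]; group
      simp only [e1, e2]
    have hKQ : ∀ x ∈ K, x ∈ Q := by
      intro x hx
      obtain ⟨c, hc⟩ := isConj_iff.1 ((hKmem x).1 hx).symm
      rw [← hc]
      exact hC (hCn.conj_mem g hg c)
    have hkill : ∀ w : G → ZMod p, (∀ u ∈ Q, lamZ p u w = w) → opZ (lamZ p) a w = 0 := by
      intro w hw
      funext h
      rw [opZ_lamZ_apply]
      have h1 : ∀ x ∈ (Finset.univ : Finset G), (a x : ZMod p) * w (x⁻¹ * h) = (a x : ZMod p) * w h := by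
        intro x _
        by_cases hxK : x ∈ K
        · have h2 := congrFun (hw x (hKQ x hxK)) h
          rw [lamZ_apply] at h2
          rw [h2]
        · by_cases hx1 : x = 1
          · rw [hx1, inv_one, one_mul]
          · have h0 : a x = 0 := by
              rw [ha]
              show (if x ∈ K then (1 : ℤ) else 0) - (if x = 1 then (K.card : ℤ) else 0) = 0
              rw [if_neg hxK, if_neg hx1, sub_zero]
            rw [h0]; simp
      rw [Finset.sum_congr rfl h1, ← Finset.sum_mul]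
      have h3 : ∑ x : G, (a x : ZMod p) = 0 := by
        rw [← Int.cast_sum]
        have h4 : ∑ x : G, a x = 0 := by
          rw [ha]
          show ∑ x : G, ((if x ∈ K then (1 : ℤ) else 0) - (if x = 1 then (K.card : ℤ) else 0)) = 0
          rw [Finset.sum_sub_distrib, Finset.sum_ite_eq' Finset.univ (1 : G), if_pos (Finset.mem_univ _),
            Finset.sum_boole]
          simp
        rw [h4]; simp
      rw [h3, zero_mul]; rfl
    obtain ⟨N, hN⟩ := nilp_reg p Q hQ a hcl hkill
    have hdiv : ∀ h, (p : ℤ) ∣ powZ a N h := by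
      intro h
      apply dvd_of_opZ_lamZ_eq_zero p
      rw [← opZ_pow]; exact hN
    have h1 := central_val_mem p M hMprime hpM ρ a hcl N hdiv
    have hsum : ∑ x : G, (a x : ℂ) * ρ.character x =
        (K.card : ℂ) * ρ.character g - (K.card : ℂ) * (n : ℂ) := by
      rw [ha]
      have e : ∀ x ∈ (Finset.univ : Finset G),
          ((((if x ∈ K then (1 : ℤ) else 0) - (if x = 1 then (K.card : ℤ) else 0) : ℤ)) : ℂ) * ρ.character x
          = (if x ∈ K then ρ.character g else 0) - (if x = 1 then (K.card : ℂ) * (n : ℂ) else 0) := by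
        intro x _
        by_cases hxK : x ∈ K
        · by_cases hx1 : x = 1
          · rw [if_pos hxK, if_pos hx1, if_pos hxK, if_pos hx1]
            push_cast
            rw [hχK x hxK]
            have : ρ.character g = (n : ℂ) := by
              rw [← hχK x hxK, hx1, Representation.char_one, Module.finrank_fin_fun]
            rw [this]; ring
          · rw [if_pos hxK, if_neg hx1, if_pos hxK, if_neg hx1]
            push_cast
            rw [hχK x hxK]; ring
        · by_cases hx1 : x = 1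
          · rw [if_neg hxK, if_pos hx1, if_neg hxK, if_pos hx1]
            push_cast
            rw [hx1, Representation.char_one, Module.finrank_fin_fun]; ring
          · rw [if_neg hxK, if_neg hx1, if_neg hxK, if_neg hx1]
            push_cast; ring
      rw [Finset.sum_congr rfl e, Finset.sum_sub_distrib, Finset.sum_ite_eq' Finset.univ (1 : G),
        if_pos (Finset.mem_univ _), Finset.sum_ite_mem, Finset.univ_inter, Finset.sum_const,
        nsmul_eq_mul]
    rw [hsum] at h1
    have h2 := memLocalIdeal_neg_lead h1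
    rw [← hρχ]
    convert h2 using 1
    field_simp
    ring
  · -- the class avoids `C_G(Q)`
    obtain ⟨a, ha⟩ : ∃ a : G → ℤ, a = fun x => (if x ∈ K then (1 : ℤ) else 0) := ⟨_, rfl⟩
    have hcl : ∀ x h : G, a (h * x * h⁻¹) = a x := by
      intro x h
      rw [ha]
      show (if h * x * h⁻¹ ∈ K then (1 : ℤ) else 0) = (if x ∈ K then (1 : ℤ) else 0)
      have e1 : (h * x * h⁻¹ ∈ K) = (x ∈ K) := propext (hKconj x h)
      simp only [e1]
    have hpL : ∀ v : G → ZMod p, p • v = 0 := by
      intro v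
      funext h
      rw [Pi.smul_apply, nsmul_eq_mul, ZMod.natCast_self, zero_mul]; rfl
    have hkill : ∀ w : G → ZMod p, (∀ u ∈ Q, lamZ p u w = w) → opZ (lamZ p) a w = 0 := by
      intro w hw
      have h1 : opZ (lamZ p) a w = ∑ y ∈ K, lamZ p y w := by
        unfold opZ
        rw [LinearMap.sum_apply, ← Finset.sum_filter_add_sum_filter_not Finset.univ (fun x => x ∈ K)]
        have e1 : ∑ x ∈ Finset.univ.filter (fun x => ¬ x ∈ K),
            (((a x : Module.End (ZMod p) (G → ZMod p))) * lamZ p x) w = 0 := by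
          apply Finset.sum_eq_zero
          intro x hx
          have hxK : x ∉ K := (Finset.mem_filter.1 hx).2
          have h0 : a x = 0 := by
            rw [ha]; show (if x ∈ K then (1 : ℤ) else 0) = 0
            rw [if_neg hxK]
          rw [h0]; simp
        rw [e1, add_zero]
        have e2 : Finset.univ.filter (fun x => x ∈ K) = K := by
          ext x; simp
        rw [e2]
        apply Finset.sum_congr rfl
        intro x hx
        have h1 : a x = 1 := by
          rw [ha]; show (if x ∈ K then (1 : ℤ) else 0) = 1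
          rw [if_pos hx]
        rw [h1]; simp
      rw [h1]
      have hyfix : ∀ y : G, ∀ u ∈ Q, lamZ p u (lamZ p y w) = lamZ p y w := by
        intro y u hu
        have e : u * y = y * (y⁻¹ * u * y) := by group
        have h2 : lamZ p (u * y) w = lamZ p (y * (y⁻¹ * u * y)) w := by rw [← e]
        rw [map_mul, map_mul] at h2
        have h3 : lamZ p (y⁻¹ * u * y) w = w := hw _ (hQn.conj_mem' u hu y)
        rw [Module.End.mul_apply, Module.End.mul_apply, h3] at h2
        exact h2
      apply orbit_sum_zero p hpL Q hQ (fun y => lamZ p y w) K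
      · intro u _ y hy
        exact (hKconj y u).2 hy
      · intro u hu y _
        show lamZ p (u * y * u⁻¹) w = lamZ p y w
        rw [map_mul, map_mul, Module.End.mul_apply, Module.End.mul_apply, hw u⁻¹ (Q.inv_mem hu)]
        exact hyfix y u hu
      · intro y hy
        by_contra hcon
        apply hg
        have hyC : y ∈ Subgroup.centralizer (Q : Set G) := by
          rw [Subgroup.mem_centralizer_iff]
          intro u hu
          by_contra hne
          apply hcon
          refine ⟨u, hu, ?_⟩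
          intro h
          apply hne
          have : u * y = y * u := by
            have h' := congrArg (fun t => t * u) h
            simp only [inv_mul_cancel_right] at h'
            exact h'
          exact this
        obtain ⟨c, hc⟩ := isConj_iff.1 ((hKmem y).1 hy)
        rw [← hc]
        exact hCn.conj_mem y hyC c
    obtain ⟨N, hN⟩ := nilp_reg p Q hQ a hcl hkill
    have hdiv : ∀ h, (p : ℤ) ∣ powZ a N h := by
      intro h
      apply dvd_of_opZ_lamZ_eq_zero p
      rw [← opZ_pow]; exact hN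
    have h1 := central_val_mem p M hMprime hpM ρ a hcl N hdiv
    have h1' := central_val_mem p M hMprime hpM ρ₁ a hcl N hdiv
    have hsum : ∀ (m : ℕ) (σ : Representation ℂ G (Fin m → ℂ)),
        ∑ x : G, (a x : ℂ) * σ.character x = (K.card : ℂ) * σ.character g := by
      intro m σ
      rw [ha]
      have e : ∀ x ∈ (Finset.univ : Finset G),
          (((if x ∈ K then (1 : ℤ) else 0 : ℤ)) : ℂ) * σ.character x
          = (if x ∈ K then σ.character g else 0) := by
        intro x _
        by_cases hxK : x ∈ K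
        · rw [if_pos hxK, if_pos hxK]
          obtain ⟨c, hc⟩ := isConj_iff.1 ((hKmem x).1 hxK)
          rw [← hc, Representation.char_conj]; simp
        · rw [if_neg hxK, if_neg hxK]; simp
      rw [Finset.sum_congr rfl e, Finset.sum_ite_mem, Finset.univ_inter, Finset.sum_const,
        nsmul_eq_mul]
    rw [hsum] at h1 h1'
    rw [hρ₁χ, hn₁] at h1'
    rw [← hρχ]
    have h3 := memLocalIdeal_sub_lead hMprime h1' h1
    convert h3 using 1

end main2

end Cfsg.Agent.Lib.Helper7
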