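import Mathlib
import Cfsg.Prelude.Def_Blocks
import Cfsg.Prelude.Def_Local
import Cfsg.Agent.Lib.Helper7.OneBlock
import Cfsg.Agent.Lib.Helper4.PCore
import Cfsg.Agent.Lib.Helper3.PPrimeCore
import Cfsg.Agent.Lib.Helper2.PComp
import Cfsg.Agent.Lib.Helper8.CharQuotient
import Cfsg.Agent.Lib.Lead.CharQuot
import Cfsg.Agent.S0967
import Cfsg.Agent.S4218

set_option autoImplicit false
open scoped BigOperators

namespace Cfsg.Agent.Lib.Helper7
open Cfsg.Agent.Lib.Lead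

universe u

/-- Inflation from a quotient preserves the relation "same block". -/
theorem sameBlock_infl {G : Type*} [Group G] [Finite G] {M : Ideal Cfsg.AlgInt}
    (N : Subgroup G) [N.Normal] (φ ψ : G ⧸ N → ℂ) (h : Cfsg.SameBlock M φ ψ) :
    Cfsg.SameBlock M (φ ∘ QuotientGroup.mk' N) (ψ ∘ QuotientGroup.mk' N) := by
  intro g
  have hdvd : (Subgroup.centralizer ({(QuotientGroup.mk' N g)} : Set (G ⧸ N))).index ∣
      (Subgroup.centralizer ({g} : Set G)).index := by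
    have h1 : (Subgroup.centralizer ({g} : Set G)).map (QuotientGroup.mk' N) ≤
        Subgroup.centralizer ({(QuotientGroup.mk' N g)} : Set (G ⧸ N)) := by
      rintro _ ⟨c, hc, rfl⟩
      have hc' : c ∈ Subgroup.centralizer ({g} : Set G) := hc
      clear hc
      rw [Subgroup.mem_centralizer_iff] at hc' ⊢
      have hc := hc'
      intro y hy
      rw [Set.mem_singleton_iff] at hy
      rw [hy]
      have h2 := hc g (Set.mem_singleton g)
      rw [← map_mul, ← map_mul, h2]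
    exact (Subgroup.index_dvd_of_le h1).trans
      (Subgroup.index_map_dvd _ (QuotientGroup.mk'_surjective N))
  obtain ⟨r, hr⟩ := hdvd
  have h2 := memLocalIdeal_smul_lead (r : Cfsg.AlgInt) (h (QuotientGroup.mk' N g))
  convert h2 using 1
  unfold Cfsg.centralChar
  simp only [Function.comp_apply, map_one]
  rw [hr]
  push_cast
  ring

/-- Fong: in a `p`-solvable group every irreducible character with `O_{p'}(G)` in its kernel lies
in the principal `p`-block. -/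
theorem fong_mem {G : Type u} [Group G] [Finite G] (p : ℕ) [Fact p.Prime] (M : Ideal Cfsg.AlgInt)
    (hM : Cfsg.IsPModular p M) (hsolv : Cfsg.IsPSolvable p G) (χ : Cfsg.IrrCharacter G)
    (hker : ∀ n ∈ Cfsg.pPrimeCore p G, (χ : G → ℂ) n = (χ : G → ℂ) 1) :
    χ ∈ Cfsg.principalBlock M G := by
  classical
  haveI : Fintype G := Fintype.ofFinite G
  haveI hNn : (Cfsg.pPrimeCore p G).Normal := Cfsg.Agent.Lib.Helper3.pPrimeCore_normal p G
  obtain ⟨φ, hφ, hχφ⟩ := Cfsg.Agent.Lib.Helper8.irr_deflate (Cfsg.pPrimeCore p G) χ.2 hker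
  haveI : Fintype (G ⧸ Cfsg.pPrimeCore p G) := Fintype.ofFinite _
  have hps : Cfsg.IsPSolvable p (G ⧸ Cfsg.pPrimeCore p G) :=
    Cfsg.Agent.S4218.isPSolvable_quotient _ hsolv
  have hO : Cfsg.pPrimeCore p (G ⧸ Cfsg.pPrimeCore p G) = ⊥ :=
    Cfsg.Agent.Lib.Helper2.pPrimeCore_quotient_eq_bot p G
  have hC := Cfsg.Agent.S4218.hh123 hps hO
  haveI := Cfsg.Agent.Lib.Helper4.pCore_normal p (G ⧸ Cfsg.pPrimeCore p G)
  have hQ := Cfsg.Agent.Lib.Helper4.pCore_isPGroup p (G ⧸ Cfsg.pPrimeCore p G)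
  have h1 := principal_of_constrained p M hM (Cfsg.pCore p (G ⧸ Cfsg.pPrimeCore p G)) hQ hC ⟨φ, hφ⟩
  have h2 := sameBlock_infl (Cfsg.pPrimeCore p G) _ _ h1
  show Cfsg.SameBlock M (fun _ : G => (1 : ℂ)) (χ : G → ℂ)
  rw [hχφ]
  exact h2

/-- Characters of the principal `p`-block have `O_{p'}(G)` in their kernel. -/
theorem fong_ker {G : Type*} [Group G] [Finite G] (p : ℕ) [Fact p.Prime] (M : Ideal Cfsg.AlgInt)
    (hM : Cfsg.IsPModular p M) (χ : Cfsg.IrrCharacter G) (hχ : χ ∈ Cfsg.principalBlock M G) :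
    ∀ n ∈ Cfsg.pPrimeCore p G, (χ : G → ℂ) n = (χ : G → ℂ) 1 := by
  haveI hNn : (Cfsg.pPrimeCore p G).Normal := Cfsg.Agent.Lib.Helper3.pPrimeCore_normal p G
  have hp : p.Prime := Fact.out
  have hcop := Cfsg.Agent.Lib.Helper3.pPrimeCore_coprime hp G
  have hN : ¬ p ∣ Nat.card (Cfsg.pPrimeCore p G) := by
    intro h
    have := (Nat.Prime.coprime_iff_not_dvd hp).1 hcop.symm
    exact this h
  obtain ⟨ψ', hψ', -⟩ := Cfsg.Agent.S0967.result p M hM (Cfsg.pPrimeCore p G) hN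
    ⟨fun _ => 1, isIrrCharacter_one _⟩ χ hχ
  intro n hn
  rw [hψ']
  show (ψ' : G ⧸ Cfsg.pPrimeCore p G → ℂ) (QuotientGroup.mk n) =
    (ψ' : G ⧸ Cfsg.pPrimeCore p G → ℂ) (QuotientGroup.mk 1)
  have e : (QuotientGroup.mk n : G ⧸ Cfsg.pPrimeCore p G) = QuotientGroup.mk 1 := by
    rw [QuotientGroup.mk_one]
    exact (QuotientGroup.eq_one_iff n).2 hn
  rw [e]

end Cfsg.Agent.Lib.Helper7
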