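import Mathlib
import Cfsg.Prelude.Def_Characters
import Cfsg.Prelude.Def_CharExt
import Cfsg.Agent.Lib.Helper7.GlaubSolv
import Cfsg.Agent.Lib.Helper7.DetChar
import Cfsg.Agent.Lib.Helper7.CharExt
import Cfsg.Agent.S0867

set_option autoImplicit false

universe u

namespace Cfsg.Agent.Lib.Helper7

open Cfsg.Agent.Lib.Lead
open scoped ComplexConjugate

/-! ### field endomorphisms of the complex numbers acting on roots of unity -/

/-- a copy of the complex numbers, used to carry a second algebra structure -/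
def Ccopy : Type := ℂ

noncomputable instance : Field Ccopy := inferInstanceAs (Field ℂ)
instance : IsAlgClosed Ccopy := inferInstanceAs (IsAlgClosed ℂ)

theorem ring_hom_extend {K : Type} [Field K] (φ : K →+* ℂ) (σ : K →+* K) :
    ∃ τ : ℂ →+* ℂ, ∀ x : K, τ (φ x) = φ (σ x) := by
  classical
  letI : Algebra K ℂ := φ.toAlgebra
  obtain ⟨ι, v, hv⟩ := exists_isTranscendenceBasis' K ℂ
  have halg : Algebra.IsAlgebraic (Algebra.adjoin K (Set.range v)) ℂ := hv.isAlgebraic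
  let e := hv.1.aevalEquiv
  let g0 : MvPolynomial ι K →+* ℂ :=
    (MvPolynomial.aeval v : MvPolynomial ι K →ₐ[K] ℂ).toRingHom.comp (MvPolynomial.map σ)
  have hg0 : Function.Injective g0 := by
    have h1 : Function.Injective (MvPolynomial.aeval v : MvPolynomial ι K →ₐ[K] ℂ) :=
      algebraicIndependent_iff_injective_aeval.1 hv.1
    have h2 : Function.Injective (MvPolynomial.map σ : MvPolynomial ι K →+* MvPolynomial ι K) :=
      MvPolynomial.map_injective σ σ.injective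
    exact h1.comp h2
  let g : (Algebra.adjoin K (Set.range v)) →+* Ccopy := g0.comp e.symm.toRingEquiv.toRingHom
  have hg : Function.Injective g := hg0.comp e.symm.injective
  letI : Algebra (Algebra.adjoin K (Set.range v)) Ccopy := g.toAlgebra
  haveI : FaithfulSMul (Algebra.adjoin K (Set.range v)) Ccopy :=
    (faithfulSMul_iff_algebraMap_injective _ _).2 hg
  let f : ℂ →ₐ[Algebra.adjoin K (Set.range v)] Ccopy := IsAlgClosed.lift
  refine ⟨(f : ℂ →+* Ccopy), ?_⟩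
  intro x
  have h1 : f (algebraMap (Algebra.adjoin K (Set.range v)) ℂ (algebraMap K _ x)) =
      g (algebraMap K _ x) := f.commutes _
  have h2 : g (algebraMap K (Algebra.adjoin K (Set.range v)) x) = φ (σ x) := by
    show g0 (e.symm (algebraMap K _ x)) = φ (σ x)
    rw [AlgEquiv.commutes]
    show (MvPolynomial.aeval v) (MvPolynomial.map σ (algebraMap K (MvPolynomial ι K) x)) = φ (σ x)
    rw [MvPolynomial.algebraMap_eq, MvPolynomial.map_C, MvPolynomial.aeval_C]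
    rfl
  rw [h2] at h1
  exact h1


theorem exists_tau_aux (N k : ℕ) (hN : 0 < N) (hk : k.Coprime N) (L : Type) [Field L]
    [Algebra ℚ L] [IsCyclotomicExtension {N} ℚ L] :
    ∃ τ : ℂ →+* ℂ, ∀ η : ℂ, η ^ N = 1 → τ η = η ^ k := by
  classical
  haveI : NeZero N := ⟨hN.ne'⟩
  have hirr : Irreducible (Polynomial.cyclotomic N ℚ) := Polynomial.cyclotomic.irreducible_rat hN
  have hz : IsPrimitiveRoot (IsCyclotomicExtension.zeta N ℚ L) N :=
    IsCyclotomicExtension.zeta_spec N ℚ L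
  have hμ : IsPrimitiveRoot ((IsCyclotomicExtension.zeta N ℚ L) ^ k) N := hz.pow_of_coprime k hk
  let σ : L ≃ₐ[ℚ] L := IsCyclotomicExtension.fromZetaAut hμ hirr
  have hσ : σ (IsCyclotomicExtension.zeta N ℚ L) = (IsCyclotomicExtension.zeta N ℚ L) ^ k :=
    IsCyclotomicExtension.fromZetaAut_spec hμ hirr
  haveI : Algebra.IsAlgebraic ℚ L := by
    haveI := IsCyclotomicExtension.finiteDimensional {N} ℚ L
    exact Algebra.IsAlgebraic.of_finite ℚ L
  let φ : L →ₐ[ℚ] ℂ := IsAlgClosed.lift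
  obtain ⟨τ, hτ⟩ := ring_hom_extend (φ : L →+* ℂ) (σ : L →+* L)
  refine ⟨τ, ?_⟩
  have hω : IsPrimitiveRoot (φ (IsCyclotomicExtension.zeta N ℚ L)) N :=
    hz.map_of_injective φ.injective
  have hτω : τ (φ (IsCyclotomicExtension.zeta N ℚ L)) = (φ (IsCyclotomicExtension.zeta N ℚ L)) ^ k := by
    have h1 := hτ (IsCyclotomicExtension.zeta N ℚ L)
    have h2 : (σ : L →+* L) (IsCyclotomicExtension.zeta N ℚ L) =
        (IsCyclotomicExtension.zeta N ℚ L) ^ k := hσ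
    rw [h2] at h1
    rw [← map_pow]
    exact h1
  intro η hη
  obtain ⟨i, -, hi⟩ := hω.eq_pow_of_pow_eq_one hη
  rw [← hi, map_pow, hτω, ← pow_mul, ← pow_mul, mul_comm]

theorem exists_tau (N k : ℕ) (hN : 0 < N) (hk : k.Coprime N) :
    ∃ τ : ℂ →+* ℂ, ∀ η : ℂ, η ^ N = 1 → τ η = η ^ k := by
  haveI : NeZero N := ⟨hN.ne'⟩
  haveI : NeZero ((N : ℕ) : ℚ) := ⟨by exact_mod_cast hN.ne'⟩
  exact @exists_tau_aux N k hN hk (CyclotomicField N ℚ) _ (CyclotomicField.algebra N ℚ)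
    (CyclotomicField.isCyclotomicExtension N ℚ)

/-! ### conjugating a representation by a field endomorphism -/

/-- apply a ring endomorphism of `ℂ` to the matrices of a representation -/
noncomputable def tauRep (τ : ℂ →+* ℂ) {G : Type u} [Group G] {n : ℕ}
    (ρ : Representation ℂ G (Fin n → ℂ)) : Representation ℂ G (Fin n → ℂ) :=
  ((Matrix.toLinAlgEquiv' : Matrix (Fin n) (Fin n) ℂ ≃ₐ[ℂ] ((Fin n → ℂ) →ₗ[ℂ] (Fin n → ℂ))) :
      Matrix (Fin n) (Fin n) ℂ →* ((Fin n → ℂ) →ₗ[ℂ] (Fin n → ℂ))).comp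
    (((τ.mapMatrix : Matrix (Fin n) (Fin n) ℂ →+* Matrix (Fin n) (Fin n) ℂ) :
        Matrix (Fin n) (Fin n) ℂ →* Matrix (Fin n) (Fin n) ℂ).comp
      (((LinearMap.toMatrixAlgEquiv' :
          ((Fin n → ℂ) →ₗ[ℂ] (Fin n → ℂ)) ≃ₐ[ℂ] Matrix (Fin n) (Fin n) ℂ) :
          ((Fin n → ℂ) →ₗ[ℂ] (Fin n → ℂ)) →* Matrix (Fin n) (Fin n) ℂ).comp ρ))

theorem tauRep_apply (τ : ℂ →+* ℂ) {G : Type u} [Group G] {n : ℕ}
    (ρ : Representation ℂ G (Fin n → ℂ)) (g : G) :
    tauRep τ ρ g = Matrix.toLin' ((LinearMap.toMatrix' (ρ g)).map τ) := rfl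

theorem tauRep_character (τ : ℂ →+* ℂ) {G : Type u} [Group G] {n : ℕ}
    (ρ : Representation ℂ G (Fin n → ℂ)) (g : G) :
    (tauRep τ ρ).character g = τ (ρ.character g) := by
  show LinearMap.trace ℂ (Fin n → ℂ) (tauRep τ ρ g) = τ (LinearMap.trace ℂ (Fin n → ℂ) (ρ g))
  rw [tauRep_apply, Matrix.trace_toLin'_eq]
  have h1 : LinearMap.trace ℂ (Fin n → ℂ) (ρ g) = (LinearMap.toMatrix' (ρ g)).trace := by
    conv_lhs => rw [← Matrix.toLin'_toMatrix' (ρ g)]
    rw [Matrix.trace_toLin'_eq]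
  rw [h1]
  simp [Matrix.trace, map_sum]

theorem tauRep_det (τ : ℂ →+* ℂ) {G : Type u} [Group G] {n : ℕ}
    (ρ : Representation ℂ G (Fin n → ℂ)) (g : G) :
    LinearMap.det (tauRep τ ρ g) = τ (LinearMap.det (ρ g)) := by
  rw [tauRep_apply, LinearMap.det_toLin', ← LinearMap.det_toMatrix' (ρ g)]
  exact (RingHom.map_det τ _).symm

theorem isCharacter_tau (τ : ℂ →+* ℂ) {G : Type u} [Group G] {χ : G → ℂ}
    (h : Cfsg.IsCharacter G χ) : Cfsg.IsCharacter G (fun g => τ (χ g)) := by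
  obtain ⟨n, ρ, rfl⟩ := h
  exact ⟨n, tauRep τ ρ, funext (fun g => tauRep_character τ ρ g)⟩

theorem detChar_tau (τ : ℂ →+* ℂ) {G : Type u} [Group G] [Finite G] {χ : G → ℂ}
    (h : Cfsg.IsCharacter G χ) :
    Cfsg.detChar (fun g => τ (χ g)) = fun g => τ (Cfsg.detChar χ g) := by
  obtain ⟨n, ρ, rfl⟩ := h
  have h1 : (fun g => τ (ρ.character g)) = (tauRep τ ρ).character :=
    funext (fun g => (tauRep_character τ ρ g).symm)
  rw [h1, detChar_of_rep, detChar_of_rep]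
  funext g
  exact tauRep_det τ ρ g

/-! ### Galois conjugates of characters via power maps -/

theorem tau_char_pow {K : Type u} [Group K] [Finite K] {Ψ : K → ℂ}
    (hΨ : Cfsg.IsCharacter K Ψ) (τ : ℂ →+* ℂ) (k : ℕ)
    (hτ : ∀ η : ℂ, η ^ (Nat.card K) = 1 → τ η = η ^ k) (y : K) :
    τ (Ψ y) = Ψ (y ^ k) := by
  obtain ⟨n, ρ, rfl⟩ := hΨ
  obtain ⟨b, μ, h1, h2⟩ := exists_eigenbasis ρ y
  have hk : ∀ i, ρ (y ^ k) (b i) = μ i ^ k • b i := by
    intro i
    rw [map_pow]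
    exact pow_apply_of_eigenvector (ρ y) (b i) (μ i) (h1 i) k
  have hc1 : ρ.character y = ∑ i, μ i := trace_eq_sum_of_eigenbasis b (ρ y) μ h1
  have hc2 : ρ.character (y ^ k) = ∑ i, μ i ^ k :=
    trace_eq_sum_of_eigenbasis b (ρ (y ^ k)) _ hk
  rw [hc1, hc2, map_sum]
  apply Finset.sum_congr rfl
  intro i _
  apply hτ
  have hd : orderOf y ∣ Nat.card K := orderOf_dvd_natCard y
  obtain ⟨c, hc⟩ := hd
  rw [hc, pow_mul, h2 i, one_pow]

theorem isIrr_tau {K : Type u} [Group K] [Fintype K] {Ψ : K → ℂ}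
    (hΨ : Cfsg.IsIrrCharacter K Ψ) (τ : ℂ →+* ℂ) (k : ℕ) (hk : k.Coprime (Nat.card K))
    (hτ : ∀ η : ℂ, η ^ (Nat.card K) = 1 → τ η = η ^ k) :
    Cfsg.IsIrrCharacter K (fun g => τ (Ψ g)) := by
  have hch := isCharacter_of_isIrrCharacter hΨ
  apply isIrrCharacter_of_norm_one (isCharacter_tau τ hch)
  have h1 := classInner_irr_self hΨ
  unfold Cfsg.classInner at h1 ⊢
  rw [← h1]
  congr 1
  have h2 : ∀ g : K, τ (Ψ g) * conj (τ (Ψ g)) =
      (fun x : K => Ψ x * conj (Ψ x)) ((powCoprime hk.symm) g) := by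
    intro g
    show τ (Ψ g) * conj (τ (Ψ g)) = Ψ (g ^ k) * conj (Ψ (g ^ k))
    rw [tau_char_pow hch τ k hτ g]
  rw [Finset.sum_congr rfl (fun g _ => h2 g)]
  exact Equiv.sum_comp (powCoprime hk.symm) (fun x : K => Ψ x * conj (Ψ x))

/-! ### cyclic quotients of arbitrary order -/

theorem exists_hom_gen {Z : Type u} [Group Z] [Finite Z] (y : Z)
    (hy : ∀ x : Z, x ∈ Subgroup.zpowers y) :
    ∃ (μ : Z →* ℂˣ) (ξ : ℂ), IsPrimitiveRoot ξ (orderOf y) ∧ (μ y : ℂ) = ξ := by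
  have ho : orderOf y ≠ 0 := (orderOf_pos y).ne'
  have hξ := Complex.isPrimitiveRoot_exp (orderOf y) ho
  obtain ⟨ξu, hξu⟩ : ∃ ξu : ℂˣ,
      (ξu : ℂ) = Complex.exp (2 * Real.pi * Complex.I / orderOf y) :=
    ⟨(hξ.isUnit ho).unit, rfl⟩
  have hξu' : IsPrimitiveRoot ξu (orderOf y) := by
    rw [← IsPrimitiveRoot.coe_units_iff, hξu]; exact hξ
  have hord : orderOf ξu = orderOf y := hξu'.eq_orderOf.symm
  refine ⟨monoidHomOfForallMemZpowers hy (g' := ξu) (by rw [hord]), (ξu : ℂ), ?_, ?_⟩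
  · rw [hξu]; exact hξ
  · rw [monoidHomOfForallMemZpowers_apply_gen]

theorem gc_bij {K : Type u} [Group K] [Finite K] {p : ℕ} (M : Subgroup K)
    (hidx : M.index = p) (s : K) (hsj : ∀ j, 0 < j → j < p → s ^ j ∉ M) :
    Function.Bijective (fun a : M × Fin p => (a.1 : K) * s ^ (a.2 : ℕ)) := by
  classical
  haveI := Fintype.ofFinite K
  have hinj : Function.Injective (fun a : M × Fin p => (a.1 : K) * s ^ (a.2 : ℕ)) := by
    rintro ⟨m, i⟩ ⟨m', j⟩ h
    simp only at h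
    have key : ∀ (m m' : M) (i j : ℕ), i < j → j < p → (m : K) * s ^ i = (m' : K) * s ^ j →
        False := by
      intro m m' i j hij hjp h
      have h1 : s ^ (j - i) = (m' : K)⁻¹ * m := by
        have h3 : s ^ j = s ^ (j - i) * s ^ i := by rw [← pow_add, Nat.sub_add_cancel hij.le]
        rw [h3, ← mul_assoc] at h
        have h2 := mul_right_cancel h
        rw [h2]; group
      apply hsj (j - i) (Nat.sub_pos_of_lt hij)
        (lt_of_le_of_lt (Nat.sub_le _ _) hjp)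
      rw [h1]
      exact M.mul_mem (M.inv_mem m'.2) m.2
    rcases lt_trichotomy (i : ℕ) (j : ℕ) with hij | hij | hij
    · exact (key m m' i j hij j.2 h).elim
    · have hij' : i = j := Fin.ext hij
      subst hij'
      have := mul_right_cancel h
      exact Prod.ext (Subtype.ext this) rfl
    · exact (key m' m j i hij i.2 h.symm).elim
  have hcard : Fintype.card (M × Fin p) = Fintype.card K := by
    rw [Fintype.card_prod, Fintype.card_fin, ← Nat.card_eq_fintype_card,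
      ← Nat.card_eq_fintype_card, ← hidx, Subgroup.card_mul_index]
  exact (Fintype.bijective_iff_injective_and_card _).2 ⟨hinj, hcard⟩

theorem gc_sum_K {K : Type u} [Group K] [Fintype K] {p : ℕ} (M : Subgroup K)
    [Fintype M] (hidx : M.index = p) (s : K) (hsj : ∀ j, 0 < j → j < p → s ^ j ∉ M) (f : K → ℂ) :
    ∑ x : K, f x = ∑ j ∈ Finset.range p, ∑ m : M, f ((m : K) * s ^ j) := by
  classical
  have hbij := gc_bij M hidx s hsj
  rw [← Fintype.sum_bijective _ hbij (fun a => f ((a.1 : K) * s ^ (a.2 : ℕ))) f (fun a => rfl)]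
  rw [Fintype.sum_prod_type_right]
  rw [← Fin.sum_univ_eq_sum_range (fun j => ∑ m : M, f ((m : K) * s ^ j)) p]

theorem gc_exists_lam {K : Type u} [Group K] [Finite K] {p : ℕ} (hp0 : 0 < p) (M : Subgroup K)
    [hM : M.Normal] (hidx : M.index = p) (s : K) (hsp : s ^ p = 1)
    (hsj : ∀ j, 0 < j → j < p → s ^ j ∉ M) :
    ∃ (lam : K →* ℂˣ) (ζ : ℂ), IsPrimitiveRoot ζ p ∧ (∀ m ∈ M, lam m = 1) ∧
      ((lam s : ℂ) = ζ) := by
  have hcardQ : Nat.card (K ⧸ M) = p := by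
    rw [← Subgroup.index_eq_card]; exact hidx
  have hq : orderOf (QuotientGroup.mk s : K ⧸ M) = p := by
    rw [orderOf_eq_iff hp0]
    constructor
    · rw [← QuotientGroup.mk_pow, hsp]; rfl
    · intro j hjp hj0 h
      rw [← QuotientGroup.mk_pow, QuotientGroup.eq_one_iff] at h
      exact hsj j hj0 hjp h
  have hgen : ∀ x : K ⧸ M, x ∈ Subgroup.zpowers (QuotientGroup.mk s : K ⧸ M) := by
    have h1 : Subgroup.zpowers (QuotientGroup.mk s : K ⧸ M) = ⊤ := by
      apply Subgroup.eq_top_of_card_eq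
      rw [Nat.card_zpowers, hq, hcardQ]
    intro x; rw [h1]; trivial
  obtain ⟨μ, ξ, hξ, hμ⟩ := exists_hom_gen (QuotientGroup.mk s : K ⧸ M) hgen
  rw [hq] at hξ
  refine ⟨μ.comp (QuotientGroup.mk' M), ξ, hξ, ?_, hμ⟩
  intro m hm
  show μ (QuotientGroup.mk m) = 1
  have h2 : (QuotientGroup.mk m : K ⧸ M) = 1 := (QuotientGroup.eq_one_iff m).2 hm
  rw [h2, map_one]

theorem gc_T1 {K : Type u} [Group K] [Fintype K] {p : ℕ} (M : Subgroup K)
    [Fintype M] (hidx : M.index = p) (s : K) (hsj : ∀ j, 0 < j → j < p → s ^ j ∉ M)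
    (lam : K →* ℂˣ)
    (ζ : ℂ) (hlamM : ∀ m ∈ M, lam m = 1) (hlams : (lam s : ℂ) = ζ) (f g : K → ℂ) (k : ℕ) :
    Cfsg.classInner (fun x => (lam x : ℂ) ^ k * f x) g =
      (Nat.card K : ℂ)⁻¹ * ∑ j ∈ Finset.range p, ζ ^ (k * j) *
        ∑ m : M, f ((m : K) * s ^ j) * conj (g ((m : K) * s ^ j)) := by
  unfold Cfsg.classInner
  congr 1
  rw [gc_sum_K M hidx s hsj]
  apply Finset.sum_congr rfl
  intro j _
  rw [Finset.mul_sum]
  apply Finset.sum_congr rfl
  intro m _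
  show (lam ((m : K) * s ^ j) : ℂ) ^ k * f ((m : K) * s ^ j) * conj (g ((m : K) * s ^ j)) = _
  rw [gp_lam_val M s lam ζ hlamM hlams m m.2 j, ← pow_mul, mul_comm j k]
  ring

theorem gc_C3 {K : Type u} [Group K] [Fintype K] {p : ℕ} (hp0 : 0 < p) (M : Subgroup K)
    [hM : M.Normal] [Fintype M] (hidx : M.index = p) (s : K) (hsp : s ^ p = 1)
    (hsj : ∀ j, 0 < j → j < p → s ^ j ∉ M)
    {Ψ Ψ' : K → ℂ} (hΨ : Cfsg.IsIrrCharacter K Ψ) (hΨ' : Cfsg.IsIrrCharacter K Ψ')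
    (hne : (fun m : M => Ψ m) ≠ (fun m : M => Ψ' m)) (j : ℕ) (hj : j < p) :
    ∑ m : M, Ψ ((m : K) * s ^ j) * conj (Ψ' ((m : K) * s ^ j)) = 0 := by
  obtain ⟨lam, ζ, hζ, hlamM, hlams⟩ := gc_exists_lam hp0 M hidx s hsp hsj
  have hA : ∀ k, k < p → (0 : ℂ) = ∑ j ∈ Finset.range p, ζ ^ (k * j) *
      ∑ m : M, Ψ ((m : K) * s ^ j) * conj (Ψ' ((m : K) * s ^ j)) := by
    intro k _
    have h1 := gc_T1 M hidx s hsj lam ζ hlamM hlams Ψ Ψ' k
    rw [classInner_irr (gp_twist_irr lam k hΨ) hΨ', if_neg] at h1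
    · have hK : (Nat.card K : ℂ) ≠ 0 := by exact_mod_cast Nat.card_pos.ne'
      rcases mul_eq_zero.1 h1.symm with h | h
      · exact absurd (inv_eq_zero.1 h) hK
      · exact h.symm
    · intro h
      apply hne
      funext m
      have h2 : (lam (m : K) : ℂ) ^ k * Ψ m = Ψ' m := congrFun h (m : K)
      rw [hlamM m m.2] at h2
      simpa using h2
  have h2 := gp_inversion' hζ hp0 (fun _ => 0)
    (fun j => ∑ m : M, Ψ ((m : K) * s ^ j) * conj (Ψ' ((m : K) * s ^ j))) (fun k hk => hA k hk)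
    j hj
  simpa using h2

theorem gc_C2' {K : Type u} [Group K] [Fintype K] {p : ℕ} (hp0 : 0 < p) (M : Subgroup K)
    [Fintype M] (hidx : M.index = p) (s : K)
    (hsj : ∀ j, 0 < j → j < p → s ^ j ∉ M)
    (lam : K →* ℂˣ) (ζ : ℂ) (hζ : IsPrimitiveRoot ζ p) (hlamM : ∀ m ∈ M, lam m = 1)
    (hlams : (lam s : ℂ) = ζ) {Ψ : K → ℂ} (hΨ : Cfsg.IsIrrCharacter K Ψ)
    (h0 : ∀ k, 0 < k → k < p → (fun x => (lam x : ℂ) ^ k * Ψ x) ≠ Ψ) (j : ℕ) (hj : j < p) :
    ∑ m : M, Ψ ((m : K) * s ^ j) * conj (Ψ ((m : K) * s ^ j)) = (Nat.card M : ℂ) := by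
  have hK : (Nat.card K : ℂ) ≠ 0 := by exact_mod_cast Nat.card_pos.ne'
  have hA : ∀ k, k < p → (if k = 0 then (Nat.card K : ℂ) else 0) =
      ∑ j ∈ Finset.range p, ζ ^ (k * j) *
      ∑ m : M, Ψ ((m : K) * s ^ j) * conj (Ψ ((m : K) * s ^ j)) := by
    intro k hk
    have h1 := gc_T1 M hidx s hsj lam ζ hlamM hlams Ψ Ψ k
    rw [classInner_irr (gp_twist_irr lam k hΨ) hΨ] at h1
    by_cases hk0 : k = 0
    · rw [if_pos hk0]
      rw [if_pos (by rw [hk0]; funext x; simp)] at h1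
      rw [← mul_one (Nat.card K : ℂ), h1, ← mul_assoc, mul_inv_cancel₀ hK, one_mul]
    · rw [if_neg hk0]
      rw [if_neg (h0 k (Nat.pos_of_ne_zero hk0) hk)] at h1
      rcases mul_eq_zero.1 h1.symm with h | h
      · exact absurd (inv_eq_zero.1 h) hK
      · exact h.symm
  have h2 := gp_inversion' hζ hp0 (fun k => if k = 0 then (Nat.card K : ℂ) else 0)
    (fun j => ∑ m : M, Ψ ((m : K) * s ^ j) * conj (Ψ ((m : K) * s ^ j))) hA j hj
  rw [h2, Finset.sum_eq_single 0]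
  · have hcard : (Nat.card K : ℂ) = (Nat.card M : ℂ) * (p : ℂ) := by
      rw [← hidx, ← Nat.cast_mul, Subgroup.card_mul_index]
    have hp' : (p : ℂ) ≠ 0 := by exact_mod_cast hp0.ne'
    simp only [zero_mul, pow_zero, map_one, one_mul, if_true]
    rw [hcard]
    field_simp
  · intro k _ hk
    rw [if_neg hk, mul_zero]
  · intro h
    exact absurd (Finset.mem_range.2 hp0) h

theorem gc_C2 {K : Type u} [Group K] [Fintype K] {p : ℕ} (hp0 : 0 < p) (M : Subgroup K)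
    [hM : M.Normal] [Fintype M] (hidx : M.index = p) (s : K) (hsp : s ^ p = 1)
    (hsj : ∀ j, 0 < j → j < p → s ^ j ∉ M)
    {Ψ : K → ℂ} (hΨ : Cfsg.IsIrrCharacter K Ψ)
    (hΨM : Cfsg.IsIrrCharacter M (fun m : M => Ψ m)) (j : ℕ) (hj : j < p) :
    ∑ m : M, Ψ ((m : K) * s ^ j) * conj (Ψ ((m : K) * s ^ j)) = (Nat.card M : ℂ) := by
  classical
  obtain ⟨lam, ζ, hζ, hlamM, hlams⟩ := gc_exists_lam hp0 M hidx s hsp hsj
  apply gc_C2' hp0 M hidx s hsj lam ζ hζ hlamM hlams hΨ _ j hj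
  intro k hk0 hkp h
  have hK0 : (Nat.card K : ℂ) ≠ 0 := by exact_mod_cast Nat.card_pos.ne'
  have hM0 : (Nat.card M : ℂ) ≠ 0 := by exact_mod_cast Nat.card_pos.ne'
  have hcard : (Nat.card K : ℂ) = (Nat.card M : ℂ) * (p : ℂ) := by
    rw [← hidx, ← Nat.cast_mul, Subgroup.card_mul_index]
  have hA0 : ∑ m : M, Ψ ((m : K) * s ^ 0) * conj (Ψ ((m : K) * s ^ 0)) = (Nat.card M : ℂ) := by
    have h2 := classInner_irr_self hΨM
    unfold Cfsg.classInner at h2
    simp only [pow_zero, mul_one]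
    have h3 := congrArg (fun z => (Nat.card M : ℂ) * z) h2
    simp only at h3
    rw [← mul_assoc, mul_inv_cancel₀ hM0, one_mul, mul_one] at h3
    exact h3
  have hsum : ∑ i ∈ Finset.range p, Cfsg.classInner (fun x => (lam x : ℂ) ^ i * Ψ x) Ψ = 1 := by
    have h1 : ∀ i ∈ Finset.range p, Cfsg.classInner (fun x => (lam x : ℂ) ^ i * Ψ x) Ψ =
        (Nat.card K : ℂ)⁻¹ * ∑ j ∈ Finset.range p, ζ ^ (i * j) *
          ∑ m : M, Ψ ((m : K) * s ^ j) * conj (Ψ ((m : K) * s ^ j)) :=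
      fun i _ => gc_T1 M hidx s hsj lam ζ hlamM hlams Ψ Ψ i
    rw [Finset.sum_congr rfl h1, ← Finset.mul_sum,
      gp_sum_A hζ hp0 (fun j => ∑ m : M, Ψ ((m : K) * s ^ j) * conj (Ψ ((m : K) * s ^ j))),
      hA0, hcard]
    have hp' : (p : ℂ) ≠ 0 := by exact_mod_cast hp0.ne'
    field_simp
  have hterm : ∀ i ∈ Finset.range p, Cfsg.classInner (fun x => (lam x : ℂ) ^ i * Ψ x) Ψ =
      ((if (fun x => (lam x : ℂ) ^ i * Ψ x) = Ψ then 1 else 0 : ℕ) : ℂ) := by
    intro i _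
    rw [classInner_irr (gp_twist_irr lam i hΨ) hΨ]
    split_ifs <;> simp
  rw [Finset.sum_congr rfl hterm, ← Nat.cast_sum] at hsum
  have hsum' : ∑ i ∈ Finset.range p,
      (if (fun x => (lam x : ℂ) ^ i * Ψ x) = Ψ then 1 else 0 : ℕ) = 1 := by
    exact_mod_cast hsum
  have hsub : ({0, k} : Finset ℕ) ⊆ Finset.range p := by
    intro i hi
    rw [Finset.mem_insert, Finset.mem_singleton] at hi
    rcases hi with rfl | rfl
    · exact Finset.mem_range.2 hp0
    · exact Finset.mem_range.2 hkp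
  have hle := Finset.sum_le_sum_of_subset
    (f := fun i => (if (fun x => (lam x : ℂ) ^ i * Ψ x) = Ψ then 1 else 0 : ℕ)) hsub
  rw [hsum', Finset.sum_pair (Nat.pos_iff_ne_zero.1 hk0).symm] at hle
  rw [if_pos (by funext x; simp), if_pos h] at hle
  omega

theorem gc_exponent {K : Type u} [Group K] [Finite K] {p : ℕ} (M : Subgroup K)
    (hcop : (Nat.card M).Coprime p) (t : K) (htp : t ^ p = 1) :
    ∃ e : ℕ, (∀ c ∈ M, c ^ e = 1) ∧ t ^ e = t := by
  let e := Nat.chineseRemainder hcop 0 1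
  refine ⟨e.1, ?_, ?_⟩
  · intro c hc
    have h1 : Nat.card M ∣ e.1 := (Nat.modEq_zero_iff_dvd).1 e.2.1
    have h2 : orderOf c ∣ Nat.card M := Subgroup.orderOf_dvd_natCard M hc
    exact orderOf_dvd_iff_pow_eq_one.1 (h2.trans h1)
  · have h1 : e.1 % p = 1 % p := e.2.2
    rw [pow_eq_pow_mod e.1 htp, h1, ← pow_eq_pow_mod 1 htp, pow_one]

theorem gc_coset_sum {K : Type u} [Group K] [Fintype K] {p : ℕ} (M : Subgroup K)
    [hM : M.Normal] [Fintype M] (hcop : (Nat.card M).Coprime p) (t : K) (htp : t ^ p = 1)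
    (C : Subgroup K) [Fintype C] (hC : C = M ⊓ Subgroup.centralizer {t}) (f : K → ℂ)
    (hf : Cfsg.IsClassFunction K f) :
    (Nat.card C : ℂ) * ∑ m : M, f ((m : K) * t) = (Nat.card M : ℂ) * ∑ c : C, f ((c : K) * t) := by
  classical
  have hCM : ∀ c ∈ C, c ∈ M := fun c hc => by rw [hC] at hc; exact hc.1
  have hCt : ∀ c ∈ C, Commute c t := fun c hc => by
    rw [hC] at hc
    exact (Subgroup.mem_centralizer_iff.1 hc.2 t rfl).symm
  obtain ⟨e, he1, he2⟩ := gc_exponent M hcop t htp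
  have hpow : ∀ c ∈ C, (c * t) ^ e = t := by
    intro c hc
    rw [(hCt c hc).mul_pow, he1 c (hCM c hc), one_mul, he2]
  let Φ : M × C → K := fun a => (a.1 : K) * ((a.2 : K) * t) * (a.1 : K)⁻¹
  -- fibre lemma
  have hfib : ∀ a a' : M × C, Φ a' = Φ a →
      ∃ z : C, (a'.1 : K) = (a.1 : K) * (z : K)⁻¹ ∧
        (a'.2 : K) = (z : K) * (a.2 : K) * (z : K)⁻¹ := by
    rintro ⟨x, c⟩ ⟨x', c'⟩ h
    have h0 : (x' : K) * ((c' : K) * t) * (x' : K)⁻¹ = (x : K) * ((c : K) * t) * (x : K)⁻¹ := h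
    have h1 : ((x' : K)⁻¹ * x) * ((c : K) * t) * ((x' : K)⁻¹ * x)⁻¹ = (c' : K) * t := by
      calc ((x' : K)⁻¹ * x) * ((c : K) * t) * ((x' : K)⁻¹ * x)⁻¹
          = (x' : K)⁻¹ * ((x : K) * ((c : K) * t) * (x : K)⁻¹) * x' := by group
        _ = (x' : K)⁻¹ * ((x' : K) * ((c' : K) * t) * (x' : K)⁻¹) * x' := by rw [h0]
        _ = (c' : K) * t := by group
    have h2 : ((x' : K)⁻¹ * x) * t * ((x' : K)⁻¹ * x)⁻¹ = t := by
      have h3 : (((x' : K)⁻¹ * x) * ((c : K) * t) * ((x' : K)⁻¹ * x)⁻¹) ^ e = ((c' : K) * t) ^ e := by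
        rw [h1]
      rw [conj_pow, hpow c c.2, hpow c' c'.2] at h3
      exact h3
    have hzM : (x' : K)⁻¹ * x ∈ M := M.mul_mem (M.inv_mem x'.2) x.2
    have hzt : ((x' : K)⁻¹ * x) * t = t * ((x' : K)⁻¹ * x) := by
      calc ((x' : K)⁻¹ * x) * t
          = (((x' : K)⁻¹ * x) * t * ((x' : K)⁻¹ * x)⁻¹) * ((x' : K)⁻¹ * x) := by group
        _ = t * ((x' : K)⁻¹ * x) := by rw [h2]
    have hzC : (x' : K)⁻¹ * x ∈ C := by
      rw [hC]
      exact Subgroup.mem_inf.2 ⟨hzM, Subgroup.mem_centralizer_iff.2 (fun y hy => by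
        rw [Set.mem_singleton_iff] at hy
        rw [hy]
        exact hzt.symm)⟩
    refine ⟨⟨(x' : K)⁻¹ * x, hzC⟩, ?_, ?_⟩
    · show (x' : K) = (x : K) * ((x' : K)⁻¹ * x)⁻¹
      group
    · show (c' : K) = ((x' : K)⁻¹ * x) * (c : K) * ((x' : K)⁻¹ * x)⁻¹
      have h3 : ((x' : K)⁻¹ * x) * ((c : K) * t) * ((x' : K)⁻¹ * x)⁻¹ =
          (((x' : K)⁻¹ * x) * (c : K) * ((x' : K)⁻¹ * x)⁻¹) *
            (((x' : K)⁻¹ * x) * t * ((x' : K)⁻¹ * x)⁻¹) := by group
      rw [h3, h2] at h1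
      exact (mul_right_cancel h1).symm
  -- the fibres have `|C|` elements
  have hfibcard : ∀ a : M × C, (Finset.univ.filter (fun a' => Φ a' = Φ a)).card = Fintype.card C := by
    intro a
    let ι : C → M × C := fun z => (a.1 * (⟨z, hCM z z.2⟩ : M)⁻¹, z * a.2 * z⁻¹)
    have hιinj : Function.Injective ι := by
      intro z z' h
      have h1 : a.1 * (⟨z, hCM z z.2⟩ : M)⁻¹ = a.1 * (⟨z', hCM z' z'.2⟩ : M)⁻¹ := congrArg Prod.fst h
      have h2 := inv_injective (mul_left_cancel h1)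
      exact Subtype.ext (show (z : K) = (z' : K) from congrArg (fun w : M => (w : K)) h2)
    have himg : Finset.univ.filter (fun a' => Φ a' = Φ a) = Finset.univ.image ι := by
      ext a'
      simp only [Finset.mem_filter, Finset.mem_univ, true_and, Finset.mem_image]
      constructor
      · intro h
        obtain ⟨z, hz1, hz2⟩ := hfib a a' h
        refine ⟨z, ?_⟩
        apply Prod.ext
        · apply Subtype.ext
          show (a.1 : K) * (z : K)⁻¹ = (a'.1 : K)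
          exact hz1.symm
        · apply Subtype.ext
          show (z : K) * (a.2 : K) * (z : K)⁻¹ = (a'.2 : K)
          exact hz2.symm
      · rintro ⟨z, rfl⟩
        show ((a.1 : K) * (z : K)⁻¹) * (((z : K) * (a.2 : K) * (z : K)⁻¹) * t) *
          ((a.1 : K) * (z : K)⁻¹)⁻¹ = (a.1 : K) * ((a.2 : K) * t) * (a.1 : K)⁻¹
        have hz := (hCt z z.2).eq
        calc ((a.1 : K) * (z : K)⁻¹) * (((z : K) * (a.2 : K) * (z : K)⁻¹) * t) *
              ((a.1 : K) * (z : K)⁻¹)⁻¹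
            = (a.1 : K) * (a.2 : K) * ((z : K)⁻¹ * (t * z)) * (a.1 : K)⁻¹ := by group
          _ = (a.1 : K) * (a.2 : K) * ((z : K)⁻¹ * (z * t)) * (a.1 : K)⁻¹ := by rw [hz]
          _ = (a.1 : K) * ((a.2 : K) * t) * (a.1 : K)⁻¹ := by group
    rw [himg, Finset.card_image_of_injective _ hιinj, Finset.card_univ]
  -- first evaluation
  have hsum1 : ∑ a : M × C, f (Φ a) = (Nat.card M : ℂ) * ∑ c : C, f ((c : K) * t) := by
    rw [Fintype.sum_prod_type]
    have h1 : ∀ x : M, ∑ c : C, f (Φ (x, c)) = ∑ c : C, f ((c : K) * t) := by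
      intro x
      apply Finset.sum_congr rfl
      intro c _
      exact hf ((c : K) * t) (x : K)
    rw [Finset.sum_congr rfl (fun x _ => h1 x), Finset.sum_const, Finset.card_univ, nsmul_eq_mul,
      Nat.card_eq_fintype_card]
  -- second evaluation
  have hsum2 : ∑ a : M × C, f (Φ a) =
      (Nat.card C : ℂ) * ∑ y ∈ Finset.univ.image Φ, f y := by
    rw [Finset.sum_comp f Φ, Finset.mul_sum]
    apply Finset.sum_congr rfl
    intro y hy
    obtain ⟨a, -, rfl⟩ := Finset.mem_image.1 hy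
    rw [hfibcard a, nsmul_eq_mul, Nat.card_eq_fintype_card]
  -- the image is the coset
  have himage : Finset.univ.image Φ = Finset.univ.image (fun m : M => (m : K) * t) := by
    apply Finset.eq_of_subset_of_card_le
    · intro y hy
      obtain ⟨a, -, rfl⟩ := Finset.mem_image.1 hy
      rw [Finset.mem_image]
      refine ⟨⟨(a.1 : K) * (a.2 : K) * (t * (a.1 : K)⁻¹ * t⁻¹), ?_⟩, Finset.mem_univ _, ?_⟩
      · exact M.mul_mem (M.mul_mem a.1.2 (hCM _ a.2.2)) (hM.conj_mem _ (M.inv_mem a.1.2) t)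
      · show (a.1 : K) * (a.2 : K) * (t * (a.1 : K)⁻¹ * t⁻¹) * t = (a.1 : K) * ((a.2 : K) * t) * (a.1 : K)⁻¹
        group
    · have h1 := Finset.card_eq_sum_card_image Φ Finset.univ
      have h2 : ∑ b ∈ Finset.univ.image Φ, (Finset.univ.filter (fun a => Φ a = b)).card =
          (Finset.univ.image Φ).card * Fintype.card C := by
        rw [Finset.sum_congr rfl (fun b hb => by
          obtain ⟨a, -, rfl⟩ := Finset.mem_image.1 hb
          exact hfibcard a : ∀ b ∈ Finset.univ.image Φ,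
            (Finset.univ.filter (fun a => Φ a = b)).card = Fintype.card C),
          Finset.sum_const, smul_eq_mul]
      rw [h2, Finset.card_univ, Fintype.card_prod] at h1
      have h3 : (Finset.univ.image Φ).card = Fintype.card M :=
        (Nat.eq_of_mul_eq_mul_right Fintype.card_pos h1).symm
      rw [h3]
      exact (Finset.card_image_le).trans (le_of_eq Finset.card_univ)
  have hsum3 : ∑ y ∈ Finset.univ.image (fun m : M => (m : K) * t), f y = ∑ m : M, f ((m : K) * t) := by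
    rw [Finset.sum_image]
    intro m _ m' _ h
    exact Subtype.ext (mul_right_cancel h)
  rw [← hsum1, hsum2, himage, hsum3]

theorem gc_integral {K : Type u} [Group K] [Fintype K] {p : ℕ} (s : K)
    (hord : orderOf s = p) (C : Subgroup K) [Fintype C]
    (hCs : ∀ c ∈ C, Commute c s) (lam : K →* ℂˣ) (ζ : ℂ) (hlams : (lam s : ℂ) = ζ)
    (Ψ : K → ℂ) (hΨ : Cfsg.IsCharacter K Ψ) (β : C → ℂ) (hβ : Cfsg.IsCharacter C β) (k : ℕ) :
    ∃ n : ℕ, (n : ℂ) = (p : ℂ)⁻¹ * ∑ j ∈ Finset.range p, conj (ζ ^ (k * j)) *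
      Cfsg.classInner (fun c : C => Ψ ((c : K) * s ^ j)) β := by
  classical
  haveI : Fintype (Subgroup.zpowers s) := Fintype.ofFinite _
  have hcomm : ∀ (c : C) (u : Subgroup.zpowers s),
      Commute (C.subtype c) ((Subgroup.zpowers s).subtype u) := by
    intro c u
    obtain ⟨n, hn⟩ := Subgroup.mem_zpowers_iff.1 u.2
    show Commute (c : K) (u : K)
    rw [← hn]
    exact (hCs c c.2).zpow_right n
  let ι : C × Subgroup.zpowers s →* K :=
    MonoidHom.noncommCoprod C.subtype (Subgroup.zpowers s).subtype hcomm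
  have hι : ∀ a : C × Subgroup.zpowers s, ι a = (a.1 : K) * (a.2 : K) := fun a => rfl
  have hΞ : Cfsg.IsCharacter (C × Subgroup.zpowers s) (Ψ ∘ ι) := isCharacter_comp ι hΨ
  have hlamk : Cfsg.IsCharacter K (fun x => (lam x : ℂ) ^ k) := by
    have h := isCharacter_of_isIrrCharacter (gp_twist_irr lam k (isIrrCharacter_one K))
    have h2 : (fun x => (lam x : ℂ) ^ k * (1 : ℂ)) = fun x => (lam x : ℂ) ^ k := by
      funext x; rw [mul_one]
    rw [h2] at h; exact h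
  have hΘ : Cfsg.IsCharacter (C × Subgroup.zpowers s)
      ((β ∘ (MonoidHom.fst C (Subgroup.zpowers s))) *
        ((fun x => (lam x : ℂ) ^ k) ∘
          ((Subgroup.zpowers s).subtype.comp (MonoidHom.snd C (Subgroup.zpowers s))))) :=
    isCharacter_mul (isCharacter_comp (MonoidHom.fst C (Subgroup.zpowers s)) hβ)
      (isCharacter_comp ((Subgroup.zpowers s).subtype.comp
        (MonoidHom.snd C (Subgroup.zpowers s))) hlamk)
  obtain ⟨n, hn⟩ := classInner_char_char_nat hΞ hΘ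
  refine ⟨n, ?_⟩
  rw [← hn]
  unfold Cfsg.classInner
  rw [Fintype.sum_prod_type, Nat.card_prod, Nat.card_zpowers, hord]
  have hstep : ∀ c : C, ∑ u : Subgroup.zpowers s, (Ψ ∘ ι) (c, u) *
      conj (((β ∘ (MonoidHom.fst C (Subgroup.zpowers s))) *
        ((fun x => (lam x : ℂ) ^ k) ∘
          ((Subgroup.zpowers s).subtype.comp (MonoidHom.snd C (Subgroup.zpowers s))))) (c, u))
      = ∑ j ∈ Finset.range p, Ψ ((c : K) * s ^ j) * conj (β c) * conj (ζ ^ (k * j)) := by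
    intro c
    have h1 := gp_sum_zpowers s (fun y => Ψ ((c : K) * y) * conj (β c * (lam y : ℂ) ^ k))
    rw [hord] at h1
    refine Eq.trans ?_ (h1.trans ?_)
    · rfl
    · apply Finset.sum_congr rfl
      intro j _
      rw [map_pow lam, Units.val_pow_eq_pow_val, hlams, ← pow_mul, mul_comm j k, map_mul]
      ring
  rw [Finset.sum_congr rfl (fun c _ => hstep c), Finset.sum_comm, Finset.mul_sum, Finset.mul_sum]
  apply Finset.sum_congr rfl
  intro j _
  rw [← Finset.sum_mul, Nat.cast_mul, mul_inv]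
  show _ = (p : ℂ)⁻¹ * (conj (ζ ^ (k * j)) *
    ((Nat.card C : ℂ)⁻¹ * ∑ c : C, Ψ ((c : K) * s ^ j) * conj (β c)))
  ring

end Cfsg.Agent.Lib.Helper7
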