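import Mathlib
import Cfsg.Prelude.Def_Characters
import Cfsg.Prelude.Def_CharExt
import Cfsg.Agent.Lib.Helper7.GlaubCyc

/-! # Glauberman correspondence, cyclic case: assembling the pieces -/

universe u

namespace Cfsg.Agent.Lib.Helper7

open Cfsg.Agent.Lib.Lead
open scoped ComplexConjugate

/-! ### sums of a linear character over generators -/

theorem gc_sum_hom {A : Type u} [Group A] (μ : A →* ℂˣ) (T : Subgroup A)
    (F : Finset A) (hF : ∀ x, x ∈ F ↔ x ∈ T) :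
    ∃ z : ℤ, ∑ x ∈ F, (μ x : ℂ) = z := by
  classical
  by_cases h : ∀ t ∈ T, μ t = 1
  · refine ⟨F.card, ?_⟩
    rw [Finset.sum_congr rfl (fun x hx => by rw [h x ((hF x).1 hx)]; rfl :
      ∀ x ∈ F, (μ x : ℂ) = 1)]
    simp
  · push_neg at h
    obtain ⟨t, ht, hμt⟩ := h
    refine ⟨0, ?_⟩
    have h1 : ∑ x ∈ F, (μ x : ℂ) = (μ t : ℂ) * ∑ x ∈ F, (μ x : ℂ) := by
      rw [Finset.mul_sum]
      refine Finset.sum_bij' (fun x _ => t⁻¹ * x) (fun x _ => t * x) ?_ ?_ ?_ ?_ ?_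
      · intro x hx
        exact (hF _).2 (T.mul_mem (T.inv_mem ht) ((hF x).1 hx))
      · intro x hx
        exact (hF _).2 (T.mul_mem ht ((hF x).1 hx))
      · intro x _; simp
      · intro x _; simp
      · intro x _
        rw [map_mul, map_inv, Units.val_mul, ← mul_assoc, ← Units.val_mul, mul_inv_cancel,
          Units.val_one, one_mul]
    have h2 : (μ t : ℂ) ≠ 1 := fun h => hμt (Units.ext h)
    have h3 : (1 - (μ t : ℂ)) * ∑ x ∈ F, (μ x : ℂ) = 0 := by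
      rw [sub_mul, one_mul, ← h1, sub_self]
    rcases mul_eq_zero.1 h3 with h4 | h4
    · exact absurd (sub_eq_zero.1 h4).symm h2
    · rw [h4]; simp

theorem gc_gen_sum {A : Type u} [Group A] [Fintype A] (μ : A →* ℂˣ) :
    ∀ (m : ℕ) (T : Subgroup A), Nat.card T = m →
      ∃ z : ℤ, ∀ F : Finset A, (∀ x, x ∈ F ↔ Subgroup.zpowers x = T) →
        ∑ x ∈ F, (μ x : ℂ) = z := by
  classical
  intro m
  induction m using Nat.strong_induction_on with
  | _ m ih =>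
    intro T hT
    haveI : Fintype (Subgroup A) := Fintype.ofFinite _
    have h2 : ∀ T' : Subgroup A, ∃ z : ℤ, T' < T → ∀ F : Finset A,
        (∀ x, x ∈ F ↔ Subgroup.zpowers x = T') → ∑ x ∈ F, (μ x : ℂ) = z := by
      intro T'
      by_cases h : T' < T
      · have hlt : Nat.card T' < m := by
          rw [← hT]
          by_contra hcon
          push_neg at hcon
          exact h.ne (Subgroup.eq_of_le_of_card_ge h.le hcon)
        obtain ⟨z, hz⟩ := ih (Nat.card T') hlt T' rfl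
        exact ⟨z, fun _ => hz⟩
      · exact ⟨0, fun h' => absurd h' h⟩
    choose zf hzf using h2
    obtain ⟨z0, hz0⟩ := gc_sum_hom μ T (Finset.univ.filter (fun x : A => x ∈ T)) (by simp)
    refine ⟨z0 - ∑ T' ∈ Finset.univ.filter (fun T' : Subgroup A => T' < T), zf T', ?_⟩
    intro F hF
    have h3 := Finset.sum_fiberwise_of_maps_to (s := Finset.univ.filter (fun x : A => x ∈ T))
      (t := Finset.univ.filter (fun T' : Subgroup A => T' ≤ T))
      (g := fun x => Subgroup.zpowers x) (f := fun x => (μ x : ℂ))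
      (by
        intro x hx
        rw [Finset.mem_filter] at hx ⊢
        exact ⟨Finset.mem_univ _, (Subgroup.zpowers_le).2 hx.2⟩)
    have h4 : Finset.univ.filter (fun T' : Subgroup A => T' ≤ T) =
        insert T (Finset.univ.filter (fun T' : Subgroup A => T' < T)) := by
      ext T'
      simp only [Finset.mem_filter, Finset.mem_univ, true_and, Finset.mem_insert]
      exact le_iff_eq_or_lt
    rw [h4, Finset.sum_insert (by simp), hz0] at h3
    have h5 : ∑ x ∈ (Finset.univ.filter (fun x : A => x ∈ T)).filter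
        (fun x => Subgroup.zpowers x = T), (μ x : ℂ) = ∑ x ∈ F, (μ x : ℂ) := by
      apply Finset.sum_congr _ (fun _ _ => rfl)
      ext x
      rw [hF x, Finset.mem_filter, Finset.mem_filter]
      constructor
      · exact fun h => h.2
      · intro h
        refine ⟨⟨Finset.mem_univ _, ?_⟩, h⟩
        rw [← h]; exact Subgroup.mem_zpowers x
    have h6 : ∀ T' ∈ Finset.univ.filter (fun T' : Subgroup A => T' < T),
        ∑ x ∈ (Finset.univ.filter (fun x : A => x ∈ T)).filter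
          (fun x => Subgroup.zpowers x = T'), (μ x : ℂ) = (zf T' : ℂ) := by
      intro T' hT'
      have hlt : T' < T := (Finset.mem_filter.1 hT').2
      apply hzf T' hlt
      intro x
      rw [Finset.mem_filter, Finset.mem_filter]
      constructor
      · exact fun h => h.2
      · intro h
        refine ⟨⟨Finset.mem_univ _, ?_⟩, h⟩
        apply hlt.le
        rw [← h]; exact Subgroup.mem_zpowers x
    rw [h5, Finset.sum_congr rfl h6] at h3
    push_cast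
    rw [← h3]
    ring

/-! ### the semidirect setup -/

theorem gc_setup {Γ : Type u} [Group Γ] [Finite Γ] (G S : Subgroup Γ)
    (hnorm : ∀ s ∈ S, ∀ g ∈ G, s * g * s⁻¹ ∈ G) (hcop : (Nat.card G).Coprime (Nat.card S))
    (htop : G ⊔ S = ⊤) :
    G.Normal ∧ G.index = Nat.card S ∧ ∀ s, Subgroup.zpowers s = S →
      (orderOf s = Nat.card S ∧ s ^ (Nat.card S) = 1 ∧
        ∀ j, 0 < j → j < Nat.card S → s ^ j ∉ G) := by
  have hbot : G ⊓ S = ⊥ := disjoint_iff.mp (Subgroup.disjoint_of_coprime_natCard hcop)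
  have hN : G.Normal := by
    have h1 : (⊤ : Subgroup Γ) ≤ gpStab G (fun _ => (0 : ℂ)) := by
      rw [← htop]
      apply sup_le
      · intro g hg
        rw [mem_gpStab]
        refine ⟨fun x hx => G.mul_mem (G.mul_mem hg hx) (G.inv_mem hg),
          fun x hx => G.mul_mem (G.mul_mem (G.inv_mem hg) hx) hg, fun _ _ _ => rfl⟩
      · intro s hs
        rw [mem_gpStab]
        refine ⟨hnorm s hs, ?_, fun _ _ _ => rfl⟩
        intro g hg
        have h0 := hnorm s⁻¹ (S.inv_mem hs) g hg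
        simpa using h0
    constructor
    intro n hn g
    exact ((mem_gpStab G _ g).1 (h1 (Subgroup.mem_top g))).1 n hn
  refine ⟨hN, ?_, ?_⟩
  · haveI := hN
    rw [← Subgroup.relIndex_top_right, ← htop, Subgroup.relIndex_sup_left,
      ← Subgroup.inf_relIndex_right, hbot, Subgroup.relIndex_bot_left]
  · intro s hs
    have ho : orderOf s = Nat.card S := by rw [← hs, Nat.card_zpowers]
    refine ⟨ho, by rw [← ho]; exact pow_orderOf_eq_one s, ?_⟩
    intro j hj0 hjn hmem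
    have h1 : s ^ j ∈ G ⊓ S := ⟨hmem, by rw [← hs]; exact Subgroup.npow_mem_zpowers s j⟩
    rw [hbot, Subgroup.mem_bot] at h1
    have h2 := orderOf_dvd_of_pow_eq_one h1
    rw [ho] at h2
    exact absurd (Nat.le_of_dvd hj0 h2) (not_le.2 hjn)

theorem gc_cent {Γ : Type u} [Group Γ] (S : Subgroup Γ) (s : Γ) (hs : Subgroup.zpowers s = S) :
    Subgroup.centralizer (S : Set Γ) = Subgroup.centralizer {s} := by
  ext x
  rw [Subgroup.mem_centralizer_iff, Subgroup.mem_centralizer_iff]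
  constructor
  · intro h y hy
    rw [Set.mem_singleton_iff] at hy
    apply h
    rw [hy, ← hs]
    exact Subgroup.mem_zpowers s
  · intro h y hy
    have hy' : y ∈ Subgroup.zpowers s := by rw [hs]; exact hy
    obtain ⟨k, hk⟩ := Subgroup.mem_zpowers_iff.1 hy'
    rw [← hk]
    exact ((show Commute s x from h s rfl).zpow_left k).eq

theorem gc_inv {Γ : Type u} [Group Γ] (G S : Subgroup Γ) [hG : G.Normal]
    (htop : G ⊔ S = ⊤) (χ : G → ℂ) (hχ : Cfsg.IsClassFunction G χ)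
    (hinv : ∀ s ∈ S, ∀ g g' : G, (g' : Γ) = s * g * s⁻¹ → χ g' = χ g) :
    ∀ (x : Γ) (n : G), χ ⟨x * n * x⁻¹, hG.conj_mem (n : Γ) n.2 x⟩ = χ n := by
  have h1 : (⊤ : Subgroup Γ) ≤ gpStab G χ := by
    rw [← htop]
    apply sup_le
    · intro g hg
      rw [mem_gpStab]
      refine ⟨fun x hx => G.mul_mem (G.mul_mem hg hx) (G.inv_mem hg),
        fun x hx => G.mul_mem (G.mul_mem (G.inv_mem hg) hx) hg, ?_⟩
      intro a a' haa'
      have h2 : a' = (⟨g, hg⟩ : G) * a * (⟨g, hg⟩ : G)⁻¹ := Subtype.ext haa'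
      rw [h2]
      exact hχ a ⟨g, hg⟩
    · intro s hs
      rw [mem_gpStab]
      refine ⟨fun g hg => hG.conj_mem g hg s, ?_, hinv s hs⟩
      intro g hg
      have h0 := hG.conj_mem g hg s⁻¹
      simpa using h0
  intro x n
  exact ((mem_gpStab G χ x).1 (h1 (Subgroup.mem_top x))).2.2 n _ rfl

/-! ### the canonical extension -/

theorem gc_canon {Γ : Type u} [Group Γ] [Finite Γ] (G S : Subgroup Γ) [hG : G.Normal]
    (hidx : G.index = Nat.card S) (hcop : (Nat.card G).Coprime (Nat.card S)) (htop : G ⊔ S = ⊤)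
    (χ : G → ℂ) (hχ : Cfsg.IsIrrCharacter G χ)
    (hinv : ∀ s ∈ S, ∀ g g' : G, (g' : Γ) = s * g * s⁻¹ → χ g' = χ g) :
    ∃ Ψ : Γ → ℂ, Cfsg.IsIrrCharacter Γ Ψ ∧ (∀ g : G, Ψ g = χ g) ∧
      (Cfsg.detOrder Ψ).Coprime (Nat.card S) ∧
      ∀ Ψ' : Γ → ℂ, Cfsg.IsIrrCharacter Γ Ψ' → (∀ g : G, Ψ' g = χ g) →
        (Cfsg.detOrder Ψ').Coprime (Nat.card S) → Ψ' = Ψ := by
  classical
  haveI : Fintype G := Fintype.ofFinite _
  have hχch := isCharacter_of_isIrrCharacter hχ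
  have hχcl := isClassFunction_of_isCharacter hχch
  have hinv' := gc_inv G S htop χ hχcl hinv
  obtain ⟨d, hd1, hd2⟩ : ∃ d : ℕ, χ 1 = d ∧ d ∣ Nat.card G := by
    obtain ⟨n, σ, hσ, hσχ⟩ := hχ
    haveI := hσ
    have hfin : Module.finrank ℂ (Fin n → ℂ) = n := by simp
    refine ⟨n, ?_, ?_⟩
    · rw [← hσχ, Representation.char_one, hfin]
    · have := degree_dvd_card σ
      rwa [hfin] at this
  have hdo : Cfsg.detOrder χ ∣ Nat.card G := by
    unfold Cfsg.detOrder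
    apply orderOf_dvd_of_pow_eq_one
    funext g
    rw [Pi.pow_apply, ← detChar_pow hχch, pow_card_eq_one', detChar_one hχch]
    rfl
  have hc : Nat.Coprime G.index (Cfsg.detOrder χ * d) := by
    rw [hidx]
    exact Nat.Coprime.mul_right (Nat.Coprime.coprime_dvd_right hdo hcop.symm)
      (Nat.Coprime.coprime_dvd_right hd2 hcop.symm)
  obtain ⟨Ψ, ⟨hΨ, hres, hdet⟩, huniq⟩ := Cfsg.Agent.S0867.result G χ hχ hinv' d hd1 hc
  refine ⟨Ψ, hΨ, hres, ?_, ?_⟩
  · rw [hdet]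
    exact Nat.Coprime.coprime_dvd_left hdo hcop
  · intro Ψ' hΨ' hres' hdet'
    apply huniq Ψ' hΨ' hres'
    rw [hidx]
    exact hdet'.symm

/-! ### rationality of the canonical extension on `C × S` -/

theorem gc_galois {Γ : Type u} [Group Γ] [Fintype Γ] (G : Subgroup Γ) (n : ℕ)
    (hcop : (Nat.card G).Coprime n) (hcard : Nat.card Γ = Nat.card G * n)
    (χ : G → ℂ) (Ψ : Γ → ℂ) (hΨ : Cfsg.IsIrrCharacter Γ Ψ)
    (hres : ∀ g : G, Ψ g = χ g) (hdet : (Cfsg.detOrder Ψ).Coprime n)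
    (hU : ∀ Ψ' : Γ → ℂ, Cfsg.IsIrrCharacter Γ Ψ' → (∀ g : G, Ψ' g = χ g) →
      (Cfsg.detOrder Ψ').Coprime n → Ψ' = Ψ)
    (k : ℕ) (hk : k.Coprime n) (c s : Γ) (hc : c ∈ G) (hcs : Commute c s) (hs : s ^ n = 1) :
    Ψ (c * s ^ k) = Ψ (c * s) := by
  have hΨch := isCharacter_of_isIrrCharacter hΨ
  obtain ⟨k', hk'1, hk'2⟩ : ∃ k' : ℕ, k' ≡ 1 [MOD Nat.card G] ∧ k' ≡ k [MOD n] :=
    ⟨(Nat.chineseRemainder hcop 1 k).1, (Nat.chineseRemainder hcop 1 k).2.1,
      (Nat.chineseRemainder hcop 1 k).2.2⟩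
  have hcopk' : k'.Coprime (Nat.card Γ) := by
    rw [hcard]
    apply Nat.Coprime.mul_right
    · have h1 := hk'1.gcd_eq
      unfold Nat.Coprime
      rw [h1]; simp
    · have h1 := hk'2.gcd_eq
      unfold Nat.Coprime
      rw [h1]; exact hk
  obtain ⟨τ, hτ⟩ := exists_tau (Nat.card Γ) k' Nat.card_pos hcopk'
  have hpowG : ∀ g ∈ G, g ^ k' = g := by
    intro g hg
    have h1 : orderOf g ∣ Nat.card G := Subgroup.orderOf_dvd_natCard G hg
    have h2 : k' ≡ 1 [MOD orderOf g] := hk'1.of_dvd h1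
    have h3 := (pow_eq_pow_iff_modEq (x := g)).2 h2
    rw [h3, pow_one]
  have hirr : Cfsg.IsIrrCharacter Γ (fun g => τ (Ψ g)) := isIrr_tau hΨ τ k' hcopk' hτ
  have hres' : ∀ g : G, (fun g => τ (Ψ g)) (g : Γ) = χ g := by
    intro g
    show τ (Ψ (g : Γ)) = χ g
    rw [tau_char_pow hΨch τ k' hτ, hpowG g g.2, hres]
  have hdet' : (Cfsg.detOrder (fun g => τ (Ψ g))).Coprime n := by
    apply Nat.Coprime.coprime_dvd_left _ hdet
    unfold Cfsg.detOrder
    apply orderOf_dvd_of_pow_eq_one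
    rw [detChar_tau τ hΨch]
    funext g
    rw [Pi.pow_apply, ← map_pow]
    have h1 : Cfsg.detChar Ψ ^ orderOf (Cfsg.detChar Ψ) = 1 := pow_orderOf_eq_one _
    have h2 := congrFun h1 g
    rw [Pi.pow_apply, Pi.one_apply] at h2
    rw [h2, map_one]
    rfl
  have heq := hU _ hirr hres' hdet'
  have h1 : Ψ ((c * s) ^ k') = Ψ (c * s) := by
    rw [← tau_char_pow hΨch τ k' hτ]
    exact congrFun heq (c * s)
  have h2 : (c * s) ^ k' = c * s ^ k := by
    rw [hcs.mul_pow, hpowG c hc]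
    congr 1
    rw [pow_eq_pow_mod k' hs, pow_eq_pow_mod k hs]
    congr 1
  rw [← h2, h1]

theorem gc_int_of_div (z : ℤ) (b : ℕ) (hb : b ≠ 0) (x : ℂ) (hx : (b : ℂ) * x = z)
    (h : IsIntegral ℤ x) : ∃ w : ℤ, x = w := by
  have hb' : (b : ℂ) ≠ 0 := by exact_mod_cast hb
  have h1 : x = algebraMap ℚ ℂ ((z : ℚ) / (b : ℚ)) := by
    have h2 : x = (z : ℂ) / (b : ℂ) := by
      rw [← hx]; field_simp
    rw [h2]; simp
  rw [h1] at h
  have h2 : IsIntegral ℤ ((z : ℚ) / (b : ℚ)) :=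
    (isIntegral_algebraMap_iff (algebraMap ℚ ℂ).injective).mp h
  obtain ⟨w, hw⟩ := IsIntegrallyClosed.isIntegral_iff.mp h2
  refine ⟨w, ?_⟩
  rw [h1, ← hw]
  simp

theorem gc_C2_one {K : Type u} [Group K] [Fintype K] {p : ℕ} (hp0 : 0 < p) (M : Subgroup K)
    [hM : M.Normal] [Fintype M] (hidx : M.index = p) (s : K) (hsp : s ^ p = 1)
    (hsj : ∀ j, 0 < j → j < p → s ^ j ∉ M)
    {Ψ : K → ℂ} (hΨ : Cfsg.IsIrrCharacter K Ψ)
    (hΨM : Cfsg.IsIrrCharacter M (fun m : M => Ψ m)) :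
    ∑ m : M, Ψ ((m : K) * s) * conj (Ψ ((m : K) * s)) = (Nat.card M : ℂ) := by
  rcases Nat.lt_or_ge 1 p with h | h
  · have h1 := gc_C2 hp0 M hidx s hsp hsj hΨ hΨM 1 h
    simpa using h1
  · have hp1 : p = 1 := by omega
    have hs1 : s = 1 := by rw [hp1, pow_one] at hsp; exact hsp
    have h1 := gc_C2 hp0 M hidx s hsp hsj hΨ hΨM 0 hp0
    rw [hs1]
    simpa using h1

theorem gc_C3_one {K : Type u} [Group K] [Fintype K] {p : ℕ} (hp0 : 0 < p) (M : Subgroup K)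
    [hM : M.Normal] [Fintype M] (hidx : M.index = p) (s : K) (hsp : s ^ p = 1)
    (hsj : ∀ j, 0 < j → j < p → s ^ j ∉ M)
    {Ψ Ψ' : K → ℂ} (hΨ : Cfsg.IsIrrCharacter K Ψ) (hΨ' : Cfsg.IsIrrCharacter K Ψ')
    (hne : (fun m : M => Ψ m) ≠ (fun m : M => Ψ' m)) :
    ∑ m : M, Ψ ((m : K) * s) * conj (Ψ' ((m : K) * s)) = 0 := by
  rcases Nat.lt_or_ge 1 p with h | h
  · have h1 := gc_C3 hp0 M hidx s hsp hsj hΨ hΨ' hne 1 h
    simpa using h1
  · have hp1 : p = 1 := by omega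
    have hs1 : s = 1 := by rw [hp1, pow_one] at hsp; exact hsp
    have h1 := gc_C3 hp0 M hidx s hsp hsj hΨ hΨ' hne 0 hp0
    rw [hs1]
    simpa using h1

/-! ### the main step -/

theorem gc_main {Γ : Type u} [Group Γ] [Fintype Γ] (G S : Subgroup Γ) [Fintype G]
    (hnorm : ∀ s ∈ S, ∀ g ∈ G, s * g * s⁻¹ ∈ G) (hcop : (Nat.card G).Coprime (Nat.card S))
    (htop : G ⊔ S = ⊤) (C : Subgroup Γ) [Fintype C]
    (hC : C = G ⊓ Subgroup.centralizer (S : Set Γ)) (hCG : C ≤ G)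
    (s₀ : Γ) (hs₀ : Subgroup.zpowers s₀ = S)
    (χ : G → ℂ) (hχ : Cfsg.IsIrrCharacter G χ) (Ψ : Γ → ℂ) (hΨ : Cfsg.IsIrrCharacter Γ Ψ)
    (hres : ∀ g : G, Ψ g = χ g) (hdet : (Cfsg.detOrder Ψ).Coprime (Nat.card S))
    (hU : ∀ Ψ' : Γ → ℂ, Cfsg.IsIrrCharacter Γ Ψ' → (∀ g : G, Ψ' g = χ g) →
      (Cfsg.detOrder Ψ').Coprime (Nat.card S) → Ψ' = Ψ) :
    ∃ (β : Cfsg.IrrCharacter C) (ε : ℤ), (ε = 1 ∨ ε = -1) ∧
      (∀ c : C, ∀ s : Γ, Subgroup.zpowers s = S → Ψ ((c : Γ) * s) = (ε : ℂ) * (β : C → ℂ) c) ∧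
      Cfsg.classInner (fun c : C => χ ⟨c, hCG c.2⟩) (β : C → ℂ) ≠ 0 := by
  classical
  haveI : Fintype (Cfsg.IrrCharacter C) := Fintype.ofFinite _
  obtain ⟨hGn, hidx, hgen⟩ := gc_setup G S hnorm hcop htop
  haveI := hGn
  obtain ⟨n, hn⟩ : ∃ n, n = Nat.card S := ⟨_, rfl⟩
  rw [← hn] at hidx hcop hdet hU hgen
  have hn0 : 0 < n := by rw [hn]; exact Nat.card_pos
  have hcard : Nat.card Γ = Nat.card G * n := by
    rw [← hidx, Subgroup.card_mul_index]
  obtain ⟨hord, hsp, hsj⟩ := hgen s₀ hs₀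
  obtain ⟨lam, ζ, hζ, hlamM, hlams⟩ := gc_exists_lam hn0 G hidx s₀ hsp hsj
  have hΨch := isCharacter_of_isIrrCharacter hΨ
  have hΨcl := isClassFunction_of_isCharacter hΨch
  have hΨM : Cfsg.IsIrrCharacter G (fun m : G => Ψ m) := by
    have h : (fun m : G => Ψ m) = χ := funext hres
    rw [h]; exact hχ
  have hCcent : C = G ⊓ Subgroup.centralizer {s₀} := by rw [hC, gc_cent S s₀ hs₀]
  have hCs : ∀ c ∈ C, Commute c s₀ := fun c hc => by
    rw [hCcent] at hc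
    exact (Subgroup.mem_centralizer_iff.1 hc.2 s₀ rfl).symm
  -- ψ
  obtain ⟨ψ, hψdef⟩ : ∃ ψ : ℕ → C → ℂ, ψ = fun (j : ℕ) (c : C) => Ψ ((c : Γ) * s₀ ^ j) :=
    ⟨fun (j : ℕ) (c : C) => Ψ ((c : Γ) * s₀ ^ j), rfl⟩
  have hψ : ∀ j (c : C), ψ j c = Ψ ((c : Γ) * s₀ ^ j) := fun j c => by rw [hψdef]
  have hψcl : ∀ j, Cfsg.IsClassFunction C (ψ j) := by
    intro j g h
    rw [hψ, hψ]
    have hc : Commute (h : Γ) (s₀ ^ j) := (hCs h h.2).pow_right j
    have h1 : ((h * g * h⁻¹ : C) : Γ) * s₀ ^ j = (h : Γ) * ((g : Γ) * s₀ ^ j) * (h : Γ)⁻¹ := by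
      rw [Subgroup.coe_mul, Subgroup.coe_mul, Subgroup.coe_inv, mul_assoc ((h : Γ) * (g : Γ)),
        hc.inv_left.eq]
      group
    rw [h1]
    exact hΨcl _ _
  have hnorm1 : Cfsg.classInner (ψ 1) (ψ 1) = 1 := by
    have h1 := gc_coset_sum G hcop s₀ hsp C hCcent (fun x => Ψ x * conj (Ψ x))
      (by intro g h; show Ψ (h * g * h⁻¹) * conj (Ψ (h * g * h⁻¹)) = Ψ g * conj (Ψ g)
          rw [hΨcl g h])
    have h2 := gc_C2_one hn0 G hidx s₀ hsp hsj hΨ hΨM
    have h1' : (Nat.card C : ℂ) * ∑ m : G, Ψ ((m : Γ) * s₀) * conj (Ψ ((m : Γ) * s₀)) =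
        (Nat.card G : ℂ) * ∑ c : C, Ψ ((c : Γ) * s₀) * conj (Ψ ((c : Γ) * s₀)) := h1
    rw [h2] at h1'
    have hM0 : (Nat.card G : ℂ) ≠ 0 := by exact_mod_cast Nat.card_pos.ne'
    have hC0 : (Nat.card C : ℂ) ≠ 0 := by exact_mod_cast Nat.card_pos.ne'
    have h3 : ∑ c : C, Ψ ((c : Γ) * s₀) * conj (Ψ ((c : Γ) * s₀)) = (Nat.card C : ℂ) := by
      apply mul_left_cancel₀ hM0
      rw [← h1', mul_comm]
    unfold Cfsg.classInner
    have h4 : ∑ g : C, ψ 1 g * conj (ψ 1 g) =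
        ∑ c : C, Ψ ((c : Γ) * s₀) * conj (Ψ ((c : Γ) * s₀)) := by
      apply Finset.sum_congr rfl
      intro c _
      rw [hψ, pow_one]
    rw [h4, h3, inv_mul_cancel₀ hC0]
  -- the coefficients
  obtain ⟨a, hadef⟩ : ∃ a : Cfsg.IrrCharacter C → ℕ → ℂ,
      a = fun (β : Cfsg.IrrCharacter C) (j : ℕ) => Cfsg.classInner (ψ j) (β : C → ℂ) :=
    ⟨fun (β : Cfsg.IrrCharacter C) (j : ℕ) => Cfsg.classInner (ψ j) (β : C → ℂ), rfl⟩
  have ha : ∀ β j, a β j = Cfsg.classInner (ψ j) (β : C → ℂ) := fun β j => by rw [hadef]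
  have hint : ∀ (β : Cfsg.IrrCharacter C) (k : ℕ), ∃ m : ℕ,
      (m : ℂ) = (n : ℂ)⁻¹ * ∑ j ∈ Finset.range n, conj (ζ ^ (k * j)) * a β j := by
    intro β k
    obtain ⟨m, hm⟩ := gc_integral s₀ hord C hCs lam ζ hlams Ψ hΨch β
      (isCharacter_of_isIrrCharacter β.2) k
    refine ⟨m, ?_⟩
    rw [hm]
    congr 1
    apply Finset.sum_congr rfl
    intro j _
    rw [ha, hψdef]
  choose B hB using hint
  have hinv : ∀ β j, j < n → a β j = ∑ k ∈ Finset.range n, ζ ^ (k * j) * (B β k : ℂ) :=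
    fun β j hj => gp_inversion hζ hn0 (a β) (fun k => (B β k : ℂ)) (fun k _ => hB β k) j hj
  -- Galois invariance
  have hgal : ∀ j, j.Coprime n → ψ j = ψ 1 := by
    intro j hj
    funext c
    rw [hψ, hψ, pow_one]
    exact gc_galois G n hcop hcard χ Ψ hΨ hres hdet hU j hj c s₀ (hCG c.2) (hCs c c.2) hsp
  have hFgen : ∀ x : Γ, Subgroup.zpowers x = S → ∃ j, j < n ∧ j.Coprime n ∧ s₀ ^ j = x := by
    intro x hx
    have hx' : x ∈ Subgroup.zpowers s₀ := by rw [hs₀, ← hx]; exact Subgroup.mem_zpowers x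
    rw [mem_zpowers_iff_mem_range_orderOf, Finset.mem_image] at hx'
    obtain ⟨j, hj, hjx⟩ := hx'
    rw [Finset.mem_range, hord] at hj
    refine ⟨j, hj, ?_, hjx⟩
    have h1 := (hgen x hx).1
    rw [← hjx, orderOf_pow, hord] at h1
    rcases (Nat.div_eq_self.1 h1) with h2 | h2
    · omega
    · exact (Nat.coprime_comm.1 h2)
  -- integrality of `a β 1`
  obtain ⟨F, hFdef⟩ : ∃ F : Finset Γ, F = Finset.univ.filter (fun x : Γ => Subgroup.zpowers x = S) :=
    ⟨_, rfl⟩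
  have hFmem : ∀ x, x ∈ F ↔ Subgroup.zpowers x = S := by
    intro x; rw [hFdef, Finset.mem_filter]; simp
  have hF0 : F.card ≠ 0 := by
    have h1 : s₀ ∈ F := (hFmem s₀).2 hs₀
    exact (Finset.card_pos.2 ⟨s₀, h1⟩).ne'
  have hzk : ∀ k : ℕ, ∃ z : ℤ, ∑ x ∈ F, ((lam x : ℂˣ) : ℂ) ^ k = z := by
    intro k
    obtain ⟨z, hz⟩ := gc_gen_sum (lam ^ k) (Nat.card S) S rfl
    refine ⟨z, ?_⟩
    rw [← hz F hFmem]
    apply Finset.sum_congr rfl
    intro x _
    rw [MonoidHom.pow_apply, Units.val_pow_eq_pow_val]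
  choose zk hzk using hzk
  have haF : ∀ β, (F.card : ℂ) * a β 1 =
      ((∑ k ∈ Finset.range n, (B β k : ℤ) * zk k : ℤ) : ℂ) := by
    intro β
    have h1 : ∀ x ∈ F, a β 1 = ∑ k ∈ Finset.range n, ((lam x : ℂˣ) : ℂ) ^ k * (B β k : ℂ) := by
      intro x hx
      obtain ⟨j, hj, hjc, hjx⟩ := hFgen x ((hFmem x).1 hx)
      have h2 : a β 1 = a β j := by rw [ha, ha, hgal j hjc]
      rw [h2, hinv β j hj]
      apply Finset.sum_congr rfl
      intro k _
      rw [← hjx, map_pow, Units.val_pow_eq_pow_val, hlams, ← pow_mul, mul_comm j k]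
    have h3 : (F.card : ℂ) * a β 1 = ∑ x ∈ F, a β 1 := by
      rw [Finset.sum_const, nsmul_eq_mul]
    rw [h3, Finset.sum_congr rfl h1, Finset.sum_comm]
    push_cast
    apply Finset.sum_congr rfl
    intro k _
    rw [← Finset.sum_mul, hzk k, mul_comm]
  obtain ⟨j₀, hj₀, hj₀c, -⟩ := hFgen s₀ hs₀
  have ha1 : ∀ β, a β 1 = ∑ k ∈ Finset.range n, ζ ^ (k * j₀) * (B β k : ℂ) := by
    intro β
    rw [← hinv β j₀ hj₀, ha, ha, hgal j₀ hj₀c]
  have haint : ∀ β, IsIntegral ℤ (a β 1) := by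
    intro β
    rw [ha1 β]
    apply IsIntegral.sum
    intro k _
    exact IsIntegral.mul ((hζ.isIntegral hn0).pow _) (isIntegral_natCast _)
  have hw : ∀ β, ∃ w : ℤ, a β 1 = w :=
    fun β => gc_int_of_div _ F.card hF0 (a β 1) (haF β) (haint β)
  choose w hw using hw
  -- Parseval
  have hsumβ : ∑ β : Cfsg.IrrCharacter C, a β 1 * conj (a β 1) = 1 := by
    rw [← hnorm1, gp_parseval_cf (ψ 1) (hψcl 1)]
    apply Finset.sum_congr rfl
    intro β _
    rw [ha]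
  have hsumw : ∑ β : Cfsg.IrrCharacter C, (w β) ^ 2 = 1 := by
    have h1 : ((∑ β : Cfsg.IrrCharacter C, (w β) ^ 2 : ℤ) : ℂ) = 1 := by
      rw [← hsumβ]
      push_cast
      apply Finset.sum_congr rfl
      intro β _
      rw [hw β, map_intCast, pow_two]
    exact_mod_cast h1
  obtain ⟨β₀, hβ₀⟩ : ∃ β₀, w β₀ ≠ 0 := by
    by_contra hcon
    push_neg at hcon
    rw [Finset.sum_eq_zero (fun β _ => by rw [hcon β]; ring)] at hsumw
    exact zero_ne_one hsumw
  have hsplit : ∑ β : Cfsg.IrrCharacter C, (w β) ^ 2 =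
      (w β₀) ^ 2 + ∑ β ∈ Finset.univ.erase β₀, (w β) ^ 2 :=
    (Finset.add_sum_erase Finset.univ (fun β => (w β) ^ 2) (Finset.mem_univ β₀)).symm
  have hnn : 0 ≤ ∑ β ∈ Finset.univ.erase β₀, (w β) ^ 2 :=
    Finset.sum_nonneg (fun β _ => sq_nonneg _)
  have hw0sq : (w β₀) ^ 2 = 1 := by
    have h1 : 1 ≤ (w β₀) ^ 2 := by
      have h2 : (w β₀) ^ 2 ≠ 0 := pow_ne_zero 2 hβ₀
      have h3 := sq_nonneg (w β₀)
      omega
    linarith
  have hrest : ∀ β, β ≠ β₀ → w β = 0 := by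
    intro β hβ
    have h4 : ∑ β ∈ Finset.univ.erase β₀, (w β) ^ 2 = 0 := by linarith
    have h5 := (Finset.sum_eq_zero_iff_of_nonneg (fun β _ => sq_nonneg (w β))).1 h4 β
      (Finset.mem_erase.2 ⟨hβ, Finset.mem_univ β⟩)
    exact (pow_eq_zero_iff (two_ne_zero)).1 h5
  have hε : w β₀ = 1 ∨ w β₀ = -1 := by
    have h1 : (w β₀ - 1) * (w β₀ + 1) = 0 := by
      have : (w β₀ - 1) * (w β₀ + 1) = (w β₀) ^ 2 - 1 := by ring
      rw [this, hw0sq]; ring
    rcases mul_eq_zero.1 h1 with h | h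
    · left; linarith
    · right; linarith
  refine ⟨β₀, w β₀, hε, ?_, ?_⟩
  · intro c s hs
    obtain ⟨j, hj, hjc, hjx⟩ := hFgen s hs
    have h := classFunction_expansion_sum (ψ 1) (hψcl 1)
    have h2 := congrFun h c
    rw [Finset.sum_apply, Finset.sum_eq_single β₀ (fun β _ hβ => by
        rw [Pi.smul_apply, ← ha, hw β, hrest β hβ]; simp)
      (fun h => absurd (Finset.mem_univ _) h)] at h2
    rw [← hjx, ← hψ, hgal j hjc, h2, Pi.smul_apply, ← ha, hw β₀, smul_eq_mul]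
  · have h1 : (fun c : C => χ ⟨c, hCG c.2⟩) = ψ 0 := by
      funext c
      rw [hψ, pow_zero, mul_one]
      exact (hres ⟨c, hCG c.2⟩).symm
    rw [h1, ← ha, hinv β₀ 0 hn0]
    intro hzero
    have h2 : ∑ k ∈ Finset.range n, B β₀ k = 0 := by
      have h3 : ((∑ k ∈ Finset.range n, B β₀ k : ℕ) : ℂ) = 0 := by
        rw [← hzero]
        push_cast
        apply Finset.sum_congr rfl
        intro k _
        simp
      exact_mod_cast h3
    have h4 : ∀ k ∈ Finset.range n, B β₀ k = 0 := (Finset.sum_eq_zero_iff).1 h2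
    have h5 : a β₀ 1 = 0 := by
      rw [ha1 β₀]
      apply Finset.sum_eq_zero
      intro k hk
      rw [h4 k hk]; simp
    rw [hw β₀] at h5
    have h6 : w β₀ = 0 := by exact_mod_cast h5
    exact hβ₀ h6

/-! ### uniqueness and injectivity -/

theorem gc_pair_unique {C : Type u} [Group C] (β β' : Cfsg.IrrCharacter C) (ε ε' : ℤ)
    (hε : ε = 1 ∨ ε = -1) (hε' : ε' = 1 ∨ ε' = -1)
    (h : ∀ c : C, (ε : ℂ) * (β : C → ℂ) c = (ε' : ℂ) * (β' : C → ℂ) c) : β = β' ∧ ε = ε' := by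
  obtain ⟨d, hd0, hd⟩ := irr_one β.2
  obtain ⟨d', hd0', hd'⟩ := irr_one β'.2
  have h1 := h 1
  rw [hd, hd'] at h1
  have hεε : ε = ε' := by
    rcases hε with rfl | rfl <;> rcases hε' with rfl | rfl
    · rfl
    · exfalso
      have h2 : ((d + d' : ℕ) : ℂ) = 0 := by
        push_cast at h1 ⊢; linear_combination h1
      have h3 : d + d' = 0 := by exact_mod_cast h2
      omega
    · exfalso
      have h2 : ((d + d' : ℕ) : ℂ) = 0 := by
        push_cast at h1 ⊢; linear_combination -h1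
      have h3 : d + d' = 0 := by exact_mod_cast h2
      omega
    · rfl
  refine ⟨?_, hεε⟩
  apply Subtype.ext
  funext c
  have h2 := h c
  rw [hεε] at h2
  have hne : (ε' : ℂ) ≠ 0 := by
    rcases hε' with rfl | rfl <;> norm_num
  exact mul_left_cancel₀ hne h2

theorem gc_inj {Γ : Type u} [Group Γ] [Fintype Γ] (G S : Subgroup Γ) [Fintype G]
    (hnorm : ∀ s ∈ S, ∀ g ∈ G, s * g * s⁻¹ ∈ G) (hcop : (Nat.card G).Coprime (Nat.card S))
    (htop : G ⊔ S = ⊤) (C : Subgroup Γ) [Fintype C]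
    (hC : C = G ⊓ Subgroup.centralizer (S : Set Γ))
    (s₀ : Γ) (hs₀ : Subgroup.zpowers s₀ = S)
    (χ χ' : G → ℂ) (Ψ Ψ' : Γ → ℂ) (hΨ : Cfsg.IsIrrCharacter Γ Ψ)
    (hΨ' : Cfsg.IsIrrCharacter Γ Ψ')
    (hres : ∀ g : G, Ψ g = χ g) (hres' : ∀ g : G, Ψ' g = χ' g)
    (β : C → ℂ) (hβ : Cfsg.IsIrrCharacter C β) (ε ε' : ℤ) (hε : ε = 1 ∨ ε = -1)
    (hε' : ε' = 1 ∨ ε' = -1)
    (hrel : ∀ c : C, Ψ ((c : Γ) * s₀) = (ε : ℂ) * β c)
    (hrel' : ∀ c : C, Ψ' ((c : Γ) * s₀) = (ε' : ℂ) * β c) : χ = χ' := by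
  classical
  obtain ⟨hGn, hidx, hgen⟩ := gc_setup G S hnorm hcop htop
  haveI := hGn
  obtain ⟨hord, hsp, hsj⟩ := hgen s₀ hs₀
  have hn0 : 0 < Nat.card S := Nat.card_pos
  by_contra hne
  have hne' : (fun m : G => Ψ m) ≠ (fun m : G => Ψ' m) := by
    intro h
    apply hne
    funext g
    rw [← hres g, ← hres' g]
    exact congrFun h g
  have h1 := gc_C3_one hn0 G hidx s₀ hsp hsj hΨ hΨ' hne'
  have hCcent : C = G ⊓ Subgroup.centralizer {s₀} := by rw [hC, gc_cent S s₀ hs₀]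
  have hΨcl := isClassFunction_of_isCharacter (isCharacter_of_isIrrCharacter hΨ)
  have hΨcl' := isClassFunction_of_isCharacter (isCharacter_of_isIrrCharacter hΨ')
  have h2 := gc_coset_sum G hcop s₀ hsp C hCcent (fun x => Ψ x * conj (Ψ' x))
      (by intro g h; show Ψ (h * g * h⁻¹) * conj (Ψ' (h * g * h⁻¹)) = Ψ g * conj (Ψ' g)
          rw [hΨcl g h, hΨcl' g h])
  have h2' : (Nat.card C : ℂ) * ∑ m : G, Ψ ((m : Γ) * s₀) * conj (Ψ' ((m : Γ) * s₀)) =
        (Nat.card G : ℂ) * ∑ c : C, Ψ ((c : Γ) * s₀) * conj (Ψ' ((c : Γ) * s₀)) := h2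
  rw [h1, mul_zero] at h2'
  have hM0 : (Nat.card G : ℂ) ≠ 0 := by exact_mod_cast Nat.card_pos.ne'
  have hC0 : (Nat.card C : ℂ) ≠ 0 := by exact_mod_cast Nat.card_pos.ne'
  have h3 : ∑ c : C, Ψ ((c : Γ) * s₀) * conj (Ψ' ((c : Γ) * s₀)) = 0 := by
    rcases mul_eq_zero.1 h2'.symm with h | h
    · exact absurd h hM0
    · exact h
  have h4 : ∑ c : C, Ψ ((c : Γ) * s₀) * conj (Ψ' ((c : Γ) * s₀)) =
      (ε : ℂ) * (ε' : ℂ) * ∑ c : C, β c * conj (β c) := by
    rw [Finset.mul_sum]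
    apply Finset.sum_congr rfl
    intro c _
    rw [hrel c, hrel' c, map_mul, map_intCast]
    ring
  have h5 := classInner_irr_self hβ
  unfold Cfsg.classInner at h5
  have h6 : ∑ c : C, β c * conj (β c) = (Nat.card C : ℂ) := by
    have h7 : (Nat.card C : ℂ) * ((Nat.card C : ℂ)⁻¹ * ∑ c : C, β c * conj (β c)) =
        (Nat.card C : ℂ) * 1 := by rw [h5]
    rw [← mul_assoc, mul_inv_cancel₀ hC0, one_mul, mul_one] at h7
    exact h7
  rw [h4, h6] at h3
  have hε0 : (ε : ℂ) ≠ 0 := by rcases hε with rfl | rfl <;> norm_num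
  have hε0' : (ε' : ℂ) ≠ 0 := by rcases hε' with rfl | rfl <;> norm_num
  exact mul_ne_zero (mul_ne_zero hε0 hε0') hC0 h3

/-! ### counting invariant characters -/

theorem solv_count_irr {Γ : Type u} [Group Γ] [Finite Γ] (S : Subgroup Γ) [Group.IsSolvable S] :
    ∀ (n : ℕ) (G : Subgroup Γ), Nat.card G = n → (∀ s ∈ S, ∀ g ∈ G, s * g * s⁻¹ ∈ G) →
      (Nat.card G).Coprime (Nat.card S) →
      ∀ C₀ : Subgroup Γ, C₀ = G ⊓ Subgroup.centralizer (S : Set Γ) →
      Nat.card {χ : Cfsg.IrrCharacter G // ChInv G S χ.1} = Nat.card (Cfsg.IrrCharacter C₀) := by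
  classical
  intro n
  induction n using Nat.strong_induction_on with
  | _ n ih =>
    intro G hn hnorm hcop C₀ hC₀
    by_cases hcent : ∀ s ∈ S, ∀ g ∈ G, s * g = g * s
    · have e1 : ∀ χ : Cfsg.IrrCharacter G, ChInv G S χ.1 := by
        intro χ s hs g g' hgg'
        have h1 : g' = g := Subtype.ext (by rw [hgg', hcent s hs g g.2]; group)
        rw [h1]
      have e2 : C₀ = G := by
        rw [hC₀]
        apply inf_eq_left.2
        intro g hg
        rw [Subgroup.mem_centralizer_iff]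
        intro s hs
        exact hcent s hs g hg
      subst e2
      rw [Nat.card_congr (Equiv.subtypeUnivEquiv e1)]
    · obtain ⟨𝒯, h𝒯⟩ : ∃ 𝒯 : Set (Subgroup S),
          𝒯 = {T | T.Normal ∧ ¬ ∀ t : S, t ∈ T → ∀ g ∈ G, (t : Γ) * g = g * (t : Γ)} := ⟨_, rfl⟩
      have h𝒯mem : ∀ T : Subgroup S, T ∈ 𝒯 ↔
          (T.Normal ∧ ¬ ∀ t : S, t ∈ T → ∀ g ∈ G, (t : Γ) * g = g * (t : Γ)) := by
        intro T; rw [h𝒯]; rfl
      have htop : (⊤ : Subgroup S) ∈ 𝒯 := by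
        rw [h𝒯mem]
        refine ⟨inferInstance, ?_⟩
        intro h
        apply hcent
        intro s hs g hg
        exact h ⟨s, hs⟩ (Subgroup.mem_top _) g hg
      obtain ⟨T, hT𝒯, hTmin⟩ := Set.exists_min_image 𝒯 (fun T : Subgroup S => Nat.card T)
        (Set.toFinite 𝒯) ⟨⊤, htop⟩
      obtain ⟨hTn, hTact⟩ := (h𝒯mem T).1 hT𝒯
      haveI := hTn
      have hTne : T ≠ ⊥ := by
        rintro rfl
        apply hTact
        intro t ht g hg
        rw [Subgroup.mem_bot.1 ht]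
        simp
      obtain ⟨p, hp, hpT, T₁, hT₁n, hT₁le, hT₁ne, hpow⟩ := solv_step T hTne
      have hT₁act : ∀ t : S, t ∈ T₁ → ∀ g ∈ G, (t : Γ) * g = g * (t : Γ) := by
        by_contra hcon
        have h1 : T₁ ∈ 𝒯 := (h𝒯mem T₁).2 ⟨hT₁n, hcon⟩
        have h2 : Nat.card T ≤ Nat.card T₁ := hTmin T₁ h1
        exact hT₁ne (Subgroup.eq_of_le_of_card_ge hT₁le h2)
      obtain ⟨T', hT'def⟩ : ∃ T' : Subgroup Γ, T' = T.map S.subtype := ⟨_, rfl⟩
      have hT'S : T' ≤ S := by rw [hT'def]; exact Subgroup.map_subtype_le T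
      have hT'mem : ∀ x : S, (x : Γ) ∈ T' ↔ x ∈ T := by
        intro x
        rw [hT'def, Subgroup.mem_map]
        constructor
        · rintro ⟨y, hy, hyx⟩
          have h1 : y = x := Subtype.ext hyx
          rw [← h1]; exact hy
        · intro hx; exact ⟨x, hx, rfl⟩
      have hT'norm : ∀ x ∈ S, ∀ t ∈ T', x * t * x⁻¹ ∈ T' := by
        intro x hx t ht
        have h1 := (hT'mem ⟨t, hT'S ht⟩).1 ht
        have h2 := hTn.conj_mem _ h1 ⟨x, hx⟩
        exact (hT'mem _).2 h2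
      have hT'p : ∀ t ∈ T', ∃ k : ℕ, ∀ g ∈ G, t ^ (p ^ k) * g = g * t ^ (p ^ k) := by
        intro t ht
        refine ⟨1, ?_⟩
        intro g hg
        have h1 := (hT'mem ⟨t, hT'S ht⟩).1 ht
        have h2 := hpow _ h1
        have h3 : t ^ p * g = g * t ^ p := hT₁act _ h2 g hg
        rw [pow_one]
        exact h3
      have hT'act : ¬ ∀ t ∈ T', ∀ g ∈ G, t * g = g * t := by
        intro h
        apply hTact
        intro t ht g hg
        exact h t ((hT'mem t).2 ht) g hg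
      have hcardT' : Nat.card T' = Nat.card T := by
        rw [hT'def]
        exact (Nat.card_congr
          (T.equivMapOfInjective S.subtype S.subtype_injective).toEquiv).symm
      have hpS : p ∣ Nat.card S := by
        have h1 : Nat.card T' ∣ Nat.card S := Subgroup.card_dvd_of_le hT'S
        rw [hcardT'] at h1
        exact dvd_trans hpT h1
      have hpG : ¬ p ∣ Nat.card G := by
        intro hd
        have h1 : p ∣ Nat.gcd (Nat.card G) (Nat.card S) := Nat.dvd_gcd hd hpS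
        have h2 : Nat.gcd (Nat.card G) (Nat.card S) = 1 := hcop
        rw [h2] at h1
        exact hp.one_lt.ne' (Nat.dvd_one.1 h1)
      obtain ⟨C, hCdef⟩ : ∃ C : Subgroup Γ, C = G ⊓ Subgroup.centralizer (T' : Set Γ) :=
        ⟨_, rfl⟩
      haveI : Fintype C := Fintype.ofFinite _
      have hCG : C ≤ G := by rw [hCdef]; exact inf_le_left
      have hCne : C ≠ G := by
        intro hCeq
        apply hT'act
        intro t ht g hg
        have h1 : g ∈ C := by rw [hCeq]; exact hg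
        rw [hCdef] at h1
        exact Subgroup.mem_centralizer_iff.1 (Subgroup.mem_inf.1 h1).2 t ht
      have hClt : Nat.card C < n := by
        rw [← hn]
        by_contra hcon
        push_neg at hcon
        exact hCne (Subgroup.eq_of_le_of_card_ge hCG hcon)
      have hsC : ∀ s ∈ S, ∀ d ∈ C, s * d * s⁻¹ ∈ C := cent_norm G S T' hnorm hT'norm C hCdef
      have hcopC : (Nat.card C).Coprime (Nat.card S) :=
        Nat.Coprime.coprime_dvd_left (Subgroup.card_dvd_of_le hCG) hcop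
      have hC₀' : C₀ = C ⊓ Subgroup.centralizer (S : Set Γ) := by
        rw [hC₀, hCdef, inf_assoc]
        congr 1
        exact (inf_eq_right.2 (Subgroup.centralizer_le hT'S)).symm
      have ihC := ih (Nat.card C) hClt C rfl hsC hcopC C₀ hC₀'
      have hcopT : (Nat.card G).Coprime (Nat.card T') :=
        Nat.Coprime.coprime_dvd_right (Subgroup.card_dvd_of_le hT'S) hcop
      have hcorr := gp_induct2 hp (Nat.card T') G T' rfl (fun t ht => hnorm t (hT'S ht)) hcopT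
        hT'p C hCdef hCG
      rw [irr_count_step G S T' hnorm hT'S hT'norm C hCdef hCG hcorr, ihC]

end Cfsg.Agent.Lib.Helper7
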