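import Mathlib
import Cfsg.Prelude.Def_Characters
import Cfsg.Prelude.Def_CharExt
import Cfsg.Agent.Lib.Helper7.GlaubCyc2

/-! # The cyclic coprime case with all non-identity elements having the same centraliser -/

universe u

namespace Cfsg.Agent.Lib.Helper7

open Cfsg.Agent.Lib.Lead
open scoped ComplexConjugate

/-! ### an extremal integer lemma -/

theorem gc_star {ι : Type*} [DecidableEq ι] (B : ι → ℤ) (s : Finset ι) :
    (∃ a ∈ s, ∃ b ∈ s, B a ≠ B b) →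
    (s.card : ℤ) * ∑ i ∈ s, B i ^ 2 - (∑ i ∈ s, B i) ^ 2 = (s.card : ℤ) - 1 →
    ∃ k₀ ∈ s, ∃ (b ε : ℤ), (ε = 1 ∨ ε = -1) ∧ B k₀ = b + ε ∧ ∀ k ∈ s, k ≠ k₀ → B k = b := by
  induction s using Finset.induction_on with
  | empty =>
    rintro ⟨a, ha, -⟩
    exact absurd ha (Finset.notMem_empty a)
  | insert a s has ih =>
    intro hne heq
    rw [Finset.card_insert_of_notMem has, Finset.sum_insert has, Finset.sum_insert has] at heq
    have hid : ((s.card + 1 : ℕ) : ℤ) * (B a ^ 2 + ∑ i ∈ s, B i ^ 2) - (B a + ∑ i ∈ s, B i) ^ 2 =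
        ((s.card : ℤ) * ∑ i ∈ s, B i ^ 2 - (∑ i ∈ s, B i) ^ 2) + ∑ i ∈ s, (B i - B a) ^ 2 := by
      have h1 : ∑ i ∈ s, (B i - B a) ^ 2 =
          ∑ i ∈ s, B i ^ 2 - 2 * B a * ∑ i ∈ s, B i + (s.card : ℤ) * B a ^ 2 := by
        have : ∀ i ∈ s, (B i - B a) ^ 2 = B i ^ 2 - 2 * B a * B i + B a ^ 2 := fun i _ => by ring
        rw [Finset.sum_congr rfl this, Finset.sum_add_distrib, Finset.sum_sub_distrib,
          ← Finset.mul_sum, Finset.sum_const, nsmul_eq_mul]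
      rw [h1]
      push_cast
      ring
    rw [hid] at heq
    push_cast at heq
    have hsq1 : ∀ x y : ℤ, x ≠ y → (1 : ℤ) ≤ (x - y) ^ 2 := by
      intro x y hxy
      have h0 : x - y ≠ 0 := sub_ne_zero.2 hxy
      have h4 : 0 < (x - y) ^ 2 := by positivity
      omega
    by_cases hs : ∃ b ∈ s, ∃ c ∈ s, B b ≠ B c
    · have h1 := gp_int_lb B s hs
      obtain ⟨x, hx, y, hy, hxy⟩ := hs
      have h2 : ∃ l ∈ s, B l ≠ B a := by
        by_cases hba : B x = B a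
        · exact ⟨y, hy, fun h => hxy (hba.trans h.symm)⟩
        · exact ⟨x, hx, hba⟩
      obtain ⟨l, hl, hla⟩ := h2
      have h3 := hsq1 _ _ hla
      have h5 : (B l - B a) ^ 2 ≤ ∑ i ∈ s, (B i - B a) ^ 2 :=
        Finset.single_le_sum (f := fun i => (B i - B a) ^ 2) (fun i _ => sq_nonneg _) hl
      have hQs : (s.card : ℤ) * ∑ i ∈ s, B i ^ 2 - (∑ i ∈ s, B i) ^ 2 = (s.card : ℤ) - 1 := by
        linarith
      have hSig : ∑ i ∈ s, (B i - B a) ^ 2 = 1 := by linarith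
      obtain ⟨k₀, hk₀, b, ε, hε, hBk₀, hrest⟩ := ih ⟨x, hx, y, hy, hxy⟩ hQs
      by_cases hab : B a = b
      · refine ⟨k₀, Finset.mem_insert_of_mem hk₀, b, ε, hε, hBk₀, ?_⟩
        intro k hk hkk₀
        rcases Finset.mem_insert.1 hk with rfl | hk
        · exact hab
        · exact hrest k hk hkk₀
      · obtain ⟨k₁, hk₁, hk₁₀⟩ : ∃ k₁ ∈ s, k₁ ≠ k₀ := by
          by_cases hxk : x = k₀
          · refine ⟨y, hy, ?_⟩
            intro hyk
            apply hxy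
            rw [hxk, hyk]
          · exact ⟨x, hx, hxk⟩
        have hBk₁ : B k₁ = b := hrest k₁ hk₁ hk₁₀
        have hk₁a : (1 : ℤ) ≤ (B k₁ - B a) ^ 2 :=
          hsq1 _ _ (by rw [hBk₁]; exact fun h => hab h.symm)
        have hpair : ∀ k₂ ∈ s, k₂ ≠ k₁ → (B k₂ - B a) ^ 2 + (B k₁ - B a) ^ 2 ≤ 1 := by
          intro k₂ hk₂ hne21
          have hsub : ({k₂, k₁} : Finset ι) ⊆ s := by
            intro i hi
            rcases Finset.mem_insert.1 hi with rfl | hi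
            · exact hk₂
            · rw [Finset.mem_singleton.1 hi]; exact hk₁
          have h6 := Finset.sum_le_sum_of_subset_of_nonneg hsub
            (f := fun i => (B i - B a) ^ 2) (fun i _ _ => sq_nonneg _)
          rw [Finset.sum_pair hne21, hSig] at h6
          exact h6
        have hBa : B a = b + ε := by
          have h6 := hpair k₀ hk₀ (Ne.symm hk₁₀)
          have h7 : (B k₀ - B a) ^ 2 ≤ 0 := by linarith
          have h8 : (B k₀ - B a) ^ 2 = 0 := le_antisymm h7 (sq_nonneg _)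
          have h9 : B k₀ - B a = 0 := (pow_eq_zero_iff (two_ne_zero)).1 h8
          linarith
        have honly : ∀ k ∈ s, k ≠ k₁ → k = k₀ := by
          intro k hk hkk₁
          by_contra hkk₀
          have h6 := hpair k hk hkk₁
          have h7 : (1 : ℤ) ≤ (B k - B a) ^ 2 :=
            hsq1 _ _ (by rw [hrest k hk hkk₀]; exact fun h => hab h.symm)
          linarith
        refine ⟨k₁, Finset.mem_insert_of_mem hk₁, b + ε, -ε, ?_, ?_, ?_⟩
        · rcases hε with h | h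
          · right; rw [h]
          · left; rw [h]; ring
        · rw [hBk₁]; ring
        · intro k hk hkk₁
          rcases Finset.mem_insert.1 hk with rfl | hk
          · exact hBa
          · rw [honly k hk hkk₁, hBk₀]
    · have hs' : ∀ b ∈ s, ∀ c ∈ s, B b = B c := by
        intro b hb c hc
        by_contra hbc
        exact hs ⟨b, hb, c, hc, hbc⟩
      have hall : ∀ l ∈ s, B l ≠ B a := by
        intro l hl hla
        obtain ⟨x, hx, y, hy, hxy⟩ := hne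
        apply hxy
        have hx' : B x = B a := by
          rcases Finset.mem_insert.1 hx with rfl | hx
          · rfl
          · rw [hs' x hx l hl, hla]
        have hy' : B y = B a := by
          rcases Finset.mem_insert.1 hy with rfl | hy
          · rfl
          · rw [hs' y hy l hl, hla]
        rw [hx', hy']
      have hsne : s.Nonempty := by
        by_contra hemp
        rw [Finset.not_nonempty_iff_eq_empty] at hemp
        obtain ⟨x, hx, y, hy, hxy⟩ := hne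
        rw [hemp] at hx hy
        have hx' : x = a := by simpa using hx
        have hy' : y = a := by simpa using hy
        apply hxy; rw [hx', hy']
      obtain ⟨l₀, hl₀⟩ := hsne
      have h4 : ∀ i ∈ s, (1 : ℤ) ≤ (B i - B a) ^ 2 := fun i hi => hsq1 _ _ (hall i hi)
      have h6 := gp_int_nonneg s B
      have h5 : (s.card : ℤ) ≤ ∑ i ∈ s, (B i - B a) ^ 2 := by
        have h5 := Finset.card_nsmul_le_sum s (fun i => (B i - B a) ^ 2) 1 h4
        simpa using h5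
      have hSig : ∑ i ∈ s, ((B i - B a) ^ 2 - 1) = 0 := by
        rw [Finset.sum_sub_distrib, Finset.sum_const, nsmul_eq_mul, mul_one]
        linarith
      have h7 := (Finset.sum_eq_zero_iff_of_nonneg (fun i hi => by
        have := h4 i hi; linarith)).1 hSig l₀ hl₀
      refine ⟨a, Finset.mem_insert_self a s, B l₀, B a - B l₀, ?_, by ring, ?_⟩
      · have h8 : (B a - B l₀ - 1) * (B a - B l₀ + 1) = 0 := by linear_combination h7
        rcases mul_eq_zero.1 h8 with h | h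
        · left; linarith
        · right; linarith
      · intro k hk hka
        rcases Finset.mem_insert.1 hk with rfl | hk
        · exact absurd rfl hka
        · exact hs' k hk l₀ hl₀

/-! ### the fixed-point-free cyclic case -/

theorem gc_fpf {Γ : Type u} [Group Γ] [Fintype Γ] (G S : Subgroup Γ) [Fintype G]
    (hnorm : ∀ s ∈ S, ∀ g ∈ G, s * g * s⁻¹ ∈ G) (hcop : (Nat.card G).Coprime (Nat.card S))
    (htop : G ⊔ S = ⊤) (C : Subgroup Γ) [Fintype C]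
    (hC : C = G ⊓ Subgroup.centralizer (S : Set Γ)) (hCG : C ≤ G)
    (hfpf : ∀ x ∈ S, x ≠ 1 → G ⊓ Subgroup.centralizer ({x} : Set Γ) = C)
    (s₀ : Γ) (hs₀ : Subgroup.zpowers s₀ = S)
    (χ : G → ℂ) (hχ : Cfsg.IsIrrCharacter G χ) (Ψ : Γ → ℂ) (hΨ : Cfsg.IsIrrCharacter Γ Ψ)
    (hres : ∀ g : G, Ψ g = χ g)
    (β : Cfsg.IrrCharacter C) (ε₀ : ℤ) (hε₀ : ε₀ = 1 ∨ ε₀ = -1)
    (hβ : ∀ c : C, Ψ ((c : Γ) * s₀) = (ε₀ : ℂ) * (β : C → ℂ) c) :
    ∃ (ε : ℤ), (ε = 1 ∨ ε = -1) ∧ ∃ (lam : Γ →* ℂˣ) (k₀ : ℕ),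
      (∀ x ∈ S, ((lam x : ℂˣ) : ℂ) ^ k₀ * ((lam x : ℂˣ) : ℂ) ^ k₀ = 1) ∧
      (∀ c : C, ∀ x ∈ S, x ≠ 1 →
        Ψ ((c : Γ) * x) = (ε : ℂ) * (β : C → ℂ) c * ((lam x : ℂˣ) : ℂ) ^ k₀) ∧
      ∃ ϑ : C → ℂ, Cfsg.IsCharacter C ϑ ∧ (fun c : C => χ ⟨c, hCG c.2⟩) =
        fun c => (Nat.card S : ℂ) * ϑ c + (ε : ℂ) * (β : C → ℂ) c := by
  classical
  haveI : Fintype (Cfsg.IrrCharacter C) := Fintype.ofFinite _
  obtain ⟨hGn, hidx, hgen⟩ := gc_setup G S hnorm hcop htop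
  haveI := hGn
  obtain ⟨n, hn⟩ : ∃ n, n = Nat.card S := ⟨_, rfl⟩
  rw [← hn] at hidx hcop hgen ⊢
  have hn0 : 0 < n := by rw [hn]; exact Nat.card_pos
  obtain ⟨hord, hsp, hsj⟩ := hgen s₀ hs₀
  obtain ⟨lam, ζ, hζ, hlamM, hlams⟩ := gc_exists_lam hn0 G hidx s₀ hsp hsj
  have hΨch := isCharacter_of_isIrrCharacter hΨ
  have hΨcl := isClassFunction_of_isCharacter hΨch
  have hΨM : Cfsg.IsIrrCharacter G (fun m : G => Ψ m) := by
    have h : (fun m : G => Ψ m) = χ := funext hres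
    rw [h]; exact hχ
  have hCcent : C = G ⊓ Subgroup.centralizer {s₀} := by rw [hC, gc_cent S s₀ hs₀]
  have hCs : ∀ c ∈ C, Commute c s₀ := fun c hc => by
    rw [hCcent] at hc
    exact (Subgroup.mem_centralizer_iff.1 hc.2 s₀ rfl).symm
  -- ψ
  obtain ⟨ψ, hψdef⟩ : ∃ ψ : ℕ → C → ℂ, ψ = fun (j : ℕ) (c : C) => Ψ ((c : Γ) * s₀ ^ j) :=
    ⟨fun (j : ℕ) (c : C) => Ψ ((c : Γ) * s₀ ^ j), rfl⟩
  have hψ : ∀ j (c : C), ψ j c = Ψ ((c : Γ) * s₀ ^ j) := fun j c => by rw [hψdef]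
  have hψcl : ∀ j, Cfsg.IsClassFunction C (ψ j) := by
    intro j g h
    rw [hψ, hψ]
    have hc : Commute (h : Γ) (s₀ ^ j) := (hCs h h.2).pow_right j
    have h1 : ((h * g * h⁻¹ : C) : Γ) * s₀ ^ j = (h : Γ) * ((g : Γ) * s₀ ^ j) * (h : Γ)⁻¹ := by
      rw [Subgroup.coe_mul, Subgroup.coe_mul, Subgroup.coe_inv, mul_assoc ((h : Γ) * (g : Γ)),
        hc.inv_left.eq]
      group
    rw [h1]
    exact hΨcl _ _
  have hnormj : ∀ j, 0 < j → j < n → Cfsg.classInner (ψ j) (ψ j) = 1 := by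
    intro j hj0 hjn
    have hsjS : s₀ ^ j ∈ S := by rw [← hs₀]; exact Subgroup.npow_mem_zpowers s₀ j
    have hsj1 : s₀ ^ j ≠ 1 := by
      intro h
      have h2 := orderOf_dvd_of_pow_eq_one h
      rw [hord] at h2
      exact absurd (Nat.le_of_dvd hj0 h2) (not_le.2 hjn)
    have hCj : C = G ⊓ Subgroup.centralizer {s₀ ^ j} := (hfpf _ hsjS hsj1).symm
    have htp : (s₀ ^ j) ^ n = 1 := by rw [← pow_mul, mul_comm, pow_mul, hsp, one_pow]
    have h1 := gc_coset_sum G hcop (s₀ ^ j) htp C hCj (fun x => Ψ x * conj (Ψ x))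
      (by intro g h; show Ψ (h * g * h⁻¹) * conj (Ψ (h * g * h⁻¹)) = Ψ g * conj (Ψ g)
          rw [hΨcl g h])
    have h2 := gc_C2 hn0 G hidx s₀ hsp hsj hΨ hΨM j hjn
    have h1' : (Nat.card C : ℂ) * ∑ m : G, Ψ ((m : Γ) * s₀ ^ j) * conj (Ψ ((m : Γ) * s₀ ^ j)) =
        (Nat.card G : ℂ) * ∑ c : C, Ψ ((c : Γ) * s₀ ^ j) * conj (Ψ ((c : Γ) * s₀ ^ j)) := h1
    rw [h2] at h1'
    have hM0 : (Nat.card G : ℂ) ≠ 0 := by exact_mod_cast Nat.card_pos.ne'
    have hC0 : (Nat.card C : ℂ) ≠ 0 := by exact_mod_cast Nat.card_pos.ne'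
    have h3 : ∑ c : C, Ψ ((c : Γ) * s₀ ^ j) * conj (Ψ ((c : Γ) * s₀ ^ j)) = (Nat.card C : ℂ) := by
      apply mul_left_cancel₀ hM0
      rw [← h1', mul_comm]
    unfold Cfsg.classInner
    have h4 : ∑ g : C, ψ j g * conj (ψ j g) =
        ∑ c : C, Ψ ((c : Γ) * s₀ ^ j) * conj (Ψ ((c : Γ) * s₀ ^ j)) := by
      apply Finset.sum_congr rfl
      intro c _
      rw [hψ]
    rw [h4, h3, inv_mul_cancel₀ hC0]
  -- the coefficients
  obtain ⟨a, hadef⟩ : ∃ a : Cfsg.IrrCharacter C → ℕ → ℂ,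
      a = fun (β : Cfsg.IrrCharacter C) (j : ℕ) => Cfsg.classInner (ψ j) (β : C → ℂ) :=
    ⟨fun (β : Cfsg.IrrCharacter C) (j : ℕ) => Cfsg.classInner (ψ j) (β : C → ℂ), rfl⟩
  have ha : ∀ β j, a β j = Cfsg.classInner (ψ j) (β : C → ℂ) := fun β j => by rw [hadef]
  have hint : ∀ (β : Cfsg.IrrCharacter C) (k : ℕ), ∃ m : ℕ,
      (m : ℂ) = (n : ℂ)⁻¹ * ∑ j ∈ Finset.range n, conj (ζ ^ (k * j)) * a β j := by
    intro β k
    obtain ⟨m, hm⟩ := gc_integral s₀ hord C hCs lam ζ hlams Ψ hΨch β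
      (isCharacter_of_isIrrCharacter β.2) k
    refine ⟨m, ?_⟩
    rw [hm]
    congr 1
    apply Finset.sum_congr rfl
    intro j _
    rw [ha, hψdef]
  choose B hB using hint
  have hinv : ∀ β j, j < n → a β j = ∑ k ∈ Finset.range n, ζ ^ (k * j) * (B β k : ℂ) :=
    fun β j hj => gp_inversion hζ hn0 (a β) (fun k => (B β k : ℂ)) (fun k _ => hB β k) j hj
  have hpars : ∀ β, ∑ j ∈ Finset.range n, a β j * conj (a β j) =
      (n : ℂ) * ∑ k ∈ Finset.range n, (((B β k : ℕ) : ℤ) : ℂ) ^ 2 :=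
    fun β => gp_parseval hζ hn0 (a β) (fun k => ((B β k : ℕ) : ℤ))
      (fun j hj => by rw [hinv β j hj]; simp)
  have ha0 : ∀ β, a β 0 = ∑ k ∈ Finset.range n, (B β k : ℂ) := by
    intro β; rw [hinv β 0 hn0]; simp
  -- Q
  obtain ⟨Q, hQdef⟩ : ∃ Q : Cfsg.IrrCharacter C → ℤ, Q = fun (β : Cfsg.IrrCharacter C) =>
      (n : ℤ) * ∑ k ∈ Finset.range n, ((B β k : ℕ) : ℤ) ^ 2 -
        (∑ k ∈ Finset.range n, ((B β k : ℕ) : ℤ)) ^ 2 :=
    ⟨fun (β : Cfsg.IrrCharacter C) =>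
      (n : ℤ) * ∑ k ∈ Finset.range n, ((B β k : ℕ) : ℤ) ^ 2 -
        (∑ k ∈ Finset.range n, ((B β k : ℕ) : ℤ)) ^ 2, rfl⟩
  have hQe : ∀ β, Q β = (n : ℤ) * ∑ k ∈ Finset.range n, ((B β k : ℕ) : ℤ) ^ 2 -
        (∑ k ∈ Finset.range n, ((B β k : ℕ) : ℤ)) ^ 2 := fun β => by rw [hQdef]
  have hQ : ∀ β, ((Q β : ℤ) : ℂ) = ∑ j ∈ Finset.Ico 1 n, a β j * conj (a β j) := by
    intro β
    have h1 := hpars β
    rw [Finset.range_eq_Ico, Finset.sum_eq_sum_Ico_succ_bot hn0] at h1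
    have h2 : a β 0 * conj (a β 0) = (∑ k ∈ Finset.range n, (B β k : ℂ)) ^ 2 := by
      rw [ha0 β, map_sum, pow_two]
      congr 1
      apply Finset.sum_congr rfl
      intro k _
      rw [Complex.conj_natCast]
    rw [hQe β]
    push_cast
    push_cast at h1
    rw [Finset.range_eq_Ico] at h2 ⊢
    linear_combination h2 - h1
  have hsumβ : ∀ j, 0 < j → j < n → ∑ β : Cfsg.IrrCharacter C, a β j * conj (a β j) = 1 := by
    intro j hj0 hjp
    rw [← hnormj j hj0 hjp, gp_parseval_cf (ψ j) (hψcl j)]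
    apply Finset.sum_congr rfl
    intro β _
    rw [ha]
  have hQsum : ∑ β : Cfsg.IrrCharacter C, Q β = (n : ℤ) - 1 := by
    have h1 : ((∑ β : Cfsg.IrrCharacter C, Q β : ℤ) : ℂ) = (((n : ℤ) - 1 : ℤ) : ℂ) := by
      push_cast
      rw [Finset.sum_congr rfl (fun β _ => hQ β), Finset.sum_comm]
      rw [Finset.sum_congr rfl (fun j hj => hsumβ j (by have := (Finset.mem_Ico.1 hj).1; omega)
        (Finset.mem_Ico.1 hj).2)]
      rw [Finset.sum_const, Nat.card_Ico, nsmul_eq_mul, mul_one, Nat.cast_sub hn0]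
      simp
    exact_mod_cast h1
  have hQnn : ∀ β, 0 ≤ Q β := by
    intro β
    have h := gp_int_nonneg (Finset.range n) (fun k => ((B β k : ℕ) : ℤ))
    rw [Finset.card_range] at h
    rw [hQe β]
    exact h
  have hQlb : ∀ β, (∃ k < n, ∃ l < n, B β k ≠ B β l) → (n : ℤ) - 1 ≤ Q β := by
    intro β ⟨k, hk, l, hl, hkl⟩
    have h := gp_int_lb (fun k => ((B β k : ℕ) : ℤ)) (Finset.range n)
      ⟨k, Finset.mem_range.2 hk, l, Finset.mem_range.2 hl, by exact_mod_cast hkl⟩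
    rw [Finset.card_range] at h
    rw [hQe β]
    exact h
  have hQconst : ∀ β, (∀ k < n, B β k = B β 0) → Q β = 0 := by
    intro β h
    have e1 : ∑ k ∈ Finset.range n, ((B β k : ℕ) : ℤ) ^ 2 = (n : ℤ) * ((B β 0 : ℕ) : ℤ) ^ 2 := by
      rw [Finset.sum_congr rfl (fun k hk => by rw [h k (Finset.mem_range.1 hk)] :
        ∀ k ∈ Finset.range n, ((B β k : ℕ) : ℤ) ^ 2 = ((B β 0 : ℕ) : ℤ) ^ 2),
        Finset.sum_const, Finset.card_range, nsmul_eq_mul]
    have e2 : ∑ k ∈ Finset.range n, ((B β k : ℕ) : ℤ) = (n : ℤ) * ((B β 0 : ℕ) : ℤ) := by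
      rw [Finset.sum_congr rfl (fun k hk => by rw [h k (Finset.mem_range.1 hk)] :
        ∀ k ∈ Finset.range n, ((B β k : ℕ) : ℤ) = ((B β 0 : ℕ) : ℤ)),
        Finset.sum_const, Finset.card_range, nsmul_eq_mul]
    rw [hQe β, e1, e2]
    ring
  -- the structure of the multiplicities
  have hksum : ∀ j, 0 < j → j < n → ∑ k ∈ Finset.range n, ζ ^ (k * j) = 0 := by
    intro j hj0 hjn
    have h1 := gp_kernel hζ hn0 0 j hn0 hjn
    simp only [mul_zero, pow_zero, map_one, mul_one] at h1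
    rw [if_neg (by omega)] at h1
    exact h1
  have hψ1 : ψ 1 = (ε₀ : ℂ) • (β : C → ℂ) := by
    funext c
    rw [hψ, pow_one, hβ c]
    rfl
  have ha1 : a β 1 = (ε₀ : ℂ) := by
    rw [ha, hψ1, classInner_smul_left, classInner_irr_self β.2, mul_one]
  have hε₀ne : (ε₀ : ℂ) ≠ 0 := by rcases hε₀ with rfl | rfl <;> norm_num
  have hstar : ∃ (k₀ : ℕ) (b : ℕ) (ε : ℤ), k₀ < n ∧ (ε = 1 ∨ ε = -1) ∧
      ((B β k₀ : ℕ) : ℤ) = (b : ℤ) + ε ∧ (∀ k, k < n → k ≠ k₀ → B β k = b) ∧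
      (∀ β', β' ≠ β → ∀ k, k < n → B β' k = B β' 0) ∧ (ζ ^ k₀) ^ 2 = 1 := by
    rcases Nat.lt_or_ge 1 n with h1n | h1n
    · have hβnc : ∃ k < n, ∃ l < n, B β k ≠ B β l := by
        by_contra hcon
        have hc : ∀ k < n, B β k = B β 0 := by
          intro k hk
          by_contra hne
          exact hcon ⟨k, hk, 0, hn0, hne⟩
        apply hε₀ne
        rw [← ha1, hinv β 1 h1n]
        rw [Finset.sum_congr rfl (fun k hk => by rw [hc k (Finset.mem_range.1 hk)] :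
          ∀ k ∈ Finset.range n, ζ ^ (k * 1) * (B β k : ℂ) = ζ ^ (k * 1) * (B β 0 : ℂ))]
        rw [← Finset.sum_mul, hksum 1 Nat.one_pos h1n, zero_mul]
      have hQβ : Q β = (n : ℤ) - 1 ∧ ∀ β', β' ≠ β → Q β' = 0 := by
        have h1 := hQlb β hβnc
        have h2 : ∑ β' : Cfsg.IrrCharacter C, Q β' = Q β + ∑ β' ∈ Finset.univ.erase β, Q β' :=
          (Finset.add_sum_erase Finset.univ Q (Finset.mem_univ β)).symm
        have h3 : 0 ≤ ∑ β' ∈ Finset.univ.erase β, Q β' :=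
          Finset.sum_nonneg (fun β' _ => hQnn β')
        have h4 : ∑ β' ∈ Finset.univ.erase β, Q β' = 0 := by linarith
        refine ⟨by linarith, ?_⟩
        intro β' hβ'
        exact (Finset.sum_eq_zero_iff_of_nonneg (fun β' _ => hQnn β')).1 h4 β'
          (Finset.mem_erase.2 ⟨hβ', Finset.mem_univ β'⟩)
      have hconst : ∀ β', β' ≠ β → ∀ k, k < n → B β' k = B β' 0 := by
        intro β' hβ' k hk
        by_contra hne
        have h1 := hQlb β' ⟨k, hk, 0, hn0, hne⟩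
        rw [hQβ.2 β' hβ'] at h1
        have h2 : (n : ℤ) ≤ 1 := by linarith
        have h3 : n ≤ 1 := by exact_mod_cast h2
        omega
      have hQeq := hQβ.1
      rw [hQe β] at hQeq
      obtain ⟨k₀, hk₀, b, ε, hε, hBk₀, hrest⟩ := gc_star (fun k => ((B β k : ℕ) : ℤ))
        (Finset.range n)
        (by
          obtain ⟨k, hk, l, hl, hkl⟩ := hβnc
          exact ⟨k, Finset.mem_range.2 hk, l, Finset.mem_range.2 hl, by exact_mod_cast hkl⟩)
        (by rw [Finset.card_range]; exact hQeq)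
      rw [Finset.mem_range] at hk₀
      obtain ⟨k₁, hk₁, hk₁₀⟩ : ∃ k₁ < n, k₁ ≠ k₀ := by
        by_cases h0 : k₀ = 0
        · exact ⟨1, h1n, by omega⟩
        · exact ⟨0, hn0, fun h => h0 h.symm⟩
      have hb : ((B β k₁ : ℕ) : ℤ) = b := hrest k₁ (Finset.mem_range.2 hk₁) hk₁₀
      have hBk₀' : ((B β k₀ : ℕ) : ℤ) = ((B β k₁ : ℕ) : ℤ) + ε := by rw [hBk₀, hb]
      have hrest' : ∀ k, k < n → k ≠ k₀ → B β k = B β k₁ := by
        intro k hk hkk₀
        have h1 : ((B β k : ℕ) : ℤ) = ((B β k₁ : ℕ) : ℤ) := by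
          rw [hb]; exact hrest k (Finset.mem_range.2 hk) hkk₀
        exact_mod_cast h1
      refine ⟨k₀, B β k₁, ε, hk₀, hε, hBk₀', hrest', hconst, ?_⟩
      have h5 : a β 1 = (ε : ℂ) * ζ ^ k₀ := by
        rw [hinv β 1 h1n]
        have h6 : ∀ k ∈ Finset.range n, ζ ^ (k * 1) * ((B β k : ℕ) : ℂ) =
            ζ ^ (k * 1) * ((B β k₁ : ℕ) : ℂ) + (if k = k₀ then (ε : ℂ) * ζ ^ k₀ else 0) := by
          intro k hk
          by_cases hkk : k = k₀
          · rw [if_pos hkk, hkk]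
            have h7 : ((B β k₀ : ℕ) : ℂ) = ((B β k₁ : ℕ) : ℂ) + (ε : ℂ) := by
              exact_mod_cast hBk₀'
            rw [h7, mul_one]; ring
          · rw [if_neg hkk, add_zero, hrest' k (Finset.mem_range.1 hk) hkk]
        rw [Finset.sum_congr rfl h6, Finset.sum_add_distrib, ← Finset.sum_mul,
          hksum 1 Nat.one_pos h1n, zero_mul, zero_add, Finset.sum_ite_eq' (Finset.range n) k₀,
          if_pos (Finset.mem_range.2 hk₀)]
      rw [ha1] at h5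
      have hεsq : (ε : ℂ) * (ε : ℂ) = 1 := by rcases hε with rfl | rfl <;> norm_num
      have hε₀sq : (ε₀ : ℂ) * (ε₀ : ℂ) = 1 := by rcases hε₀ with rfl | rfl <;> norm_num
      have h8 : ζ ^ k₀ = (ε : ℂ) * (ε₀ : ℂ) := by rw [h5, ← mul_assoc, hεsq, one_mul]
      rw [h8]
      linear_combination (ε₀ : ℂ) * (ε₀ : ℂ) * hεsq + hε₀sq
    · have hn1 : n = 1 := by omega
      have hs1 : s₀ = 1 := by rw [hn1, pow_one] at hsp; exact hsp
      have hψ01 : ψ 0 = ψ 1 := by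
        funext c
        rw [hψ, hψ, hs1, one_pow, one_pow]
      have ha00 : a β 0 = (ε₀ : ℂ) := by rw [ha, hψ01, ← ha, ha1]
      have hB0 : ((B β 0 : ℕ) : ℂ) = (ε₀ : ℂ) := by
        rw [← ha00, ha0 β, hn1]
        simp
      have hB0' : ((B β 0 : ℕ) : ℤ) = ε₀ := by exact_mod_cast hB0
      have hε₀1 : ε₀ = 1 := by
        rcases hε₀ with h | h
        · exact h
        · exfalso
          rw [h] at hB0'
          have : (0 : ℤ) ≤ ((B β 0 : ℕ) : ℤ) := Int.natCast_nonneg _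
          omega
      refine ⟨0, 0, 1, hn0, Or.inl rfl, ?_, ?_, ?_, ?_⟩
      · rw [hB0', hε₀1]; simp
      · intro k hk hk0; omega
      · intro β' _ k hk
        have hk0 : k = 0 := by omega
        rw [hk0]
      · simp
  obtain ⟨k₀, b, ε, hk₀, hε, hBk₀, hBrest, hBconst, hζk₀⟩ := hstar
  have haβ' : ∀ β', β' ≠ β → ∀ j, 0 < j → j < n → a β' j = 0 := by
    intro β' hβ' j hj0 hjn
    rw [hinv β' j hjn]
    rw [Finset.sum_congr rfl (fun k hk => by rw [hBconst β' hβ' k (Finset.mem_range.1 hk)] :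
      ∀ k ∈ Finset.range n, ζ ^ (k * j) * (B β' k : ℂ) = ζ ^ (k * j) * (B β' 0 : ℂ))]
    rw [← Finset.sum_mul, hksum j hj0 hjn, zero_mul]
  have haβ : ∀ j, 0 < j → j < n → a β j = (ε : ℂ) * ζ ^ (k₀ * j) := by
    intro j hj0 hjn
    rw [hinv β j hjn]
    have h6 : ∀ k ∈ Finset.range n, ζ ^ (k * j) * ((B β k : ℕ) : ℂ) =
        ζ ^ (k * j) * (b : ℂ) + (if k = k₀ then (ε : ℂ) * ζ ^ (k₀ * j) else 0) := by
      intro k hk
      by_cases hkk : k = k₀
      · rw [if_pos hkk, hkk]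
        have h7 : ((B β k₀ : ℕ) : ℂ) = (b : ℂ) + (ε : ℂ) := by exact_mod_cast hBk₀
        rw [h7]; ring
      · rw [if_neg hkk, add_zero, hBrest k (Finset.mem_range.1 hk) hkk]
    rw [Finset.sum_congr rfl h6, Finset.sum_add_distrib, ← Finset.sum_mul, hksum j hj0 hjn,
      zero_mul, zero_add, Finset.sum_ite_eq' (Finset.range n) k₀,
      if_pos (Finset.mem_range.2 hk₀)]
  have hsumB : ∑ k ∈ Finset.range n, ((B β k : ℕ) : ℂ) = (n : ℂ) * (b : ℂ) + (ε : ℂ) := by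
    have h6 : ∀ k ∈ Finset.range n, ((B β k : ℕ) : ℂ) =
        (b : ℂ) + (if k = k₀ then (ε : ℂ) else 0) := by
      intro k hk
      by_cases hkk : k = k₀
      · rw [if_pos hkk, hkk]
        exact_mod_cast hBk₀
      · rw [if_neg hkk, add_zero, hBrest k (Finset.mem_range.1 hk) hkk]
    rw [Finset.sum_congr rfl h6, Finset.sum_add_distrib, Finset.sum_const, Finset.card_range,
      nsmul_eq_mul, Finset.sum_ite_eq' (Finset.range n) k₀, if_pos (Finset.mem_range.2 hk₀)]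
  have hlamx : ∀ x ∈ S, ∃ j, j < n ∧ s₀ ^ j = x ∧ ((lam x : ℂˣ) : ℂ) = ζ ^ j := by
    intro x hx
    have hx' : x ∈ Subgroup.zpowers s₀ := by rw [hs₀]; exact hx
    rw [mem_zpowers_iff_mem_range_orderOf, Finset.mem_image] at hx'
    obtain ⟨j, hj, hjx⟩ := hx'
    rw [Finset.mem_range, hord] at hj
    refine ⟨j, hj, hjx, ?_⟩
    rw [← hjx, map_pow, Units.val_pow_eq_pow_val, hlams]
  refine ⟨ε, hε, lam, k₀, ?_, ?_, ?_⟩
  · intro x hx
    obtain ⟨j, -, -, hlx⟩ := hlamx x hx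
    rw [hlx, ← pow_mul, ← pow_add]
    have h1 : j * k₀ + j * k₀ = k₀ * 2 * j := by ring
    rw [h1, pow_mul, pow_mul, hζk₀, one_pow]
  · intro c x hx hx1
    obtain ⟨j, hj, hjx, hlx⟩ := hlamx x hx
    have hj0 : 0 < j := by
      rcases Nat.eq_zero_or_pos j with h | h
      · exfalso; apply hx1; rw [← hjx, h, pow_zero]
      · exact h
    have h := classFunction_expansion_sum (ψ j) (hψcl j)
    have h2 := congrFun h c
    rw [Finset.sum_apply, Finset.sum_eq_single β (fun β' _ hβ' => by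
        rw [Pi.smul_apply, ← ha, haβ' β' hβ' j hj0 hj, zero_smul])
      (fun h => absurd (Finset.mem_univ _) h)] at h2
    rw [hlx, ← hjx, ← hψ, h2, Pi.smul_apply, ← ha, haβ j hj0 hj, smul_eq_mul, ← pow_mul,
      mul_comm j k₀]
    ring
  · have hχC : Cfsg.IsCharacter C (fun c : C => χ ⟨c, hCG c.2⟩) :=
      isCharacter_comp (Subgroup.inclusion hCG) (isCharacter_of_isIrrCharacter hχ)
    have hXcl := isClassFunction_of_isCharacter hχC
    have hβcl := isClassFunction_of_isCharacter (isCharacter_of_isIrrCharacter β.2)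
    have hX0 : (fun c : C => χ ⟨c, hCG c.2⟩) = ψ 0 := by
      funext c
      rw [hψ, pow_zero, mul_one]
      exact (hres ⟨c, hCG c.2⟩).symm
    have hnC : (n : ℂ) ≠ 0 := by exact_mod_cast hn0.ne'
    obtain ⟨ϑ, hϑdef⟩ : ∃ ϑ : C → ℂ, ϑ = (n : ℂ)⁻¹ •
        ((fun c : C => χ ⟨c, hCG c.2⟩) - (ε : ℂ) • (β : C → ℂ)) := ⟨_, rfl⟩
    have hϑval : ∀ c : C, ϑ c = (n : ℂ)⁻¹ * (χ ⟨c, hCG c.2⟩ - (ε : ℂ) * (β : C → ℂ) c) := by
      intro c; rw [hϑdef]; rfl
    have hϑcl : Cfsg.IsClassFunction C ϑ := by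
      intro g h
      rw [hϑval, hϑval]
      have h1 : χ ⟨((h * g * h⁻¹ : C) : Γ), hCG (h * g * h⁻¹).2⟩ = χ ⟨g, hCG g.2⟩ := hXcl g h
      rw [h1, hβcl g h]
    have hϑnat : ∀ β' : C → ℂ, Cfsg.IsIrrCharacter C β' →
        ∃ m : ℕ, Cfsg.classInner ϑ β' = m := by
      intro β' hβ'
      rw [hϑdef, classInner_smul_left, classInner_sub_left, classInner_smul_left, hX0]
      by_cases hββ' : β' = (β : C → ℂ)
      · refine ⟨b, ?_⟩
        rw [hββ', classInner_irr_self β.2]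
        have h1 : Cfsg.classInner (ψ 0) (β : C → ℂ) = a β 0 := (ha β 0).symm
        rw [h1, ha0 β, hsumB]
        field_simp
        ring
      · refine ⟨B ⟨β', hβ'⟩ 0, ?_⟩
        have hne : (⟨β', hβ'⟩ : Cfsg.IrrCharacter C) ≠ β := fun h => hββ' (congrArg Subtype.val h)
        rw [classInner_irr β.2 hβ', if_neg (fun h => hββ' h.symm), mul_zero, sub_zero]
        have h1 : Cfsg.classInner (ψ 0) β' = a ⟨β', hβ'⟩ 0 := (ha ⟨β', hβ'⟩ 0).symm
        rw [h1, ha0 ⟨β', hβ'⟩]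
        rw [Finset.sum_congr rfl (fun k hk => by
          rw [hBconst ⟨β', hβ'⟩ hne k (Finset.mem_range.1 hk)] :
          ∀ k ∈ Finset.range n, ((B ⟨β', hβ'⟩ k : ℕ) : ℂ) = ((B ⟨β', hβ'⟩ 0 : ℕ) : ℂ))]
        rw [Finset.sum_const, Finset.card_range, nsmul_eq_mul]
        field_simp
    refine ⟨ϑ, isCharacter_of_nat_inner hϑcl hϑnat, ?_⟩
    funext c
    rw [hϑval]
    field_simp
    ring

end Cfsg.Agent.Lib.Helper7
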