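import Mathlib
import Cfsg.Prelude.Def_Characters
import Cfsg.Prelude.Def_CharExt
import Cfsg.Prelude.Def_Blocks
import Cfsg.Agent.Lib.Helper7.GlaubCyc2
import Cfsg.Agent.Lib.Lead.CharCliffordCorr
import Cfsg.Agent.Lib.Lead.CharCenter
import Cfsg.Agent.Lib.Lead.CharGallagher
import Cfsg.Agent.Lib.Lead.CharZeros
import Cfsg.Agent.S0887

/-! # Counting characters of degree prime to a complement (coprime split extensions) -/

universe u

namespace Cfsg.Agent.Lib.Helper7

open Cfsg.Agent.Lib.Lead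
open scoped ComplexConjugate Pointwise

/-! ### linear characters of a split extension -/

theorem exists_retraction {G : Type u} [Group G] (K H : Subgroup G) [hK : K.Normal]
    (hKH : K ⊔ H = ⊤) (hbot : K ⊓ H = ⊥) :
    ∃ π : G →* H, (∀ h : H, π h = h) ∧ (∀ k ∈ K, π k = 1) := by
  obtain ⟨f, hf⟩ : ∃ f : H →* G ⧸ K, f = (QuotientGroup.mk' K).comp H.subtype := ⟨_, rfl⟩
  have hfval : ∀ h : H, f h = (QuotientGroup.mk (h : G) : G ⧸ K) := fun h => by rw [hf]; rfl
  have hinj : Function.Injective f := by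
    rw [injective_iff_map_eq_one]
    intro h hh
    rw [hfval] at hh
    have h1 : (h : G) ∈ K := (QuotientGroup.eq_one_iff _).1 hh
    have h2 : (h : G) ∈ K ⊓ H := ⟨h1, h.2⟩
    rw [hbot, Subgroup.mem_bot] at h2
    exact Subtype.ext h2
  have hsurj : Function.Surjective f := by
    intro q
    obtain ⟨g, rfl⟩ := QuotientGroup.mk_surjective q
    have hg : g ∈ ((K ⊔ H : Subgroup G) : Set G) := by rw [hKH]; trivial
    rw [Subgroup.normal_mul] at hg
    obtain ⟨k, hk, h, hh, rfl⟩ := Set.mem_mul.1 hg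
    refine ⟨⟨h, hh⟩, ?_⟩
    rw [hfval]
    show (QuotientGroup.mk h : G ⧸ K) = QuotientGroup.mk (k * h)
    rw [QuotientGroup.mk_mul, (QuotientGroup.eq_one_iff k).2 hk, one_mul]
  obtain ⟨e, he⟩ : ∃ e : H ≃* G ⧸ K, ∀ h : H, e h = f h :=
    ⟨MulEquiv.ofBijective f ⟨hinj, hsurj⟩, fun h => rfl⟩
  refine ⟨e.symm.toMonoidHom.comp (QuotientGroup.mk' K), ?_, ?_⟩
  · intro h
    show e.symm (QuotientGroup.mk (h : G)) = h
    rw [← hfval, ← he, MulEquiv.symm_apply_apply]
  · intro k hk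
    show e.symm (QuotientGroup.mk k) = 1
    rw [(QuotientGroup.eq_one_iff k).2 hk, map_one]

theorem card_lin {G : Type u} [Group G] (K H : Subgroup G) [hK : K.Normal]
    (hKH : K ⊔ H = ⊤) (hbot : K ⊓ H = ⊥) :
    Nat.card {lam : G →* ℂˣ // ∀ k ∈ K, lam k = 1} = Nat.card (H →* ℂˣ) := by
  obtain ⟨π, hπH, hπK⟩ := exists_retraction K H hKH hbot
  apply Nat.card_eq_of_bijective
    (fun lam : {lam : G →* ℂˣ // ∀ k ∈ K, lam k = 1} => lam.1.comp H.subtype)
  constructor
  · intro lam lam' h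
    apply Subtype.ext
    apply MonoidHom.ext
    intro g
    have hg : g ∈ ((K ⊔ H : Subgroup G) : Set G) := by rw [hKH]; trivial
    rw [Subgroup.normal_mul] at hg
    obtain ⟨k, hk, x, hx, rfl⟩ := Set.mem_mul.1 hg
    rw [map_mul, map_mul, lam.2 k hk, lam'.2 k hk]
    have h1 : (lam.1.comp H.subtype) ⟨x, hx⟩ = (lam'.1.comp H.subtype) ⟨x, hx⟩ := by
      have h2 : lam.1.comp H.subtype = lam'.1.comp H.subtype := h
      rw [h2]
    have h3 : lam.1 x = lam'.1 x := h1
    rw [h3]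
  · intro μ
    refine ⟨⟨μ.comp π, fun k hk => by rw [MonoidHom.comp_apply, hπK k hk, map_one]⟩, ?_⟩
    apply MonoidHom.ext
    intro h
    show μ (π (h : G)) = μ h
    rw [hπH]

/-! ### Gallagher: uniqueness of the twisting character -/

theorem gallagher_uniq {G : Type u} [Group G] [Fintype G] (N : Subgroup G) [hN : N.Normal]
    [Fintype N] {χ₀ : G → ℂ} (h0 : Cfsg.IsIrrCharacter G χ₀)
    (h0N : Cfsg.IsIrrCharacter N (fun n : N => χ₀ n))
    (lam lam' : G →* ℂˣ) (hl : ∀ x ∈ N, lam x = 1) (hl' : ∀ x ∈ N, lam' x = 1)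
    (heq : (fun g => (lam g : ℂ) * χ₀ g) = fun g => (lam' g : ℂ) * χ₀ g) : lam = lam' := by
  classical
  have h1N : Cfsg.IsIrrCharacter N (fun _ : N => (1 : ℂ)) := isIrrCharacter_one N
  have hfun : ((fun _ : N => (1 : ℂ)) * fun n : N => χ₀ n) = fun n : N => χ₀ n := by
    funext n
    simp
  have hprod : Cfsg.IsIrrCharacter N ((fun _ : N => (1 : ℂ)) * fun n : N => χ₀ n) := by
    rw [hfun]; exact h0N
  obtain ⟨h1, -, -⟩ := gallagher_core N (fun _ : N => (1 : ℂ)) h1N (fun g n => rfl) χ₀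
    (isCharacter_of_isIrrCharacter h0) hprod
  have hlin : ∀ μ : G →* ℂˣ, (∀ x ∈ N, μ x = 1) →
      Cfsg.IsIrrCharacter G (fun g => (μ g : ℂ)) ∧
      Cfsg.classInner (Cfsg.indFun N (fun _ : N => (1 : ℂ))) (fun g => (μ g : ℂ)) ≠ 0 := by
    intro μ hμ
    have hirr : Cfsg.IsIrrCharacter G (fun g => (μ g : ℂ)) := by
      have h := isIrr_twist μ (isIrrCharacter_one G)
      have h2 : (fun g => (μ g : ℂ) * (1 : ℂ)) = fun g => (μ g : ℂ) := by
        funext g; rw [mul_one]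
      rw [h2] at h; exact h
    refine ⟨hirr, ?_⟩
    rw [frobenius_reciprocity N _ _
      (isClassFunction_of_isCharacter (isCharacter_of_isIrrCharacter hirr))]
    have h3 : (fun h : N => ((μ (h : G) : ℂˣ) : ℂ)) = fun _ : N => (1 : ℂ) := by
      funext h; rw [hμ h h.2]; rfl
    rw [h3, classInner_irr_self h1N]
    exact one_ne_zero
  obtain ⟨hβ, hβne⟩ := hlin lam hl
  obtain ⟨hβ', hβne'⟩ := hlin lam' hl'
  have h2 := h1 _ _ hβ hβ' hβne hβne'
  have h3 : ((fun g => (lam g : ℂ)) * χ₀) = ((fun g => (lam' g : ℂ)) * χ₀) := heq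
  rw [h3] at h2
  have h4 : Cfsg.classInner ((fun g => (lam' g : ℂ)) * χ₀) ((fun g => (lam' g : ℂ)) * χ₀) = 1 :=
    classInner_irr_self (isIrr_twist lam' h0)
  rw [h4] at h2
  by_contra hne
  have h5 : (fun g => (lam g : ℂ)) ≠ fun g => (lam' g : ℂ) := by
    intro h
    apply hne
    apply MonoidHom.ext
    intro g
    exact Units.ext (congrFun h g)
  rw [if_neg h5] at h2
  exact one_ne_zero h2

theorem card_irr_congr {A B : Type u} [Group A] [Group B] (e : A ≃* B) :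
    Nat.card (Cfsg.IrrCharacter A) = Nat.card (Cfsg.IrrCharacter B) := by
  apply Nat.card_congr
  refine ⟨fun χ => ⟨χ.1 ∘ e.symm,
      isIrrCharacter_comp_surj e.symm.toMonoidHom e.symm.surjective χ.2⟩,
    fun χ => ⟨χ.1 ∘ e, isIrrCharacter_comp_surj e.toMonoidHom e.surjective χ.2⟩, ?_, ?_⟩
  · intro χ
    apply Subtype.ext
    funext a
    show χ.1 (e.symm (e a)) = χ.1 a
    rw [MulEquiv.symm_apply_apply]
  · intro χ
    apply Subtype.ext
    funext b
    show χ.1 (e (e.symm b)) = χ.1 b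
    rw [MulEquiv.apply_symm_apply]

/-! ### the count in a coprime split extension -/

theorem mckay_count {G : Type u} [Group G] [Fintype G] (K H : Subgroup G) [hK : K.Normal]
    [Fintype K] (hKH : K ⊔ H = ⊤) (hcop : (Nat.card K).Coprime (Nat.card H)) :
    Nat.card {χ : Cfsg.IrrCharacter G // (Cfsg.charDegree (χ : G → ℂ)).Coprime (Nat.card H)} =
      Nat.card {θ : Cfsg.IrrCharacter K // ChInv K H θ.1} *
        Nat.card {lam : G →* ℂˣ // ∀ k ∈ K, lam k = 1} := by
  classical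
  have hnorm : ∀ s ∈ H, ∀ g ∈ K, s * g * s⁻¹ ∈ K := fun s _ g hg => hK.conj_mem g hg s
  obtain ⟨-, hidx, -⟩ := gc_setup K H hnorm hcop hKH
  have hext : ∀ θ : {θ : Cfsg.IrrCharacter K // ChInv K H θ.1},
      ∃ Ψ : G → ℂ, Cfsg.IsIrrCharacter G Ψ ∧ ∀ g : K, Ψ g = θ.1.1 g := by
    intro θ
    obtain ⟨Ψ, hΨ, hres, -, -⟩ := gc_canon K H hidx hcop hKH θ.1.1 θ.1.2 θ.2
    exact ⟨Ψ, hΨ, hres⟩
  choose E hE hEres using hext
  have hEK : ∀ θ : {θ : Cfsg.IrrCharacter K // ChInv K H θ.1},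
      Cfsg.IsIrrCharacter K (fun n : K => E θ n) := by
    intro θ
    have h : (fun n : K => E θ n) = θ.1.1 := funext (hEres θ)
    rw [h]; exact θ.1.2
  have hdeg : ∀ (χ : G → ℂ), Cfsg.IsIrrCharacter G χ →
      Cfsg.IsIrrCharacter K (fun k : K => χ k) → (Cfsg.charDegree χ).Coprime (Nat.card H) := by
    intro χ hχ hχK
    obtain ⟨n, σ, hσ, hσχ⟩ := hχK
    haveI := hσ
    have hfin : Module.finrank ℂ (Fin n → ℂ) = n := by simp
    have h1 : χ 1 = (n : ℂ) := by
      have h2 := congrFun hσχ 1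
      rw [Representation.char_one, hfin] at h2
      rw [← Subgroup.coe_one K]
      exact h2.symm
    have hdvd : n ∣ Nat.card K := by
      have := degree_dvd_card σ
      rwa [hfin] at this
    have h3 := (charDegree_irr hχ).1
    have h4 : Cfsg.charDegree χ = n := by
      rw [h1] at h3
      exact_mod_cast h3.symm
    rw [h4]
    exact Nat.Coprime.coprime_dvd_left hdvd hcop
  have htw : ∀ (θ : {θ : Cfsg.IrrCharacter K // ChInv K H θ.1})
      (lam : {lam : G →* ℂˣ // ∀ k ∈ K, lam k = 1}),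
      (fun k : K => ((lam.1 (k : G) : ℂˣ) : ℂ) * E θ k) = θ.1.1 := by
    intro θ lam
    funext k
    rw [lam.2 k k.2, hEres θ k]
    simp
  rw [← Nat.card_prod]
  symm
  apply Nat.card_eq_of_bijective
    (fun a : {θ : Cfsg.IrrCharacter K // ChInv K H θ.1} ×
        {lam : G →* ℂˣ // ∀ k ∈ K, lam k = 1} =>
      (⟨⟨fun g => (a.2.1 g : ℂ) * E a.1 g, isIrr_twist a.2.1 (hE a.1)⟩,
        hdeg _ (isIrr_twist a.2.1 (hE a.1)) (by rw [htw a.1 a.2]; exact a.1.1.2)⟩ :
        {χ : Cfsg.IrrCharacter G // (Cfsg.charDegree (χ : G → ℂ)).Coprime (Nat.card H)}))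
  constructor
  · rintro ⟨θ, lam⟩ ⟨θ', lam'⟩ h
    have hfun : (fun g => (lam.1 g : ℂ) * E θ g) = fun g => (lam'.1 g : ℂ) * E θ' g :=
      congrArg (fun x : {χ : Cfsg.IrrCharacter G //
        (Cfsg.charDegree (χ : G → ℂ)).Coprime (Nat.card H)} => x.1.1) h
    have hθ : θ = θ' := by
      apply Subtype.ext
      apply Subtype.ext
      rw [← htw θ lam, ← htw θ' lam']
      funext k
      exact congrFun hfun (k : G)
    subst hθ
    have hlam : lam.1 = lam'.1 := gallagher_uniq K (hE θ) (hEK θ) lam.1 lam'.1 lam.2 lam'.2 hfun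
    exact Prod.ext rfl (Subtype.ext hlam)
  · rintro ⟨⟨χ, hχ⟩, hcopχ⟩
    have hcopχ' : (Cfsg.charDegree χ).Coprime (Nat.card H) := hcopχ
    have hχK : Cfsg.IsIrrCharacter K (fun k : K => χ k) := by
      have hch := isCharacter_restrict K (isCharacter_of_isIrrCharacter hχ)
      obtain ⟨c, hc0, hc⟩ := irr_one hχ
      obtain ⟨θ₀, hθ₀, hne⟩ := exists_constituent hch (by
        show χ ((1 : K) : G) ≠ 0
        rw [Subgroup.coe_one, hc]; exact_mod_cast hc0)
      obtain ⟨d, hd0, hd⟩ := irr_one hθ₀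
      have h87 := Cfsg.Agent.S0887.result K χ hχ θ₀ hθ₀ hne c d hc hd
      have hcd : Cfsg.charDegree χ = c := by
        have h3 := (charDegree_irr hχ).1
        rw [hc] at h3
        exact_mod_cast h3.symm
      rw [hcd] at hcopχ'
      have h1 : c / d ∣ c := Nat.div_dvd_of_dvd h87.1
      have h2 : c / d ∣ Nat.card H := by rw [← hidx]; exact h87.2
      have h3 : c / d = 1 := Nat.eq_one_of_dvd_coprimes hcopχ' h1 h2
      have h4 : c = d := by
        obtain ⟨q, hq⟩ := h87.1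
        rw [hq, Nat.mul_div_cancel_left _ (Nat.pos_of_ne_zero hd0)] at h3
        rw [hq, h3, mul_one]
      have h5 := eq_of_constituent_of_degree_eq hch hθ₀ hne (by
        show χ ((1 : K) : G) = θ₀ 1
        rw [Subgroup.coe_one, hc, hd, h4])
      rw [h5]; exact hθ₀
    have hinvθ : ChInv K H (fun k : K => χ k) := by
      intro s hs g g' hgg'
      show χ g' = χ g
      rw [hgg']
      exact isClassFunction_of_isCharacter (isCharacter_of_isIrrCharacter hχ) g s
    obtain ⟨lam, hlam, hχeq⟩ := gallagher_ext K (hE ⟨⟨_, hχK⟩, hinvθ⟩) hχ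
      (hEK ⟨⟨_, hχK⟩, hinvθ⟩) (fun n => (hEres ⟨⟨_, hχK⟩, hinvθ⟩ n).symm)
    refine ⟨(⟨⟨_, hχK⟩, hinvθ⟩, ⟨lam, hlam⟩), ?_⟩
    apply Subtype.ext
    apply Subtype.ext
    exact hχeq.symm

theorem mckay_main {G : Type u} [Group G] [Finite G] (K H : Subgroup G) [hK : K.Normal]
    (hKH : K ⊔ H = ⊤) (hcop : (Nat.card K).Coprime (Nat.card H)) [Group.IsSolvable H] :
    Nat.card {χ : Cfsg.IrrCharacter G // (Cfsg.charDegree (χ : G → ℂ)).Coprime (Nat.card H)} =
      Nat.card {η : Cfsg.IrrCharacter (Subgroup.normalizer (H : Set G)) //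
        (Cfsg.charDegree (η : Subgroup.normalizer (H : Set G) → ℂ)).Coprime (Nat.card H)} := by
  classical
  haveI : Fintype G := Fintype.ofFinite G
  haveI : Fintype K := Fintype.ofFinite K
  have hbot : K ⊓ H = ⊥ := disjoint_iff.mp (Subgroup.disjoint_of_coprime_natCard hcop)
  have hnorm : ∀ s ∈ H, ∀ g ∈ K, s * g * s⁻¹ ∈ K := fun s _ g hg => hK.conj_mem g hg s
  obtain ⟨N, hNdef⟩ : ∃ N : Subgroup G, N = Subgroup.normalizer (H : Set G) := ⟨_, rfl⟩
  rw [← hNdef]
  haveI : Fintype N := Fintype.ofFinite N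
  have hHN : H ≤ N := by rw [hNdef]; exact Subgroup.le_normalizer
  have hcomm : ∀ x ∈ K, x ∈ N → ∀ h ∈ H, x * h = h * x := by
    intro x hxK hxN h hh
    rw [hNdef, Subgroup.mem_normalizer_iff] at hxN
    have h1 : x * h * x⁻¹ * h⁻¹ ∈ H := H.mul_mem ((hxN h).1 hh) (H.inv_mem hh)
    have h2 : x * h * x⁻¹ * h⁻¹ ∈ K := by
      have h0 : x * h * x⁻¹ * h⁻¹ = x * (h * x⁻¹ * h⁻¹) := by group
      rw [h0]
      exact K.mul_mem hxK (hK.conj_mem _ (K.inv_mem hxK) h)
    have h3 : x * h * x⁻¹ * h⁻¹ ∈ K ⊓ H := ⟨h2, h1⟩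
    rw [hbot, Subgroup.mem_bot] at h3
    calc x * h = (x * h * x⁻¹ * h⁻¹) * (h * x) := by group
      _ = h * x := by rw [h3, one_mul]
  have hcN : ∀ c ∈ K ⊓ Subgroup.centralizer (H : Set G), c ∈ N := by
    intro c hc
    have hcc : ∀ h ∈ H, h * c = c * h := fun h hh => Subgroup.mem_centralizer_iff.1 hc.2 h hh
    rw [hNdef, Subgroup.mem_normalizer_iff]
    intro h
    constructor
    · intro hh
      have h1 : c * h * c⁻¹ = h := by rw [← hcc h hh]; group
      rw [h1]; exact hh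
    · intro hh
      have h1 := hcc _ hh
      have h2 : h = c * h * c⁻¹ := by
        have h3 : c * h * c⁻¹ * c = c * (c * h * c⁻¹) := h1
        have h4 : c * h = c * (c * h * c⁻¹) := by rw [← h3]; group
        exact mul_left_cancel h4
      rw [h2]; exact hh
  rw [mckay_count K H hKH hcop]
  rw [solv_count_irr H (Nat.card K) K rfl hnorm hcop (K ⊓ Subgroup.centralizer (H : Set G)) rfl]
  rw [card_lin K H hKH hbot]
  obtain ⟨K', hK'def⟩ : ∃ K' : Subgroup N, K' = K.subgroupOf N := ⟨_, rfl⟩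
  obtain ⟨H', hH'def⟩ : ∃ H' : Subgroup N, H' = H.subgroupOf N := ⟨_, rfl⟩
  haveI hK'n : K'.Normal := by rw [hK'def]; infer_instance
  haveI : Fintype K' := Fintype.ofFinite _
  have hK'mem : ∀ x : N, x ∈ K' ↔ (x : G) ∈ K := by
    intro x; rw [hK'def]; exact Subgroup.mem_subgroupOf
  have hH'mem : ∀ x : N, x ∈ H' ↔ (x : G) ∈ H := by
    intro x; rw [hH'def]; exact Subgroup.mem_subgroupOf
  have htop' : K' ⊔ H' = ⊤ := by
    rw [eq_top_iff]
    intro x _
    have hx : (x : G) ∈ ((K ⊔ H : Subgroup G) : Set G) := by rw [hKH]; trivial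
    rw [Subgroup.normal_mul] at hx
    obtain ⟨k, hk, h, hh, hkh⟩ := Set.mem_mul.1 hx
    have hkN : k ∈ N := by
      have h0 : k = (x : G) * h⁻¹ := by rw [← hkh]; group
      rw [h0]; exact N.mul_mem x.2 (N.inv_mem (hHN hh))
    have hx' : x = (⟨k, hkN⟩ : N) * (⟨h, hHN hh⟩ : N) := Subtype.ext hkh.symm
    rw [hx']
    exact Subgroup.mul_mem_sup ((hK'mem _).2 hk) ((hH'mem _).2 hh)
  have hcardH' : Nat.card H' = Nat.card H := by
    rw [hH'def]; exact Nat.card_congr (Subgroup.subgroupOfEquivOfLe hHN).toEquiv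
  have hcardK' : Nat.card K' ∣ Nat.card K := by
    obtain ⟨f, hf⟩ : ∃ f : K' →* K, ∀ x : K', ((f x : K) : G) = ((x : N) : G) :=
      ⟨{ toFun := fun x => ⟨((x : N) : G), (hK'mem x.1).1 x.2⟩
         map_one' := rfl
         map_mul' := fun a b => rfl }, fun x => rfl⟩
    apply Subgroup.card_dvd_of_injective f
    intro a b hab
    apply Subtype.ext
    apply Subtype.ext
    rw [← hf a, ← hf b, hab]
  have hcop' : (Nat.card K').Coprime (Nat.card H') := by
    rw [hcardH']; exact Nat.Coprime.coprime_dvd_left hcardK' hcop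
  have hbot' : K' ⊓ H' = ⊥ := disjoint_iff.mp (Subgroup.disjoint_of_coprime_natCard hcop')
  have hR := mckay_count K' H' htop' hcop'
  rw [hcardH'] at hR
  rw [hR]
  have hall : ∀ θ : Cfsg.IrrCharacter K', ChInv K' H' θ.1 := by
    intro θ s hs g g' hgg'
    have h1 : g' = g := by
      apply Subtype.ext
      rw [hgg']
      apply Subtype.ext
      show (s : G) * ((g : N) : G) * (s : G)⁻¹ = ((g : N) : G)
      have h2 := hcomm ((g : N) : G) ((hK'mem g.1).1 g.2) g.1.2 (s : G) ((hH'mem s).1 hs)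
      rw [← h2]; group
    rw [h1]
  rw [Nat.card_congr (Equiv.subtypeUnivEquiv hall)]
  rw [card_lin K' H' htop' hbot']
  have e1 : Nat.card (H' →* ℂˣ) = Nat.card (H →* ℂˣ) := by
    rw [hH'def]
    exact Nat.card_congr (MulEquiv.monoidHomCongrLeftEquiv (Subgroup.subgroupOfEquivOfLe hHN))
  rw [e1]
  congr 1
  apply card_irr_congr
  exact
    { toFun := fun c => ⟨⟨(c : G), hcN c c.2⟩, (hK'mem _).2 c.2.1⟩
      invFun := fun x => ⟨((x : N) : G), Subgroup.mem_inf.2 ⟨(hK'mem x.1).1 x.2,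
        Subgroup.mem_centralizer_iff.2 (fun h hh =>
          (hcomm ((x : N) : G) ((hK'mem x.1).1 x.2) x.1.2 h hh).symm)⟩⟩
      left_inv := fun c => rfl
      right_inv := fun x => rfl
      map_mul' := fun a b => rfl }

end Cfsg.Agent.Lib.Helper7
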