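import Mathlib
import Cfsg.Prelude.Def_Characters
import Cfsg.Agent.Lib.Helper7.GlaubTriple
import Cfsg.Agent.Lib.Helper7.GlaubFpf
import Cfsg.Agent.Lib.Helper7.McKayCop
import Cfsg.Agent.Lib.Helper7.GlaubAb

set_option autoImplicit false
set_option maxHeartbeats 1000000

universe u

namespace Cfsg.Agent.Lib.Helper7
open Cfsg Cfsg.Agent.Lib.Lead
open scoped ComplexConjugate Pointwise

/-- extension of an invariant irreducible character over a cyclic quotient, the quotient being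
generated by the image of `x₀` -/
theorem ext_cyclic_gen {G : Type u} [Group G] [Finite G] (N : Subgroup G) [hN : N.Normal]
    (x₀ : G) (hgen : ∀ g : G, ∃ j : ℤ, (x₀ ^ j)⁻¹ * g ∈ N)
    (θ : N → ℂ) (hθ : Cfsg.IsIrrCharacter N θ)
    (hinv : ∀ (g : G) (m : N), θ ⟨g * m * g⁻¹, hN.conj_mem m m.2 g⟩ = θ m) :
    ∃ χ : G → ℂ, Cfsg.IsIrrCharacter G χ ∧ ∀ m : N, χ m = θ m := by
  classical
  obtain ⟨n, ρ, hρ, rfl⟩ := hθ
  haveI := hρ
  have hn0 : 0 < n := by
    have h1 := finrank_pos_of_irr ρ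
    rw [Module.finrank_fin_fun] at h1
    exact h1
  haveI := endn_nontrivial hn0
  obtain ⟨m, hmdef⟩ : ∃ m : ℕ, m = orderOf (x₀ : G ⧸ N) := ⟨_, rfl⟩
  have hm0 : 0 < m := by rw [hmdef]; exact orderOf_pos _
  have hx₀m : x₀ ^ m ∈ N := by
    rw [← QuotientGroup.eq_one_iff, QuotientGroup.mk_pow, hmdef, pow_orderOf_eq_one]
  have hdvd : ∀ j : ℤ, x₀ ^ j ∈ N → (m : ℤ) ∣ j := by
    intro j hj
    rw [hmdef, orderOf_dvd_iff_zpow_eq_one, ← QuotientGroup.mk_zpow]
    exact (QuotientGroup.eq_one_iff _).mpr hj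
  obtain ⟨P, hP⟩ := liftGrp_surj N ρ (fun g m => hinv g m) x₀
  obtain ⟨y₀, hy₀⟩ : ∃ y₀ : liftGrp N ρ, (y₀ : G × (Endn n)ˣ) = (x₀, P) := ⟨⟨(x₀, P), hP⟩, rfl⟩
  have hpow : ((x₀ ^ m, P ^ m) : G × (Endn n)ˣ) ∈ liftGrp N ρ := by
    have h1 := (y₀ ^ m).2
    rw [Subgroup.coe_pow, hy₀, Prod.pow_mk] at h1
    exact h1
  obtain ⟨c, hc⟩ := liftGrp_scalar N ρ ⟨x₀ ^ m, hx₀m⟩ (P ^ m) hpow
  have hc0 : c ≠ 0 := by
    rintro rfl
    rw [zero_smul] at hc
    exact Units.ne_zero _ hc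
  obtain ⟨z, hz⟩ := IsAlgClosed.exists_pow_nat_eq (c⁻¹ : ℂ) hm0
  have hz0 : z ≠ 0 := by
    rintro rfl
    rw [zero_pow hm0.ne'] at hz
    exact inv_ne_zero hc0 hz.symm
  obtain ⟨a, ha⟩ : ∃ a : ℂˣ, (a : ℂ) = z := ⟨Units.mk0 z hz0, rfl⟩
  obtain ⟨y, hyco⟩ : ∃ y : liftGrp N ρ, (y : G × (Endn n)ˣ) = (x₀, scalarUnit n a * P) := by
    refine ⟨⟨(1, scalarUnit n a), scalarUnit_mem N ρ a⟩ * y₀, ?_⟩
    rw [Subgroup.coe_mul, hy₀]
    show ((1 : G) * x₀, scalarUnit n a * P) = _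
    rw [one_mul]
  have hym : y ^ m = liftIncl N ρ ⟨x₀ ^ m, hx₀m⟩ := by
    apply Subtype.ext
    rw [Subgroup.coe_pow, hyco, Prod.pow_mk]
    apply Prod.ext
    · rfl
    · apply Units.ext
      show (((scalarUnit n a * P) ^ m : (Endn n)ˣ) : Endn n) =
        ((MonoidHom.toHomUnits ρ ⟨x₀ ^ m, hx₀m⟩ : (Endn n)ˣ) : Endn n)
      rw [MonoidHom.coe_toHomUnits, (scalarUnit_commute a P).mul_pow, Units.val_mul, ← map_pow,
        scalarUnit_val, hc, smul_mul_assoc, one_mul, smul_smul]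
      have h1 : ((a ^ m : ℂˣ) : ℂ) * c = 1 := by
        rw [Units.val_pow_eq_pow_val, ha, hz, inv_mul_cancel₀ hc0]
      rw [h1, one_smul]
  have hπy : liftProj N ρ y = x₀ := by
    show (y : G × (Endn n)ˣ).1 = x₀
    rw [hyco]
  haveI := liftIncl_range_normal N ρ
  obtain ⟨K, hKdef⟩ : ∃ K : Subgroup (liftGrp N ρ),
      K = (liftIncl N ρ).range ⊔ Subgroup.zpowers y := ⟨_, rfl⟩
  have hKmem : ∀ k : liftGrp N ρ, k ∈ K → ∃ (n' : N) (j : ℤ), k = liftIncl N ρ n' * y ^ j := by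
    intro k hk
    have h1 : k ∈ (((liftIncl N ρ).range : Subgroup (liftGrp N ρ)) : Set (liftGrp N ρ)) *
        ((Subgroup.zpowers y : Subgroup (liftGrp N ρ)) : Set (liftGrp N ρ)) := by
      rw [← Subgroup.normal_mul, ← hKdef]
      exact hk
    obtain ⟨a', ⟨n', rfl⟩, b', ⟨j, rfl⟩, rfl⟩ := h1
    exact ⟨n', j, rfl⟩
  have hιK : ∀ m' : N, liftIncl N ρ m' ∈ K := by
    intro m'
    rw [hKdef]
    exact Subgroup.mem_sup_left ⟨m', rfl⟩
  have hyK : y ∈ K := by
    rw [hKdef]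
    exact Subgroup.mem_sup_right (Subgroup.mem_zpowers y)
  apply ext_of_section N ρ (liftProj N ρ) (liftRep N ρ) (liftIncl N ρ) (fun m' => rfl)
    (fun m' => liftRep_incl N ρ m') K hιK
  · intro g
    obtain ⟨j, hj⟩ := hgen g
    refine ⟨y ^ j * liftIncl N ρ ⟨(x₀ ^ j)⁻¹ * g, hj⟩,
      K.mul_mem (K.zpow_mem hyK j) (hιK _), ?_⟩
    rw [map_mul, map_zpow, hπy]
    show x₀ ^ j * ((x₀ ^ j)⁻¹ * g) = g
    rw [mul_inv_cancel_left]
  · intro k hk h1
    obtain ⟨n', j, rfl⟩ := hKmem k hk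
    have h2 : (n' : G) * x₀ ^ j = 1 := by
      rw [map_mul, map_zpow, hπy] at h1
      exact h1
    have h3 : x₀ ^ j ∈ N := by
      have h4 : x₀ ^ j = ((n' : G))⁻¹ := eq_inv_of_mul_eq_one_right h2
      rw [h4]
      exact N.inv_mem n'.2
    obtain ⟨t, rfl⟩ := hdvd j h3
    have hk' : liftIncl N ρ n' * y ^ ((m : ℤ) * t) =
        liftIncl N ρ (n' * ⟨x₀ ^ m, hx₀m⟩ ^ t) := by
      rw [zpow_mul, zpow_natCast, hym, ← map_zpow, ← map_mul]
    rw [hk'] at h1 ⊢
    exact liftIncl_eq_one_of_proj N ρ ⟨_, rfl⟩ h1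

/-- an irreducible character over an invariant irreducible character of a normal subgroup is a
multiple of it there -/
theorem clifford_inv {G : Type u} [Group G] [Fintype G] (N : Subgroup G) [hN : N.Normal]
    [Fintype N] {χ : G → ℂ} (hχ : Cfsg.IsIrrCharacter G χ) (φ : N → ℂ)
    (hφ : Cfsg.IsIrrCharacter N φ)
    (hinv : ∀ (g : G) (n : N), φ ⟨g * n * g⁻¹, hN.conj_mem n n.2 g⟩ = φ n)
    (hconst : Cfsg.classInner (fun n : N => χ n) φ ≠ 0) :
    ∀ n : N, χ n = Cfsg.classInner (fun n : N => χ n) φ * φ n := by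
  have hcl := clifford_char N hN χ hχ φ hφ hconst
  have hset : {ψ' : N → ℂ | ∃ g : G, ψ' = fun n : N =>
      φ ⟨g * n * g⁻¹, hN.conj_mem n n.2 g⟩} = {φ} := by
    ext ψ'
    constructor
    · rintro ⟨g, rfl⟩
      show (fun n : N => φ ⟨g * n * g⁻¹, hN.conj_mem n n.2 g⟩) = φ
      funext n
      exact hinv g n
    · intro h
      refine ⟨1, ?_⟩
      rw [Set.mem_singleton_iff] at h
      rw [h]
      funext n
      exact (hinv 1 n).symm
  rw [hset, finsum_mem_singleton] at hcl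
  intro n
  have e1 := congrFun hcl n
  simp only [Pi.smul_apply, smul_eq_mul] at e1
  exact e1

open Classical in
/-- the Frobenius double counting: a class function summed outside the kernel preimage `G` is
controlled by its sum over the complement-like subgroup `U` -/
theorem fpf_count {Γ : Type u} [Group Γ] [Fintype Γ] (G N U : Subgroup Γ) [hG : G.Normal]
    [hN : N.Normal] (hNG : N ≤ G) (hNU : N ≤ U) (hUG : U ⊓ G ≤ N)
    (hcard : Nat.card U * Nat.card G = Nat.card Γ * Nat.card N)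
    (hfrob : ∀ x : Γ, x ∉ G → ∀ g : Γ, g ∈ G → x * g * x⁻¹ * g⁻¹ ∈ N → g ∈ N)
    (f : Γ → ℂ) (hf : ∀ g x : Γ, f (x * g * x⁻¹) = f g) :
    (Nat.card N : ℂ) * ∑ y : Γ, (if y ∈ G then 0 else f y) =
      (Nat.card G : ℂ) * ∑ y : Γ, (if y ∈ U ∧ y ∉ G then f y else 0) := by
  classical
  haveI : Fintype G := Fintype.ofFinite G
  haveI : Fintype N := Fintype.ofFinite N
  obtain ⟨c, hcdef⟩ : ∃ c : Γ → ℕ, c = fun y =>
      (Finset.univ.filter (fun g : G => (g : Γ)⁻¹ * y * g ∈ U)).card := ⟨_, rfl⟩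
  -- the basic identity
  have hstar : ∀ f' : Γ → ℂ, (∀ g x : Γ, f' (x * g * x⁻¹) = f' g) →
      ∑ y : Γ, (if y ∈ G then 0 else (c y : ℂ) * f' y) =
        (Nat.card G : ℂ) * ∑ y : Γ, (if y ∈ U ∧ y ∉ G then f' y else 0) := by
    intro f' hf'
    have h1 : ∀ y : Γ, (if y ∈ G then 0 else (c y : ℂ) * f' y) =
        ∑ g : G, (if y ∉ G ∧ (g : Γ)⁻¹ * y * g ∈ U then f' y else 0) := by
      intro y
      by_cases hy : y ∈ G
      · rw [if_pos hy]
        symm
        apply Finset.sum_eq_zero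
        intro g _
        rw [if_neg (fun h => h.1 hy)]
      · rw [if_neg hy]
        have h2 : ∀ g : G, (if y ∉ G ∧ (g : Γ)⁻¹ * y * g ∈ U then f' y else 0) =
            (if (g : Γ)⁻¹ * y * g ∈ U then f' y else 0) := by
          intro g
          by_cases h : (g : Γ)⁻¹ * y * g ∈ U
          · rw [if_pos ⟨hy, h⟩, if_pos h]
          · rw [if_neg (fun h' => h h'.2), if_neg h]
        rw [Finset.sum_congr rfl (fun g _ => h2 g), ← Finset.sum_filter, Finset.sum_const,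
          nsmul_eq_mul, hcdef]
    rw [Finset.sum_congr rfl (fun y _ => h1 y), Finset.sum_comm]
    have h2 : ∀ g : G, ∑ y : Γ, (if y ∉ G ∧ (g : Γ)⁻¹ * y * g ∈ U then f' y else 0) =
        ∑ u : Γ, (if u ∈ U ∧ u ∉ G then f' u else 0) := by
      intro g
      let eqv : Γ ≃ Γ := ⟨fun u => (g : Γ) * u * (g : Γ)⁻¹, fun y => (g : Γ)⁻¹ * y * g,
        fun u => by group, fun y => by group⟩
      rw [← Equiv.sum_comp eqv]
      apply Finset.sum_congr rfl
      intro u _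
      show (if (g : Γ) * u * (g : Γ)⁻¹ ∉ G ∧ (g : Γ)⁻¹ * ((g : Γ) * u * (g : Γ)⁻¹) * g ∈ U
        then f' ((g : Γ) * u * (g : Γ)⁻¹) else 0) = _
      have e1 : (g : Γ)⁻¹ * ((g : Γ) * u * (g : Γ)⁻¹) * g = u := by group
      have e2 : (g : Γ) * u * (g : Γ)⁻¹ ∈ G ↔ u ∈ G := by
        constructor
        · intro h
          rw [← e1]
          exact G.mul_mem (G.mul_mem (G.inv_mem g.2) h) g.2
        · intro h
          exact G.mul_mem (G.mul_mem g.2 h) (G.inv_mem g.2)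
      rw [e1, e2, hf']
      by_cases h : u ∈ U ∧ u ∉ G
      · rw [if_pos h, if_pos ⟨h.2, h.1⟩]
      · rw [if_neg h, if_neg (fun h' => h ⟨h'.2, h'.1⟩)]
    rw [Finset.sum_congr rfl (fun g _ => h2 g), Finset.sum_const, Finset.card_univ,
      nsmul_eq_mul, Nat.card_eq_fintype_card]
  -- the fibres are small
  have hle : ∀ y : Γ, y ∉ G → c y ≤ Nat.card N := by
    intro y hy
    rw [hcdef]
    show (Finset.univ.filter (fun g : G => (g : Γ)⁻¹ * y * g ∈ U)).card ≤ Nat.card N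
    by_cases hemp : (Finset.univ.filter (fun g : G => (g : Γ)⁻¹ * y * g ∈ U)) = ∅
    · rw [hemp]
      simp
    · obtain ⟨g₁, hg₁⟩ := Finset.nonempty_iff_ne_empty.mpr hemp
      rw [Finset.mem_filter] at hg₁
      have hmem : ∀ g : G, (g : Γ)⁻¹ * y * g ∈ U → (g₁ : Γ)⁻¹ * g ∈ N := by
        intro g hg
        have hu₁G : (g₁ : Γ)⁻¹ * y * g₁ ∉ G := by
          intro h
          apply hy
          have e : y = (g₁ : Γ) * ((g₁ : Γ)⁻¹ * y * g₁) * (g₁ : Γ)⁻¹ := by group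
          rw [e]
          exact G.mul_mem (G.mul_mem g₁.2 h) (G.inv_mem g₁.2)
        have hhG : (g₁ : Γ)⁻¹ * g ∈ G := G.mul_mem (G.inv_mem g₁.2) g.2
        have hx : ((g₁ : Γ)⁻¹ * y * g₁)⁻¹ ∉ G := fun h => hu₁G (by simpa using G.inv_mem h)
        have key : ((g₁ : Γ)⁻¹ * y * g₁)⁻¹ * ((g₁ : Γ)⁻¹ * g)⁻¹ * (((g₁ : Γ)⁻¹ * y * g₁)⁻¹)⁻¹ *
            (((g₁ : Γ)⁻¹ * g)⁻¹)⁻¹ ∈ N := by
          apply hUG
          constructor
          · have e : ((g₁ : Γ)⁻¹ * y * g₁)⁻¹ * ((g₁ : Γ)⁻¹ * g)⁻¹ *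
                (((g₁ : Γ)⁻¹ * y * g₁)⁻¹)⁻¹ * (((g₁ : Γ)⁻¹ * g)⁻¹)⁻¹ =
                ((g₁ : Γ)⁻¹ * y * g₁)⁻¹ * ((g : Γ)⁻¹ * y * g) := by group
            rw [e]
            exact U.mul_mem (U.inv_mem hg₁.2) hg
          · exact G.mul_mem (hG.conj_mem _ (G.inv_mem hhG) _) (by simpa using hhG)
        have h3 := hfrob _ hx _ (G.inv_mem hhG) key
        simpa using N.inv_mem h3
      rw [Nat.card_eq_fintype_card, ← Finset.card_univ (α := N)]
      apply Finset.card_le_card_of_injOn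
        (fun g : G => if h : (g₁ : Γ)⁻¹ * g ∈ N then (⟨_, h⟩ : N) else 1)
      · intro g _
        exact Finset.mem_coe.mpr (Finset.mem_univ _)
      · intro g hg g' hg' heq
        have hgm := hmem g (Finset.mem_filter.mp (Finset.mem_coe.mp hg)).2
        have hgm' := hmem g' (Finset.mem_filter.mp (Finset.mem_coe.mp hg')).2
        simp only [dif_pos hgm, dif_pos hgm'] at heq
        have h4 : (g₁ : Γ)⁻¹ * g = (g₁ : Γ)⁻¹ * g' := congrArg Subtype.val heq
        exact Subtype.ext (mul_left_cancel h4)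
  -- counting
  have hS : (Finset.univ.filter (fun y : Γ => y ∉ G)).card + Nat.card G = Nat.card Γ := by
    have h1 := Finset.card_filter_add_card_filter_not (s := (Finset.univ : Finset Γ))
      (fun y : Γ => y ∈ G)
    rw [Finset.card_univ, ← Nat.card_eq_fintype_card] at h1
    have h2 : (Finset.univ.filter (fun y : Γ => y ∈ G)).card = Nat.card G := by
      rw [Nat.card_eq_fintype_card, Fintype.card_subtype]
    omega
  have hT : (Finset.univ.filter (fun y : Γ => y ∈ U ∧ y ∉ G)).card + Nat.card N =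
      Nat.card U := by
    have h1 := Finset.card_filter_add_card_filter_not
      (s := (Finset.univ.filter (fun y : Γ => y ∈ U))) (fun y : Γ => y ∈ G)
    rw [Finset.filter_filter, Finset.filter_filter] at h1
    have h2 : (Finset.univ.filter (fun y : Γ => y ∈ U ∧ y ∈ G)).card = Nat.card N := by
      have h3 : (Finset.univ.filter (fun y : Γ => y ∈ U ∧ y ∈ G)) =
          Finset.univ.filter (fun y : Γ => y ∈ N) := by
        ext y
        simp only [Finset.mem_filter, Finset.mem_univ, true_and]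
        exact ⟨fun h => hUG h, fun h => ⟨hNU h, hNG h⟩⟩
      rw [h3, Nat.card_eq_fintype_card, Fintype.card_subtype]
    have h4 : (Finset.univ.filter (fun y : Γ => y ∈ U)).card = Nat.card U := by
      rw [Nat.card_eq_fintype_card, Fintype.card_subtype]
    rw [h2, h4] at h1
    omega
  have hsumc : ∑ y ∈ Finset.univ.filter (fun y : Γ => y ∉ G), c y =
      (Finset.univ.filter (fun y : Γ => y ∉ G)).card * Nat.card N := by
    have h1 := hstar (fun _ => 1) (fun _ _ => rfl)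
    have h2 : ∑ y : Γ, (if y ∈ G then (0 : ℂ) else (c y : ℂ) * 1) =
        ((∑ y ∈ Finset.univ.filter (fun y : Γ => y ∉ G), c y : ℕ) : ℂ) := by
      rw [Finset.sum_filter]
      push_cast
      apply Finset.sum_congr rfl
      intro y _
      by_cases hy : y ∈ G
      · rw [if_pos hy, if_neg (not_not.mpr hy)]
      · rw [if_neg hy, if_pos hy, mul_one]
    have h3 : ∑ y : Γ, (if y ∈ U ∧ y ∉ G then (1 : ℂ) else 0) =
        (((Finset.univ.filter (fun y : Γ => y ∈ U ∧ y ∉ G)).card : ℕ) : ℂ) := by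
      rw [Finset.card_filter]
      push_cast
      rfl
    rw [h2, h3] at h1
    have h4 : ∑ y ∈ Finset.univ.filter (fun y : Γ => y ∉ G), c y =
        Nat.card G * (Finset.univ.filter (fun y : Γ => y ∈ U ∧ y ∉ G)).card := by
      exact_mod_cast h1
    rw [h4]
    have h5 : Nat.card G * (Finset.univ.filter (fun y : Γ => y ∈ U ∧ y ∉ G)).card +
        Nat.card G * Nat.card N =
        (Finset.univ.filter (fun y : Γ => y ∉ G)).card * Nat.card N +
        Nat.card G * Nat.card N := by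
      rw [← Nat.mul_add, hT, ← Nat.add_mul, hS, mul_comm, hcard]
    exact Nat.add_right_cancel h5
  have hceq : ∀ y : Γ, y ∉ G → c y = Nat.card N := by
    intro y hy
    by_contra hne
    have hlt : c y < Nat.card N := lt_of_le_of_ne (hle y hy) hne
    have h1 : ∑ y ∈ Finset.univ.filter (fun y : Γ => y ∉ G), c y <
        ∑ y ∈ Finset.univ.filter (fun y : Γ => y ∉ G), Nat.card N := by
      apply Finset.sum_lt_sum
      · intro z hz
        exact hle z (Finset.mem_filter.mp hz).2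
      · exact ⟨y, Finset.mem_filter.mpr ⟨Finset.mem_univ _, hy⟩, hlt⟩
    rw [Finset.sum_const, smul_eq_mul, hsumc] at h1
    exact lt_irrefl _ h1
  rw [← hstar f hf, Finset.mul_sum]
  apply Finset.sum_congr rfl
  intro y _
  by_cases hy : y ∈ G
  · rw [if_pos hy, if_pos hy, mul_zero]
  · rw [if_neg hy, if_neg hy, hceq y hy]

/-- the arithmetic of a character of degree `e·θ(1)` above an extendible `θ` over an abelian
quotient of order `m` whose norm is `(e² + m - 1)/m` -/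
theorem fr_arith {U : Type u} [Group U] [Fintype U] (N : Subgroup U) [hN : N.Normal]
    [Fintype N] (hab : ∀ g h : U, g * h * g⁻¹ * h⁻¹ ∈ N)
    (m : ℕ) (hm : N.index = m) (hm2 : 2 ≤ m)
    (θh : U → ℂ) (hθh : Cfsg.IsIrrCharacter U θh)
    (hθhN : Cfsg.IsIrrCharacter N (fun n : N => θh n))
    (ψ : U → ℂ) (hψ : Cfsg.IsCharacter U ψ) (e : ℕ) (hψN : ∀ n : N, ψ n = (e : ℂ) * θh n)
    (hnorm : ∑ u : U, ψ u * conj (ψ u) = (Nat.card N : ℂ) * ((e : ℂ) ^ 2 + (m : ℂ) - 1)) :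
    (m : ℤ) ∣ (e : ℤ) - 1 ∨ (m : ℤ) ∣ (e : ℤ) + 1 := by
  classical
  haveI : Fintype (Cfsg.IrrCharacter U) := Fintype.ofFinite _
  haveI : Fintype (Cfsg.IrrCharacter N) := Fintype.ofFinite _
  letI : CommGroup (U ⧸ N) := { (inferInstance : Group (U ⧸ N)) with
    mul_comm := by
      intro a b
      induction a using QuotientGroup.induction_on with
      | H g =>
        induction b using QuotientGroup.induction_on with
        | H h =>
          rw [← QuotientGroup.mk_mul, ← QuotientGroup.mk_mul, QuotientGroup.eq]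
          have e1 : (g * h)⁻¹ * (h * g) = h⁻¹ * g⁻¹ * h⁻¹⁻¹ * g⁻¹⁻¹ := by group
          rw [e1]
          exact hab h⁻¹ g⁻¹ }
  haveI : NeZero ((Monoid.exponent (U ⧸ N) : ℕ) : ℂ) :=
    ⟨Nat.cast_ne_zero.mpr Monoid.exponent_ne_zero_of_finite⟩
  have hcardΛ : Nat.card ((U ⧸ N) →* ℂˣ) = m := by
    rw [CommGroup.card_monoidHom_of_hasEnoughRootsOfUnity, ← hm]
    rfl
  haveI : Finite ((U ⧸ N) →* ℂˣ) := Nat.finite_of_card_ne_zero (by rw [hcardΛ]; omega)
  haveI : Fintype ((U ⧸ N) →* ℂˣ) := Fintype.ofFinite _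
  have hmC : (m : ℂ) ≠ 0 := by
    have : m ≠ 0 := by omega
    exact_mod_cast this
  obtain ⟨dθ, hdθ0, hdθ⟩ := irr_one hθh
  have hθ1 : θh 1 ≠ 0 := by rw [hdθ]; exact_mod_cast hdθ0
  -- the twists
  obtain ⟨ι, hι⟩ : ∃ ι : ((U ⧸ N) →* ℂˣ) → Cfsg.IrrCharacter U,
      ∀ (lam : (U ⧸ N) →* ℂˣ) (u : U), (ι lam : U → ℂ) u =
        ((lam (u : U ⧸ N) : ℂˣ) : ℂ) * θh u :=
    ⟨fun lam => ⟨fun u => ((lam (u : U ⧸ N) : ℂˣ) : ℂ) * θh u,
      isIrr_twist (lam.comp (QuotientGroup.mk' N)) hθh⟩, fun _ _ => rfl⟩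
  have hιinj : Function.Injective ι := by
    intro l₁ l₂ h
    have h1 : (fun g => (((l₁.comp (QuotientGroup.mk' N)) g : ℂˣ) : ℂ) * θh g) =
        fun g => (((l₂.comp (QuotientGroup.mk' N)) g : ℂˣ) : ℂ) * θh g := by
      funext u
      have h2 := congrFun (congrArg Subtype.val h) u
      rw [hι, hι] at h2
      exact h2
    have h3 := gallagher_uniq N hθh hθhN (l₁.comp (QuotientGroup.mk' N))
      (l₂.comp (QuotientGroup.mk' N))
      (fun x hx => by
        show l₁ (x : U ⧸ N) = 1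
        rw [(QuotientGroup.eq_one_iff x).mpr hx, map_one])
      (fun x hx => by
        show l₂ (x : U ⧸ N) = 1
        rw [(QuotientGroup.eq_one_iff x).mpr hx, map_one]) h1
    apply MonoidHom.ext
    intro q
    induction q using QuotientGroup.induction_on with
    | H u => exact DFunLike.congr_fun h3 u
  -- expansion of ψ
  obtain ⟨c, hc, hc'⟩ := isCharacter_expansion hψ
  have hψNfun : (fun n : N => ψ n) = (e : ℂ) • (fun n : N => θh n) := by
    funext n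
    exact hψN n
  have hrange : ∀ η : Cfsg.IrrCharacter U, c η ≠ 0 → ∃ lam, ι lam = η := by
    intro η hη
    obtain ⟨dη, hdη0, hdη⟩ := irr_one η.2
    have hηN : Cfsg.IsCharacter N (fun n : N => (η : U → ℂ) n) :=
      isCharacter_restrict N (isCharacter_of_isIrrCharacter η.2)
    have hη1 : (fun n : N => (η : U → ℂ) n) 1 ≠ 0 := by
      show (η : U → ℂ) ((1 : N) : U) ≠ 0
      rw [Subgroup.coe_one, hdη]
      exact_mod_cast hdη0
    obtain ⟨φ, hφ, hφne⟩ := exists_constituent hηN hη1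
    -- ψ restricted to N contains φ
    have hres : (fun n : N => ψ n) =
        ∑ χ : Cfsg.IrrCharacter U, (c χ : ℂ) • (fun n : N => (χ : U → ℂ) n) := by
      funext n
      have h1 := congrFun hc n
      rw [Finset.sum_apply] at h1 ⊢
      exact h1
    choose d hd using fun χ : Cfsg.IrrCharacter U => classInner_char_char_nat
      (isCharacter_restrict N (isCharacter_of_isIrrCharacter χ.2))
      (isCharacter_of_isIrrCharacter hφ)
    have hin : Cfsg.classInner (fun n : N => ψ n) φ =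
        ((∑ χ : Cfsg.IrrCharacter U, c χ * d χ : ℕ) : ℂ) := by
      rw [hres, classInner_sum_left]
      push_cast
      apply Finset.sum_congr rfl
      intro χ _
      rw [classInner_smul_left, hd]
    have hpos : 0 < ∑ χ : Cfsg.IrrCharacter U, c χ * d χ := by
      apply Finset.sum_pos'
      · intro χ _
        exact Nat.zero_le _
      · refine ⟨η, Finset.mem_univ _, ?_⟩
        apply Nat.mul_pos (Nat.pos_of_ne_zero hη)
        apply Nat.pos_of_ne_zero
        intro h0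
        apply hφne
        rw [hd, h0, Nat.cast_zero]
    have hne : Cfsg.classInner (fun n : N => ψ n) φ ≠ 0 := by
      rw [hin]
      exact_mod_cast hpos.ne'
    rw [hψNfun, classInner_smul_left] at hne
    have hne2 : Cfsg.classInner (fun n : N => θh n) φ ≠ 0 := right_ne_zero_of_mul hne
    have heq : (fun n : N => θh n) = φ := by
      by_contra h
      rw [classInner_irr hθhN hφ, if_neg h] at hne2
      exact hne2 rfl
    rw [← heq] at hφne
    obtain ⟨lam, hlam1, hlam⟩ := ab_transitive N hab (fun n : N => θh n) hθhN hθh η.2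
      (by rw [classInner_irr_self hθhN]; exact one_ne_zero) hφne
    refine ⟨QuotientGroup.lift N lam (fun x hx => hlam1 x hx), ?_⟩
    apply Subtype.ext
    funext u
    rw [hι, hlam]
    rfl
  have hreindex : ∀ F : Cfsg.IrrCharacter U → ℂ, (∀ η, c η = 0 → F η = 0) →
      ∑ η : Cfsg.IrrCharacter U, F η = ∑ lam : (U ⧸ N) →* ℂˣ, F (ι lam) := by
    intro F hF
    rw [← Finset.sum_image (s := Finset.univ) (g := ι) (f := F) (fun a _ b _ h => hιinj h)]
    symm
    apply Finset.sum_subset (Finset.subset_univ _)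
    intro η _ hη
    apply hF
    by_contra hne
    obtain ⟨lam, rfl⟩ := hrange η hne
    exact hη (Finset.mem_image_of_mem ι (Finset.mem_univ lam))
  -- degrees
  have hdeg : ∑ lam : (U ⧸ N) →* ℂˣ, (c (ι lam) : ℂ) = (e : ℂ) := by
    have h1 := congrFun hc 1
    rw [Finset.sum_apply] at h1
    have h2 : ψ 1 = (e : ℂ) * θh 1 := hψN 1
    have h3 : ∑ η : Cfsg.IrrCharacter U, ((c η : ℂ) • (η : U → ℂ)) 1 =
        ∑ lam : (U ⧸ N) →* ℂˣ, ((c (ι lam) : ℂ) • (ι lam : U → ℂ)) 1 := by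
      apply hreindex (fun η => ((c η : ℂ) • (η : U → ℂ)) 1)
      intro η h0
      show (c η : ℂ) * (η : U → ℂ) 1 = 0
      rw [h0, Nat.cast_zero, zero_mul]
    rw [h3, h2] at h1
    have h4 : ∑ lam : (U ⧸ N) →* ℂˣ, ((c (ι lam) : ℂ) • (ι lam : U → ℂ)) 1 =
        (∑ lam : (U ⧸ N) →* ℂˣ, (c (ι lam) : ℂ)) * θh 1 := by
      rw [Finset.sum_mul]
      apply Finset.sum_congr rfl
      intro lam _
      show (c (ι lam) : ℂ) * (ι lam : U → ℂ) 1 = _
      rw [hι, QuotientGroup.mk_one, map_one, Units.val_one, one_mul]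
    rw [h4] at h1
    exact (mul_right_cancel₀ hθ1 h1).symm
  -- norms
  have hUcard : (Nat.card U : ℂ) = (Nat.card N : ℂ) * (m : ℂ) := by
    have h1 := N.card_mul_index
    rw [hm] at h1
    exact_mod_cast h1.symm
  have hNne : (Nat.card N : ℂ) ≠ 0 := by exact_mod_cast Nat.card_pos.ne'
  have hnorm2 : (m : ℂ) * ∑ lam : (U ⧸ N) →* ℂˣ, (c (ι lam) : ℂ) ^ 2 =
      (e : ℂ) ^ 2 + (m : ℂ) - 1 := by
    have h1 : Cfsg.classInner ψ ψ = ∑ η : Cfsg.IrrCharacter U, (c η : ℂ) * (c η : ℂ) := by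
      have h2 : Cfsg.classInner ψ ψ =
          Cfsg.classInner (∑ χ : Cfsg.IrrCharacter U, (c χ : ℂ) • (χ : U → ℂ)) ψ := by
        rw [← hc]
      rw [h2, classInner_sum_left]
      apply Finset.sum_congr rfl
      intro η _
      rw [classInner_smul_left, ← classInner_conj_symm, hc', Complex.conj_natCast]
    have h3 : ∑ η : Cfsg.IrrCharacter U, (c η : ℂ) * (c η : ℂ) =
        ∑ lam : (U ⧸ N) →* ℂˣ, (c (ι lam) : ℂ) ^ 2 := by
      rw [hreindex (fun η => (c η : ℂ) * (c η : ℂ))]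
      · apply Finset.sum_congr rfl
        intro lam _
        rw [pow_two]
      · intro η h0
        show (c η : ℂ) * (c η : ℂ) = 0
        rw [h0, Nat.cast_zero, zero_mul]
    rw [← h3, ← h1]
    unfold Cfsg.classInner
    rw [hnorm, hUcard]
    field_simp
  -- integers
  obtain ⟨B, hB⟩ : ∃ B : ((U ⧸ N) →* ℂˣ) → ℤ, ∀ lam, B lam = (c (ι lam) : ℤ) :=
    ⟨fun lam => (c (ι lam) : ℤ), fun _ => rfl⟩
  have hsum : ∑ lam : (U ⧸ N) →* ℂˣ, B lam = (e : ℤ) := by
    apply Int.cast_injective (α := ℂ)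
    push_cast
    rw [← hdeg]
    apply Finset.sum_congr rfl
    intro lam _
    rw [hB]
    push_cast
    rfl
  have hsq : (m : ℤ) * ∑ lam : (U ⧸ N) →* ℂˣ, B lam ^ 2 = (e : ℤ) ^ 2 + (m : ℤ) - 1 := by
    apply Int.cast_injective (α := ℂ)
    push_cast
    rw [← hnorm2]
    congr 1
    apply Finset.sum_congr rfl
    intro lam _
    rw [hB]
    push_cast
    rfl
  have hcardu : ((Finset.univ : Finset ((U ⧸ N) →* ℂˣ)).card : ℤ) = (m : ℤ) := by
    rw [Finset.card_univ, ← Nat.card_eq_fintype_card, hcardΛ]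
  have hm1 : (1 : ℤ) < (m : ℤ) := by exact_mod_cast hm2
  obtain ⟨k₀, -, b, ε, hε, hk₀, hrest⟩ := gc_star B Finset.univ (by
      by_contra hall
      push_neg at hall
      have h1 : ∀ lam : (U ⧸ N) →* ℂˣ, B lam = B 1 :=
        fun lam => hall lam (Finset.mem_univ _) 1 (Finset.mem_univ _)
      have h2 : ∑ lam : (U ⧸ N) →* ℂˣ, B lam = (m : ℤ) * B 1 := by
        rw [Finset.sum_congr rfl (fun lam _ => h1 lam), Finset.sum_const, nsmul_eq_mul, hcardu]
      have h3 : ∑ lam : (U ⧸ N) →* ℂˣ, B lam ^ 2 = (m : ℤ) * B 1 ^ 2 := by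
        rw [Finset.sum_congr rfl (fun lam _ => by rw [h1 lam]), Finset.sum_const, nsmul_eq_mul,
          hcardu]
      rw [h2] at hsum
      rw [h3, ← hsum] at hsq
      have h4 : (m : ℤ) - 1 = 0 := by linarith [hsq, mul_pow (m : ℤ) (B 1) 2]
      omega) (by
      rw [hcardu, hsum]
      linarith [hsq])
  have hfin : (e : ℤ) = (m : ℤ) * b + ε := by
    rw [← hsum, ← Finset.add_sum_erase Finset.univ B (Finset.mem_univ k₀), hk₀,
      Finset.sum_congr rfl (fun k hk => hrest k (Finset.mem_univ _) (Finset.ne_of_mem_erase hk)),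
      Finset.sum_const, nsmul_eq_mul, Finset.card_erase_of_mem (Finset.mem_univ k₀)]
    have h5 : (((Finset.univ : Finset ((U ⧸ N) →* ℂˣ)).card - 1 : ℕ) : ℤ) = (m : ℤ) - 1 := by
      rw [Nat.cast_sub, hcardu]
      · simp
      · have : (0 : ℤ) < ((Finset.univ : Finset ((U ⧸ N) →* ℂˣ)).card : ℤ) := by
          rw [hcardu]; omega
        exact_mod_cast this
    rw [h5]
    ring
  rcases hε with rfl | rfl
  · left
    exact ⟨b, by rw [hfin]; ring⟩
  · right
    exact ⟨b, by rw [hfin]; ring⟩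

/-- Frobenius action on `G/N` with cyclic `Γ/G` and `θ` fully ramified in `G`: the index of `G`
divides `e - 1` or `e + 1` -/
theorem frob_ram {Γ : Type u} [Group Γ] [Fintype Γ] (G N : Subgroup Γ) [hG : G.Normal]
    [hN : N.Normal] [Fintype G] [Fintype N] (hNG : N ≤ G) (hGlt : G ≠ ⊤)
    (hcyc : IsCyclic (Γ ⧸ G))
    (hfrob : ∀ x : Γ, x ∉ G → ∀ g : Γ, g ∈ G → x * g * x⁻¹ * g⁻¹ ∈ N → g ∈ N)
    (θ : N → ℂ) (hθ : Cfsg.IsIrrCharacter N θ)
    (hinv : ∀ (x : Γ) (n : N), θ ⟨x * n * x⁻¹, hN.conj_mem n n.2 x⟩ = θ n)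
    (χ : G → ℂ) (hχ : Cfsg.IsIrrCharacter G χ) (e : ℕ)
    (hram : Cfsg.indFun (N.subgroupOf G) (fun n : N.subgroupOf G => θ ⟨(n : G), n.2⟩) =
      fun g => (e : ℂ) * χ g) :
    (G.index : ℤ) ∣ (e : ℤ) - 1 ∨ (G.index : ℤ) ∣ (e : ℤ) + 1 := by
  classical
  obtain ⟨m, hmdef⟩ : ∃ m : ℕ, m = G.index := ⟨_, rfl⟩
  rw [← hmdef]
  have hm2 : 2 ≤ m := by
    have h0 : G.index ≠ 0 := Subgroup.index_ne_zero_of_finite
    have h1 : G.index ≠ 1 := fun h => hGlt (Subgroup.index_eq_one.mp h)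
    omega
  obtain ⟨q₀, hq₀⟩ := hcyc.exists_generator
  obtain ⟨x₀, rfl⟩ := QuotientGroup.mk_surjective q₀
  have hord : orderOf (x₀ : Γ ⧸ G) = m := by
    rw [orderOf_eq_card_of_forall_mem_zpowers hq₀, hmdef]
    rfl
  have hgenΓ : ∀ y : Γ, ∃ j : ℤ, (x₀ ^ j)⁻¹ * y ∈ G := by
    intro y
    obtain ⟨j, hj⟩ := Subgroup.mem_zpowers_iff.mp (hq₀ (y : Γ ⧸ G))
    refine ⟨j, ?_⟩
    rw [← QuotientGroup.eq, QuotientGroup.mk_zpow]
    exact hj
  have hx₀G : x₀ ∉ G := by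
    intro h
    have h1 : (x₀ : Γ ⧸ G) = 1 := (QuotientGroup.eq_one_iff x₀).mpr h
    rw [h1, orderOf_one] at hord
    omega
  have hx₀mG : x₀ ^ m ∈ G := by
    rw [← QuotientGroup.eq_one_iff, QuotientGroup.mk_pow, ← hord, pow_orderOf_eq_one]
  have hx₀mN : x₀ ^ m ∈ N := by
    apply hfrob x₀ hx₀G (x₀ ^ m) hx₀mG
    have e1 : x₀ * x₀ ^ m * x₀⁻¹ * (x₀ ^ m)⁻¹ = 1 := by group
    rw [e1]
    exact N.one_mem
  have hdvdG : ∀ j : ℤ, x₀ ^ j ∈ G → (m : ℤ) ∣ j := by
    intro j hj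
    rw [← hord, orderOf_dvd_iff_zpow_eq_one, ← QuotientGroup.mk_zpow]
    exact (QuotientGroup.eq_one_iff _).mpr hj
  -- the character χ over θ
  haveI hN'n : (N.subgroupOf G).Normal := hN.subgroupOf G
  haveI : Fintype (N.subgroupOf G) := Fintype.ofFinite _
  obtain ⟨θ', hθ'def⟩ : ∃ θ' : N.subgroupOf G → ℂ,
      θ' = fun n : N.subgroupOf G => θ ⟨(n : G), n.2⟩ := ⟨_, rfl⟩
  rw [← hθ'def] at hram
  have hθ' : Cfsg.IsIrrCharacter (N.subgroupOf G) θ' := by
    rw [hθ'def]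
    exact isIrrCharacter_comp_surj (Subgroup.subgroupOfEquivOfLe hNG).toMonoidHom
      (Subgroup.subgroupOfEquivOfLe hNG).surjective hθ
  have hθ'inv : ∀ (g : G) (n : N.subgroupOf G),
      θ' ⟨g * n * g⁻¹, hN'n.conj_mem n n.2 g⟩ = θ' n := by
    intro g n
    rw [hθ'def]
    exact hinv (g : Γ) ⟨(n : G), n.2⟩
  have hχcl := isClassFunction_of_irr hχ
  have hsymm : ∀ {A : Type u} [Group A] [Fintype A] (a b : A → ℂ),
      Cfsg.classInner a b ≠ 0 → Cfsg.classInner b a ≠ 0 := by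
    intro A _ _ a b h h0
    apply h
    rw [← classInner_conj_symm, h0, map_zero]
  have hfr : ∀ χ₁ : G → ℂ, Cfsg.IsClassFunction G χ₁ →
      Cfsg.classInner θ' (fun n : N.subgroupOf G => χ₁ n) =
        (e : ℂ) * Cfsg.classInner χ χ₁ := by
    intro χ₁ hcl
    rw [← frobenius_reciprocity _ _ _ hcl, hram]
    have h1 : (fun g => (e : ℂ) * χ g) = (e : ℂ) • χ := rfl
    rw [h1, classInner_smul_left]
  have hconv : ∀ χ₁ : G → ℂ, Cfsg.classInner (fun n : N.subgroupOf G => χ₁ n) θ' =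
      Cfsg.classInner (fun n : N => χ₁ ⟨n, hNG n.2⟩) θ := by
    intro χ₁
    rw [hθ'def]
    exact classInner_subgroupOf N G hNG (fun n : N => χ₁ ⟨n, hNG n.2⟩) θ
  have he0 : (e : ℂ) ≠ 0 := by
    obtain ⟨χ₁, hχ₁, hov⟩ := exists_over G N hNG θ hθ
    rw [← hconv] at hov
    have h1 := hsymm _ _ hov
    rw [hfr χ₁ (isClassFunction_of_irr hχ₁)] at h1
    exact left_ne_zero_of_mul h1
  have hunique : ∀ χ₁ : G → ℂ, Cfsg.IsIrrCharacter G χ₁ →
      Cfsg.classInner (fun n : N.subgroupOf G => χ₁ n) θ' ≠ 0 → χ₁ = χ := by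
    intro χ₁ hχ₁ hov
    have h1 := hsymm _ _ hov
    rw [hfr χ₁ (isClassFunction_of_irr hχ₁)] at h1
    have h2 : Cfsg.classInner χ χ₁ ≠ 0 := right_ne_zero_of_mul h1
    by_contra hne
    rw [classInner_irr hχ hχ₁, if_neg (fun h => hne h.symm)] at h2
    exact h2 rfl
  have hover : Cfsg.classInner (fun n : N.subgroupOf G => χ n) θ' = (e : ℂ) := by
    rw [← classInner_conj_symm, hfr χ hχcl, classInner_irr_self hχ, mul_one,
      Complex.conj_natCast]
  have hχN' : ∀ n : N.subgroupOf G, χ n = (e : ℂ) * θ' n := by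
    intro n
    have h1 := clifford_inv (N.subgroupOf G) hχ θ' hθ' hθ'inv (by rw [hover]; exact he0) n
    rw [hover] at h1
    exact h1
  have hχN : ∀ n : N, χ ⟨n, hNG n.2⟩ = (e : ℂ) * θ n := by
    intro n
    have h1 := hχN' ⟨⟨n, hNG n.2⟩, n.2⟩
    rw [hθ'def] at h1
    exact h1
  have hχinv : ∀ (x : Γ) (g : G), χ ⟨x * g * x⁻¹, hG.conj_mem g g.2 x⟩ = χ g := by
    intro x
    have hirr : Cfsg.IsIrrCharacter G (χ ∘ (conjHom G x)) :=
      isIrrCharacter_comp_surj (conjHom G x) (conjHom_surjective G x) hχ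
    have hov : Cfsg.classInner (fun n : N.subgroupOf G => (χ ∘ conjHom G x) n) θ' ≠ 0 := by
      have h1 : (fun n : N.subgroupOf G => (χ ∘ conjHom G x) n) = (e : ℂ) • θ' := by
        funext n
        have h2 := hχN ⟨x * ((n : G) : Γ) * x⁻¹, hN.conj_mem _ n.2 x⟩
        have h3 := hinv x ⟨(n : G), n.2⟩
        rw [h3] at h2
        rw [hθ'def]
        exact h2
      rw [h1, classInner_smul_left, classInner_irr_self hθ', mul_one]
      exact he0
    have h4 := hunique _ hirr hov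
    intro g
    exact congrFun h4 g
  -- the extension of χ
  obtain ⟨χh, hχh, hχhG⟩ := ext_cyclic_gen (G := Γ) G x₀ hgenΓ χ hχ hχinv
  -- the subgroup U
  obtain ⟨U, hUdef⟩ : ∃ U : Subgroup Γ, U = N ⊔ Subgroup.zpowers x₀ := ⟨_, rfl⟩
  have hNU : N ≤ U := by rw [hUdef]; exact le_sup_left
  have hx₀U : x₀ ∈ U := by
    rw [hUdef]
    exact Subgroup.mem_sup_right (Subgroup.mem_zpowers x₀)
  have hUmem : ∀ u : Γ, u ∈ U → ∃ j : ℤ, (x₀ ^ j)⁻¹ * u ∈ N := by
    intro u hu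
    have h1 : u ∈ ((N : Subgroup Γ) : Set Γ) * ((Subgroup.zpowers x₀ : Subgroup Γ) : Set Γ) := by
      rw [← Subgroup.normal_mul, ← hUdef]
      exact hu
    obtain ⟨n, hn, b, ⟨j, rfl⟩, rfl⟩ := h1
    refine ⟨j, ?_⟩
    show (x₀ ^ j)⁻¹ * (n * x₀ ^ j) ∈ N
    have h2 := hN.conj_mem n hn (x₀ ^ j)⁻¹
    rw [inv_inv] at h2
    have e1 : (x₀ ^ j)⁻¹ * (n * x₀ ^ j) = (x₀ ^ j)⁻¹ * n * x₀ ^ j := by group
    rw [e1]
    exact h2
  have hUG : U ⊓ G ≤ N := by
    rintro u ⟨hu, hg⟩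
    obtain ⟨j, hj⟩ := hUmem u hu
    have h1 : x₀ ^ j ∈ G := by
      have e1 : x₀ ^ j = u * ((x₀ ^ j)⁻¹ * u)⁻¹ := by group
      rw [e1]
      exact G.mul_mem hg (G.inv_mem (hNG hj))
    obtain ⟨t, rfl⟩ := hdvdG j h1
    have h2 : x₀ ^ ((m : ℤ) * t) ∈ N := by
      rw [zpow_mul, zpow_natCast]
      exact N.zpow_mem hx₀mN t
    have e2 : u = x₀ ^ ((m : ℤ) * t) * ((x₀ ^ ((m : ℤ) * t))⁻¹ * u) := by group
    rw [e2]
    exact N.mul_mem h2 hj
  have hUGtop : U ⊔ G = ⊤ := by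
    rw [eq_top_iff]
    intro y _
    obtain ⟨j, hj⟩ := hgenΓ y
    have e1 : y = x₀ ^ j * ((x₀ ^ j)⁻¹ * y) := by group
    rw [e1]
    exact Subgroup.mul_mem_sup (U.zpow_mem hx₀U j) hj
  have hNUG : G ⊓ U = N := le_antisymm (by rw [inf_comm]; exact hUG) (le_inf hNG hNU)
  have hrel : N.relIndex U = m := by
    have h1 := Subgroup.relIndex_sup_right (H := U) (K := G)
    rw [hUGtop, Subgroup.relIndex_top_right] at h1
    rw [← hNUG, Subgroup.inf_relIndex_right, ← h1, hmdef]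
  have hcardU : Nat.card U = Nat.card N * m := by
    have h1 := Subgroup.relIndex_mul_index hNU
    have h2 := N.card_mul_index
    have h3 := U.card_mul_index
    rw [hrel] at h1
    have h4 : U.index ≠ 0 := Subgroup.index_ne_zero_of_finite
    have h5 : Nat.card U * U.index = Nat.card N * m * U.index := by
      rw [h3, mul_assoc, h1, h2]
    exact Nat.eq_of_mul_eq_mul_right (Nat.pos_of_ne_zero h4) h5
  have hcardΓ : Nat.card G * m = Nat.card Γ := by rw [hmdef]; exact G.card_mul_index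
  have hcard : Nat.card U * Nat.card G = Nat.card Γ * Nat.card N := by
    rw [hcardU, ← hcardΓ]
    ring
  -- norms
  have hΓne : (Nat.card Γ : ℂ) ≠ 0 := by exact_mod_cast Nat.card_pos.ne'
  have hGne : (Nat.card G : ℂ) ≠ 0 := by exact_mod_cast Nat.card_pos.ne'
  have hNne : (Nat.card N : ℂ) ≠ 0 := by exact_mod_cast Nat.card_pos.ne'
  obtain ⟨f, hfdef⟩ : ∃ f : Γ → ℂ, f = fun y => χh y * conj (χh y) := ⟨_, rfl⟩
  have hfcl : ∀ g x : Γ, f (x * g * x⁻¹) = f g := by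
    intro g x
    rw [hfdef]
    show χh (x * g * x⁻¹) * conj (χh (x * g * x⁻¹)) = χh g * conj (χh g)
    rw [(isClassFunction_of_irr hχh) g x]
  have hcount := fpf_count G N U hNG hNU hUG hcard hfrob f hfcl
  have hsumΓ : ∑ y : Γ, f y = (Nat.card Γ : ℂ) := by
    have h1 := classInner_irr_self hχh
    unfold Cfsg.classInner at h1
    rw [inv_mul_eq_iff_eq_mul₀ hΓne, mul_one] at h1
    rw [hfdef]
    exact h1
  have hsumG : ∑ y : Γ, (if y ∈ G then f y else 0) = (Nat.card G : ℂ) := by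
    have h1 := classInner_irr_self hχ
    unfold Cfsg.classInner at h1
    rw [inv_mul_eq_iff_eq_mul₀ hGne, mul_one] at h1
    rw [← h1, sum_eq_sum_subgroup G (fun y => if y ∈ G then f y else 0)
      (fun g hg => if_neg hg)]
    apply Finset.sum_congr rfl
    intro g _
    rw [if_pos g.2, hfdef]
    show χh g * conj (χh g) = χ g * conj (χ g)
    rw [hχhG]
  have hsumN : ∑ y : Γ, (if y ∈ N then f y else 0) = (Nat.card N : ℂ) * (e : ℂ) ^ 2 := by
    rw [sum_eq_sum_subgroup N (fun y => if y ∈ N then f y else 0) (fun g hg => if_neg hg)]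
    have h1 := classInner_irr_self hθ
    unfold Cfsg.classInner at h1
    rw [inv_mul_eq_iff_eq_mul₀ hNne, mul_one] at h1
    rw [← h1, Finset.sum_mul]
    apply Finset.sum_congr rfl
    intro n _
    rw [if_pos n.2, hfdef]
    show χh (n : Γ) * conj (χh (n : Γ)) = θ n * conj (θ n) * (e : ℂ) ^ 2
    have h2 : χh (n : Γ) = (e : ℂ) * θ n := by
      have h3 := hχhG ⟨n, hNG n.2⟩
      rw [hχN n] at h3
      exact h3
    rw [h2, map_mul, Complex.conj_natCast]
    ring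
  have hsumout : ∑ y : Γ, (if y ∈ G then 0 else f y) =
      (Nat.card Γ : ℂ) - (Nat.card G : ℂ) := by
    rw [← hsumΓ, ← hsumG, ← Finset.sum_sub_distrib]
    apply Finset.sum_congr rfl
    intro y _
    by_cases hy : y ∈ G
    · rw [if_pos hy, if_pos hy, sub_self]
    · rw [if_neg hy, if_neg hy, sub_zero]
  have hsumU : ∑ y : Γ, (if y ∈ U then f y else 0) =
      ∑ y : Γ, (if y ∈ U ∧ y ∉ G then f y else 0) +
        ∑ y : Γ, (if y ∈ N then f y else 0) := by
    rw [← Finset.sum_add_distrib]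
    apply Finset.sum_congr rfl
    intro y _
    by_cases hyU : y ∈ U
    · by_cases hyG : y ∈ G
      · have hyN : y ∈ N := hUG ⟨hyU, hyG⟩
        rw [if_pos hyU, if_neg (fun h => h.2 hyG), if_pos hyN, zero_add]
      · have hyN : y ∉ N := fun h => hyG (hNG h)
        rw [if_pos hyU, if_pos ⟨hyU, hyG⟩, if_neg hyN, add_zero]
    · have hyN : y ∉ N := fun h => hyU (hNU h)
      rw [if_neg hyU, if_neg (fun h => hyU h.1), if_neg hyN, add_zero]
  have hnormU : ∑ y : Γ, (if y ∈ U then f y else 0) =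
      (Nat.card N : ℂ) * ((e : ℂ) ^ 2 + (m : ℂ) - 1) := by
    rw [hsumU, hsumN]
    rw [hsumout] at hcount
    have h1 : ∑ y : Γ, (if y ∈ U ∧ y ∉ G then f y else 0) =
        (Nat.card N : ℂ) * ((m : ℂ) - 1) := by
      have h2 : (Nat.card Γ : ℂ) = (Nat.card G : ℂ) * (m : ℂ) := by
        exact_mod_cast hcardΓ.symm
      rw [h2] at hcount
      apply mul_left_cancel₀ hGne
      rw [← hcount]
      ring
    rw [h1]
    ring
  -- the group U
  haveI : Fintype U := Fintype.ofFinite U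
  haveI hNUn : (N.subgroupOf U).Normal := hN.subgroupOf U
  haveI : Fintype (N.subgroupOf U) := Fintype.ofFinite _
  obtain ⟨θU, hθUdef⟩ : ∃ θU : N.subgroupOf U → ℂ,
      θU = fun n : N.subgroupOf U => θ ⟨(n : U), n.2⟩ := ⟨_, rfl⟩
  have hθU : Cfsg.IsIrrCharacter (N.subgroupOf U) θU := by
    rw [hθUdef]
    exact isIrrCharacter_comp_surj (Subgroup.subgroupOfEquivOfLe hNU).toMonoidHom
      (Subgroup.subgroupOfEquivOfLe hNU).surjective hθ
  have hθUinv : ∀ (g : U) (n : N.subgroupOf U),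
      θU ⟨g * n * g⁻¹, hNUn.conj_mem n n.2 g⟩ = θU n := by
    intro g n
    rw [hθUdef]
    exact hinv (g : Γ) ⟨(n : U), n.2⟩
  have hgenU : ∀ u : U, ∃ j : ℤ, ((⟨x₀, hx₀U⟩ : U) ^ j)⁻¹ * u ∈ N.subgroupOf U := by
    intro u
    obtain ⟨j, hj⟩ := hUmem u u.2
    refine ⟨j, ?_⟩
    rw [Subgroup.mem_subgroupOf]
    show (((⟨x₀, hx₀U⟩ : U) ^ j : U) : Γ)⁻¹ * (u : Γ) ∈ N
    rw [Subgroup.coe_zpow]
    exact hj
  obtain ⟨θh, hθh, hθhN⟩ := ext_cyclic_gen (G := U) (N.subgroupOf U) ⟨x₀, hx₀U⟩ hgenU θU hθU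
    hθUinv
  have hθhN' : Cfsg.IsIrrCharacter (N.subgroupOf U) (fun n : N.subgroupOf U => θh n) := by
    have h1 : (fun n : N.subgroupOf U => θh n) = θU := funext hθhN
    rw [h1]
    exact hθU
  have hab : ∀ g h : U, g * h * g⁻¹ * h⁻¹ ∈ N.subgroupOf U := by
    intro g h
    rw [Subgroup.mem_subgroupOf]
    obtain ⟨j₁, hj₁⟩ := hUmem g g.2
    obtain ⟨j₂, hj₂⟩ := hUmem h h.2
    show (g : Γ) * (h : Γ) * (g : Γ)⁻¹ * (h : Γ)⁻¹ ∈ N
    rw [← QuotientGroup.eq_one_iff]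
    have h1 : ((g : Γ) : Γ ⧸ N) = (x₀ : Γ ⧸ N) ^ j₁ := by
      rw [← QuotientGroup.mk_zpow]
      exact (QuotientGroup.eq.mpr hj₁).symm
    have h2 : ((h : Γ) : Γ ⧸ N) = (x₀ : Γ ⧸ N) ^ j₂ := by
      rw [← QuotientGroup.mk_zpow]
      exact (QuotientGroup.eq.mpr hj₂).symm
    rw [QuotientGroup.mk_mul, QuotientGroup.mk_mul, QuotientGroup.mk_mul, QuotientGroup.mk_inv,
      QuotientGroup.mk_inv, h1, h2]
    group
  have hidx : (N.subgroupOf U).index = m := hrel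
  obtain ⟨ψ, hψdef⟩ : ∃ ψ : U → ℂ, ψ = fun u : U => χh u := ⟨_, rfl⟩
  have hψ : Cfsg.IsCharacter U ψ := by
    rw [hψdef]
    exact isCharacter_restrict U (isCharacter_of_isIrrCharacter hχh)
  have hψN : ∀ n : N.subgroupOf U, ψ n = (e : ℂ) * θh n := by
    intro n
    rw [hθhN n, hθUdef, hψdef]
    show χh ((n : U) : Γ) = (e : ℂ) * θ ⟨(n : U), n.2⟩
    have h3 := hχhG ⟨((n : U) : Γ), hNG n.2⟩
    rw [hχN ⟨((n : U) : Γ), n.2⟩] at h3
    exact h3
  have hnorm : ∑ u : U, ψ u * conj (ψ u) =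
      (Nat.card (N.subgroupOf U) : ℂ) * ((e : ℂ) ^ 2 + (m : ℂ) - 1) := by
    have hcN : Nat.card (N.subgroupOf U) = Nat.card N :=
      Nat.card_congr (Subgroup.subgroupOfEquivOfLe hNU).toEquiv
    rw [hcN, ← hnormU, sum_eq_sum_subgroup U (fun y => if y ∈ U then f y else 0)
      (fun g hg => if_neg hg)]
    apply Finset.sum_congr rfl
    intro u _
    rw [if_pos u.2, hfdef, hψdef]
  exact fr_arith (N.subgroupOf U) hab m hidx hm2 θh hθh hθhN' ψ hψ e hψN hnorm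

end Cfsg.Agent.Lib.Helper7
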