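import Mathlib
import Cfsg.Prelude.Def_Characters
import Cfsg.Agent.Lib.Helper7.GlaubTriple
import Cfsg.Agent.Lib.Helper7.SpecialCls

set_option autoImplicit false
set_option maxHeartbeats 1000000

universe u

namespace Cfsg.Agent.Lib.Helper7
open Cfsg Cfsg.Agent.Lib.Lead
open scoped ComplexConjugate

/-- reduction of a fully ramified configuration to a linear one on a central extension -/
theorem fr_triple {Γ : Type u} [Group Γ] [Finite Γ] (N : Subgroup Γ) [hN : N.Normal]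
    (χ : Γ → ℂ) (hχ : Cfsg.IsIrrCharacter Γ χ) (θ : N → ℂ) (hθ : Cfsg.IsIrrCharacter N θ)
    (e : ℕ) (hχN : ∀ m : N, χ m = (e : ℂ) * θ m) :
    ∃ (E : Type u) (_ : Group E) (_ : Finite E) (π : E →* Γ), Function.Surjective π ∧
      ∃ (lam : N.comap π →* ℂˣ) (β : E → ℂ),
        (∀ (x : E) (y : N.comap π),
          lam ⟨x * y * x⁻¹, (hN.comap π).conj_mem (y : E) y.2 x⟩ = lam y) ∧
        Cfsg.IsIrrCharacter E β ∧
        ∀ y : N.comap π, β y = (e : ℂ) * (((lam y)⁻¹ : ℂˣ) : ℂ) := by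
  classical
  haveI : Fintype Γ := Fintype.ofFinite Γ
  haveI : Fintype N := Fintype.ofFinite N
  obtain ⟨dχ, hdχ0, hdχ⟩ := irr_one hχ
  have hχ1 : χ 1 ≠ 0 := by rw [hdχ]; exact_mod_cast hdχ0
  have he0 : (e : ℂ) ≠ 0 := by
    intro h0
    apply hχ1
    have h1 := hχN 1
    rw [h0, zero_mul] at h1
    exact h1
  have hinv : ∀ (x : Γ) (m : N), θ ⟨x * m * x⁻¹, hN.conj_mem m m.2 x⟩ = θ m := by
    intro x m
    have h1 := hχN ⟨x * m * x⁻¹, hN.conj_mem m m.2 x⟩
    have h2 := hχN m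
    have h3 : χ (x * m * x⁻¹) = χ m := (isClassFunction_of_irr hχ) m x
    have h4 : (e : ℂ) * θ ⟨x * m * x⁻¹, hN.conj_mem m m.2 x⟩ = (e : ℂ) * θ m := by
      rw [← h1, ← h2]; exact h3
    exact mul_left_cancel₀ he0 h4
  obtain ⟨n, ρ, hρ, rfl⟩ := hθ
  haveI := hρ
  have hn0 : 0 < n := by
    have h1 := finrank_pos_of_irr ρ
    rw [Module.finrank_fin_fun] at h1
    exact h1
  have hnC : (n : ℂ) ≠ 0 := by exact_mod_cast hn0.ne'
  obtain ⟨E, instE, instEf, π, τ, ι, hπ, hπι, hτι, hcent, hιn, lam, hlam, hlaminv⟩ :=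
    exists_triple_data N ρ (fun g m => hinv g m)
  haveI : Fintype E := Fintype.ofFinite E
  haveI hDn : (N.comap π).Normal := hN.comap π
  refine ⟨E, instE, instEf, π, hπ, lam, ?_⟩
  have hιD : ∀ m : N, ι m ∈ N.comap π := by
    intro m
    rw [Subgroup.mem_comap, hπι]
    exact m.2
  have hlamι : ∀ m : N, lam ⟨ι m, hιD m⟩ = 1 := by
    intro m
    apply Units.ext
    apply smul_unit_cancel hn0 (MonoidHom.toHomUnits ρ m)
    rw [MonoidHom.coe_toHomUnits, Units.val_one, one_smul]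
    have h1 := hlam ⟨ι m, hιD m⟩
    have h2 : (⟨π (ι m), (hιD m)⟩ : N) = m := Subtype.ext (hπι m)
    rw [show (⟨π ((⟨ι m, hιD m⟩ : N.comap π) : E), (⟨ι m, hιD m⟩ : N.comap π).2⟩ : N) = m from h2,
      hτι] at h1
    exact h1.symm
  have hkerD : ∀ z : E, π z = 1 → z ∈ N.comap π := by
    intro z hz
    rw [Subgroup.mem_comap, hz]
    exact N.one_mem
  have hlamker : ∀ (z : E) (hz : π z = 1),
      ((τ z : (Endn n)ˣ) : Endn n) = (lam ⟨z, hkerD z hz⟩ : ℂ) • (1 : Endn n) := by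
    intro z hz
    have h1 := hlam ⟨z, hkerD z hz⟩
    have h2 : (⟨π ((⟨z, hkerD z hz⟩ : N.comap π) : E), (⟨z, hkerD z hz⟩ : N.comap π).2⟩ : N) = 1 :=
      Subtype.ext hz
    rw [h2, map_one] at h1
    exact h1
  obtain ⟨T, hTdef⟩ : ∃ T : E → ℂ,
      T = fun x : E => LinearMap.trace ℂ (Fin n → ℂ) ((τ x : (Endn n)ˣ) : Endn n) :=
    ⟨_, rfl⟩
  have hTc : Cfsg.IsCharacter E T := by
    rw [hTdef]
    exact ⟨n, (Units.coeHom (Endn n)).comp τ, rfl⟩
  haveI hιn' : (ι.range).Normal := by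
    constructor
    rintro _ ⟨m, rfl⟩ x
    obtain ⟨m', hm'⟩ := hιn x m
    exact ⟨m', hm'.symm⟩
  haveI : Fintype ι.range := Fintype.ofFinite _
  have hmemN1 : ∀ y : ι.range, ∃ m : N, ι m = (y : E) := fun y => y.2
  have hprod : Cfsg.IsIrrCharacter ι.range
      ((fun _ : ι.range => (1 : ℂ)) * fun y : ι.range => T y) := by
    have hmemN : ∀ y : ι.range, π (y : E) ∈ N := by
      intro y
      obtain ⟨m, hm⟩ := hmemN1 y
      rw [← hm, hπι]
      exact m.2
    obtain ⟨p₁, hp₁⟩ : ∃ p₁ : ι.range →* N, ∀ y, ((p₁ y : N) : Γ) = π (y : E) :=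
      ⟨(π.comp (ι.range).subtype).codRestrict N hmemN, fun _ => rfl⟩
    have hp₁s : Function.Surjective p₁ := by
      intro m
      refine ⟨⟨ι m, m, rfl⟩, ?_⟩
      apply Subtype.ext
      rw [hp₁]
      exact hπι m
    have heq : ((fun _ : ι.range => (1 : ℂ)) * fun y : ι.range => T y) =
        ρ.character ∘ p₁ := by
      funext y
      obtain ⟨m, hm⟩ := hmemN1 y
      have h1 : p₁ y = m := by
        apply Subtype.ext
        rw [hp₁, ← hm, hπι]
      show (1 : ℂ) * T y = ρ.character (p₁ y)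
      rw [one_mul, h1, hTdef]
      show LinearMap.trace ℂ (Fin n → ℂ) ((τ (y : E) : (Endn n)ˣ) : Endn n) = _
      rw [← hm, hτι]
      rfl
    rw [heq]
    exact isIrrCharacter_comp_surj p₁ hp₁s ⟨n, ρ, hρ, rfl⟩
  have hψirr : Cfsg.IsIrrCharacter E (χ ∘ π) := isIrrCharacter_comp_surj π hπ hχ
  have hover : Cfsg.classInner (Cfsg.indFun ι.range
      ((fun _ : ι.range => (1 : ℂ)) * fun y : ι.range => T y)) (χ ∘ π) ≠ 0 := by
    rw [frobenius_reciprocity _ _ _ (isClassFunction_of_irr hψirr)]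
    have h1 : (fun y : ι.range => (χ ∘ π) y) =
        (e : ℂ) • ((fun _ : ι.range => (1 : ℂ)) * fun y : ι.range => T y) := by
      funext y
      obtain ⟨m, hm⟩ := hmemN1 y
      show χ (π (y : E)) = (e : ℂ) * (1 * T y)
      rw [one_mul, ← hm, hπι, hχN m, hTdef]
      show _ = (e : ℂ) * LinearMap.trace ℂ (Fin n → ℂ) ((τ (ι m) : (Endn n)ˣ) : Endn n)
      rw [hτι]
      rfl
    rw [h1, classInner_smul_right, classInner_irr_self hprod, mul_one]
    simpa using he0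
  obtain ⟨β, hβ, hβ1, hψβ⟩ := (gallagher_core ι.range (fun _ : ι.range => (1 : ℂ))
    (isIrrCharacter_one _) (fun _ _ => rfl) T hTc hprod).2.2 (χ ∘ π) hψirr hover
  refine ⟨β, fun x y => hlaminv x y, hβ, ?_⟩
  obtain ⟨dβ, hdβ0, hdβ⟩ := irr_one hβ
  have hβ10 : β 1 ≠ 0 := by rw [hdβ]; exact_mod_cast hdβ0
  have hβι : ∀ m : N, β (ι m) = β 1 := by
    have hc : Cfsg.classInner (fun y : ι.range => β y) (fun _ : ι.range => (1 : ℂ)) ≠ 0 := by
      rw [frobenius_reciprocity _ _ _ (isClassFunction_of_irr hβ)] at hβ1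
      rw [← classInner_conj_symm]
      intro h0
      apply hβ1
      have h2 := congrArg (starRingEnd ℂ) h0
      rw [Complex.conj_conj, map_zero] at h2
      exact h2
    have hcl := clifford_inv_linear ι.range hβ (fun _ : ι.range => (1 : ℂ))
      (isIrrCharacter_one _) rfl (fun _ _ => rfl) hc
    intro m
    have h3 := hcl ⟨ι m, m, rfl⟩
    rw [mul_one] at h3
    exact h3
  have hχ1' : χ 1 = (e : ℂ) * n := by
    have h1 := hχN 1
    rw [Representation.char_one, Module.finrank_fin_fun] at h1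
    exact h1
  have hβz : ∀ (z : E) (hz : π z = 1),
      β z = (e : ℂ) * (((lam ⟨z, hkerD z hz⟩)⁻¹ : ℂˣ) : ℂ) := by
    intro z hz
    have h1 : χ (π z) = β z * T z := congrFun hψβ z
    rw [hz] at h1
    have h2 : T z = (lam ⟨z, hkerD z hz⟩ : ℂ) * n := by
      rw [hTdef]
      show LinearMap.trace ℂ (Fin n → ℂ) ((τ z : (Endn n)ˣ) : Endn n) = _
      rw [hlamker z hz, map_smul, smul_eq_mul]
      congr 1
      show LinearMap.trace ℂ (Fin n → ℂ) (1 : Module.End ℂ (Fin n → ℂ)) = _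
      rw [LinearMap.trace_one, Module.finrank_fin_fun]
    rw [h2, hχ1'] at h1
    have hu : (lam ⟨z, hkerD z hz⟩ : ℂ) ≠ 0 := Units.ne_zero _
    rw [Units.val_inv_eq_inv_val]
    field_simp
    have h3 : β z * (lam ⟨z, hkerD z hz⟩ : ℂ) * n = (e : ℂ) * n := by
      rw [h1]; ring
    exact mul_right_cancel₀ hnC h3
  intro y
  obtain ⟨m, hm⟩ : ∃ m : N, m = ⟨π (y : E), y.2⟩ := ⟨_, rfl⟩
  have hz : π ((ι m)⁻¹ * (y : E)) = 1 := by
    rw [map_mul, map_inv, hπι, hm]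
    exact inv_mul_cancel _
  have hzc : (ι m)⁻¹ * (y : E) ∈ Subgroup.center E := by
    rw [Subgroup.mem_center_iff]
    intro g
    exact (hcent _ g hz).symm
  have hy : y = ⟨ι m, hιD m⟩ * ⟨(ι m)⁻¹ * (y : E), hkerD _ hz⟩ := by
    apply Subtype.ext
    show (y : E) = ι m * ((ι m)⁻¹ * (y : E))
    group
  have h1 : β (y : E) = β ((ι m)⁻¹ * (y : E)) := by
    have e1 : (y : E) = ι m * ((ι m)⁻¹ * (y : E)) := by group
    have h2 := irr_mul_central hβ (ι m) _ hzc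
    rw [← e1, hβι] at h2
    rw [h2]
    field_simp
  have h3 : lam y = lam ⟨(ι m)⁻¹ * (y : E), hkerD _ hz⟩ := by
    conv_lhs => rw [hy]
    rw [map_mul, hlamι, one_mul]
  rw [h1, hβz _ hz, h3]

/-- a fully ramified linear configuration admits no self-centralizing cyclic section -/
theorem fr_no_selfcent {E : Type u} [Group E] [Finite E] (D : Subgroup E) [hD : D.Normal]
    (lam : D →* ℂˣ)
    (hlaminv : ∀ (x : E) (y : D), lam ⟨x * y * x⁻¹, hD.conj_mem y y.2 x⟩ = lam y)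
    (β : E → ℂ) (hβ : Cfsg.IsIrrCharacter E β) (e : ℕ) (he : e ^ 2 = D.index)
    (hβD : ∀ y : D, β y = (e : ℂ) * (((lam y)⁻¹ : ℂˣ) : ℂ))
    (c : E) (hcD : c ∉ D)
    (hself : ∀ x : E, x⁻¹ * c⁻¹ * x * c ∈ D → ∃ i : ℤ, c ^ (-i) * x ∈ D) : False := by
  classical
  haveI : Fintype E := Fintype.ofFinite E
  haveI : Fintype D := Fintype.ofFinite D
  have he0 : e ≠ 0 := by
    rintro rfl
    have h1 : D.index ≠ 0 := Subgroup.index_ne_zero_of_finite
    exact h1 (by rw [← he]; norm_num)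
  have heC : (e : ℂ) ≠ 0 := by exact_mod_cast he0
  have hlaminv' : ∀ (x y : E) (hy : y ∈ D) (h' : x⁻¹ * y * x ∈ D),
      lam ⟨x⁻¹ * y * x, h'⟩ = lam ⟨y, hy⟩ := by
    intro x y hy h'
    have h1 := hlaminv x⁻¹ ⟨y, hy⟩
    rw [← h1]
    refine congrArg lam (Subtype.ext ?_)
    show x⁻¹ * y * x = x⁻¹ * y * x⁻¹⁻¹
    rw [inv_inv]
  obtain ⟨K, hKmem⟩ : ∃ K : Subgroup E, ∀ y : E, y ∈ K ↔ ∃ h : y ∈ D, lam ⟨y, h⟩ = 1 := by
    refine ⟨(lam.ker).map D.subtype, fun y => ?_⟩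
    constructor
    · rintro ⟨d, hd, rfl⟩
      exact ⟨d.2, MonoidHom.mem_ker.mp hd⟩
    · rintro ⟨h, hl⟩
      exact ⟨⟨y, h⟩, MonoidHom.mem_ker.mpr hl, rfl⟩
  have hKD : K ≤ D := fun y hy => ((hKmem y).mp hy).1
  haveI hKn : K.Normal := by
    constructor
    intro y hy x
    obtain ⟨h, hl⟩ := (hKmem y).mp hy
    rw [hKmem]
    exact ⟨hD.conj_mem y h x, by rw [hlaminv x ⟨y, h⟩]; exact hl⟩
  have hcommK : ∀ (x d : E), d ∈ D → d⁻¹ * (x⁻¹ * d * x) ∈ K := by
    intro x d hd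
    have h' : x⁻¹ * d * x ∈ D := by
      have h1 := hD.conj_mem d hd x⁻¹
      rwa [inv_inv] at h1
    rw [hKmem]
    refine ⟨D.mul_mem (D.inv_mem hd) h', ?_⟩
    have e1 : (⟨d⁻¹ * (x⁻¹ * d * x), D.mul_mem (D.inv_mem hd) h'⟩ : D) =
        (⟨d, hd⟩ : D)⁻¹ * ⟨x⁻¹ * d * x, h'⟩ := rfl
    rw [e1, map_mul, map_inv, hlaminv' x d hd h', inv_mul_cancel]
  obtain ⟨q, hqdef⟩ : ∃ q : E →* E ⧸ K, q = QuotientGroup.mk' K := ⟨_, rfl⟩
  have hqs : Function.Surjective q := by rw [hqdef]; exact QuotientGroup.mk'_surjective K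
  have hq1 : ∀ y : E, q y = 1 ↔ y ∈ K := by
    intro y
    rw [hqdef]
    exact QuotientGroup.eq_one_iff y
  haveI : Fintype (E ⧸ K) := Fintype.ofFinite _
  haveI hNn : (D.map q).Normal := hD.map q hqs
  haveI : Fintype (D.map q) := Fintype.ofFinite _
  have hqmem : ∀ y : E, q y ∈ D.map q ↔ y ∈ D := by
    intro y
    constructor
    · rintro ⟨d, hd, hdy⟩
      have h1 : q (d⁻¹ * y) = 1 := by rw [map_mul, map_inv, hdy, inv_mul_cancel]
      have h2 := hKD ((hq1 _).mp h1)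
      have e1 : y = d * (d⁻¹ * y) := by group
      rw [e1]
      exact D.mul_mem hd h2
    · intro hy
      exact ⟨y, hy, rfl⟩
  have hcen : D.map q ≤ Subgroup.center (E ⧸ K) := by
    rintro _ ⟨d, hd, rfl⟩
    rw [Subgroup.mem_center_iff]
    intro xb
    obtain ⟨x, rfl⟩ := hqs xb
    have e1 : d * x = x * d * (d⁻¹ * (x⁻¹ * d * x)) := by group
    have h1 : q (d * x) = q (x * d) := by
      rw [e1, map_mul, (hq1 _).mpr (hcommK x d hd), mul_one]
    rw [← map_mul, ← map_mul, h1]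
  obtain ⟨p, hp⟩ : ∃ p : D →* D.map q, ∀ d : D, ((p d : D.map q) : E ⧸ K) = q d :=
    ⟨q.subgroupMap D, fun _ => rfl⟩
  have hps : Function.Surjective p := by
    rintro ⟨_, d, hd, rfl⟩
    exact ⟨⟨d, hd⟩, Subtype.ext (hp _)⟩
  have hpker : ∀ d : D, p d = 1 → lam d = 1 := by
    intro d hd
    have h1 : q (d : E) = 1 := by rw [← hp, hd]; rfl
    obtain ⟨h, hl⟩ := (hKmem _).mp ((hq1 _).mp h1)
    exact hl
  obtain ⟨μ, hμ⟩ : ∃ μ : D.map q →* ℂˣ, ∀ d : D, μ (p d) = (lam d)⁻¹ := by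
    refine ⟨p.liftOfRightInverse (Function.surjInv hps) (Function.rightInverse_surjInv hps)
      ⟨lam⁻¹, ?_⟩, fun d => ?_⟩
    · intro d hd
      rw [MonoidHom.mem_ker] at hd ⊢
      rw [MonoidHom.inv_apply, hpker d hd, inv_one]
    · exact MonoidHom.liftOfRightInverse_comp_apply _ _ _ _ d
  have hψbirr : Cfsg.IsIrrCharacter (D.map q) (fun y => ((μ y : ℂˣ) : ℂ)) := by
    have h := isIrr_twist μ (isIrrCharacter_one (D.map q))
    simpa using h
  have hψb1 : (fun y : D.map q => ((μ y : ℂˣ) : ℂ)) 1 = 1 := by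
    show ((μ 1 : ℂˣ) : ℂ) = 1
    rw [map_one, Units.val_one]
  have hfaith : ∀ y : D.map q, (fun y : D.map q => ((μ y : ℂˣ) : ℂ)) y =
      (fun y : D.map q => ((μ y : ℂˣ) : ℂ)) 1 → y = 1 := by
    intro y hy
    rw [hψb1] at hy
    obtain ⟨d, rfl⟩ := hps y
    have h1 : μ (p d) = 1 := Units.ext hy
    rw [hμ, inv_eq_one] at h1
    have h2 : (d : E) ∈ K := (hKmem _).mpr ⟨d.2, h1⟩
    apply Subtype.ext
    rw [hp]
    exact (hq1 _).mpr h2
  have hsc := special_count (D.map q) hcen ⟨_, hψbirr⟩ hfaith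
  -- β vanishes off D
  have hcardE : Nat.card D * e ^ 2 = Nat.card E := by
    rw [he]
    exact D.card_mul_index
  have hβ0 : ∀ y : E, y ∉ D → β y = 0 := by
    have h1 := classInner_irr_self hβ
    unfold Cfsg.classInner at h1
    have hEne : (Nat.card E : ℂ) ≠ 0 := by exact_mod_cast Nat.card_pos.ne'
    have h2 : ∑ y : E, β y * conj (β y) = (Nat.card E : ℂ) := by
      rw [inv_mul_eq_iff_eq_mul₀ hEne, mul_one] at h1
      exact h1
    have h3 : ∑ y : E, Complex.normSq (β y) = (Nat.card E : ℝ) := by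
      have h4 : ((∑ y : E, Complex.normSq (β y) : ℝ) : ℂ) = ((Nat.card E : ℝ) : ℂ) := by
        push_cast
        rw [← h2]
        apply Finset.sum_congr rfl
        intro y _
        rw [Complex.mul_conj]
      exact_mod_cast h4
    rw [← Finset.sum_filter_add_sum_filter_not Finset.univ (· ∈ D)] at h3
    have h5 : ∑ y ∈ Finset.univ.filter (· ∈ D), Complex.normSq (β y) = (Nat.card E : ℝ) := by
      have h6 : ∀ y ∈ Finset.univ.filter (· ∈ D), Complex.normSq (β y) = (e : ℝ) ^ 2 := by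
        intro y hy
        have hyD : y ∈ D := (Finset.mem_filter.mp hy).2
        have h7 := hβD ⟨y, hyD⟩
        have h8 : β y = (e : ℂ) * (((lam ⟨y, hyD⟩)⁻¹ : ℂˣ) : ℂ) := h7
        rw [h8, Complex.normSq_mul, Complex.normSq_natCast]
        have h9 := unit_norm lam⁻¹ ⟨y, hyD⟩
        rw [Complex.mul_conj, MonoidHom.inv_apply] at h9
        have h10 : Complex.normSq (((lam ⟨y, hyD⟩)⁻¹ : ℂˣ) : ℂ) = 1 := by exact_mod_cast h9
        rw [h10]
        ring
      rw [Finset.sum_congr rfl h6, Finset.sum_const, nsmul_eq_mul]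
      have h11 : (Finset.univ.filter (· ∈ D)).card = Nat.card D := by
        rw [Nat.card_eq_fintype_card, Fintype.card_subtype]
      rw [h11, ← hcardE]
      push_cast
      ring
    rw [h5] at h3
    have h12 : ∑ y ∈ Finset.univ.filter (fun y => ¬ y ∈ D), Complex.normSq (β y) = 0 := by
      linarith
    intro y hy
    have h13 := (Finset.sum_eq_zero_iff_of_nonneg
      (fun y _ => Complex.normSq_nonneg (β y))).mp h12 y
      (Finset.mem_filter.mpr ⟨Finset.mem_univ _, hy⟩)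
    exact Complex.normSq_eq_zero.mp h13
  -- all characters over ψb coincide with β after inflation
  have huniq : ∀ χb : {χ : Cfsg.IrrCharacter (E ⧸ K) //
      Cfsg.classInner (fun n : D.map q => (χ : E ⧸ K → ℂ) n)
        (fun y : D.map q => ((μ y : ℂˣ) : ℂ)) ≠ 0}, ∀ y : E,
      ((χb : Cfsg.IrrCharacter (E ⧸ K)) : E ⧸ K → ℂ) (q y) = β y := by
    rintro ⟨χb, hχb⟩ y
    have hirr : Cfsg.IsIrrCharacter E ((χb : E ⧸ K → ℂ) ∘ q) :=
      isIrrCharacter_comp_surj q hqs χb.2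
    have hcl := clifford_inv_linear (D.map q) χb.2 (fun y : D.map q => ((μ y : ℂˣ) : ℂ))
      hψbirr hψb1 (fun g n => by
        refine congrArg (fun y : D.map q => ((μ y : ℂˣ) : ℂ)) (Subtype.ext ?_)
        show g * n * g⁻¹ = n
        rw [Subgroup.mem_center_iff.mp (hcen n.2) g]; group) hχb
    obtain ⟨dχ, hdχ0, hdχ⟩ := irr_one χb.2
    have hχb1 : (χb : E ⧸ K → ℂ) 1 ≠ 0 := by rw [hdχ]; exact_mod_cast hdχ0
    have hne : Cfsg.classInner ((χb : E ⧸ K → ℂ) ∘ q) β ≠ 0 := by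
      unfold Cfsg.classInner
      have hEne : (Nat.card E : ℂ) ≠ 0 := by exact_mod_cast Nat.card_pos.ne'
      apply mul_ne_zero (inv_ne_zero hEne)
      rw [sum_eq_sum_subgroup D _ (fun g hg => by rw [hβ0 g hg, map_zero, mul_zero])]
      have h1 : ∀ d : D, ((χb : E ⧸ K → ℂ) ∘ q) d * conj (β d) =
          (χb : E ⧸ K → ℂ) 1 * (e : ℂ) := by
        intro d
        have h2 : ((χb : E ⧸ K → ℂ) ∘ q) d = (χb : E ⧸ K → ℂ) 1 * (((lam d)⁻¹ : ℂˣ) : ℂ) := by
          have h3 := hcl (p d)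
          rw [hp] at h3
          show (χb : E ⧸ K → ℂ) (q d) = _
          rw [h3]
          show _ * ((μ (p d) : ℂˣ) : ℂ) = _
          rw [hμ]
        rw [h2, hβD d, map_mul, Complex.conj_natCast]
        have h4 := unit_norm lam⁻¹ d
        rw [MonoidHom.inv_apply] at h4
        calc (χb : E ⧸ K → ℂ) 1 * (((lam d)⁻¹ : ℂˣ) : ℂ) *
            ((e : ℂ) * conj ((((lam d)⁻¹ : ℂˣ) : ℂ)))
            = (χb : E ⧸ K → ℂ) 1 * (e : ℂ) *
              ((((lam d)⁻¹ : ℂˣ) : ℂ) * conj ((((lam d)⁻¹ : ℂˣ) : ℂ))) := by ring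
          _ = (χb : E ⧸ K → ℂ) 1 * (e : ℂ) := by rw [h4, mul_one]
      rw [Finset.sum_congr rfl (fun d _ => h1 d), Finset.sum_const, Finset.card_univ,
        nsmul_eq_mul]
      apply mul_ne_zero
      · have : Fintype.card D ≠ 0 := Fintype.card_ne_zero
        exact_mod_cast this
      · exact mul_ne_zero hχb1 heC
    have h5 := classInner_irr hirr hβ
    by_cases h6 : (χb : E ⧸ K → ℂ) ∘ q = β
    · exact congrFun h6 y
    · rw [if_neg h6] at h5
      exact absurd h5 hne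
  haveI hsub : Subsingleton {χ : Cfsg.IrrCharacter (E ⧸ K) //
      Cfsg.classInner (fun n : D.map q => (χ : E ⧸ K → ℂ) n)
        (fun y : D.map q => ((μ y : ℂˣ) : ℂ)) ≠ 0} := by
    constructor
    intro a b
    apply Subtype.ext
    apply Subtype.ext
    funext yb
    obtain ⟨y, rfl⟩ := hqs yb
    rw [huniq a y, huniq b y]
  have hle : Nat.card {C : ConjClasses ((E ⧸ K) ⧸ D.map q) //
      ∃ g : E ⧸ K, ConjClasses.mk (g : (E ⧸ K) ⧸ D.map q) = C ∧ Spec (D.map q) g} ≤ 1 := by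
    rw [← hsc]
    exact Finite.card_le_one_iff_subsingleton.mpr hsub
  haveI hsub2 := Finite.card_le_one_iff_subsingleton.mp hle
  -- the two special classes
  have hspec1 : Spec (D.map q) (1 : E ⧸ K) := by
    intro x _
    rw [mul_one, one_mul]
  have hspecc : Spec (D.map q) (q c) := by
    intro xb hxb
    obtain ⟨x, rfl⟩ := hqs xb
    have h1 : q (x⁻¹ * c⁻¹ * x * c) ∈ D.map q := by
      rw [map_mul, map_mul, map_mul, map_inv, map_inv]
      exact hxb
    have h2 := (hqmem _).mp h1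
    obtain ⟨i, hi⟩ := hself x h2
    have e1 : x⁻¹ * c⁻¹ * x * c =
        (c ^ (-i) * x)⁻¹ * (c⁻¹ * (c ^ (-i) * x) * c) := by group
    have h3 : x⁻¹ * c⁻¹ * x * c ∈ K := by
      rw [e1]
      exact hcommK c _ hi
    have e2 : x * c = c * x * (x⁻¹ * c⁻¹ * x * c) := by group
    rw [← map_mul, ← map_mul, e2, map_mul, (hq1 _).mpr h3, mul_one]
  have heq := @Subsingleton.elim _ hsub2
    ⟨ConjClasses.mk (((1 : E ⧸ K)) : (E ⧸ K) ⧸ D.map q), 1, rfl, hspec1⟩
    ⟨ConjClasses.mk ((q c : E ⧸ K) : (E ⧸ K) ⧸ D.map q), q c, rfl, hspecc⟩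
  have heq' := congrArg Subtype.val heq
  rw [ConjClasses.mk_eq_mk_iff_isConj, QuotientGroup.mk_one, isConj_one_right] at heq'
  have h4 : q c ∈ D.map q := (QuotientGroup.eq_one_iff _).mp heq'
  exact hcD ((hqmem c).mp h4)

end Cfsg.Agent.Lib.Helper7
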