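import Mathlib
import Cfsg.Prelude.Def_Characters
import Cfsg.Agent.Lib.Lead.CharGal2
import Cfsg.Agent.Lib.Lead.CharComplete
import Cfsg.Agent.Lib.Lead.CharInt
import Cfsg.Agent.Lib.Lead.CharRing
import Cfsg.Agent.Lib.Lead.CharOrtho
import Cfsg.Agent.Lib.Lead.CharCount

set_option autoImplicit false
open scoped BigOperators ComplexConjugate
open IntermediateField

namespace Cfsg.Agent.Lib.Helper7
open Cfsg.Agent.Lib.Lead

universe u

/-- Functional equation of an irreducible character: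
`∑_t χ(g · t h t⁻¹) · χ(1) = |G| χ(g) χ(h)`. -/
theorem irr_func_eq {G : Type*} [Group G] [Fintype G] {χ : G → ℂ}
    (hχ : Cfsg.IsIrrCharacter G χ) (g h : G) :
    (∑ t : G, χ (g * (t * h * t⁻¹))) * χ 1 = (Nat.card G : ℂ) * χ g * χ h := by
  classical
  obtain ⟨n, ρ, hirr, rfl⟩ := hχ
  haveI := hirr
  obtain ⟨T, hTdef⟩ : ∃ T : (Fin n → ℂ) →ₗ[ℂ] (Fin n → ℂ), T = ∑ t : G, ρ (t * h * t⁻¹) :=
    ⟨_, rfl⟩
  have hT : ∀ s, T ∘ₗ ρ s = ρ s ∘ₗ T := by
    intro s
    show T * ρ s = ρ s * T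
    rw [hTdef, Finset.sum_mul, Finset.mul_sum]
    rw [← Equiv.sum_comp (Equiv.mulLeft s)]
    refine Finset.sum_congr rfl fun t _ => ?_
    rw [← map_mul, ← map_mul]
    congr 1
    simp [mul_assoc]
  have hsc := schur_scalar ρ T hT
  have htr : LinearMap.trace ℂ (Fin n → ℂ) T = (Nat.card G : ℂ) * ρ.character h := by
    rw [hTdef, map_sum]
    have h1 : ∀ t : G, LinearMap.trace ℂ (Fin n → ℂ) (ρ (t * h * t⁻¹)) = ρ.character h :=
      fun t => Representation.char_conj ρ h t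
    rw [Finset.sum_congr rfl fun t _ => h1 t, Finset.sum_const, Finset.card_univ, nsmul_eq_mul,
      Nat.card_eq_fintype_card]
  have h1 : ∑ t : G, ρ.character (g * (t * h * t⁻¹)) =
      LinearMap.trace ℂ (Fin n → ℂ) (ρ g * T) := by
    rw [hTdef, Finset.mul_sum, map_sum]
    refine Finset.sum_congr rfl fun t _ => ?_
    rw [← map_mul]
    rfl
  have hd : (Module.finrank ℂ (Fin n → ℂ) : ℂ) ≠ 0 := by
    have := finrank_pos_of_irr ρ
    exact_mod_cast this.ne'
  have h2 : LinearMap.trace ℂ (Fin n → ℂ) (ρ g * T) =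
      (LinearMap.trace ℂ (Fin n → ℂ) T / (Module.finrank ℂ (Fin n → ℂ) : ℂ)) * ρ.character g := by
    conv_lhs => rw [hsc]
    rw [mul_smul_comm, map_smul, smul_eq_mul]
    rfl
  rw [h1, h2, htr, Representation.char_one]
  field_simp

/-- The functional equation transported by the Galois automorphism `ζ ↦ ζ ^ k`. -/
theorem pow_func_eq {G : Type*} [Group G] [Fintype G] {χ : G → ℂ}
    (hχ : Cfsg.IsIrrCharacter G χ) (k : ℕ) (hk : k.Coprime (Nat.card G)) (g h : G) :
    (∑ t : G, χ ((g * (t * h * t⁻¹)) ^ k)) * χ 1 =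
      (Nat.card G : ℂ) * χ (g ^ k) * χ (h ^ k) := by
  classical
  have hf := irr_func_eq hχ g h
  obtain ⟨n, ρ, hirr, rfl⟩ := hχ
  have hn : Nat.card G ≠ 0 := Nat.card_pos.ne'
  obtain ⟨σ, hσ⟩ := exists_emb (Nat.card G) hn k hk
  choose x hx _ hxσ using fun y : G => char_galois ρ y
  have hK : (∑ t : G, x (g * (t * h * t⁻¹))) * x 1 =
      ((Nat.card G : ℕ) : ℚ⟮zetaC (Nat.card G)⟯) * x g * x h := by
    apply Subtype.ext
    push_cast
    simp only [hx]
    exact hf
  have h2 := congrArg σ hK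
  simp only [map_mul, map_sum, map_natCast] at h2
  simp only [fun y => hxσ y σ k hσ] at h2
  rw [one_pow] at h2
  exact h2

/-- **Galois conjugation**: if `χ` is an irreducible character and `k` is prime to `|G|`, then
`g ↦ χ (g ^ k)` is an irreducible character. -/
theorem isIrr_pow_coprime {G : Type u} [Group G] [Fintype G] {χ : G → ℂ}
    (hχ : Cfsg.IsIrrCharacter G χ) (k : ℕ) (hk : k.Coprime (Nat.card G)) :
    Cfsg.IsIrrCharacter G (fun g => χ (g ^ k)) := by
  classical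
  obtain ⟨ψ, hψdef⟩ : ∃ ψ : G → ℂ, ψ = fun g => χ (g ^ k) := ⟨_, rfl⟩
  rw [← hψdef]
  have hψa : ∀ g, ψ g = χ (g ^ k) := fun g => by rw [hψdef]
  have hχcl := isClassFunction_of_irr hχ
  have hψcl : Cfsg.IsClassFunction G ψ := by
    intro g h
    rw [hψa, hψa, conj_pow]; exact hχcl _ _
  have hψ1 : ψ 1 = χ 1 := by rw [hψa, one_pow]
  obtain ⟨d, hd0, hd⟩ := irr_one hχ
  have hψ1ne : ψ 1 ≠ 0 := by rw [hψ1, hd]; exact_mod_cast hd0
  let e : G ≃ G := powCoprime hk.symm
  have hnorm : Cfsg.classInner ψ ψ = 1 := by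
    rw [← classInner_irr_self hχ]
    unfold Cfsg.classInner
    congr 1
    have := Equiv.sum_comp e (fun g => χ g * conj (χ g))
    rw [← this]
    refine Finset.sum_congr rfl fun g _ => ?_
    rw [hψa]; rfl
  obtain ⟨φ, hφ, ha⟩ : ∃ φ, Cfsg.IsIrrCharacter G φ ∧ Cfsg.classInner ψ φ ≠ 0 := by
    by_contra hcon
    push_neg at hcon
    have := eq_zero_of_orthogonal ψ hψcl hcon
    exact hψ1ne (by rw [this]; rfl)
  have hφcl := isClassFunction_of_irr hφ
  obtain ⟨dφ, hdφ0, hdφ⟩ := irr_one hφ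
  have hG : (Nat.card G : ℂ) ≠ 0 := by exact_mod_cast Nat.card_pos.ne'
  obtain ⟨A, hA⟩ : ∃ A : ℂ, A = ∑ h : G, ψ h * conj (φ h) := ⟨_, rfl⟩
  have hAne : A ≠ 0 := by
    intro h0
    apply ha
    unfold Cfsg.classInner
    rw [← hA, h0, mul_zero]
  have hfψ : ∀ g h : G, (∑ t : G, ψ (g * (t * h * t⁻¹))) * ψ 1 =
      (Nat.card G : ℂ) * ψ g * ψ h := by
    intro g h
    rw [hψ1, hψa g, hψa h]
    rw [Finset.sum_congr rfl fun t _ => hψa (g * (t * h * t⁻¹))]
    exact pow_func_eq hχ k hk g h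
  have hfφ := irr_func_eq hφ
  have key : ∀ g : G, ψ g * φ 1 = ψ 1 * φ g := by
    intro g
    obtain ⟨B, hB⟩ : ∃ B : ℂ, B = ∑ h : G, ψ (g * h) * conj (φ h) := ⟨_, rfl⟩
    have e1 : (∑ h : G, ∑ t : G, ψ (g * (t * h * t⁻¹)) * conj (φ h)) * ψ 1 =
        (Nat.card G : ℂ) * ψ g * A := by
      rw [Finset.sum_mul, hA, Finset.mul_sum]
      refine Finset.sum_congr rfl fun h _ => ?_
      rw [← Finset.sum_mul, mul_right_comm, hfψ g h]; ring
    have e2 : (∑ h : G, ∑ t : G, ψ (g * (t * h * t⁻¹)) * conj (φ h)) =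
        (Nat.card G : ℂ) * B := by
      rw [Finset.sum_comm]
      have hh : ∀ t : G, ∑ h : G, ψ (g * (t * h * t⁻¹)) * conj (φ h) = B := by
        intro t
        rw [hB, ← Equiv.sum_comp (MulAut.conj t).toEquiv (fun h' => ψ (g * h') * conj (φ h'))]
        refine Finset.sum_congr rfl fun h _ => ?_
        show _ = ψ (g * (t * h * t⁻¹)) * conj (φ (t * h * t⁻¹))
        rw [hφcl h t]
      rw [Finset.sum_congr rfl fun t _ => hh t, Finset.sum_const, Finset.card_univ,
        nsmul_eq_mul, Nat.card_eq_fintype_card]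
    have e3 : B * φ 1 = φ g * A := by
      have hBs : ∀ s : G, B = ∑ u : G, ψ u * conj (φ (g⁻¹ * (s * u * s⁻¹))) := by
        intro s
        rw [hB, ← Equiv.sum_comp ((MulAut.conj s).toEquiv.trans (Equiv.mulLeft g⁻¹))
          (fun h' => ψ (g * h') * conj (φ h'))]
        refine Finset.sum_congr rfl fun u _ => ?_
        show ψ (g * (g⁻¹ * (s * u * s⁻¹))) * conj (φ (g⁻¹ * (s * u * s⁻¹))) = _
        rw [mul_inv_cancel_left, hψcl u s]
      have hsum : (Nat.card G : ℂ) * (B * φ 1) = (Nat.card G : ℂ) * (φ g * A) := by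
        have h1 : (Nat.card G : ℂ) * B =
            ∑ s : G, ∑ u : G, ψ u * conj (φ (g⁻¹ * (s * u * s⁻¹))) := by
          rw [← Finset.sum_congr rfl fun s _ => hBs s, Finset.sum_const, Finset.card_univ,
            nsmul_eq_mul, Nat.card_eq_fintype_card]
        rw [← mul_assoc, h1, Finset.sum_comm, Finset.sum_mul]
        have hφ1real : conj (φ 1) = φ 1 := by rw [hdφ]; simp
        have h2 : ∀ u : G, (∑ s : G, ψ u * conj (φ (g⁻¹ * (s * u * s⁻¹)))) * φ 1 =
            (Nat.card G : ℂ) * φ g * (ψ u * conj (φ u)) := by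
          intro u
          rw [← Finset.mul_sum, ← hφ1real, mul_assoc, ← map_sum, ← map_mul, hfφ g⁻¹ u, map_mul,
            map_mul, map_natCast]
          rw [isCharacter_inv (isCharacter_of_isIrrCharacter hφ) g, Complex.conj_conj]; ring
        rw [Finset.sum_congr rfl fun u _ => h2 u, ← Finset.mul_sum, ← hA]; ring
      exact mul_left_cancel₀ hG hsum
    have e4 : (Nat.card G : ℂ) * B * ψ 1 = (Nat.card G : ℂ) * ψ g * A := by rw [← e2]; exact e1
    have e5 : B * ψ 1 = ψ g * A := by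
      apply mul_left_cancel₀ hG; rw [← mul_assoc, e4]; ring
    have e6 : (ψ g * φ 1) * A = (ψ 1 * φ g) * A := by
      calc (ψ g * φ 1) * A = (ψ g * A) * φ 1 := by ring
        _ = B * ψ 1 * φ 1 := by rw [e5]
        _ = (B * φ 1) * ψ 1 := by ring
        _ = φ g * A * ψ 1 := by rw [e3]
        _ = (ψ 1 * φ g) * A := by ring
    exact mul_right_cancel₀ hAne e6
  have hdφne : (dφ : ℂ) ≠ 0 := by exact_mod_cast hdφ0
  have hψφ : ψ = ((d : ℂ) / (dφ : ℂ)) • φ := by
    funext g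
    have := key g
    rw [hψ1, hd, hdφ] at this
    rw [Pi.smul_apply, smul_eq_mul, div_mul_eq_mul_div, eq_div_iff hdφne]
    exact this
  have hc : ((d : ℂ) / (dφ : ℂ)) * ((d : ℂ) / (dφ : ℂ)) = 1 := by
    have h1 : Cfsg.classInner ψ ψ =
        ((d : ℂ) / (dφ : ℂ)) * (conj ((d : ℂ) / (dφ : ℂ)) * Cfsg.classInner φ φ) := by
      conv_lhs => rw [hψφ]
      rw [classInner_smul_left, classInner_smul_right]
    rw [hnorm, classInner_irr_self hφ, mul_one] at h1
    have h3 : conj ((d : ℂ) / (dφ : ℂ)) = (d : ℂ) / (dφ : ℂ) := by simp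
    rw [h3] at h1
    exact h1.symm
  have hdd : d = dφ := by
    have h3 : (d : ℂ) * d = dφ * dφ := by
      field_simp at hc
      linear_combination hc
    have h4 : d * d = dφ * dφ := by exact_mod_cast h3
    exact Nat.mul_self_inj.1 h4
  have : ψ = φ := by
    rw [hψφ, hdd, div_self hdφne, one_smul]
  rw [this]; exact hφ

end Cfsg.Agent.Lib.Helper7
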