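import Mathlib

set_option autoImplicit false

namespace Cfsg.Agent.Lib.Helper7

/-- The identity or a fixed-point-free involution of `Fin 4`. -/
def PV4 (σ : Equiv.Perm (Fin 4)) : Prop := σ = 1 ∨ (σ * σ = 1 ∧ ∀ i, σ i ≠ i)

/-- Even permutations of `Fin 4`, described without the sign. -/
def PA4 (σ : Equiv.Perm (Fin 4)) : Prop := σ * σ * σ = 1 ∨ PV4 σ

instance decPV4 : DecidablePred PV4 := fun σ => by unfold PV4; infer_instance

instance decPA4 : DecidablePred PA4 := fun σ => by unfold PA4; infer_instance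

theorem pv4_one : PV4 1 := by decide +kernel
set_option maxRecDepth 100000 in
theorem pv4_mul : ∀ σ τ : Equiv.Perm (Fin 4), PV4 σ → PV4 τ → PV4 (σ * τ) := by decide +kernel
set_option maxRecDepth 100000 in
theorem pv4_inv : ∀ σ : Equiv.Perm (Fin 4), PV4 σ → PV4 σ⁻¹ := by decide +kernel
theorem pa4_one : PA4 1 := by decide +kernel
set_option maxRecDepth 100000 in
theorem pa4_mul : ∀ σ τ : Equiv.Perm (Fin 4), PA4 σ → PA4 τ → PA4 (σ * τ) := by decide +kernel
set_option maxRecDepth 100000 in
theorem pa4_inv : ∀ σ : Equiv.Perm (Fin 4), PA4 σ → PA4 σ⁻¹ := by decide +kernel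
set_option maxRecDepth 100000 in
theorem pa4_comm : ∀ σ τ : Equiv.Perm (Fin 4), PA4 (σ * τ * σ⁻¹ * τ⁻¹) := by decide +kernel
set_option maxRecDepth 100000 in
theorem pv4_comm : ∀ σ τ : Equiv.Perm (Fin 4), PA4 σ → PA4 τ → PV4 (σ * τ * σ⁻¹ * τ⁻¹) := by decide +kernel
set_option maxRecDepth 100000 in
theorem one_comm : ∀ σ τ : Equiv.Perm (Fin 4), PV4 σ → PV4 τ → σ * τ * σ⁻¹ * τ⁻¹ = 1 := by decide +kernel

/-- `S₄` is solvable. -/
theorem isSolvable_perm_fin_four : Group.IsSolvable (Equiv.Perm (Fin 4)) := by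
  let A : Subgroup (Equiv.Perm (Fin 4)) :=
    { carrier := {σ | PA4 σ}
      mul_mem' := fun {a b} ha hb => pa4_mul a b ha hb
      one_mem' := pa4_one
      inv_mem' := fun {a} ha => pa4_inv a ha }
  let V : Subgroup (Equiv.Perm (Fin 4)) :=
    { carrier := {σ | PV4 σ}
      mul_mem' := fun {a b} ha hb => pv4_mul a b ha hb
      one_mem' := pv4_one
      inv_mem' := fun {a} ha => pv4_inv a ha }
  have h1 : derivedSeries (Equiv.Perm (Fin 4)) 1 ≤ A := by
    rw [derivedSeries_succ, derivedSeries_zero, Subgroup.commutator_le]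
    intro g₁ _ g₂ _
    exact pa4_comm g₁ g₂
  have h2 : derivedSeries (Equiv.Perm (Fin 4)) 2 ≤ V := by
    rw [derivedSeries_succ]
    refine (Subgroup.commutator_mono h1 h1).trans ?_
    rw [Subgroup.commutator_le]
    intro g₁ hg₁ g₂ hg₂
    exact pv4_comm g₁ g₂ hg₁ hg₂
  have h3 : derivedSeries (Equiv.Perm (Fin 4)) 3 ≤ ⊥ := by
    rw [derivedSeries_succ]
    refine (Subgroup.commutator_mono h2 h2).trans ?_
    rw [Subgroup.commutator_le]
    intro g₁ hg₁ g₂ hg₂
    rw [Subgroup.mem_bot]
    exact one_comm g₁ g₂ hg₁ hg₂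
  exact ⟨⟨3, le_bot_iff.mp h3⟩⟩

/-- The symmetric group on at most four points is solvable. -/
theorem isSolvable_perm_of_card_le_four {α : Type*} [Fintype α] (h : Fintype.card α ≤ 4) :
    Group.IsSolvable (Equiv.Perm α) := by
  have hne : Nonempty (α ↪ Fin 4) := Function.Embedding.nonempty_of_card_le (by simpa using h)
  obtain ⟨ι⟩ := hne
  have := isSolvable_perm_fin_four
  exact Group.isSolvable_of_isSolvable_injective (Equiv.Perm.viaEmbeddingHom_injective ι)

/-- A set of permutations whose supports lie in a set of at most four points generates a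
solvable group. -/
theorem isSolvable_closure_of_support_subset {α : Type*} [Fintype α] [DecidableEq α]
    (S : Set (Equiv.Perm α)) (T : Finset α) (hT : T.card ≤ 4) (hS : ∀ σ ∈ S, σ.support ⊆ T) :
    Group.IsSolvable (Subgroup.closure S) := by
  have hsolv : Group.IsSolvable (Equiv.Perm {x // x ∈ T}) :=
    isSolvable_perm_of_card_le_four (by rw [Fintype.card_coe]; exact hT)
  have hR : Group.IsSolvable (Equiv.Perm.ofSubtype : Equiv.Perm {x // x ∈ T} →* Equiv.Perm α).range :=
    Group.isSolvable_of_surjective (MonoidHom.rangeRestrict_surjective _)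
  have hle : Subgroup.closure S ≤ (Equiv.Perm.ofSubtype : Equiv.Perm {x // x ∈ T} →* Equiv.Perm α).range := by
    rw [Subgroup.closure_le]
    intro σ hσ
    rw [SetLike.mem_coe, Equiv.Perm.mem_range_ofSubtype_iff]
    intro x hx
    exact hS σ hσ hx
  exact Group.isSolvable_of_isSolvable_injective (Subgroup.inclusion_injective hle)

/-- Adjoining a commuting element to a solvable subgroup keeps it solvable. -/
theorem isSolvable_sup_zpowers {G : Type*} [Group G] (L : Subgroup G) (c : G)
    (hc : ∀ l ∈ L, Commute l c) (hL : Group.IsSolvable L) :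
    Group.IsSolvable ↥(L ⊔ Subgroup.zpowers c) := by
  have hZ : Group.IsSolvable (Subgroup.zpowers c) := by
    apply Group.isSolvable_of_comm
    rintro ⟨x, hx⟩ ⟨y, hy⟩
    obtain ⟨i, rfl⟩ := Subgroup.mem_zpowers_iff.mp hx
    obtain ⟨j, rfl⟩ := Subgroup.mem_zpowers_iff.mp hy
    apply Subtype.ext
    show c ^ i * c ^ j = c ^ j * c ^ i
    rw [← zpow_add, ← zpow_add, add_comm]
  have comm : ∀ (m : L) (n : Subgroup.zpowers c), Commute (L.subtype m) ((Subgroup.zpowers c).subtype n) := by
    rintro ⟨m, hm⟩ ⟨n, hn⟩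
    obtain ⟨i, rfl⟩ := Subgroup.mem_zpowers_iff.mp hn
    exact (hc m hm).zpow_right i
  have hrange : (MonoidHom.noncommCoprod L.subtype (Subgroup.zpowers c).subtype comm).range
      = L ⊔ Subgroup.zpowers c := by
    rw [MonoidHom.noncommCoprod_range, Subgroup.range_subtype, Subgroup.range_subtype]
  have hsol : Group.IsSolvable (MonoidHom.noncommCoprod L.subtype (Subgroup.zpowers c).subtype comm).range :=
    Group.isSolvable_of_surjective (MonoidHom.rangeRestrict_surjective _)
  rw [hrange] at hsol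
  exact hsol

end Cfsg.Agent.Lib.Helper7
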