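import Mathlib
import Cfsg.Agent.Lib.Helper7.SpecialCls

set_option autoImplicit false
open scoped BigOperators
open Classical

namespace Cfsg.Agent.Lib.Helper7

/-- `h` is a `π`-element: every prime dividing its order lies in `π`. -/
def PiEl {H : Type*} [Monoid H] (π : Set ℕ) (h : H) : Prop :=
  ∀ q : ℕ, q.Prime → q ∣ orderOf h → q ∈ π

/-- Split a positive integer into its `π`-part and `π'`-part. -/
theorem pi_split (π : Set ℕ) (M : ℕ) (hM : M ≠ 0) :
    ∃ a b : ℕ, a * b = M ∧ Nat.Coprime a b ∧ (∀ q : ℕ, q.Prime → q ∣ a → q ∈ π) ∧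
      (∀ q : ℕ, q.Prime → q ∣ b → q ∉ π) := by
  refine ⟨∏ p ∈ M.primeFactors.filter (fun p => p ∈ π), p ^ M.factorization p,
    ∏ p ∈ M.primeFactors.filter (fun p => ¬ p ∈ π), p ^ M.factorization p, ?_, ?_, ?_, ?_⟩
  · rw [Finset.prod_filter_mul_prod_filter_not]
    exact Nat.factorization_prod_pow_eq_self hM
  · apply Nat.Coprime.prod_left
    intro p hp
    apply Nat.Coprime.prod_right
    intro q hq
    rw [Finset.mem_filter] at hp hq
    apply Nat.Coprime.pow
    rw [Nat.coprime_primes (Nat.prime_of_mem_primeFactors hp.1) (Nat.prime_of_mem_primeFactors hq.1)]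
    rintro rfl
    exact hq.2 hp.2
  · intro q hq hdvd
    obtain ⟨p, hp, hqp⟩ := (Prime.dvd_finset_prod_iff hq.prime _).1 hdvd
    rw [Finset.mem_filter] at hp
    have := (Nat.prime_dvd_prime_iff_eq hq (Nat.prime_of_mem_primeFactors hp.1)).1
      (hq.dvd_of_dvd_pow hqp)
    rw [this]; exact hp.2
  · intro q hq hdvd
    obtain ⟨p, hp, hqp⟩ := (Prime.dvd_finset_prod_iff hq.prime _).1 hdvd
    rw [Finset.mem_filter] at hp
    have := (Nat.prime_dvd_prime_iff_eq hq (Nat.prime_of_mem_primeFactors hp.1)).1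
      (hq.dvd_of_dvd_pow hqp)
    rw [this]; exact hp.2

/-- Exponents extracting the `π`-part and the `π'`-part of every element of a finite group. -/
theorem pi_exps {G : Type*} [Group G] [Finite G] (π : Set ℕ) :
    ∃ e f : ℕ, (∀ g : G, PiEl π (g ^ e)) ∧ (∀ x : G, PiEl π x → x ^ e = x ∧ x ^ f = 1) ∧
      (∀ g : G, g ^ e * g ^ f = g) ∧ (∀ g : G, (g ^ f) ^ e = 1) := by
  obtain ⟨a, b, hab, hcop, ha, hb⟩ := pi_split π (Nat.card G) Nat.card_pos.ne'
  obtain ⟨e, he1, he0⟩ := Nat.chineseRemainder hcop 1 0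
  obtain ⟨f, hf0, hf1⟩ := Nat.chineseRemainder hcop 0 1
  have hbe : b ∣ e := (Nat.modEq_zero_iff_dvd).1 he0
  have haf : a ∣ f := (Nat.modEq_zero_iff_dvd).1 hf0
  have hpowM : ∀ g : G, g ^ (a * b) = 1 := fun g => by rw [hab]; exact pow_card_eq_one'
  have hord : ∀ g : G, orderOf g ∣ a * b := fun g => orderOf_dvd_of_pow_eq_one (hpowM g)
  refine ⟨e, f, ?_, ?_, ?_, ?_⟩
  · intro g q hq hdvd
    have h1 : (g ^ e) ^ a = 1 := by
      obtain ⟨c, rfl⟩ := hbe
      rw [← pow_mul, show b * c * a = (a * b) * c by ring, pow_mul, hpowM, one_pow]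
    exact ha q hq (hdvd.trans (orderOf_dvd_of_pow_eq_one h1))
  · intro x hx
    have hxa : orderOf x ∣ a := by
      refine (Nat.Coprime.dvd_mul_right ?_).1 (hord x)
      rw [Nat.coprime_iff_gcd_eq_one]
      by_contra hne
      obtain ⟨q, hq, hqd⟩ := Nat.exists_prime_and_dvd hne
      exact hb q hq (hqd.trans (Nat.gcd_dvd_right _ _)) (hx q hq (hqd.trans (Nat.gcd_dvd_left _ _)))
    constructor
    · have : x ^ e = x ^ 1 := by
        rw [pow_eq_pow_iff_modEq]
        exact he1.of_dvd hxa
      rw [this, pow_one]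
    · exact orderOf_dvd_iff_pow_eq_one.1 (hxa.trans haf)
  · intro g
    rw [← pow_add]
    have hmod : e + f ≡ 1 [MOD a * b] := by
      refine (Nat.modEq_and_modEq_iff_modEq_mul hcop).1 ⟨?_, ?_⟩
      · simpa using he1.add hf0
      · simpa using he0.add hf1
    have : g ^ (e + f) = g ^ 1 := by
      rw [pow_eq_pow_iff_modEq]
      exact hmod.of_dvd (hord g)
    rw [this, pow_one]
  · intro g
    rw [← pow_mul]
    exact orderOf_dvd_iff_pow_eq_one.1 ((hord g).trans (Nat.mul_dvd_mul haf hbe))

theorem piEl_mk_iff {H : Type*} [Group H] (π : Set ℕ) (x : H) :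
    (∀ q : ℕ, q.Prime → (∃ g : H, ConjClasses.mk g = ConjClasses.mk x ∧ q ∣ orderOf g) → q ∈ π) ↔
      PiEl π x := by
  constructor
  · intro h q hq hd
    exact h q hq ⟨x, rfl, hd⟩
  · rintro h q hq ⟨g, hg, hd⟩
    rw [ConjClasses.mk_eq_mk_iff_isConj, isConj_iff] at hg
    obtain ⟨c, rfl⟩ := hg
    apply h q hq
    have : orderOf (c * g * c⁻¹) = orderOf g := by
      have := orderOf_injective (MulAut.conj c).toMonoidHom (MulAut.conj c).injective g
      simpa using this
    rw [this]; exact hd

theorem card_centralizer_filter {H : Type*} [Group H] [Fintype H] (x : H) :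
    Nat.card (Subgroup.centralizer ({x} : Set H)) =
      ((Finset.univ : Finset H).filter (fun y => Commute x y)).card := by
  rw [← Nat.card_eq_finsetCard]
  apply Nat.card_congr
  refine Equiv.subtypeEquivRight fun y => ?_
  rw [Finset.mem_filter, Subgroup.mem_centralizer_iff]
  simp [commute_iff_eq]

/-- (number of classes of `π`-elements) * |H| = number of commuting pairs `(x, y)` with `x` a
`π`-element. -/
theorem kpi_mul_card {H : Type*} [Group H] [Fintype H] (π : Set ℕ) :
    Nat.card {C : ConjClasses H // ∀ q : ℕ, q.Prime →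
        (∃ g : H, ConjClasses.mk g = C ∧ q ∣ orderOf g) → q ∈ π} * Nat.card H =
      ∑ x : H, if PiEl π x then ((Finset.univ : Finset H).filter (fun y => Commute x y)).card
        else 0 := by
  have h := card_classes_pred (Q := H) (fun C : ConjClasses H => ∀ q : ℕ, q.Prime →
        (∃ g : H, ConjClasses.mk g = C ∧ q ∣ orderOf g) → q ∈ π)
  have hH : (Nat.card H : ℂ) ≠ 0 := by exact_mod_cast Nat.card_pos.ne'
  have h2 : ((Nat.card {C : ConjClasses H // ∀ q : ℕ, q.Prime →
        (∃ g : H, ConjClasses.mk g = C ∧ q ∣ orderOf g) → q ∈ π} * Nat.card H : ℕ) : ℂ) =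
      ((∑ x : H, if PiEl π x then ((Finset.univ : Finset H).filter (fun y => Commute x y)).card
        else 0 : ℕ) : ℂ) := by
    push_cast
    rw [h, Finset.sum_mul]
    refine Finset.sum_congr rfl fun x _ => ?_
    by_cases hx : PiEl π x
    · rw [if_pos ((piEl_mk_iff π x).2 hx), if_pos hx]
      rw [mul_comm, ← mul_assoc, mul_inv_cancel₀ hH, one_mul, card_centralizer_filter]
    · rw [if_neg (fun h' => hx ((piEl_mk_iff π x).1 h')), if_neg hx]; simp
  exact_mod_cast h2

section main
variable {G : Type*} [Group G] [Fintype G] (N : Subgroup G) [N.Normal]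

/-- number of elements of the coset `v` commuting with `x` -/
noncomputable def cv (x : G) (v : G ⧸ N) : ℕ :=
  ((Finset.univ : Finset G).filter (fun y : G => (y : G ⧸ N) = v ∧ Commute x y)).card

/-- number of elements of `N` commuting with `x` -/
noncomputable def cN (x : G) : ℕ :=
  ((Finset.univ : Finset N).filter (fun m : N => Commute x (m : G))).card

theorem cv_le_cN (x : G) (v : G ⧸ N) : cv N x v ≤ cN N x := by
  unfold cv cN
  by_cases hne : ((Finset.univ : Finset G).filter
      (fun y : G => (y : G ⧸ N) = v ∧ Commute x y)).Nonempty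
  · obtain ⟨y₀, hy₀⟩ := hne
    rw [Finset.mem_filter] at hy₀
    refine (Finset.card_le_card ?_).trans
      (Finset.card_image_le (f := fun m : N => y₀ * (m : G)))
    intro y hy
    rw [Finset.mem_filter] at hy
    rw [Finset.mem_image]
    have hmem : y₀⁻¹ * y ∈ N := by
      rw [← QuotientGroup.eq]; rw [hy₀.2.1, hy.2.1]
    refine ⟨⟨y₀⁻¹ * y, hmem⟩, ?_, by simp⟩
    rw [Finset.mem_filter]
    exact ⟨Finset.mem_univ _, (hy₀.2.2.inv_right).mul_right hy.2.2⟩
  · rw [Finset.not_nonempty_iff_eq_empty] at hne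
    rw [hne]; simp

theorem card_comm_fiber [Fintype (G ⧸ N)] (x : G) :
    ((Finset.univ : Finset G).filter (fun y => Commute x y)).card = ∑ v : G ⧸ N, cv N x v := by
  rw [Finset.card_eq_sum_card_fiberwise (f := fun y : G => (y : G ⧸ N))
    (t := (Finset.univ : Finset (G ⧸ N))) (fun _ _ => Finset.mem_univ _)]
  refine Finset.sum_congr rfl fun v _ => ?_
  unfold cv
  rw [Finset.filter_filter]
  refine congrArg Finset.card (Finset.filter_congr fun y _ => ?_)
  tauto

theorem pi_main [Fintype (G ⧸ N)] (π : Set ℕ) :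
    (∑ x : G, if PiEl π x then ((Finset.univ : Finset G).filter (fun y => Commute x y)).card
        else 0) ≤
    (∑ u : G ⧸ N, if PiEl π u then
        ((Finset.univ : Finset (G ⧸ N)).filter (fun v => Commute u v)).card else 0) *
    (∑ m : N, if PiEl π (m : G) then cN N (m : G) else 0) := by
  obtain ⟨e, f, h1, h2, h3, h4⟩ := pi_exps (G := G) π
  set B := ∑ m : N, if PiEl π (m : G) then cN N (m : G) else 0 with hB
  have hA : (∑ x : G, if PiEl π x then
        ((Finset.univ : Finset G).filter (fun y => Commute x y)).card else 0)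
      = ∑ u : G ⧸ N, ∑ v : G ⧸ N,
          ∑ x : G, if ((x : G ⧸ N) = u ∧ PiEl π x) then cv N x v else 0 := by
    have e1 : (∑ u : G ⧸ N, ∑ v : G ⧸ N,
          ∑ x : G, if ((x : G ⧸ N) = u ∧ PiEl π x) then cv N x v else 0) =
        ∑ x : G, ∑ u : G ⧸ N, ∑ v : G ⧸ N,
          if ((x : G ⧸ N) = u ∧ PiEl π x) then cv N x v else 0 := by
      exact (Finset.sum_congr rfl fun u _ => Finset.sum_comm).trans Finset.sum_comm
    rw [e1]
    refine Finset.sum_congr rfl fun x _ => ?_
    by_cases hx : PiEl π x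
    · rw [if_pos hx, card_comm_fiber N x, Finset.sum_comm]
      refine Finset.sum_congr rfl fun v _ => ?_
      simp [hx]
    · rw [if_neg hx]
      symm
      apply Finset.sum_eq_zero; intro u _
      apply Finset.sum_eq_zero; intro v _
      rw [if_neg]; intro h'; exact hx h'.2
  have hbound : ∀ u v : G ⧸ N,
      (∑ x : G, if ((x : G ⧸ N) = u ∧ PiEl π x) then cv N x v else 0) ≤
        (if PiEl π u ∧ Commute u v then 1 else 0) * B := by
    intro u v
    by_cases huv : PiEl π u ∧ Commute u v
    · rw [if_pos huv, one_mul]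
      let D1 : Finset (G × N) := (Finset.univ : Finset (G × N)).filter
        (fun p => (p.1 : G ⧸ N) = u ∧ PiEl π p.1 ∧ Commute p.1 (p.2 : G))
      let D2 : Finset (G × N) := (Finset.univ : Finset (G × N)).filter
        (fun p => (p.1 : G ⧸ N) = u ∧ PiEl π (p.2 : G) ∧ Commute p.1 (p.2 : G))
      have hE1 : (∑ x : G, if ((x : G ⧸ N) = u ∧ PiEl π x) then cN N x else 0) = D1.card := by
        rw [Finset.card_filter, Fintype.sum_prod_type]
        refine Finset.sum_congr rfl fun x _ => ?_
        by_cases hx : ((x : G ⧸ N) = u ∧ PiEl π x)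
        · rw [if_pos hx]; unfold cN; rw [Finset.card_filter]
          refine Finset.sum_congr rfl fun m _ => ?_
          refine if_congr ?_ rfl rfl
          exact ⟨fun h => ⟨hx.1, hx.2, h⟩, fun h => h.2.2⟩
        · rw [if_neg hx]; symm; apply Finset.sum_eq_zero; intro m _
          rw [if_neg]; intro h'; exact hx ⟨h'.1, h'.2.1⟩
      have hE2 : D2.card = ∑ m : N, if PiEl π (m : G) then cv N (m : G) u else 0 := by
        rw [Finset.card_filter, Fintype.sum_prod_type_right]
        refine Finset.sum_congr rfl fun m _ => ?_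
        by_cases hm : PiEl π (m : G)
        · rw [if_pos hm]; unfold cv; rw [Finset.card_filter]
          refine Finset.sum_congr rfl fun x _ => ?_
          refine if_congr ?_ rfl rfl
          exact ⟨fun h => ⟨h.1, h.2.2.symm⟩, fun h => ⟨h.1, hm, h.2.symm⟩⟩
        · rw [if_neg hm]; apply Finset.sum_eq_zero; intro x _
          rw [if_neg]; intro h'; exact hm h'.2.1
      have hD : D1.card ≤ D2.card := by
        apply Finset.card_le_card_of_injOn (fun p : G × N => (p.1 * (p.2 : G) ^ f, p.2 ^ e))
        · intro p hp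
          simp only [D1, D2, Finset.coe_filter, Finset.mem_univ, true_and, Set.mem_setOf_eq]
            at hp ⊢
          obtain ⟨hpu, hpP, hpc⟩ := hp
          refine ⟨?_, ?_, ?_⟩
          · rw [← hpu, QuotientGroup.mk_mul]
            have : (((p.2 : G) ^ f : G) : G ⧸ N) = 1 :=
              (QuotientGroup.eq_one_iff _).2 (N.pow_mem p.2.2 f)
            rw [this, mul_one]
          · have := h1 (p.2 : G)
            simpa using this
          · rw [Subgroup.coe_pow]
            exact (hpc.pow_right e).mul_left ((Commute.refl (p.2 : G)).pow_pow f e)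
        · intro p hp p' hp' heq
          simp only [D1, Finset.coe_filter, Finset.mem_univ, true_and, Set.mem_setOf_eq]
            at hp hp'
          obtain ⟨hpu, hpP, hpc⟩ := hp
          obtain ⟨hpu', hpP', hpc'⟩ := hp'
          simp only [Prod.mk.injEq] at heq
          obtain ⟨heq1, heq2⟩ := heq
          have heq2' : (p.2 : G) ^ e = (p'.2 : G) ^ e := by
            have := congrArg (Subtype.val) heq2
            simpa using this
          have hx1 : (p.1 * (p.2 : G) ^ f) ^ e = p.1 := by
            rw [(hpc.pow_right f).mul_pow, h4, mul_one, (h2 _ hpP).1]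
          have hx2 : (p'.1 * (p'.2 : G) ^ f) ^ e = p'.1 := by
            rw [(hpc'.pow_right f).mul_pow, h4, mul_one, (h2 _ hpP').1]
          have hxx : p.1 = p'.1 := by rw [← hx1, ← hx2, heq1]
          have hmf : (p.2 : G) ^ f = (p'.2 : G) ^ f := by
            rw [hxx] at heq1; exact mul_left_cancel heq1
          have hmm : (p.2 : G) = (p'.2 : G) := by
            rw [← h3 (p.2 : G), ← h3 (p'.2 : G), heq2', hmf]
          exact Prod.ext hxx (Subtype.ext hmm)
      calc (∑ x : G, if ((x : G ⧸ N) = u ∧ PiEl π x) then cv N x v else 0)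
          ≤ ∑ x : G, if ((x : G ⧸ N) = u ∧ PiEl π x) then cN N x else 0 := by
            refine Finset.sum_le_sum fun x _ => ?_
            by_cases hx : ((x : G ⧸ N) = u ∧ PiEl π x)
            · rw [if_pos hx, if_pos hx]; exact cv_le_cN N x v
            · rw [if_neg hx, if_neg hx]
        _ = D1.card := hE1
        _ ≤ D2.card := hD
        _ = ∑ m : N, if PiEl π (m : G) then cv N (m : G) u else 0 := hE2
        _ ≤ B := by
            rw [hB]
            refine Finset.sum_le_sum fun m _ => ?_
            by_cases hm : PiEl π (m : G)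
            · rw [if_pos hm, if_pos hm]; exact cv_le_cN N _ u
            · rw [if_neg hm, if_neg hm]
    · rw [if_neg huv, zero_mul]
      refine le_of_eq (Finset.sum_eq_zero fun x _ => ?_)
      by_cases hx : ((x : G ⧸ N) = u ∧ PiEl π x)
      · rw [if_pos hx]
        unfold cv
        rw [Finset.card_eq_zero, Finset.filter_eq_empty_iff]
        intro y _ hy
        apply huv
        constructor
        · intro q hq hd
          rw [← hx.1] at hd
          exact hx.2 q hq (hd.trans (orderOf_map_dvd (QuotientGroup.mk' N) x))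
        · rw [← hx.1, ← hy.1]
          exact hy.2.map (QuotientGroup.mk' N)
      · rw [if_neg hx]
  have hQ : (∑ u : G ⧸ N, ∑ v : G ⧸ N, (if PiEl π u ∧ Commute u v then 1 else 0)) =
      ∑ u : G ⧸ N, if PiEl π u then
        ((Finset.univ : Finset (G ⧸ N)).filter (fun v => Commute u v)).card else 0 := by
    refine Finset.sum_congr rfl fun u _ => ?_
    by_cases hu : PiEl π u
    · rw [if_pos hu, Finset.card_filter]
      refine Finset.sum_congr rfl fun v _ => ?_
      refine if_congr ?_ rfl rfl
      exact ⟨fun h => h.2, fun h => ⟨hu, h⟩⟩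
    · rw [if_neg hu]
      apply Finset.sum_eq_zero; intro v _
      rw [if_neg]; intro h'; exact hu h'.1
  rw [hA, ← hQ, Finset.sum_mul]
  refine Finset.sum_le_sum fun u _ => ?_
  rw [Finset.sum_mul]
  exact Finset.sum_le_sum fun v _ => hbound u v

/-- `k_π(G) ≤ k_π(N) k_π(G/N)`. -/
theorem kpi_le (π : Set ℕ) :
    Nat.card {C : ConjClasses G // ∀ q : ℕ, q.Prime →
        (∃ g : G, ConjClasses.mk g = C ∧ q ∣ orderOf g) → q ∈ π} ≤
    Nat.card {C : ConjClasses N // ∀ q : ℕ, q.Prime →
        (∃ g : N, ConjClasses.mk g = C ∧ q ∣ orderOf g) → q ∈ π} *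
    Nat.card {C : ConjClasses (G ⧸ N) // ∀ q : ℕ, q.Prime →
        (∃ g : (G ⧸ N), ConjClasses.mk g = C ∧ q ∣ orderOf g) → q ∈ π} := by
  haveI : Fintype (G ⧸ N) := Fintype.ofFinite _
  have hG := kpi_mul_card (H := G) π
  have hN := kpi_mul_card (H := N) π
  have hQ := kpi_mul_card (H := G ⧸ N) π
  have hmain := pi_main N π
  have hNB : (∑ x : N, if PiEl π x then
      ((Finset.univ : Finset N).filter (fun y => Commute x y)).card else 0) =
      ∑ m : N, if PiEl π (m : G) then cN N (m : G) else 0 := by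
    refine Finset.sum_congr rfl fun m _ => ?_
    have hiff : PiEl π m ↔ PiEl π (m : G) := by
      unfold PiEl; rw [Subgroup.orderOf_coe]
    refine if_congr hiff ?_ rfl
    unfold cN
    refine congrArg Finset.card (Finset.filter_congr fun y _ => ?_)
    rw [commute_iff_eq, commute_iff_eq, Subtype.ext_iff]
    simp
  rw [← hG, ← hQ, ← hNB, ← hN] at hmain
  have hcard : Nat.card G = Nat.card (G ⧸ N) * Nat.card N :=
    Subgroup.card_eq_card_quotient_mul_card_subgroup N
  have hpos : 0 < Nat.card G := Nat.card_pos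
  refine Nat.le_of_mul_le_mul_right ?_ hpos
  calc _ ≤ _ := hmain
    _ = _ := by rw [hcard]; ring

end main

end Cfsg.Agent.Lib.Helper7
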