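import Mathlib
import Cfsg.Prelude.Def_Blocks
import Cfsg.Agent.Lib.Helper7.DefectOrd
import Cfsg.Agent.Lib.Lead.CharBurnside

set_option autoImplicit false
open scoped BigOperators ComplexConjugate

namespace Cfsg.Agent.Lib.Helper7
open Cfsg.Agent.Lib.Lead

universe u

section realblock

variable {G : Type u} [Group G] [Fintype G] [DecidableEq G]

/-- pairing lemma: an inversion-closed finset without self-inverse elements -/
theorem pair_sum_h7 (M : Ideal Cfsg.AlgInt) (hMprime : M.IsPrime)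
    (h2 : Cfsg.MemLocalIdeal M (2 : ℂ)) (f : G → ℂ)
    (hfR : ∀ g, Cfsg.MemLocalRing M (f g))
    (hfinv : ∀ g, Cfsg.MemLocalIdeal M (f g⁻¹ - f g)) :
    ∀ (n : ℕ) (s : Finset G), s.card = n → (∀ g ∈ s, g⁻¹ ∈ s) → (∀ g ∈ s, g⁻¹ ≠ g) →
      Cfsg.MemLocalIdeal M (∑ g ∈ s, f g) := by
  intro n
  induction n using Nat.strong_induction_on with
  | _ n ih =>
    intro s hs hclosed hfix
    by_cases hempty : s = ∅
    · rw [hempty, Finset.sum_empty]; exact memLocalIdeal_zero_lead hMprime.ne_top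
    · obtain ⟨g, hg⟩ := Finset.nonempty_iff_ne_empty.2 hempty
      have hg' : g⁻¹ ∈ s.erase g := Finset.mem_erase.2 ⟨hfix g hg, hclosed g hg⟩
      have e1 : ∑ x ∈ s, f x = f g + (f g⁻¹ + ∑ x ∈ (s.erase g).erase g⁻¹, f x) := by
        rw [Finset.add_sum_erase (s.erase g) f hg', Finset.add_sum_erase s f hg]
      rw [e1, ← add_assoc]
      apply memLocalIdeal_add_lead hMprime
      · have e2 : f g + f g⁻¹ = f g * 2 + (f g⁻¹ - f g) := by ring
        rw [e2]
        exact memLocalIdeal_add_lead hMprime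
          (memLocalIdeal_mul_ring_lead hMprime (hfR g) h2) (hfinv g)
      · have hcard : ((s.erase g).erase g⁻¹).card < n := by
          rw [Finset.card_erase_of_mem hg', Finset.card_erase_of_mem hg, hs]
          have : 0 < s.card := Finset.card_pos.2 ⟨g, hg⟩
          omega
        apply ih _ hcard _ rfl
        · intro h hh
          rw [Finset.mem_erase, Finset.mem_erase] at hh ⊢
          refine ⟨?_, ?_, hclosed h hh.2.2⟩
          · intro e
            exact hh.2.1 (inv_injective e)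
          · intro e
            exact hh.1 (by rw [← e, inv_inv])
        · intro h hh
          exact hfix h (Finset.mem_of_mem_erase (Finset.mem_of_mem_erase hh))

theorem pair_sum_univ_h7 (M : Ideal Cfsg.AlgInt) (hMprime : M.IsPrime)
    (h2 : Cfsg.MemLocalIdeal M (2 : ℂ)) (f : G → ℂ)
    (hfR : ∀ g, Cfsg.MemLocalRing M (f g))
    (hfinv : ∀ g, Cfsg.MemLocalIdeal M (f g⁻¹ - f g))
    (hinvol : ∀ g : G, g ≠ 1 → g⁻¹ = g → Cfsg.MemLocalIdeal M (f g)) :
    Cfsg.MemLocalIdeal M (∑ g : G, f g - f 1) := by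
  have e1 := Finset.sum_filter_add_sum_filter_not Finset.univ (fun g : G => g⁻¹ ≠ g) f
  have h1 : (1 : G) ∈ Finset.univ.filter (fun g : G => ¬ g⁻¹ ≠ g) := by simp
  have e2 := Finset.add_sum_erase (Finset.univ.filter (fun g : G => ¬ g⁻¹ ≠ g)) f h1
  rw [← e1, ← e2]
  have e3 : (∑ x ∈ Finset.univ.filter (fun g : G => g⁻¹ ≠ g), f x +
      (f 1 + ∑ x ∈ (Finset.univ.filter (fun g : G => ¬ g⁻¹ ≠ g)).erase 1, f x)) - f 1 =
      ∑ x ∈ Finset.univ.filter (fun g : G => g⁻¹ ≠ g), f x +
      ∑ x ∈ (Finset.univ.filter (fun g : G => ¬ g⁻¹ ≠ g)).erase 1, f x := by ring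
  rw [e3]
  apply memLocalIdeal_add_lead hMprime
  · apply pair_sum_h7 M hMprime h2 f hfR hfinv _ _ rfl
    · intro g hg
      rw [Finset.mem_filter] at hg ⊢
      refine ⟨Finset.mem_univ _, ?_⟩
      rw [inv_inv]
      exact fun e => hg.2 e.symm
    · intro g hg
      exact (Finset.mem_filter.1 hg).2
  · apply memLocalIdeal_sum_lead hMprime
    intro g hg
    rw [Finset.mem_erase, Finset.mem_filter] at hg
    exact hinvol g hg.1 (not_not.1 hg.2.2)

/-- a `2`-block of full defect whose idempotent is inversion-symmetric and which is stable under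
`χ ↦ χ(g⁻¹)` on odd-order elements is the principal block -/
theorem principal_of_sym_h7 [Fintype (ConjClasses G)] [Fintype (Cfsg.IrrCharacter G)]
    (M : Ideal Cfsg.AlgInt) (hM : Cfsg.IsPModular 2 M) (B : Set (Cfsg.IrrCharacter G))
    (hB : Cfsg.IsPBlock M B) [DecidablePred (· ∈ B)]
    (hdef : Cfsg.blockDefect 2 B = (Nat.card G).factorization 2)
    (hsym : ∀ g : G, Odd (orderOf g) → Cfsg.blockCoeff B g⁻¹ = Cfsg.blockCoeff B g)
    (hstab : ∀ χ ∈ B, ∃ ψ ∈ B, ∀ g : G, Odd (orderOf g) →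
      (ψ : G → ℂ) g = (χ : G → ℂ) g⁻¹) :
    B = Cfsg.principalBlock M G := by
  haveI hp2 : Fact (Nat.Prime 2) := ⟨Nat.prime_two⟩
  have hMprime : M.IsPrime := hM.2.1.isPrime
  have hMtop : M ≠ ⊤ := hMprime.ne_top
  have hpM : ((2 : ℕ) : Cfsg.AlgInt) ∈ M := hM.2.2
  have h2I : Cfsg.MemLocalIdeal M (2 : ℂ) := by
    have h := memLocalIdeal_p_h7 2 M hM
    have e : ((2 : ℕ) : ℂ) = 2 := by norm_num
    rw [e] at h
    exact h
  obtain ⟨χ₀, hχ₀B, hχ₀inf, hmin⟩ := exists_min_h7 2 M hMprime B hB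
  obtain ⟨hχ₀1, hχ₀0⟩ := charDegree_irr χ₀.2
  have hm0 : (Cfsg.charDegree (χ₀ : G → ℂ)).factorization 2 = 0 := by
    unfold Cfsg.blockDefect at hdef
    rw [← hχ₀inf] at hdef
    have := val_le_h7 2 χ₀
    omega
  have hoddD : ¬ 2 ∣ Cfsg.charDegree (χ₀ : G → ℂ) := by
    intro h
    have := (Nat.Prime.dvd_iff_one_le_factorization Nat.prime_two hχ₀0).1 h
    omega
  have hdegM : ((Cfsg.charDegree (χ₀ : G → ℂ) : ℕ) : Cfsg.AlgInt) ∉ M :=
    natCast_not_mem_lead hMtop 2 _
      ((Nat.Prime.coprime_iff_not_dvd Nat.prime_two).2 hoddD).symm hpM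
  obtain ⟨D, hD⟩ : ∃ D : ℂ, D = (Cfsg.charDegree (χ₀ : G → ℂ) : ℂ) := ⟨_, rfl⟩
  have hD0 : D ≠ 0 := by rw [hD]; exact_mod_cast hχ₀0
  have hDinvR : Cfsg.MemLocalRing M D⁻¹ := by
    have h := memLocalRing_inv_lead hdegM
    rw [algInt_natCast_h7, ← hD] at h
    exact h
  rw [← hD] at hχ₀1
  have hB' := blockOf_eq_h7 M hMprime B hB χ₀ hχ₀B
  have hAR : ∀ g, Cfsg.MemLocalRing M (Cfsg.blockCoeff B g) := by
    intro g
    rw [hB']
    exact osima_lead 2 Nat.prime_two M hMprime hpM χ₀ g
  have hsing : ∀ g : G, 2 ∣ orderOf g → Cfsg.blockCoeff B g = 0 :=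
    fun g hg => blockCoeff_singular_h7 2 M hM B hB g hg
  have hsymAll : ∀ g : G, Cfsg.blockCoeff B g⁻¹ = Cfsg.blockCoeff B g := by
    intro g
    by_cases h : 2 ∣ orderOf g
    · rw [hsing g h, hsing g⁻¹ (by rw [orderOf_inv]; exact h)]
    · exact hsym g (Nat.not_even_iff_odd.1 (fun he => h (even_iff_two_dvd.1 he)))
  have hinvol : ∀ g : G, g ≠ 1 → g⁻¹ = g → 2 ∣ orderOf g := by
    intro g hg1 hinv
    have hsq : g ^ 2 = 1 := by
      rw [pow_two]
      nth_rewrite 1 [← hinv]
      exact inv_mul_cancel g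
    have h3 : orderOf g = 2 := orderOf_eq_prime hsq hg1
    rw [h3]
  have hzero := memLocalIdeal_zero_lead hMtop
  -- Step A
  have hA := pair_sum_univ_h7 M hMprime h2I (Cfsg.blockCoeff B) hAR
    (fun g => by rw [hsymAll g, sub_self]; exact hzero)
    (fun g hg1 hinv => by rw [hsing g (hinvol g hg1 hinv)]; exact hzero)
  -- Step B
  obtain ⟨ψ, hψB, hψ⟩ := hstab χ₀ hχ₀B
  have hodd1 : Odd (orderOf (1 : G)) := by rw [orderOf_one]; exact odd_one
  have hψ1 : (ψ : G → ℂ) 1 = D := by
    have h := hψ 1 hodd1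
    rw [inv_one, hχ₀1] at h
    exact h
  obtain ⟨F, hF⟩ : ∃ F : G → ℂ, F = fun g => D⁻¹ * (Cfsg.blockCoeff B g * (χ₀ : G → ℂ) g) :=
    ⟨_, rfl⟩
  have hFx : ∀ g, F g = D⁻¹ * (Cfsg.blockCoeff B g * (χ₀ : G → ℂ) g) := by intro g; rw [hF]
  have hχR : ∀ g, Cfsg.MemLocalRing M ((χ₀ : G → ℂ) g) := fun g =>
    memLocalRing_isIntegral_lead hMtop
      (isIntegral_isCharacter (isCharacter_of_isIrrCharacter χ₀.2) g)
  have hFR : ∀ g, Cfsg.MemLocalRing M (F g) := by
    intro g
    rw [hFx]
    exact memLocalRing_mul_lead hMprime hDinvR (memLocalRing_mul_lead hMprime (hAR g) (hχR g))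
  have hFcl : ∀ g h : G, F (h * g * h⁻¹) = F g := by
    intro g h
    rw [hFx, hFx, blockCoeff_classFun_lead, isClassFunction_of_irr χ₀.2 g h]
  have hsumF : ∑ g : G, F g = 1 := by
    have h := blockCoeff_sum_lead B χ₀
    rw [if_pos hχ₀B, hχ₀1] at h
    have e : ∑ g : G, F g = D⁻¹ * ∑ g : G, Cfsg.blockCoeff B g * (χ₀ : G → ℂ) g := by
      rw [Finset.mul_sum]
      exact Finset.sum_congr rfl (fun g _ => hFx g)
    rw [e, h, inv_mul_cancel₀ hD0]
  obtain ⟨E, hE⟩ : ∃ E : G → Prop, E = fun g =>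
      2 ∣ (Subgroup.centralizer ({g} : Set G)).index := ⟨_, rfl⟩
  have hEx : ∀ g, E g ↔ 2 ∣ (Subgroup.centralizer ({g} : Set G)).index := by
    intro g; rw [hE]
  have hEconj : ∀ g h : G, E (h * g * h⁻¹) ↔ E g := by
    intro g h
    rw [hEx, hEx, centralizer_index_conj_lead g h]
  have hEinv : ∀ g : G, E g⁻¹ ↔ E g := by
    intro g
    rw [hEx, hEx, centralizer_inv_h7]
  have hE1 : ¬ E 1 := by
    rw [hEx]
    have h1 : Subgroup.centralizer ({1} : Set G) = ⊤ := by
      ext d
      rw [Subgroup.mem_centralizer_iff]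
      constructor
      · intro _; exact Subgroup.mem_top d
      · intro _ y hy
        rw [Set.mem_singleton_iff] at hy
        rw [hy, one_mul, mul_one]
    rw [h1, Subgroup.index_top]
    norm_num
  classical
  -- the even part
  have hf3 : Cfsg.MemLocalIdeal M (∑ g : G, (if E g then F g else 0)) := by
    rw [sum_classFun_regroup_lead (fun g => if E g then F g else 0) (fun g h => by
      show (if E (h * g * h⁻¹) then F (h * g * h⁻¹) else 0) = (if E g then F g else 0)
      by_cases hEg : E g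
      · rw [if_pos hEg, if_pos ((hEconj g h).2 hEg), hFcl]
      · rw [if_neg hEg, if_neg (fun h' => hEg ((hEconj g h).1 h'))])]
    apply memLocalIdeal_sum_lead hMprime
    intro c _
    by_cases hEc : E (Quotient.out c)
    · rw [if_pos hEc]
      obtain ⟨j, hj⟩ := (hEx _).1 hEc
      rw [hj]
      have e : ((2 * j : ℕ) : ℂ) * F (Quotient.out c) = ((j : ℂ) * F (Quotient.out c)) * 2 := by
        push_cast; ring
      rw [e]
      have hjR := memLocalRing_int_h7 M hMtop (j : ℤ)
      rw [Int.cast_natCast] at hjR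
      exact memLocalIdeal_mul_ring_lead hMprime (memLocalRing_mul_lead hMprime hjR (hFR _)) h2I
    · rw [if_neg hEc, mul_zero]
      exact hzero
  -- the odd part
  have hf2 := pair_sum_univ_h7 M hMprime h2I (fun g => if E g then 0 else F g)
    (fun g => by
      show Cfsg.MemLocalRing M (if E g then 0 else F g)
      split_ifs
      · exact memLocalRing_zero_lead hMtop
      · exact hFR g)
    (fun g => by
      show Cfsg.MemLocalIdeal M ((if E g⁻¹ then 0 else F g⁻¹) - (if E g then 0 else F g))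
      by_cases hEg : E g
      · rw [if_pos hEg, if_pos ((hEinv g).2 hEg), sub_self]
        exact hzero
      · rw [if_neg hEg, if_neg (fun h' => hEg ((hEinv g).1 h'))]
        by_cases hs : 2 ∣ orderOf g
        · rw [hFx, hFx, hsing g hs, hsing g⁻¹ (by rw [orderOf_inv]; exact hs)]
          simp only [zero_mul, mul_zero, sub_self]
          exact hzero
        · have hodd : Odd (orderOf g) :=
            Nat.not_even_iff_odd.1 (fun he => hs (even_iff_two_dvd.1 he))
          have hval : (χ₀ : G → ℂ) g⁻¹ = (ψ : G → ℂ) g := (hψ g hodd).symm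
          have hsame := sameBlock_of_mem_h7 M hMprime B hB ψ χ₀ hψB hχ₀B g
          unfold Cfsg.centralChar at hsame
          rw [hψ1, hχ₀1] at hsame
          -- idx is odd
          have hidxM : (((Subgroup.centralizer ({g} : Set G)).index : ℕ) : Cfsg.AlgInt) ∉ M :=
            natCast_not_mem_lead hMtop 2 _
              ((Nat.Prime.coprime_iff_not_dvd Nat.prime_two).2
                (fun h' => hEg ((hEx g).2 h'))).symm hpM
          have hidx0 : (((Subgroup.centralizer ({g} : Set G)).index : ℕ) : ℂ) ≠ 0 := by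
            exact_mod_cast Subgroup.index_ne_zero_of_finite
          have h5 := memLocalIdeal_mul_ring_lead hMprime (memLocalRing_inv_lead hidxM) hsame
          rw [algInt_natCast_h7] at h5
          have h6 := memLocalIdeal_mul_ring_lead hMprime (hAR g) h5
          have e : F g⁻¹ - F g = Cfsg.blockCoeff B g *
              ((((Subgroup.centralizer ({g} : Set G)).index : ℕ) : ℂ)⁻¹ *
              ((((Subgroup.centralizer ({g} : Set G)).index : ℕ) : ℂ) * (ψ : G → ℂ) g / D -
               (((Subgroup.centralizer ({g} : Set G)).index : ℕ) : ℂ) * (χ₀ : G → ℂ) g / D)) := by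
            rw [hFx, hFx, hsymAll g, hval]
            field_simp
          rw [e]
          exact h6)
    (fun g hg1 hinv => by
      show Cfsg.MemLocalIdeal M (if E g then 0 else F g)
      split_ifs
      · exact hzero
      · rw [hFx, hsing g (hinvol g hg1 hinv), zero_mul, mul_zero]
        exact hzero)
  have hf2' : Cfsg.MemLocalIdeal M (∑ g : G, (if E g then 0 else F g) -
      Cfsg.blockCoeff B 1) := by
    have e : (if E 1 then 0 else F 1) = Cfsg.blockCoeff B 1 := by
      rw [if_neg hE1, hFx, hχ₀1]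
      field_simp
    rw [e] at hf2
    exact hf2
  have hone : Cfsg.MemLocalIdeal M (1 - Cfsg.blockCoeff B 1) := by
    have e : (1 : ℂ) - Cfsg.blockCoeff B 1 = ∑ g : G, (if E g then F g else 0) +
        (∑ g : G, (if E g then 0 else F g) - Cfsg.blockCoeff B 1) := by
      rw [← hsumF, ← add_sub_assoc, ← Finset.sum_add_distrib]
      congr 1
      apply Finset.sum_congr rfl
      intro g _
      by_cases hEg : E g
      · rw [if_pos hEg, if_pos hEg, add_zero]
      · rw [if_neg hEg, if_neg hEg, zero_add]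
    rw [e]
    exact memLocalIdeal_add_lead hMprime hf3 hf2'
  -- Step C
  obtain ⟨η, hη⟩ : ∃ η : Cfsg.IrrCharacter G, (η : G → ℂ) = fun _ => 1 :=
    ⟨⟨fun _ => 1, isIrrCharacter_one G⟩, rfl⟩
  by_cases hηB : η ∈ B
  · rw [blockOf_eq_h7 M hMprime B hB η hηB, hη]
    rfl
  · exfalso
    have h := blockCoeff_sum_lead B η
    rw [if_neg hηB] at h
    have e : ∑ g : G, Cfsg.blockCoeff B g = 0 := by
      rw [← h]
      apply Finset.sum_congr rfl
      intro g _
      rw [hη, mul_one]
    rw [e, zero_sub] at hA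
    have hA' := memLocalIdeal_neg_lead hA
    rw [neg_neg] at hA'
    have h1 := memLocalIdeal_add_lead hMprime hone hA'
    rw [sub_add_cancel] at h1
    exact not_memLocalIdeal_one_h7 hMprime h1

end realblock

end Cfsg.Agent.Lib.Helper7
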