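import Mathlib
import Cfsg.Agent.Lib.Helper7.GalConj
import Cfsg.Agent.Lib.Helper7.CharExt
import Cfsg.Agent.Lib.Helper7.McKayCop
import Cfsg.Agent.Lib.Helper7.FrobRam
import Cfsg.Agent.Lib.Helper8.CharQuotient
import Cfsg.Agent.Lib.Lead.CharCliffordCorr
import Cfsg.Agent.Lib.Lead.CharGallagher
import Cfsg.Agent.Lib.Lead.CharPerm
import Cfsg.Agent.S0888

set_option autoImplicit false
open scoped BigOperators ComplexConjugate

namespace Cfsg.Agent.Lib.Helper7
open Cfsg.Agent.Lib.Lead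

universe u

/-- `k`-th powers invert the elements of odd order. -/
def InvOdd (G : Type*) [Group G] (k : ℕ) : Prop := ∀ g : G, Odd (orderOf g) → g ^ k = g⁻¹

theorem odd_hom_pow {G H : Type*} [Group G] [Finite G] [Group H] {k : ℕ} (hk : InvOdd G k)
    (f : G →* H) (g : G) (hodd : Odd (orderOf (f g))) : (f g) ^ (k + 1) = 1 := by
  have hn : orderOf g ≠ 0 := (orderOf_pos g).ne'
  obtain ⟨s, t, ht, hst⟩ := Nat.exists_eq_two_pow_mul_odd hn
  have hy : Odd (orderOf (g ^ (2 ^ s))) := by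
    have : orderOf (g ^ (2 ^ s)) ∣ t :=
      orderOf_dvd_of_pow_eq_one (by rw [← pow_mul, ← hst, pow_orderOf_eq_one])
    exact Odd.of_dvd_nat ht this
  have h1 := hk _ hy
  have h2 : g ^ ((k + 1) * 2 ^ s) = 1 := by
    rw [mul_comm, pow_mul, pow_succ, h1, inv_mul_cancel]
  have h3 : (f g) ^ ((k + 1) * 2 ^ s) = 1 := by rw [← map_pow, h2, map_one]
  have h4 : orderOf (f g) ∣ (k + 1) * 2 ^ s := orderOf_dvd_of_pow_eq_one h3
  have h5 : Nat.Coprime (orderOf (f g)) (2 ^ s) :=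
    Nat.Coprime.pow_right s (Nat.coprime_two_right.2 hodd)
  exact orderOf_dvd_iff_pow_eq_one.1 (h5.dvd_of_dvd_mul_right h4)

theorem invOdd_subgroup {G : Type*} [Group G] {k : ℕ} (hk : InvOdd G k) (H : Subgroup G) :
    InvOdd H k := by
  intro g hg
  apply Subtype.ext
  rw [Subgroup.coe_pow, Subgroup.coe_inv]
  exact hk _ (by rw [Subgroup.orderOf_coe]; exact hg)

theorem classInner_pow {H : Type*} [Group H] [Fintype H] (f₁ f₂ : H → ℂ) (k : ℕ)
    (hk : k.Coprime (Nat.card H)) :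
    Cfsg.classInner (fun h => f₁ (h ^ k)) (fun h => f₂ (h ^ k)) = Cfsg.classInner f₁ f₂ := by
  unfold Cfsg.classInner
  congr 1
  exact Equiv.sum_comp (powCoprime hk.symm) (fun g => f₁ g * conj (f₂ g))

theorem indFun_pow {G : Type*} [Group G] [Fintype G] (T : Subgroup G) (f : T → ℂ) (k : ℕ)
    (hk : k.Coprime (Nat.card G)) (g : G) :
    Cfsg.indFun T f (g ^ k) = Cfsg.indFun T (fun t => f (t ^ k)) g := by
  unfold Cfsg.indFun
  congr 1
  refine Finset.sum_congr rfl fun x _ => ?_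
  have hconj : x⁻¹ * g ^ k * x = (x⁻¹ * g * x) ^ k := by
    have h := conj_pow (a := x⁻¹) (b := g) (i := k)
    rw [inv_inv] at h; exact h.symm
  rw [hconj]
  by_cases hy : x⁻¹ * g * x ∈ T
  · rw [extendByZero_mem T _ (T.pow_mem hy k), extendByZero_mem T _ hy]
    congr 1
  · have hy' : (x⁻¹ * g * x) ^ k ∉ T := by
      intro hmem
      have hcop : Nat.Coprime k (orderOf (x⁻¹ * g * x)) :=
        Nat.Coprime.coprime_dvd_right (orderOf_dvd_natCard _) hk
      obtain ⟨m, hm⟩ := exists_pow_eq_self_of_coprime hcop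
      exact hy (by rw [← hm]; exact T.pow_mem hmem m)
    rw [extendByZero_not_mem T _ hy', extendByZero_not_mem T _ hy]

/-- Odd index, an irreducible extension `χ₀` of a `σ`-fixed character: there is a unique
`σ`-fixed extension. -/
theorem sig_ext_uniq {G : Type u} [Group G] [Fintype G] (N : Subgroup G) [hN : N.Normal]
    [Fintype N] (hodd : Odd N.index) (k : ℕ) (hk : k.Coprime (Nat.card G)) (hinv : InvOdd G k)
    {χ₀ : G → ℂ} (h0 : Cfsg.IsIrrCharacter G χ₀)
    (h0N : Cfsg.IsIrrCharacter N (fun n : N => χ₀ n))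
    (hfix : ∀ n : N, χ₀ ((n : G) ^ k) = χ₀ n) :
    ∃ χ : G → ℂ, (Cfsg.IsIrrCharacter G χ ∧ (∀ n : N, χ n = χ₀ n) ∧ ∀ g, χ (g ^ k) = χ g) ∧
      ∀ χ' : G → ℂ, Cfsg.IsIrrCharacter G χ' → (∀ n : N, χ' n = χ₀ n) →
        (∀ g, χ' (g ^ k) = χ' g) → χ' = χ := by
  classical
  have hσ : Cfsg.IsIrrCharacter G (fun g => χ₀ (g ^ k)) := isIrr_pow_coprime h0 k hk
  obtain ⟨μ, hμN, hμ⟩ := gallagher_ext N h0 hσ h0N (fun n => hfix n)
  have hμg : ∀ g, χ₀ (g ^ k) = (μ g : ℂ) * χ₀ g := fun g => congrFun hμ g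
  obtain ⟨c, hc⟩ := hodd
  -- linear characters trivial on N have odd order
  have hlamm : ∀ lam : G →* ℂˣ, (∀ x ∈ N, lam x = 1) → ∀ g, lam g ^ N.index = 1 := by
    intro lam hl g
    rw [← map_pow]
    exact hl _ (Subgroup.pow_index_mem N g)
  have hlamk : ∀ lam : G →* ℂˣ, (∀ x ∈ N, lam x = 1) → ∀ g, lam (g ^ k) = (lam g)⁻¹ := by
    intro lam hl g
    have hoddo : Odd (orderOf (lam g)) :=
      Odd.of_dvd_nat ⟨c, hc⟩ (orderOf_dvd_of_pow_eq_one (hlamm lam hl g))
    have h1 := odd_hom_pow hinv lam g hoddo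
    rw [map_pow]
    exact eq_inv_of_mul_eq_one_left (by rw [← pow_succ]; exact h1)
  let lam : G →* ℂˣ := μ ^ (c + 1)
  have hlamN : ∀ x ∈ N, lam x = 1 := by
    intro x hx
    show μ x ^ (c + 1) = 1
    rw [hμN x hx, one_pow]
  have hlam2 : ∀ g, lam g * lam g = μ g := by
    intro g
    show μ g ^ (c + 1) * μ g ^ (c + 1) = μ g
    have h1 := hlamm μ hμN g
    rw [hc] at h1
    rw [← pow_add, show c + 1 + (c + 1) = (2 * c + 1) + 1 by ring, pow_succ, h1, one_mul]
  refine ⟨fun g => (lam g : ℂ) * χ₀ g, ⟨isIrr_twist lam h0, ?_, ?_⟩, ?_⟩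
  · intro n
    show (lam (n : G) : ℂ) * χ₀ n = χ₀ n
    rw [hlamN _ n.2, Units.val_one, one_mul]
  · intro g
    show (lam (g ^ k) : ℂ) * χ₀ (g ^ k) = (lam g : ℂ) * χ₀ g
    rw [hlamk lam hlamN g, hμg g, ← hlam2 g]
    push_cast
    have hne : (lam g : ℂ) ≠ 0 := Units.ne_zero _
    field_simp
  · intro χ' hχ' hres' hfix'
    obtain ⟨lam', hl'N, hl'⟩ := gallagher_ext N h0 hχ' h0N hres'
    have hl'g : ∀ g, χ' g = (lam' g : ℂ) * χ₀ g := fun g => congrFun hl' g
    have heq : (fun g => ((lam'⁻¹ * μ) g : ℂ) * χ₀ g) = fun g => (lam' g : ℂ) * χ₀ g := by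
      funext g
      have h1 := hfix' g
      rw [hl'g (g ^ k), hl'g g, hlamk lam' hl'N g, hμg g] at h1
      rw [MonoidHom.mul_apply, MonoidHom.inv_apply, Units.val_mul, mul_assoc]
      exact h1
    have hmul : lam'⁻¹ * μ = lam' :=
      gallagher_uniq N h0 h0N (lam'⁻¹ * μ) lam'
        (fun x hx => by rw [MonoidHom.mul_apply, MonoidHom.inv_apply, hl'N x hx, hμN x hx]; simp)
        hl'N heq
    have hll : lam' = lam := by
      ext g
      congr 1
      have h1 : lam' g * lam' g = μ g := by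
        have := congrArg (fun f : G →* ℂˣ => f g) hmul
        simp only [MonoidHom.mul_apply, MonoidHom.inv_apply] at this
        calc lam' g * lam' g = lam' g * ((lam' g)⁻¹ * μ g) := by conv_rhs => rw [this]
          _ = μ g := by group
      have h2 : (lam' g * (lam g)⁻¹) ^ 2 = 1 := by
        rw [mul_pow, inv_pow, pow_two, pow_two, h1, hlam2 g, mul_inv_cancel]
      have h3 : (lam' g * (lam g)⁻¹) ^ N.index = 1 := by
        rw [mul_pow, inv_pow, hlamm lam' hl'N g, hlamm lam hlamN g]; simp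
      have h4 : lam' g * (lam g)⁻¹ = 1 := by
        rw [hc] at h3
        rw [pow_succ, pow_mul, h2, one_pow, one_mul] at h3
        exact h3
      exact mul_inv_eq_one.1 h4
    funext g
    rw [hl'g g, hll]

/-- `σ`-fixed characters extend uniquely (as `σ`-fixed characters) up a `p`-power index normal
tower, `p` odd. -/
theorem sig_tower (p : ℕ) (hp : p.Prime) (hp2 : p ≠ 2) (k : ℕ) :
    ∀ (r : ℕ) (G : Type u) [Group G] [Finite G] (K : Subgroup G) [hK : K.Normal],
      K.index = p ^ r → k.Coprime (Nat.card G) → InvOdd G k →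
      ∀ (θ : K → ℂ), Cfsg.IsIrrCharacter K θ →
      (∀ (g : G) (x : K), θ ⟨g * x * g⁻¹, hK.conj_mem (x : G) x.2 g⟩ = θ x) →
      (∀ x : K, θ (x ^ k) = θ x) →
      ∃ χ : G → ℂ, (Cfsg.IsIrrCharacter G χ ∧ (∀ x : K, χ x = θ x) ∧ ∀ g, χ (g ^ k) = χ g) ∧
        ∀ χ' : G → ℂ, Cfsg.IsIrrCharacter G χ' → (∀ x : K, χ' x = θ x) →
          (∀ g, χ' (g ^ k) = χ' g) → χ' = χ := by
  intro r
  induction r with
  | zero =>
    intro G _ _ K hK hidx hk hinvk θ hθ hinv hfix
    have hmem : ∀ g : G, g ∈ K := by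
      have htop : K = ⊤ := by rw [pow_zero] at hidx; exact Subgroup.index_eq_one.1 hidx
      intro g; rw [htop]; trivial
    let f : G →* K :=
      { toFun := fun g => ⟨g, hmem g⟩, map_one' := rfl, map_mul' := fun _ _ => rfl }
    have hf : Function.Surjective f := fun x => ⟨x, Subtype.ext rfl⟩
    refine ⟨θ ∘ f, ⟨isIrrCharacter_comp_surj f hf hθ, fun x => ?_, fun g => ?_⟩, ?_⟩
    · show θ (f x) = θ x
      congr 1
    · show θ (f (g ^ k)) = θ (f g)
      rw [map_pow]; exact hfix _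
    · intro χ' _ hχ' _
      funext g
      exact hχ' (f g)
  | succ r ih =>
    intro G _ _ K hK hidx hk hinvk θ hθ hinv hfix
    classical
    haveI : Fact p.Prime := ⟨hp⟩
    obtain ⟨M, hMn, hKM, hMidx⟩ : ∃ M : Subgroup G, M.Normal ∧ K ≤ M ∧ M.index = p := by
      have hcardQ : Nat.card (G ⧸ K) = p ^ (r + 1) := by
        rw [← Subgroup.index_eq_card]; exact hidx
      obtain ⟨H, hH⟩ := Sylow.exists_subgroup_card_pow_prime p (n := r) (G := G ⧸ K)
        (by rw [hcardQ]; exact pow_dvd_pow p (Nat.le_succ r))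
      have hHidx : H.index = p := by
        have h1 := Subgroup.card_mul_index H
        rw [hH, hcardQ, pow_succ] at h1
        exact Nat.eq_of_mul_eq_mul_left (pow_pos hp.pos r) h1
      have hHn : H.Normal := by
        apply Subgroup.normal_of_index_eq_minFac_card
        rw [hHidx, hcardQ, Nat.pow_minFac (Nat.succ_ne_zero r), Nat.Prime.minFac_eq hp]
      refine ⟨H.comap (QuotientGroup.mk' K), hHn.comap _, ?_, ?_⟩
      · intro x hx
        rw [Subgroup.mem_comap]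
        have h2 : (QuotientGroup.mk' K) x = 1 := (QuotientGroup.eq_one_iff x).2 hx
        rw [h2]; exact H.one_mem
      · rw [Subgroup.index_comap_of_surjective H (QuotientGroup.mk'_surjective K)]
        exact hHidx
    haveI := hMn
    have hrel : (K.subgroupOf M).index = p ^ r := by
      have h1 := Subgroup.relIndex_mul_index hKM
      rw [hidx, hMidx, pow_succ] at h1
      exact Nat.eq_of_mul_eq_mul_right hp.pos h1
    let e : K.subgroupOf M →* K := (Subgroup.subgroupOfEquivOfLe hKM).toMonoidHom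
    have hesurj : Function.Surjective e := (Subgroup.subgroupOfEquivOfLe hKM).surjective
    have hθ' : Cfsg.IsIrrCharacter (K.subgroupOf M) (θ ∘ e) :=
      isIrrCharacter_comp_surj e hesurj hθ
    have hθ'inv : ∀ (g : M) (x : K.subgroupOf M),
        (θ ∘ e) ⟨g * x * g⁻¹,
          (inferInstance : (K.subgroupOf M).Normal).conj_mem (x : M) x.2 g⟩ = (θ ∘ e) x := by
      intro g x
      show θ (e ⟨g * x * g⁻¹, _⟩) = θ (e x)
      rw [← hinv (g : G) (e x)]
      congr 1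
    have hkM : k.Coprime (Nat.card M) :=
      Nat.Coprime.coprime_dvd_right (Subgroup.card_subgroup_dvd_card M) hk
    have hinvM : InvOdd M k := invOdd_subgroup hinvk M
    have hθ'fix : ∀ x : K.subgroupOf M, (θ ∘ e) (x ^ k) = (θ ∘ e) x := by
      intro x
      show θ (e (x ^ k)) = θ (e x)
      rw [map_pow]; exact hfix _
    obtain ⟨ψ, ⟨hψ, hψK, hψfix⟩, hψuniq⟩ :=
      ih M (K.subgroupOf M) hrel hkM hinvM (θ ∘ e) hθ' hθ'inv hθ'fix
    have hψinv : ∀ (g : G) (x : M),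
        ψ ⟨g * x * g⁻¹, hMn.conj_mem (x : G) x.2 g⟩ = ψ x := by
      intro g x
      have h1 : ψ ∘ conjHom M g = ψ := by
        apply hψuniq
        · exact isIrrCharacter_conjHom M g hψ
        · intro y
          have hmem : conjHom M g (y : M) ∈ K.subgroupOf M := by
            rw [Subgroup.mem_subgroupOf]
            exact hK.conj_mem _ (Subgroup.mem_subgroupOf.1 y.2) g
          have h2 := hψK ⟨conjHom M g (y : M), hmem⟩
          show ψ (conjHom M g (y : M)) = θ (e y)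
          rw [h2]
          show θ (e ⟨conjHom M g (y : M), hmem⟩) = θ (e y)
          rw [← hinv g (e y)]
          congr 1
        · intro x
          show ψ (conjHom M g (x ^ k)) = ψ (conjHom M g x)
          rw [map_pow]; exact hψfix _
      exact congrFun h1 x
    obtain ⟨χ₀, hχ₀, hχ₀M⟩ := ext_prime_index p hp M hMidx ψ hψ hψinv
    haveI : Fintype G := Fintype.ofFinite G
    haveI : Fintype M := Fintype.ofFinite M
    have hMres : (fun n : M => χ₀ n) = ψ := funext hχ₀M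
    have hoddM : Odd M.index := by rw [hMidx]; exact hp.odd_of_ne_two hp2
    obtain ⟨χ, ⟨hχ, hχM, hχfix⟩, hχuniq⟩ := sig_ext_uniq M hoddM k hk hinvk hχ₀
      (by rw [hMres]; exact hψ)
      (fun n => by
        have h1 : χ₀ ((n : G) ^ k) = ψ (n ^ k) := by rw [← hχ₀M (n ^ k)]; rfl
        rw [h1, hψfix n, hχ₀M n])
    have hext : ∀ (φ : G → ℂ), (∀ x : M, φ x = ψ x) → ∀ x : K, φ x = θ x := by
      intro φ hφ x
      have h1 := hφ ⟨x, hKM x.2⟩
      have h2 := hψK ⟨⟨x, hKM x.2⟩, Subgroup.mem_subgroupOf.2 x.2⟩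
      have h3 : φ (x : G) = ψ ⟨x, hKM x.2⟩ := h1
      rw [h3]
      have h4 : ψ ⟨x, hKM x.2⟩ = θ (e ⟨⟨x, hKM x.2⟩, Subgroup.mem_subgroupOf.2 x.2⟩) := h2
      rw [h4]
      congr 1
    refine ⟨χ, ⟨hχ, hext χ (fun x => by rw [hχM x, hχ₀M x]), hχfix⟩, ?_⟩
    intro χ' hχ' hχ'K hχ'fix
    have hχ'c := isCharacter_of_isIrrCharacter hχ'
    have hres : (fun y : M => χ' y) = ψ := by
      apply hψuniq
      · apply irr_of_restrict_irr (K.subgroupOf M) (isCharacter_restrict M hχ'c)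
        have h1 : (fun h : K.subgroupOf M => (fun y : M => χ' y) h) = θ ∘ e := by
          funext h
          show χ' ((h : M) : G) = θ (e h)
          exact hχ'K (e h)
        rw [h1]; exact hθ'
      · intro y
        show χ' ((y : M) : G) = θ (e y)
        exact hχ'K (e y)
      · intro x
        show χ' (((x ^ k : M) : G)) = χ' (x : G)
        rw [Subgroup.coe_pow]; exact hχ'fix _
    exact hχuniq χ' hχ' (fun x => by rw [hχ₀M x]; exact congrFun hres x) hχ'fix

/-- Invariant case: odd index, `θ` invariant and `σ`-fixed: a unique `σ`-fixed irreducible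
character lies over `θ`, and it extends `θ`. -/
theorem sig_inv {G : Type u} [Group G] [Fintype G] (N : Subgroup G) [hN : N.Normal]
    [Fintype N] (hodd : Odd N.index) (k : ℕ) (hk : k.Coprime (Nat.card G)) (hinv : InvOdd G k)
    (θ : N → ℂ) (hθ : Cfsg.IsIrrCharacter N θ)
    (hθinv : ∀ (g : G) (n : N), θ ⟨g * n * g⁻¹, hN.conj_mem (n : G) n.2 g⟩ = θ n)
    (hθfix : ∀ n : N, θ (n ^ k) = θ n) :
    ∃ χ : G → ℂ, (Cfsg.IsIrrCharacter G χ ∧ (∀ n : N, χ n = θ n) ∧ ∀ g, χ (g ^ k) = χ g) ∧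
      ∀ χ' : G → ℂ, Cfsg.IsIrrCharacter G χ' → Cfsg.classInner (fun n : N => χ' n) θ ≠ 0 →
        (∀ g, χ' (g ^ k) = χ' g) → χ' = χ := by
  classical
  have hsyl : ∀ p : ℕ, p.Prime → ∃ (P : Subgroup G) (hNP : N ≤ P) (η : P → ℂ),
      Nat.Coprime P.index p ∧ (∃ j : ℕ, N.relIndex P = p ^ j) ∧ Cfsg.IsIrrCharacter P η ∧
        ∀ n : N, η ⟨(n : G), hNP n.2⟩ = θ n := by
    intro p hp
    by_cases hp2 : p = 2
    · subst hp2
      refine ⟨N, le_refl N, θ, ?_, ⟨0, ?_⟩, hθ, fun n => rfl⟩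
      · exact Nat.coprime_two_right.2 hodd
      · rw [Subgroup.relIndex_self, pow_zero]
    · haveI : Fact p.Prime := ⟨hp⟩
      obtain ⟨Q⟩ : Nonempty (Sylow p (G ⧸ N)) := inferInstance
      let P : Subgroup G := (Q : Subgroup (G ⧸ N)).comap (QuotientGroup.mk' N)
      have hNP : N ≤ P := by
        intro x hx
        show (QuotientGroup.mk' N) x ∈ (Q : Subgroup (G ⧸ N))
        have h2 : (QuotientGroup.mk' N) x = 1 := (QuotientGroup.eq_one_iff x).2 hx
        rw [h2]; exact Subgroup.one_mem _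
      have hPidx : P.index = (Q : Subgroup (G ⧸ N)).index :=
        Subgroup.index_comap_of_surjective _ (QuotientGroup.mk'_surjective N)
      have hQndvd : ¬ p ∣ (Q : Subgroup (G ⧸ N)).index := Q.not_dvd_index
      obtain ⟨j, hj⟩ := Q.isPGroup'.exists_card_eq
      have hrel : N.relIndex P = p ^ j := by
        have h1 := Subgroup.relIndex_mul_index hNP
        have h2 := Subgroup.card_mul_index (Q : Subgroup (G ⧸ N))
        rw [← Subgroup.index_eq_card N] at h2
        rw [← h2, hPidx] at h1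
        have hpos : 0 < (Q : Subgroup (G ⧸ N)).index :=
          Nat.pos_of_ne_zero Subgroup.index_ne_zero_of_finite
        rw [← hj]; exact Nat.eq_of_mul_eq_mul_right hpos h1
      let e : N.subgroupOf P →* N := (Subgroup.subgroupOfEquivOfLe hNP).toMonoidHom
      have hesurj : Function.Surjective e := (Subgroup.subgroupOfEquivOfLe hNP).surjective
      have hθ' : Cfsg.IsIrrCharacter (N.subgroupOf P) (θ ∘ e) :=
        isIrrCharacter_comp_surj e hesurj hθ
      have hθ'inv : ∀ (g : P) (x : N.subgroupOf P),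
          (θ ∘ e) ⟨g * x * g⁻¹,
            (inferInstance : (N.subgroupOf P).Normal).conj_mem (x : P) x.2 g⟩ = (θ ∘ e) x := by
        intro g x
        show θ (e ⟨g * x * g⁻¹, _⟩) = θ (e x)
        rw [← hθinv (g : G) (e x)]
        congr 1
      have hkP : k.Coprime (Nat.card P) :=
        Nat.Coprime.coprime_dvd_right (Subgroup.card_subgroup_dvd_card P) hk
      have hθ'fix : ∀ x : N.subgroupOf P, (θ ∘ e) (x ^ k) = (θ ∘ e) x := by
        intro x
        show θ (e (x ^ k)) = θ (e x)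
        rw [map_pow]; exact hθfix _
      obtain ⟨η, ⟨hη, hηN, -⟩, -⟩ := sig_tower p hp hp2 k j P (N.subgroupOf P) hrel hkP
        (invOdd_subgroup hinv P) (θ ∘ e) hθ' hθ'inv hθ'fix
      refine ⟨P, hNP, η, ?_, ⟨j, hrel⟩, hη, ?_⟩
      · rw [hPidx]; exact ((Nat.Prime.coprime_iff_not_dvd hp).2 hQndvd).symm
      · intro n
        have h2 := hηN ⟨⟨n, hNP n.2⟩, Subgroup.mem_subgroupOf.2 n.2⟩
        have h3 : η ⟨(n : G), hNP n.2⟩ =
            θ (e ⟨⟨n, hNP n.2⟩, Subgroup.mem_subgroupOf.2 n.2⟩) := h2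
        rw [h3]
        congr 1
  obtain ⟨χ₀, hχ₀, hχ₀N⟩ := Cfsg.Agent.S0888.result N θ hθ hθinv hsyl
  have hNres : (fun n : N => χ₀ n) = θ := funext hχ₀N
  obtain ⟨χ, ⟨hχ, hχN, hχfix⟩, hχuniq⟩ := sig_ext_uniq N hodd k hk hinv hχ₀
    (by rw [hNres]; exact hθ)
    (fun n => by
      have h1 : χ₀ ((n : G) ^ k) = θ (n ^ k) := by rw [← hχ₀N (n ^ k)]; rfl
      rw [h1, hθfix n, hχ₀N n])
  have hχθ : ∀ n : N, χ n = θ n := fun n => by rw [hχN n, hχ₀N n]
  refine ⟨χ, ⟨hχ, hχθ, hχfix⟩, ?_⟩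
  intro χ' hχ' hover hfix'
  have hχc := isCharacter_of_isIrrCharacter hχ
  have hprod : (fun _ : N => (1 : ℂ)) * (fun n : N => χ n) = θ := by
    funext n
    show (1 : ℂ) * χ n = θ n
    rw [one_mul, hχθ n]
  obtain ⟨hg1, -, hg3⟩ := gallagher_core N (fun _ : N => (1 : ℂ)) (isIrrCharacter_one N)
    (fun _ _ => rfl) χ hχc (by rw [hprod]; exact hθ)
  have hχ'cl := isClassFunction_of_irr hχ'
  have hind : Cfsg.classInner
      (Cfsg.indFun N ((fun _ : N => (1 : ℂ)) * fun n : N => χ n)) χ' ≠ 0 := by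
    rw [hprod, frobenius_reciprocity N θ χ' hχ'cl, ← classInner_conj_symm]
    exact fun h => hover ((map_eq_zero _).1 h)
  obtain ⟨β, hβ, hβ1, hχ'β⟩ := hg3 χ' hχ' hind
  have hβcl := isClassFunction_of_irr hβ
  have hβover : Cfsg.classInner (fun n : N => β n) (fun _ : N => (1 : ℂ)) ≠ 0 := by
    intro h
    apply hβ1
    rw [frobenius_reciprocity N _ β hβcl, ← classInner_conj_symm, h, map_zero]
  have hβN : ∀ x ∈ N, β x = β 1 := by
    intro x hx
    have h1 := clifford_inv N hβ (fun _ : N => (1 : ℂ)) (isIrrCharacter_one N)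
      (fun _ _ => rfl) hβover
    have h2 := h1 ⟨x, hx⟩
    have h3 := h1 1
    simp only [mul_one] at h2 h3
    have h4 : β x = β ((⟨x, hx⟩ : N) : G) := rfl
    have h5 : β 1 = β ((1 : N) : G) := rfl
    rw [h4, h5, h2, h3]
  have hβσ : Cfsg.IsIrrCharacter G (fun g => β (g ^ k)) := isIrr_pow_coprime hβ k hk
  have hβσ1 : Cfsg.classInner (Cfsg.indFun N (fun _ : N => (1 : ℂ)))
      (fun g => β (g ^ k)) ≠ 0 := by
    rw [frobenius_reciprocity N _ _ (isClassFunction_of_irr hβσ)]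
    have hh : (fun h : N => (fun g => β (g ^ k)) (h : G)) = fun h : N => β h := by
      funext h
      show β ((h : G) ^ k) = β h
      rw [hβN _ (N.pow_mem h.2 k), hβN _ h.2]
    rw [hh, ← frobenius_reciprocity N _ β hβcl]; exact hβ1
  have hfixβ : (fun g => β (g ^ k)) = β := by
    have h1 := hg1 (fun g => β (g ^ k)) β hβσ hβ hβσ1 hβ1
    have h2 : (fun g => β (g ^ k)) * χ = β * χ := by
      funext g
      show β (g ^ k) * χ g = β g * χ g
      have e1 : χ' (g ^ k) = β (g ^ k) * χ (g ^ k) := by rw [hχ'β]; rfl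
      have e2 : χ' g = β g * χ g := by rw [hχ'β]; rfl
      rw [← e2, ← hfix' g, e1, hχfix g]
    rw [h2, ← hχ'β, classInner_irr_self hχ'] at h1
    by_contra hne
    rw [if_neg hne] at h1
    exact one_ne_zero h1
  obtain ⟨φ', hφ', hβφ'⟩ := Cfsg.Agent.Lib.Helper8.irr_deflate N hβ hβN
  have hoddQ : Odd (Nat.card (G ⧸ N)) := by rw [← Subgroup.index_eq_card]; exact hodd
  have hreal : ∀ x : G ⧸ N, (φ' x).im = 0 := by
    intro x
    obtain ⟨g, rfl⟩ := QuotientGroup.mk'_surjective N x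
    have hox : Odd (orderOf ((QuotientGroup.mk' N) g)) :=
      Odd.of_dvd_nat hoddQ (orderOf_dvd_natCard _)
    have h1 := odd_hom_pow hinv (QuotientGroup.mk' N) g hox
    have h2 : ((QuotientGroup.mk' N) g) ^ k = ((QuotientGroup.mk' N) g)⁻¹ :=
      eq_inv_of_mul_eq_one_left (by rw [← pow_succ]; exact h1)
    have h3 : φ' (((QuotientGroup.mk' N) g)⁻¹) = φ' ((QuotientGroup.mk' N) g) := by
      rw [← h2, ← map_pow]
      have e1 : φ' ((QuotientGroup.mk' N) (g ^ k)) = β (g ^ k) := by rw [hβφ']; rfl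
      have e2 : φ' ((QuotientGroup.mk' N) g) = β g := by rw [hβφ']; rfl
      rw [e1, e2]; exact congrFun hfixβ g
    rw [isCharacter_inv (isCharacter_of_isIrrCharacter hφ')] at h3
    exact Complex.conj_eq_iff_im.1 h3
  have hφ1 : φ' = fun _ => 1 := real_irr_trivial_of_odd hoddQ ⟨φ', hφ'⟩ hreal
  have hβ1' : β = fun _ => 1 := by
    rw [hβφ', hφ1]; rfl
  rw [hχ'β, hβ1']
  funext g
  show (1 : ℂ) * χ g = χ g
  rw [one_mul]

/-- Odd index, `θ ∈ Irr(N)` fixed by `σ` (`k`-th power map, inverting odd-order elements):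
exactly one `σ`-fixed irreducible character of `G` lies over `θ`; it extends `θ` when `θ` is
`G`-invariant. -/
theorem sig_main {G : Type u} [Group G] [Fintype G] (N : Subgroup G) [hN : N.Normal]
    [Fintype N] (hidx : Odd N.index) (k : ℕ) (hk : Nat.Coprime k (Nat.card G))
    (hinv : InvOdd G k) (θ : N → ℂ) (hθ : Cfsg.IsIrrCharacter N θ)
    (hθfix : ∀ n : N, θ (n ^ k) = θ n) :
    ∃ χ : G → ℂ, Cfsg.IsIrrCharacter G χ ∧ Cfsg.classInner (fun n : N => χ n) θ ≠ 0 ∧
      (∀ g, χ (g ^ k) = χ g) ∧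
      ((∀ g : G, ∀ n : N, θ ⟨g * n * g⁻¹, hN.conj_mem n n.2 g⟩ = θ n) →
        ∀ n : N, χ n = θ n) ∧
      ∀ χ' : G → ℂ, Cfsg.IsIrrCharacter G χ' → Cfsg.classInner (fun n : N => χ' n) θ ≠ 0 →
        (∀ g, χ' (g ^ k) = χ' g) → χ' = χ := by
  classical
  by_cases hinvθ : ∀ g : G, ∀ n : N, θ ⟨g * n * g⁻¹, hN.conj_mem n n.2 g⟩ = θ n
  · obtain ⟨χ, ⟨hχ, hχN, hχfix⟩, huniq⟩ := sig_inv N hidx k hk hinv θ hθ hinvθ hθfix
    refine ⟨χ, hχ, ?_, hχfix, fun _ => hχN, huniq⟩
    have : (fun n : N => χ n) = θ := funext hχN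
    rw [this, classInner_irr_self hθ]; exact one_ne_zero
  · let T : Subgroup G :=
      { carrier := {g | ∀ n : N, θ ⟨g * n * g⁻¹, hN.conj_mem n n.2 g⟩ = θ n}
        one_mem' := fun n => congrArg θ (Subtype.ext (by simp))
        mul_mem' := by
          intro a b ha hb n
          have h1 := ha ⟨b * n * b⁻¹, hN.conj_mem n n.2 b⟩
          exact (congrArg θ (Subtype.ext (by simp [mul_assoc]))).trans (h1.trans (hb n))
        inv_mem' := by
          intro a ha n
          have h1 := ha ⟨a⁻¹ * n * a⁻¹⁻¹, hN.conj_mem n n.2 a⁻¹⟩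
          exact h1.symm.trans (congrArg θ (Subtype.ext (by simp [mul_assoc]))) }
    have hT : ∀ g : G, g ∈ T ↔
        ∀ n : N, θ ⟨g * n * g⁻¹, hN.conj_mem (n : G) n.2 g⟩ = θ n := fun g => Iff.rfl
    have hNT : N ≤ T := by
      intro g hg n
      have h1 := isClassFunction_of_irr hθ n ⟨g, hg⟩
      rw [← h1]; congr 1
    haveI : Fintype T := Fintype.ofFinite T
    haveI : Fintype (N.subgroupOf T) := Fintype.ofFinite _
    let e : N.subgroupOf T →* N := (Subgroup.subgroupOfEquivOfLe hNT).toMonoidHom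
    have hesurj : Function.Surjective e := (Subgroup.subgroupOfEquivOfLe hNT).surjective
    have hθ' : Cfsg.IsIrrCharacter (N.subgroupOf T) (θ ∘ e) :=
      isIrrCharacter_comp_surj e hesurj hθ
    have hθ'inv : ∀ (g : T) (x : N.subgroupOf T),
        (θ ∘ e) ⟨g * x * g⁻¹,
          (inferInstance : (N.subgroupOf T).Normal).conj_mem (x : T) x.2 g⟩ = (θ ∘ e) x := by
      intro g x
      show θ (e ⟨g * x * g⁻¹, _⟩) = θ (e x)
      rw [← g.2 (e x)]
      congr 1
    have hoddT : Odd (N.subgroupOf T).index := by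
      have h1 := Subgroup.relIndex_mul_index hNT
      exact Odd.of_dvd_nat hidx ⟨T.index, h1.symm⟩
    have hkT : k.Coprime (Nat.card T) :=
      Nat.Coprime.coprime_dvd_right (Subgroup.card_subgroup_dvd_card T) hk
    have hkN : k.Coprime (Nat.card N) :=
      Nat.Coprime.coprime_dvd_right (Subgroup.card_subgroup_dvd_card N) hk
    have hθ'fix : ∀ x : N.subgroupOf T, (θ ∘ e) (x ^ k) = (θ ∘ e) x := by
      intro x
      show θ (e (x ^ k)) = θ (e x)
      rw [map_pow]; exact hθfix _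
    obtain ⟨ψ, ⟨hψ, hψN, hψfix⟩, hψuniq⟩ := sig_inv (N.subgroupOf T) hoddT k hkT
      (invOdd_subgroup hinv T) (θ ∘ e) hθ' hθ'inv hθ'fix
    have hψres : (fun n : N => ψ ⟨n, hNT n.2⟩) = θ := by
      funext n
      have h2 := hψN ⟨⟨n, hNT n.2⟩, Subgroup.mem_subgroupOf.2 n.2⟩
      have h3 : ψ ⟨n, hNT n.2⟩ =
          θ (e ⟨⟨n, hNT n.2⟩, Subgroup.mem_subgroupOf.2 n.2⟩) := h2
      show ψ ⟨n, hNT n.2⟩ = θ n
      rw [h3]
      congr 1
    have hψθ : Cfsg.classInner (fun n : N => ψ ⟨n, hNT n.2⟩) θ ≠ 0 := by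
      rw [hψres, classInner_irr_self hθ]; exact one_ne_zero
    obtain ⟨hχirr, -⟩ := clifford_corr_inj N T θ hθ hT hNT ψ ψ hψ hψ hψθ hψθ
    have hχcl := isClassFunction_of_irr hχirr
    have hχψ : Cfsg.classInner (fun t : T => Cfsg.indFun T ψ t) ψ ≠ 0 := by
      have h1 := frobenius_reciprocity T ψ (Cfsg.indFun T ψ) hχcl
      rw [classInner_irr_self hχirr] at h1
      rw [← classInner_conj_symm, ← h1]; simp
    obtain ⟨-, hcore2⟩ :=
      clifford_corr_core N T θ hθ hT hNT ψ hψ hψθ (Cfsg.indFun T ψ) hχirr hχψ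
    have hχfix : ∀ g, Cfsg.indFun T ψ (g ^ k) = Cfsg.indFun T ψ g := by
      intro g
      rw [indFun_pow T ψ k hk g]
      have : (fun t : T => ψ (t ^ k)) = ψ := funext hψfix
      rw [this]
    refine ⟨Cfsg.indFun T ψ, hχirr, ?_, hχfix, fun h => absurd h hinvθ, ?_⟩
    · rw [← hcore2]; exact hψθ
    · intro χ' hχ' hover hfix'
      haveI : Fintype (Cfsg.IrrCharacter T) := Fintype.ofFinite _
      obtain ⟨m, ff, hm, hff, hsum⟩ := restrict_inner_expansion N T hNT χ'
        (isCharacter_of_isIrrCharacter hχ') θ (isCharacter_of_isIrrCharacter hθ)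
      obtain ⟨φ, hmφ, hffφ⟩ : ∃ φ : Cfsg.IrrCharacter T, m φ ≠ 0 ∧ ff φ ≠ 0 := by
        by_contra hcon
        push_neg at hcon
        apply hover
        rw [hsum]
        have h0 : (∑ φ, m φ * ff φ : ℕ) = 0 := by
          apply Finset.sum_eq_zero
          intro φ _
          by_cases h0 : m φ = 0
          · rw [h0, zero_mul]
          · rw [hcon φ h0, mul_zero]
        rw [h0]; simp
      have hχ'φ : Cfsg.classInner (fun t : T => χ' t) (φ : T → ℂ) ≠ 0 := by
        rw [hm φ]; exact_mod_cast hmφ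
      have hφθ : Cfsg.classInner (fun n : N => (φ : T → ℂ) ⟨n, hNT n.2⟩) θ ≠ 0 := by
        rw [hff φ]; exact_mod_cast hffφ
      obtain ⟨hind, -⟩ := clifford_corr_core N T θ hθ hT hNT φ φ.2 hφθ χ' hχ' hχ'φ
      have hφσ : Cfsg.IsIrrCharacter T (fun t => (φ : T → ℂ) (t ^ k)) :=
        isIrr_pow_coprime φ.2 k hkT
      have hφσθ : Cfsg.classInner
          (fun n : N => (fun t : T => (φ : T → ℂ) (t ^ k)) ⟨n, hNT n.2⟩) θ ≠ 0 := by
        have h1 := classInner_pow (fun n' : N => (φ : T → ℂ) ⟨n', hNT n'.2⟩) θ k hkN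
        have h2 : (fun n : N => θ (n ^ k)) = θ := funext hθfix
        rw [h2] at h1
        have h3 : (fun n : N => (fun t : T => (φ : T → ℂ) (t ^ k)) ⟨n, hNT n.2⟩) =
            fun h : N => (fun n' : N => (φ : T → ℂ) ⟨n', hNT n'.2⟩) (h ^ k) := by
          funext n; rfl
        rw [h3, h1]; exact hφθ
      have hindσ : Cfsg.indFun T (fun t => (φ : T → ℂ) (t ^ k)) =
          Cfsg.indFun T (φ : T → ℂ) := by
        funext g
        rw [← indFun_pow T (φ : T → ℂ) k hk g, hind, hfix' g]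
      obtain ⟨-, hinj⟩ := clifford_corr_inj N T θ hθ hT hNT
        (fun t => (φ : T → ℂ) (t ^ k)) (φ : T → ℂ) hφσ φ.2 hφσθ hφθ
      have hφfix : (fun t => (φ : T → ℂ) (t ^ k)) = (φ : T → ℂ) := hinj hindσ
      have hφover' : Cfsg.classInner (fun x : N.subgroupOf T => (φ : T → ℂ) x) (θ ∘ e) ≠ 0 := by
        have h1 := classInner_subgroupOf N T hNT (fun n : N => (φ : T → ℂ) ⟨n, hNT n.2⟩) θ
        rw [← h1] at hφθ
        exact hφθ
      have hφψ : (φ : T → ℂ) = ψ :=
        hψuniq (φ : T → ℂ) φ.2 hφover' (fun t => congrFun hφfix t)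
      rw [← hind, hφψ]

end Cfsg.Agent.Lib.Helper7
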