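import Mathlib

set_option autoImplicit false

namespace Cfsg.Agent.Lib.Helper7

/-- In a finite nilpotent group every subgroup is subnormal. -/
theorem isSubnormal_of_isNilpotent {X : Type*} [Group X] [Finite X] [Group.IsNilpotent X]
    (B : Subgroup X) : B.IsSubnormal := by
  have key : ∀ n : ℕ, ∀ B : Subgroup X, Nat.card X - Nat.card B = n → B.IsSubnormal := by
    intro n
    induction n using Nat.strong_induction_on with
    | _ n ih =>
      intro B hB
      by_cases hBtop : B = ⊤
      · rw [hBtop]; exact Subgroup.IsSubnormal.top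
      · have hlt : B < Subgroup.normalizer (B : Set X) :=
          Group.normalizerCondition_of_isNilpotent B (lt_top_iff_ne_top.mpr hBtop)
        have hcard : Nat.card B < Nat.card (Subgroup.normalizer (B : Set X)) := by
          by_contra hle
          push Not at hle
          exact hlt.ne (Subgroup.eq_of_le_of_card_ge hlt.le hle)
        have hle : Nat.card (Subgroup.normalizer (B : Set X)) ≤ Nat.card X := Subgroup.card_le_card_group _
        have h1 := ih (Nat.card X - Nat.card (Subgroup.normalizer (B : Set X))) (by omega) _ rfl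
        exact Subgroup.IsSubnormal.step B _ Subgroup.le_normalizer h1 Subgroup.normal_in_normalizer
  exact key _ B rfl

/-- A cyclic subgroup `⟨a⟩` is subnormal (indeed normal) in any subgroup centralizing `a`. -/
theorem isSubnormal_zpowers_subgroupOf_of_le_centralizer {G : Type*} [Group G] (a : G) (L : Subgroup G)
    (hL : L ≤ Subgroup.centralizer ({a} : Set G)) :
    ((Subgroup.zpowers a).subgroupOf L).IsSubnormal := by
  apply Subgroup.Normal.isSubnormal
  refine ⟨fun n hn ℓ => ?_⟩
  rw [Subgroup.mem_subgroupOf] at hn ⊢
  obtain ⟨k, hk⟩ := Subgroup.mem_zpowers_iff.mp hn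
  have h4 := Subgroup.mem_centralizer_singleton_iff.mp (hL ℓ.2)
  have h5 : Commute (ℓ : G) a := h4
  have h6 : (ℓ : G) * (n : G) = (n : G) * (ℓ : G) := by
    rw [← hk]
    exact h5.zpow_right k
  have h7 : ((ℓ * n * ℓ⁻¹ : L) : G) = (n : G) := by
    push_cast
    rw [h6]; group
  rw [h7]
  exact hn

end Cfsg.Agent.Lib.Helper7
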